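import Mathlib

/-! 3-minimal alternating groups: 3-cycles, tools. -/

set_option autoImplicit false

namespace Cfsg.Agent.H21.Alt3

open Equiv MulAction
open scoped Pointwise

variable {n : ℕ}

/-- the 3-cycle `x → y → z → x` -/
def c3 (x y z : Fin n) : Perm (Fin n) := swap x y * swap y z

theorem c3_1 {x y z : Fin n} (hxy : x ≠ y) (hxz : x ≠ z) : c3 x y z x = y := by
  rw [c3, Perm.mul_apply, swap_apply_of_ne_of_ne hxy hxz, swap_apply_left]

theorem c3_2 {x y z : Fin n} (hxz : x ≠ z) (hyz : y ≠ z) : c3 x y z y = z := by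
  rw [c3, Perm.mul_apply, swap_apply_left, swap_apply_of_ne_of_ne hxz.symm hyz.symm]

theorem c3_3 {x y z : Fin n} : c3 x y z z = x := by
  rw [c3, Perm.mul_apply, swap_apply_right, swap_apply_right]

theorem c3_4 {x y z w : Fin n} (h1 : w ≠ x) (h2 : w ≠ y) (h3 : w ≠ z) : c3 x y z w = w := by
  rw [c3, Perm.mul_apply, swap_apply_of_ne_of_ne h2 h3, swap_apply_of_ne_of_ne h1 h2]

theorem c3_conj (g : Perm (Fin n)) (x y z : Fin n) : g * c3 x y z * g⁻¹ = c3 (g x) (g y) (g z) := by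
  rw [c3, c3, swap_apply_apply, swap_apply_apply]; group

theorem c3_three {x y z : Fin n} (hxy : x ≠ y) (hxz : x ≠ z) (hyz : y ≠ z) : (c3 x y z).IsThreeCycle := by
  rw [c3, swap_comm x y]
  exact Perm.isThreeCycle_swap_mul_swap_same hxy.symm hyz hxz

theorem c3_alt {x y z : Fin n} (hxy : x ≠ y) (hxz : x ≠ z) (hyz : y ≠ z) : c3 x y z ∈ alternatingGroup (Fin n) :=
  (c3_three hxy hxz hyz).mem_alternatingGroup

theorem c3_inv {x y z : Fin n} (hxy : x ≠ y) (hxz : x ≠ z) (hyz : y ≠ z) : (c3 z y x)⁻¹ = c3 x y z := by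
  rw [inv_eq_iff_mul_eq_one]
  ext w
  rw [Perm.mul_apply, Perm.one_apply]
  by_cases e1 : w = x
  · rw [e1, c3_1 hxy hxz, c3_2 hxz.symm hxy.symm]
  by_cases e2 : w = y
  · rw [e2, c3_2 hxz hyz, c3_1 hyz.symm hxz.symm]
  by_cases e3 : w = z
  · rw [e3, c3_3, c3_3]
  rw [c3_4 e1 e2 e3, c3_4 e3 e2 e1]

theorem c3_rot {x y z : Fin n} (hxy : x ≠ y) (hxz : x ≠ z) (hyz : y ≠ z) : c3 y z x = c3 x y z := by
  ext w
  by_cases e1 : w = x
  · rw [e1, c3_1 hxy hxz, c3_3]
  by_cases e2 : w = y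
  · rw [e2, c3_2 hxz hyz, c3_1 hyz hxy.symm]
  by_cases e3 : w = z
  · rw [e3, c3_3, c3_2 hxy.symm hxz.symm]
  rw [c3_4 e1 e2 e3, c3_4 e2 e3 e1]

theorem alt_le_of_c3 {M : Subgroup (Perm (Fin n))} (h : ∀ x y z : Fin n, x ≠ y → x ≠ z → y ≠ z → c3 x y z ∈ M) :
    alternatingGroup (Fin n) ≤ M := by
  rw [← Perm.closure_three_cycles_eq_alternating, Subgroup.closure_le]
  intro σ hσ
  have hσ' : σ.IsThreeCycle := hσ
  have hne : σ.support.Nonempty := by
    rw [← Finset.card_pos, hσ'.card_support]; norm_num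
  obtain ⟨a, ha⟩ := hne
  have h1 := hσ'.eq_swap_mul_swap_iff_mem_support.2 ha
  have h2 : a ≠ σ a := (Perm.mem_support.1 ha).symm
  have h3 : σ a ≠ σ (σ a) := fun e => h2 (σ.injective e)
  have h4 : a ≠ σ (σ a) := by
    intro e
    have h5 : (σ ^ 2) a = a := by rw [pow_two, Perm.mul_apply]; exact e.symm
    have h6 : orderOf σ = 3 := hσ'.orderOf
    have h7 : (σ ^ 3) a = a := by rw [← h6, pow_orderOf_eq_one]; rfl
    have h8 : (σ ^ 3) a = σ a := by rw [pow_succ', Perm.mul_apply, h5]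
    exact h2 (h7.symm.trans h8)
  have h5 := h a (σ a) (σ (σ a)) h2 h4 h3
  rw [c3, ← h1] at h5
  exact h5

theorem exists_ne (s : Finset (Fin n)) (hs : s.card < n) : ∃ x, x ∉ s := by
  obtain ⟨x, -, hx⟩ := Finset.exists_mem_notMem_of_card_lt_card (s := s) (t := Finset.univ) (by
    rw [Finset.card_univ, Fintype.card_fin]; exact hs)
  exact ⟨x, hx⟩

/-- the setting -/
structure Set3 (T M : Subgroup (Perm (Fin n))) : Prop where
  hM : ¬ alternatingGroup (Fin n) ≤ M
  hU : ∀ K : Subgroup (Perm (Fin n)), T ≤ K → ¬ alternatingGroup (Fin n) ≤ K → ∀ g ∈ K, g ∈ alternatingGroup (Fin n) → g ∈ M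

/-- colour class stabilizer -/
def colS (f : Fin n → Fin 3) (k : Fin 3) : Subgroup (Perm (Fin n)) where
  carrier := {g | ∀ x, f (g x) = k ↔ f x = k}
  one_mem' := fun x => Iff.rfl
  mul_mem' := by
    intro u v hu hv x
    rw [Perm.mul_apply, hu, hv]
  inv_mem' := by
    intro u hu x
    rw [← hu, show u (u⁻¹ x) = x from u.apply_symm_apply x]

theorem three_sets (h5 : 5 ≤ n) {T M : Subgroup (Perm (Fin n))} (h : Set3 T M) (f : Fin n → Fin 3)
    (hf : Function.Surjective f) (hT : ∀ t ∈ T, ∀ x, f (t x) = f x) : False := by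
  classical
  have hTK : ∀ k, T ≤ colS f k := by
    intro k t ht x
    rw [hT t ht]
  have hK : ∀ k, ¬ alternatingGroup (Fin n) ≤ colS f k := by
    intro k hle
    obtain ⟨x, hx⟩ := hf k
    obtain ⟨j, hj⟩ : ∃ j : Fin 3, j ≠ k := by
      exact (by decide : ∀ k : Fin 3, ∃ j, j ≠ k) k
    obtain ⟨y, hy⟩ := hf j
    have hxy : x ≠ y := by rintro rfl; exact hj (hy.symm.trans hx)
    obtain ⟨z, hz⟩ := exists_ne ({x, y} : Finset (Fin n)) (lt_of_le_of_lt Finset.card_le_two (by omega))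
    simp only [Finset.mem_insert, Finset.mem_singleton, not_or] at hz
    have h1 := hle (c3_alt hxy (Ne.symm hz.1) (Ne.symm hz.2))
    have h2 := (h1 x).2 hx
    rw [c3_1 hxy (Ne.symm hz.1), hy] at h2
    exact hj h2
  have hin : ∀ k x y z, x ≠ y → x ≠ z → y ≠ z → f x ≠ k → f y ≠ k → f z ≠ k → c3 x y z ∈ M := by
    intro k x y z hxy hxz hyz h1 h2 h3
    refine h.hU (colS f k) (hTK k) (hK k) _ ?_ (c3_alt hxy hxz hyz)
    intro w
    by_cases e1 : w = x
    · rw [e1, c3_1 hxy hxz]; exact iff_of_false h2 h1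
    by_cases e2 : w = y
    · rw [e2, c3_2 hxz hyz]; exact iff_of_false h3 h2
    by_cases e3 : w = z
    · rw [e3, c3_3]; exact iff_of_false h1 h3
    rw [c3_4 e1 e2 e3]
  -- main step
  have step : ∀ x y z w, x ≠ y → x ≠ z → y ≠ z → w ≠ x → w ≠ y → w ≠ z → f x ≠ f y → f x ≠ f z → f y ≠ f z → f w = f x → c3 x y z ∈ M := by
    intro x y z w hxy hxz hyz hwx hwy hwz fxy fxz fyz fwx
    have m1 : c3 x y w ∈ M := hin (f z) x y w hxy hwx.symm hwy.symm fxz fyz (fwx ▸ fxz)
    have m2 : c3 x w z ∈ M := hin (f y) x w z hwx.symm hxz hwz fxy (fwx ▸ fxy) (Ne.symm fyz)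
    set c := c3 x w z with hc
    have m3 : c * c * c3 x y w * (c * c)⁻¹ ∈ M := mul_mem (mul_mem (mul_mem m2 m2) m1) (inv_mem (mul_mem m2 m2))
    rw [c3_conj, Perm.mul_apply, Perm.mul_apply, Perm.mul_apply, hc, c3_1 hwx.symm hxz, c3_2 hxz hwz, c3_3,
      c3_4 hxy.symm hwy.symm hyz, c3_4 hxy.symm hwy.symm hyz] at m3
    rw [← c3_inv hxy hxz hyz]
    exact inv_mem m3
  apply h.hM
  apply alt_le_of_c3
  intro x y z hxy hxz hyz
  by_cases hk : ∃ k, f x ≠ k ∧ f y ≠ k ∧ f z ≠ k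
  · obtain ⟨k, h1, h2, h3⟩ := hk
    exact hin k x y z hxy hxz hyz h1 h2 h3
  · have key : ∀ a b c : Fin 3, (¬ ∃ k, a ≠ k ∧ b ≠ k ∧ c ≠ k) → a ≠ b ∧ a ≠ c ∧ b ≠ c ∧ ∀ d, d = a ∨ d = b ∨ d = c := by decide
    obtain ⟨fxy, fxz, fyz, hall⟩ := key _ _ _ hk
    obtain ⟨w, hw⟩ := exists_ne ({x, y, z} : Finset (Fin n)) (lt_of_le_of_lt Finset.card_le_three (by omega))
    simp only [Finset.mem_insert, Finset.mem_singleton, not_or] at hw
    rcases hall (f w) with e | e | e
    · exact step x y z w hxy hxz hyz hw.1 hw.2.1 hw.2.2 fxy fxz fyz e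
    · rw [← c3_rot hxy hxz hyz]
      exact step y z x w hyz hxy.symm hxz.symm hw.2.1 hw.2.2 hw.1 fyz (Ne.symm fxy) (Ne.symm fxz) e
    · rw [← c3_rot hxy hxz hyz, ← c3_rot hyz hxy.symm hxz.symm]
      exact step z x y w hxz.symm hyz.symm hxy hw.2.2 hw.1 hw.2.1 (Ne.symm fxz) (Ne.symm fyz) fxy e

/-- a fixed-point-free element of order three commuting with a 3-group -/
theorem exists_fpf (m : ℕ) (hn : n = 3 * m) (T : Subgroup (Perm (Fin n))) (hT : IsPGroup 3 T) :
    ∃ z : Perm (Fin n), (∀ x, z x ≠ x) ∧ (∀ x, z (z (z x)) = x) ∧ ∀ t ∈ T, t * z = z * t := by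
  classical
  haveI : Fact (Nat.Prime 3) := ⟨Nat.prime_three⟩
  let ct : Multiset ℕ := Multiset.replicate m 3
  let X := {σ : Perm (Fin n) // σ.cycleType = ct}
  letI : MulAction T X :=
    { smul := fun t σ => ⟨(t : Perm (Fin n)) * σ.1 * (t : Perm (Fin n))⁻¹, by rw [Perm.cycleType_conj]; exact σ.2⟩
      one_smul := fun σ => Subtype.ext (by show (1 : Perm (Fin n)) * σ.1 * (1 : Perm (Fin n))⁻¹ = σ.1; group)
      mul_smul := fun s t σ => Subtype.ext (by
        show (s * t : Perm (Fin n)) * σ.1 * (s * t : Perm (Fin n))⁻¹ = s * (t * σ.1 * (t : Perm (Fin n))⁻¹) * (s : Perm (Fin n))⁻¹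
        group) }
  have hcard : ¬ 3 ∣ Nat.card X := by
    have h1 := Perm.card_of_cycleType_mul_eq (α := Fin n) ct
    have hsum : ct.sum = 3 * m := by simp [ct, mul_comm]
    have hprod : ct.prod = 3 ^ m := by simp [ct]
    have h2 : ct.sum ≤ Fintype.card (Fin n) ∧ ∀ a ∈ ct, 2 ≤ a := by
      rw [hsum, Fintype.card_fin, hn]
      refine ⟨le_rfl, fun a ha => ?_⟩
      rw [Multiset.eq_of_mem_replicate ha]; norm_num
    rw [if_pos h2, hsum, hprod, Fintype.card_fin, hn, Nat.sub_self, Nat.factorial_zero, one_mul] at h1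
    have h3 : (∏ k ∈ ct.toFinset, (ct.count k).factorial) = m.factorial := by
      rcases Nat.eq_zero_or_pos m with rfl | hm
      · simp [ct]
      · have : ct.toFinset = {3} := by
          ext a
          simp only [ct, Multiset.mem_toFinset, Finset.mem_singleton]
          constructor
          · intro ha; exact Multiset.eq_of_mem_replicate ha
          · rintro rfl; exact Multiset.mem_replicate.2 ⟨hm.ne', rfl⟩
        rw [this, Finset.prod_singleton]
        simp [ct, Multiset.count_replicate_self]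
    rw [h3] at h1
    have hX : Nat.card X = ({g | g.cycleType = ct} : Finset (Perm (Fin n))).card := by
      rw [Nat.card_eq_fintype_card, Fintype.card_subtype]
    subst hn
    rw [← hX] at h1
    intro hdvd
    have h4 : 3 ^ (m + 1) * m.factorial ∣ (3 * m).factorial := by
      rw [← h1]
      obtain ⟨c, hc⟩ := hdvd
      rw [hc]
      exact ⟨c, by ring⟩
    have h5 := padicValNat_factorial_mul (p := 3) m
    have h6 : padicValNat 3 (3 ^ (m + 1) * m.factorial) ≤ padicValNat 3 (3 * m).factorial := by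
      rw [← Nat.factorization_def _ Nat.prime_three, ← Nat.factorization_def _ Nat.prime_three]
      exact (Nat.factorization_le_iff_dvd (by positivity) (Nat.factorial_ne_zero _)).2 h4 3
    rw [padicValNat.mul (by positivity) (Nat.factorial_ne_zero _), padicValNat.prime_pow, h5] at h6
    omega
  obtain ⟨σ, hσ⟩ := hT.nonempty_fixed_point_of_prime_not_dvd_card X hcard
  refine ⟨σ.1, ?_, ?_, ?_⟩
  · intro x hx
    have h1 : σ.1.support.card = n := by
      rw [← Perm.sum_cycleType, σ.2]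
      simp [ct, mul_comm, hn]
    have h2 : σ.1.support = Finset.univ := by
      apply Finset.eq_univ_of_card
      rw [h1, Fintype.card_fin]
    have h3 : x ∈ σ.1.support := by rw [h2]; exact Finset.mem_univ x
    exact (Perm.mem_support.1 h3) hx
  · have h1 : σ.1 ^ 3 = 1 := by
      rw [← orderOf_dvd_iff_pow_eq_one, ← Perm.lcm_cycleType, σ.2]
      apply Multiset.lcm_dvd.2
      intro a ha
      rw [Multiset.eq_of_mem_replicate ha]
    intro x
    have h2 : (σ.1 ^ 3) x = x := by rw [h1]; rfl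
    rw [pow_succ, pow_two] at h2
    exact h2
  · intro t ht
    have h1 := congrArg Subtype.val (hσ ⟨t, ht⟩)
    have h2 : t * σ.1 * t⁻¹ = σ.1 := h1
    exact mul_inv_eq_iff_eq_mul.1 h2

end Cfsg.Agent.H21.Alt3
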