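import Cfsg.Agent.H21.Alt3a

/-! 3-minimal alternating groups: the partition stabilizer. -/

set_option autoImplicit false

namespace Cfsg.Agent.H21.Alt3

open Equiv MulAction
open scoped Pointwise

variable {n : ℕ}

/-- stabilizer of a relation -/
def pres (r : Fin n → Fin n → Prop) : Subgroup (Perm (Fin n)) where
  carrier := {g | ∀ x y, r (g x) (g y) ↔ r x y}
  one_mem' := fun x y => Iff.rfl
  mul_mem' := by
    intro u v hu hv x y
    rw [Perm.mul_apply, Perm.mul_apply, hu, hv]
  inv_mem' := by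
    intro u hu x y
    rw [← hu, show u (u⁻¹ x) = x from u.apply_symm_apply x, show u (u⁻¹ y) = y from u.apply_symm_apply y]

theorem mem_pres_of_rel {r : Fin n → Fin n → Prop} (hr : Equivalence r) {g : Perm (Fin n)} (h : ∀ w, r w (g w)) : g ∈ pres r := by
  intro x y
  exact ⟨fun h1 => hr.trans (h x) (hr.trans h1 (hr.symm (h y))), fun h1 => hr.trans (hr.symm (h x)) (hr.trans h1 (h y))⟩

theorem not_alt_le_pres (h4 : 4 ≤ n) {r : Fin n → Fin n → Prop} {p q t : Fin n} (hpq : p ≠ q) (hpt : p ≠ t) (h1 : r p q) (h2 : ¬ r p t) :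
    ¬ alternatingGroup (Fin n) ≤ pres r := by
  classical
  intro hle
  have hqt : q ≠ t := by rintro rfl; exact h2 h1
  obtain ⟨u, hu⟩ := exists_ne ({p, q, t} : Finset (Fin n)) (lt_of_le_of_lt Finset.card_le_three (by omega))
  simp only [Finset.mem_insert, Finset.mem_singleton, not_or] at hu
  have h3 := hle (c3_alt hqt (Ne.symm hu.2.1) (Ne.symm hu.2.2))
  have h4 := (h3 p q).2 h1
  rw [c3_1 hqt (Ne.symm hu.2.1), c3_4 hpq hpt (Ne.symm hu.1)] at h4
  exact h2 h4

/-- the orbit relation of an element of order three -/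
def rz (z : Perm (Fin n)) (x y : Fin n) : Prop := y = x ∨ y = z x ∨ y = z (z x)

section

variable {z : Perm (Fin n)} (hz : ∀ x, z x ≠ x) (hz3 : ∀ x, z (z (z x)) = x)

include hz3 in
theorem rz_eq : Equivalence (rz z) where
  refl x := Or.inl rfl
  symm := by
    rintro x y (rfl | rfl | rfl)
    · exact Or.inl rfl
    · exact Or.inr (Or.inr (hz3 x).symm)
    · exact Or.inr (Or.inl (hz3 x).symm)
  trans := by
    rintro x y w (rfl | rfl | rfl) (rfl | rfl | rfl)
    · exact Or.inl rfl
    · exact Or.inr (Or.inl rfl)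
    · exact Or.inr (Or.inr rfl)
    · exact Or.inr (Or.inl rfl)
    · exact Or.inr (Or.inr rfl)
    · exact Or.inl (hz3 x)
    · exact Or.inr (Or.inr rfl)
    · exact Or.inl (hz3 x)
    · right; left; rw [hz3]

theorem rz_1 (x : Fin n) : rz z x (z x) := Or.inr (Or.inl rfl)
theorem rz_2 (x : Fin n) : rz z x (z (z x)) := Or.inr (Or.inr rfl)

include hz hz3

omit hz3 in
theorem ne1 (x : Fin n) : x ≠ z x := (hz x).symm
theorem ne2 (x : Fin n) : x ≠ z (z x) := by
  intro e
  have h1 := hz3 x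
  rw [← e] at h1
  exact hz x h1
omit hz3 in
theorem ne3 (x : Fin n) : z x ≠ z (z x) := (hz (z x)).symm

theorem mem_of_comm {g : Perm (Fin n)} (h : ∀ w, g (z w) = z (g w)) : g ∈ pres (rz z) := by
  have h1 : ∀ w, g w = g w := fun _ => rfl
  intro x y
  constructor
  · rintro (e | e | e)
    · exact Or.inl (g.injective e)
    · exact Or.inr (Or.inl (g.injective (by rw [e, h])))
    · exact Or.inr (Or.inr (g.injective (by rw [e, h, h])))
  · rintro (rfl | rfl | rfl)
    · exact Or.inl rfl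
    · exact Or.inr (Or.inl (h x))
    · exact Or.inr (Or.inr (by rw [h, h]))

theorem c3a_mem (x : Fin n) : c3 x (z x) (z (z x)) ∈ pres (rz z) := by
  apply mem_pres_of_rel (rz_eq hz3)
  intro w
  by_cases e1 : w = x
  · rw [e1, c3_1 (ne1 hz x) (ne2 hz hz3 x)]; exact rz_1 x
  by_cases e2 : w = z x
  · rw [e2, c3_2 (ne2 hz hz3 x) (ne3 hz x)]; exact rz_1 _
  by_cases e3 : w = z (z x)
  · rw [e3, c3_3]; exact (rz_eq hz3).symm (rz_2 x)
  rw [c3_4 e1 e2 e3]; exact (rz_eq hz3).refl w

theorem rot {x y : Fin n} (hxy : rz z x y) (hne : x ≠ y) : ∃ g ∈ pres (rz z), g ∈ alternatingGroup (Fin n) ∧ g x = y ∧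
    (∀ p, ¬ rz z x p → g p = p) ∧ g (g x) ≠ x ∧ g (g x) ≠ y ∧ rz z x (g (g x)) := by
  have a1 := ne1 hz x
  have a2 := ne2 hz hz3 x
  have a3 := ne3 hz x
  rcases hxy with rfl | rfl | rfl
  · exact absurd rfl hne
  · refine ⟨c3 x (z x) (z (z x)), c3a_mem hz hz3 x, c3_alt a1 a2 a3, c3_1 a1 a2, ?_, ?_⟩
    · intro p hp
      exact c3_4 (fun e => hp (Or.inl e)) (fun e => hp (Or.inr (Or.inl e))) (fun e => hp (Or.inr (Or.inr e)))
    · rw [c3_1 a1 a2, c3_2 a2 a3]
      exact ⟨a2.symm, a3.symm, rz_2 x⟩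
  · have hinv : c3 x (z (z x)) (z x) = (c3 x (z x) (z (z x)))⁻¹ := by
      rw [← c3_rot (x := x) (y := z (z x)) (z := z x) a2 a1 a3.symm, c3_inv a3.symm a2.symm a1.symm]
    refine ⟨c3 x (z (z x)) (z x), ?_, c3_alt a2 a1 a3.symm, c3_1 a2 a1, ?_, ?_⟩
    · rw [hinv]; exact inv_mem (c3a_mem hz hz3 x)
    · intro p hp
      exact c3_4 (fun e => hp (Or.inl e)) (fun e => hp (Or.inr (Or.inr e))) (fun e => hp (Or.inr (Or.inl e)))
    · rw [c3_1 a2 a1, c3_2 a1 a3.symm]
      exact ⟨a1.symm, a3, rz_1 x⟩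

theorem swapcls {x y : Fin n} (hxy : ¬ rz z x y) : ∃ g ∈ pres (rz z), g ∈ alternatingGroup (Fin n) ∧ g x = y ∧
    (∀ p, ¬ rz z x p → ¬ rz z y p → g p = p) := by
  have heq := rz_eq hz3
  have a1 := ne1 hz x
  have a2 := ne2 hz hz3 x
  have a3 := ne3 hz x
  have b1 := ne1 hz y
  have b2 := ne2 hz hz3 y
  have b3 := ne3 hz y
  have hne : ∀ u v, rz z x u → rz z y v → u ≠ v := by
    rintro u v hu hv rfl
    exact hxy (heq.trans hu (heq.symm hv))
  have d00 := hne x y (heq.refl x) (heq.refl y)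
  have d01 := hne x (z y) (heq.refl x) (rz_1 y)
  have d02 := hne x (z (z y)) (heq.refl x) (rz_2 y)
  have d10 := hne (z x) y (rz_1 x) (heq.refl y)
  have d11 := hne (z x) (z y) (rz_1 x) (rz_1 y)
  have d12 := hne (z x) (z (z y)) (rz_1 x) (rz_2 y)
  have d20 := hne (z (z x)) y (rz_2 x) (heq.refl y)
  have d21 := hne (z (z x)) (z y) (rz_2 x) (rz_1 y)
  have d22 := hne (z (z x)) (z (z y)) (rz_2 x) (rz_2 y)
  set σ : Perm (Fin n) := swap x y * swap (z x) (z y) * swap (z (z x)) (z (z y)) with hσ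
  have s0 : σ x = y := by
    rw [hσ, Perm.mul_apply, Perm.mul_apply, swap_apply_of_ne_of_ne a2 d02, swap_apply_of_ne_of_ne a1 d01, swap_apply_left]
  have s1 : σ (z x) = z y := by
    rw [hσ, Perm.mul_apply, Perm.mul_apply, swap_apply_of_ne_of_ne a3 d12, swap_apply_left,
      swap_apply_of_ne_of_ne d01.symm b1.symm]
  have s2 : σ (z (z x)) = z (z y) := by
    rw [hσ, Perm.mul_apply, Perm.mul_apply, swap_apply_left, swap_apply_of_ne_of_ne d12.symm b3.symm,
      swap_apply_of_ne_of_ne d02.symm b2.symm]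
  have t0 : σ y = x := by
    rw [hσ, Perm.mul_apply, Perm.mul_apply, swap_apply_of_ne_of_ne d20.symm b2, swap_apply_of_ne_of_ne d10.symm b1, swap_apply_right]
  have t1 : σ (z y) = z x := by
    rw [hσ, Perm.mul_apply, Perm.mul_apply, swap_apply_of_ne_of_ne d21.symm b3, swap_apply_right,
      swap_apply_of_ne_of_ne a1.symm d10]
  have t2 : σ (z (z y)) = z (z x) := by
    rw [hσ, Perm.mul_apply, Perm.mul_apply, swap_apply_right, swap_apply_of_ne_of_ne a3.symm d21,
      swap_apply_of_ne_of_ne a2.symm d20]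
  have s3 : ∀ p, ¬ rz z x p → ¬ rz z y p → σ p = p := by
    intro p h1 h2
    have e1 : p ≠ x := fun e => h1 (Or.inl e)
    have e2 : p ≠ z x := fun e => h1 (Or.inr (Or.inl e))
    have e3 : p ≠ z (z x) := fun e => h1 (Or.inr (Or.inr e))
    have f1 : p ≠ y := fun e => h2 (Or.inl e)
    have f2 : p ≠ z y := fun e => h2 (Or.inr (Or.inl e))
    have f3 : p ≠ z (z y) := fun e => h2 (Or.inr (Or.inr e))
    rw [hσ, Perm.mul_apply, Perm.mul_apply, swap_apply_of_ne_of_ne e3 f3, swap_apply_of_ne_of_ne e2 f2, swap_apply_of_ne_of_ne e1 f1]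
  have hσm : σ ∈ pres (rz z) := by
    apply mem_of_comm hz hz3
    intro w
    by_cases e1 : w = x
    · rw [e1, s1, s0]
    by_cases e2 : w = z x
    · rw [e2, s2, s1]
    by_cases e3 : w = z (z x)
    · rw [e3, hz3, s0, s2, hz3]
    by_cases f1 : w = y
    · rw [f1, t1, t0]
    by_cases f2 : w = z y
    · rw [f2, t2, t1]
    by_cases f3 : w = z (z y)
    · rw [f3, hz3, t0, t2, hz3]
    have h1 : ¬ rz z x w := by rintro (e | e | e) <;> contradiction
    have h2 : ¬ rz z y w := by rintro (e | e | e) <;> contradiction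
    rw [s3 w h1 h2, s3 (z w) (fun h => h1 (heq.trans h (heq.symm (rz_1 w)))) (fun h => h2 (heq.trans h (heq.symm (rz_1 w))))]
  set τ : Perm (Fin n) := swap (z y) (z (z y)) with hτ
  have hτm : τ ∈ pres (rz z) := by
    apply mem_pres_of_rel heq
    intro w
    by_cases e1 : w = z y
    · rw [e1, hτ, swap_apply_left]; exact rz_1 _
    by_cases e2 : w = z (z y)
    · rw [e2, hτ, swap_apply_right]; exact heq.symm (rz_1 _)
    rw [hτ, swap_apply_of_ne_of_ne e1 e2]; exact heq.refl w
  refine ⟨σ * τ, mul_mem hσm hτm, ?_, ?_, ?_⟩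
  · rw [Perm.mem_alternatingGroup, map_mul, hσ, hτ, map_mul, map_mul, Perm.sign_swap d00, Perm.sign_swap d11, Perm.sign_swap d22,
      Perm.sign_swap b3]
    rfl
  · rw [Perm.mul_apply, hτ, swap_apply_of_ne_of_ne d01 d02, s0]
  · intro p h1 h2
    rw [Perm.mul_apply, hτ, swap_apply_of_ne_of_ne (fun e => h2 (Or.inr (Or.inl e))) (fun e => h2 (Or.inr (Or.inr e))), s3 p h1 h2]

variable {M : Subgroup (Perm (Fin n))} (hK : ∀ g ∈ pres (rz z), g ∈ alternatingGroup (Fin n) → g ∈ M)

/-- a block -/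
def Blk (M : Subgroup (Perm (Fin n))) (B : Set (Fin n)) : Prop := ∀ g ∈ M, ∀ x ∈ B, g x ∈ B → ∀ y, g y ∈ B ↔ y ∈ B

include hK

theorem tr (x y : Fin n) : ∃ g ∈ M, g x = y := by
  by_cases hxy : rz z x y
  · by_cases e : x = y
    · exact ⟨1, one_mem _, e⟩
    · obtain ⟨g, hg, hg', h1, -⟩ := rot hz hz3 hxy e
      exact ⟨g, hK g hg hg', h1⟩
  · obtain ⟨g, hg, hg', h1, -⟩ := swapcls hz hz3 hxy
    exact ⟨g, hK g hg hg', h1⟩

theorem blk_eq {B : Set (Fin n)} (hB : Blk M B) {x : Fin n} (hx : x ∈ B) (hy : ∃ y ∈ B, y ≠ x) (hne : B ≠ Set.univ) :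
    ∀ w, w ∈ B ↔ rz z x w := by
  have heq := rz_eq hz3
  have hsub : ∀ w ∈ B, rz z x w := by
    by_contra hcon
    push Not at hcon
    obtain ⟨y, hy, hxy⟩ := hcon
    apply hne
    have h1 : ∀ w, ¬ rz z x w → w ∈ B := by
      intro w hw
      by_cases e : y = w
      · rw [← e]; exact hy
      by_cases hyw : rz z y w
      · obtain ⟨g, hg, hg', h1, h2, -⟩ := rot hz hz3 hyw e
        have h3 := h2 x (fun h => hxy (heq.symm h))
        have h4 := hB g (hK g hg hg') x hx (by rw [h3]; exact hx) y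
        rw [h1] at h4
        exact h4.2 hy
      · obtain ⟨g, hg, hg', h1, h2⟩ := swapcls hz hz3 hyw
        have h3 := h2 x (fun h => hxy (heq.symm h)) (fun h => hw (heq.symm h))
        have h4 := hB g (hK g hg hg') x hx (by rw [h3]; exact hx) y
        rw [h1] at h4
        exact h4.2 hy
    rw [Set.eq_univ_iff_forall]
    intro w
    by_cases hw : rz z x w
    · by_cases e : x = w
      · rw [← e]; exact hx
      obtain ⟨g, hg, hg', h2, h3, -⟩ := rot hz hz3 hw e
      have h4 := h3 y hxy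
      have h5 := hB g (hK g hg hg') y hy (by rw [h4]; exact hy) x
      rw [h2] at h5
      exact h5.2 hx
    · exact h1 w hw
  intro w
  refine ⟨hsub w, fun hw => ?_⟩
  obtain ⟨y, hyB, hyx⟩ := hy
  have hxy := hsub y hyB
  by_cases e1 : w = x
  · rw [e1]; exact hx
  by_cases e2 : w = y
  · rw [e2]; exact hyB
  obtain ⟨g, hg, hg', h1, -, h3, h4, h5⟩ := rot hz hz3 hxy (Ne.symm hyx)
  have h6 := (hB g (hK g hg hg') x hx (by rw [h1]; exact hyB) y).2 hyB
  rw [h1] at h3 h4 h5
  -- `g y` is the third point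
  have h7 : w = g y := by
    have h8 : ∀ u v, rz z x u → rz z x v → u ≠ x → v ≠ x → u ≠ y → v ≠ y → u = v := by
      rintro u v hu hv hux hvx huy hvy
      rcases hxy with e | e | e
      · exact absurd e hyx
      · rcases hu with hu | hu | hu
        · exact absurd hu hux
        · exact absurd (hu.trans e.symm) huy
        · rcases hv with hv | hv | hv
          · exact absurd hv hvx
          · exact absurd (hv.trans e.symm) hvy
          · rw [hu, hv]
      · rcases hu with hu | hu | hu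
        · exact absurd hu hux
        · rcases hv with hv | hv | hv
          · exact absurd hv hvx
          · rw [hu, hv]
          · exact absurd (hv.trans e.symm) hvy
        · exact absurd (hu.trans e.symm) huy
    exact h8 w (g y) hw h5 e1 h3 e2 h4
  rw [h7]; exact h6

theorem prim_or (hn : 3 < n) : IsPreprimitive M (Fin n) ∨ M ≤ pres (rz z) := by
  by_cases hex : ∃ B : Set (Fin n), Blk M B ∧ (∃ x ∈ B, ∃ y ∈ B, y ≠ x) ∧ B ≠ Set.univ
  · right
    obtain ⟨B, hB, ⟨x, hx, y, hy, hyx⟩, hne⟩ := hex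
    -- every class is a block
    have hall : ∀ a, Blk M {w | rz z a w} := by
      intro a
      obtain ⟨g, hg, hga⟩ := tr hz hz3 hK a x
      have hB' : Blk M {w | g w ∈ B} := by
        intro k hk u hu hku v
        have h1 := hB (g * k * g⁻¹) (mul_mem (mul_mem hg hk) (inv_mem hg)) (g u) hu (by
          rw [Perm.mul_apply, Perm.mul_apply, show g⁻¹ (g u) = u from g.symm_apply_apply u]; exact hku) (g v)
        rw [Perm.mul_apply, Perm.mul_apply, show g⁻¹ (g v) = v from g.symm_apply_apply v] at h1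
        exact h1
      have h2 := blk_eq hz hz3 hK hB' (x := a) (by show g a ∈ B; rw [hga]; exact hx)
        ⟨g⁻¹ y, by show g (g⁻¹ y) ∈ B; rw [show g (g⁻¹ y) = y from g.apply_symm_apply y]; exact hy, by
          intro e
          apply hyx
          rw [← hga, ← e]
          exact (g.apply_symm_apply y).symm⟩ (by
          intro e
          apply hne
          rw [Set.eq_univ_iff_forall]
          intro w
          have : g⁻¹ w ∈ {w | g w ∈ B} := by rw [e]; trivial
          have h3 : g (g⁻¹ w) ∈ B := this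
          rwa [show g (g⁻¹ w) = w from g.apply_symm_apply w] at h3)
      have h3 : {w | g w ∈ B} = {w | rz z a w} := Set.ext h2
      rw [← h3]; exact hB'
    have h1 : ∀ g ∈ M, ∀ a b, rz z a b → rz z (g a) (g b) := by
      intro g hg a b hab
      -- the preimage of the class of `g a` is a block containing `a`
      have hB' : Blk M {w | rz z (g a) (g w)} := by
        intro k hk u hu hku v
        have h1 := hall (g a) (g * k * g⁻¹) (mul_mem (mul_mem hg hk) (inv_mem hg)) (g u) hu (by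
          show rz z (g a) _
          rw [Perm.mul_apply, Perm.mul_apply, show g⁻¹ (g u) = u from g.symm_apply_apply u]; exact hku) (g v)
        rw [Perm.mul_apply, Perm.mul_apply, show g⁻¹ (g v) = v from g.symm_apply_apply v] at h1
        exact h1
      have heq := rz_eq hz3
      have h2 := blk_eq hz hz3 hK hB' (x := a) (heq.refl _)
        ⟨g⁻¹ (z (g a)), by
          show rz z (g a) (g (g⁻¹ (z (g a))))
          rw [show g (g⁻¹ (z (g a))) = z (g a) from g.apply_symm_apply _]; exact rz_1 _, by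
          intro e
          have := congrArg g e
          rw [show g (g⁻¹ (z (g a))) = z (g a) from g.apply_symm_apply _] at this
          exact hz _ this⟩ (by
          intro e
          obtain ⟨t, ht⟩ := exists_ne ({g a, z (g a), z (z (g a))} : Finset (Fin n)) (lt_of_le_of_lt Finset.card_le_three hn)
          simp only [Finset.mem_insert, Finset.mem_singleton, not_or] at ht
          have : g⁻¹ t ∈ {w | rz z (g a) (g w)} := by rw [e]; trivial
          have h3 : rz z (g a) (g (g⁻¹ t)) := this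
          rw [show g (g⁻¹ t) = t from g.apply_symm_apply t] at h3
          rcases h3 with h3 | h3 | h3
          · exact ht.1 h3
          · exact ht.2.1 h3
          · exact ht.2.2 h3)
      exact (h2 b).2 hab
    intro g hg a b
    refine ⟨fun h => ?_, h1 g hg a b⟩
    have := h1 g⁻¹ (inv_mem hg) _ _ h
    rwa [show g⁻¹ (g a) = a from g.symm_apply_apply a, show g⁻¹ (g b) = b from g.symm_apply_apply b] at this
  · left
    push Not at hex
    have h0 : 0 < n := by omega
    haveI : IsPretransitive M (Fin n) := ⟨fun x y => by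
      obtain ⟨g, hg, e⟩ := tr hz hz3 hK x y
      exact ⟨⟨g, hg⟩, e⟩⟩
    apply IsPreprimitive.of_isTrivialBlock_base (⟨0, h0⟩ : Fin n)
    intro B ha hB
    have hB' : Blk M B := by
      intro g hg x hx hgx y
      have h1 : (⟨g, hg⟩ : M) • B = B := by
        apply hB.smul_eq_of_mem hx
        exact hgx
      constructor
      · intro hy
        have h2 : (⟨g, hg⟩ : M) • y ∈ (⟨g, hg⟩ : M) • B := by rw [h1]; exact hy
        exact Set.smul_mem_smul_set_iff.1 h2
      · intro hy
        have h2 : (⟨g, hg⟩ : M) • y ∈ (⟨g, hg⟩ : M) • B := Set.smul_mem_smul_set hy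
        rw [h1] at h2
        exact h2
    by_cases hs : B.Subsingleton
    · exact Or.inl hs
    · right
      rw [Set.not_subsingleton_iff] at hs
      obtain ⟨x, hx, y, hy, hxy⟩ := hs
      exact hex B hB' ⟨x, hx, y, hy, hxy.symm⟩

omit hK in
/-- the contradiction -/
theorem contra {T : Subgroup (Perm (Fin n))} (hn : 3 < n) (h : Set3 T M) (hTz : ∀ t ∈ T, ∀ w, t (z w) = z (t w))
    {r : Fin n → Fin n → Prop} (hr : Equivalence r) (hTr : T ≤ pres r) {p q s t : Fin n} (hpq : ¬ rz z p q) (hps : ¬ rz z p s)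
    (hqs : ¬ rz z q s) (rpq : r p q) (rps : r p s) (rpt : ¬ r p t) : False := by
  have heq := rz_eq hz3
  have hpq' : p ≠ q := fun e => hpq (Or.inl e.symm)
  have hps' : p ≠ s := fun e => hps (Or.inl e.symm)
  have hqs' : q ≠ s := fun e => hqs (Or.inl e.symm)
  have hpt' : p ≠ t := by rintro rfl; exact rpt (hr.refl _)
  have hK : ∀ g ∈ pres (rz z), g ∈ alternatingGroup (Fin n) → g ∈ M := by
    apply h.hU (pres (rz z)) (fun t ht => mem_of_comm hz hz3 (hTz t ht))
    apply not_alt_le_pres (by omega) (p := p) (q := z p) (t := q) (hz p).symm hpq' (rz_1 p) hpq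
  have h1 : c3 p q s ∈ M := by
    apply h.hU (pres r) hTr (not_alt_le_pres (by omega) hpq' hpt' rpq rpt) _ _ (c3_alt hpq' hps' hqs')
    apply mem_pres_of_rel hr
    intro w
    by_cases e1 : w = p
    · rw [e1, c3_1 hpq' hps']; exact rpq
    by_cases e2 : w = q
    · rw [e2, c3_2 hps' hqs']; exact hr.trans (hr.symm rpq) rps
    by_cases e3 : w = s
    · rw [e3, c3_3]; exact hr.symm rps
    rw [c3_4 e1 e2 e3]; exact hr.refl w
  rcases prim_or hz hz3 hK hn with h2 | h2
  · exact h.hM (Equiv.Perm.alternatingGroup_le_of_isPreprimitive_of_isThreeCycle_mem h2 (c3_three hpq' hps' hqs') h1)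
  · have h3 := (h2 h1 p (z p)).2 (rz_1 p)
    rw [c3_1 hpq' hps', c3_4 (hz p) (fun e : z p = q => hpq (e ▸ rz_1 p)) (fun e : z p = s => hps (e ▸ rz_1 p))] at h3
    exact hpq (heq.trans (rz_1 p) (heq.symm h3))

end

end Cfsg.Agent.H21.Alt3
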