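import Cfsg.Agent.H21.Alt3b

/-! 3-minimal alternating groups: main theorem. -/

set_option autoImplicit false

namespace Cfsg.Agent.H21.Alt3

open Equiv MulAction
open scoped Pointwise

variable {n : ℕ}

theorem pick3 (z : Perm (Fin n)) (O : Set (Fin n)) (hO : 7 ≤ Nat.card O) :
    ∃ p q s, p ∈ O ∧ q ∈ O ∧ s ∈ O ∧ ¬ rz z p q ∧ ¬ rz z p s ∧ ¬ rz z q s := by
  classical
  have hex : ∀ F : Finset (Fin n), F.card ≤ 6 → ∃ x ∈ O, x ∉ F := by
    intro F hF
    by_contra hcon
    push Not at hcon
    have h1 : O ⊆ (F : Set (Fin n)) := fun x hx => hcon x hx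
    have h2 := Set.ncard_le_ncard h1
    rw [Set.ncard_coe_finset] at h2
    have h3 : O.ncard = Nat.card O := rfl
    omega
  obtain ⟨p, hp, -⟩ := hex ∅ (by simp)
  obtain ⟨q, hq, hq'⟩ := hex {p, z p, z (z p)} (Finset.card_le_three.trans (by norm_num))
  obtain ⟨s, hs, hs'⟩ := hex ({p, z p, z (z p)} ∪ {q, z q, z (z q)}) (by
    refine (Finset.card_union_le _ _).trans ?_
    have h1 := Finset.card_le_three (a := p) (b := z p) (c := z (z p))
    have h2 := Finset.card_le_three (a := q) (b := z q) (c := z (z q))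
    omega)
  simp only [Finset.mem_insert, Finset.mem_singleton, not_or, Finset.mem_union] at hq' hs'
  refine ⟨p, q, s, hp, hq, hs, ?_, ?_, ?_⟩
  · rintro (e | e | e)
    · exact hq'.1 e
    · exact hq'.2.1 e
    · exact hq'.2.2 e
  · rintro (e | e | e)
    · exact hs'.1.1 e
    · exact hs'.1.2.1 e
    · exact hs'.1.2.2 e
  · rintro (e | e | e)
    · exact hs'.2.1 e
    · exact hs'.2.2.1 e
    · exact hs'.2.2.2 e

theorem core (h5 : 5 ≤ n) {T M : Subgroup (Perm (Fin n))} (hT : IsPGroup 3 T) (h : Set3 T M) :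
    n = 6 ∨ n = 9 ∨ ∃ a : ℕ, 2 ≤ a ∧ n = 3 ^ a + 1 := by
  classical
  haveI : Fact (Nat.Prime 3) := ⟨Nat.prime_three⟩
  let x₀ : Fin n := ⟨0, by omega⟩
  have hinv : ∀ (y x : Fin n), ∀ t ∈ T, (t x ∈ orbit T y ↔ x ∈ orbit T y) := by
    intro y x t ht
    constructor
    · rintro ⟨g, hg⟩
      refine ⟨(⟨t, ht⟩ : T)⁻¹ * g, ?_⟩
      show (t⁻¹ * (g : Perm (Fin n))) y = x
      have h1 : (g : Perm (Fin n)) y = t x := hg
      rw [Perm.mul_apply, h1]
      exact t.symm_apply_apply x
    · rintro ⟨g, hg⟩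
      refine ⟨(⟨t, ht⟩ : T) * g, ?_⟩
      show (t * (g : Perm (Fin n))) y = t x
      have h1 : (g : Perm (Fin n)) y = x := hg
      rw [Perm.mul_apply, h1]
  obtain ⟨a, ha⟩ := hT.card_orbit x₀
  by_cases h1 : orbit T x₀ = Set.univ
  · -- transitive
    have hna : n = 3 ^ a := by
      rw [← ha, h1, Nat.card_congr (Equiv.Set.univ (Fin n)), Nat.card_fin]
    have ha1 : 2 ≤ a := by
      by_contra hcon
      have : a = 0 ∨ a = 1 := by omega
      rcases this with rfl | rfl <;> norm_num at hna <;> omega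
    by_cases ha2 : a = 2
    · right; left; rw [hna, ha2]; norm_num
    have ha3 : 3 ≤ a := by omega
    exfalso
    obtain ⟨b, rfl⟩ : ∃ b, a = b + 1 := ⟨a - 1, by omega⟩
    obtain ⟨z, hz, hz3, hzT⟩ := exists_fpf (3 ^ b) (by rw [hna]; ring) T hT
    -- a subgroup of index three containing the stabilizer
    obtain ⟨k, hk⟩ := IsPGroup.iff_card.1 hT
    set S := stabilizer T x₀ with hS
    have hSi : S.index = 3 ^ (b + 1) := by
      rw [hS, index_stabilizer]
      exact ha
    have hSc : Nat.card S * 3 ^ (b + 1) = 3 ^ k := by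
      rw [← hk, ← hSi]; exact S.card_mul_index
    obtain ⟨j, hj⟩ := IsPGroup.iff_card.1 (hT.to_subgroup S)
    have hjk : j + (b + 1) = k := by
      rw [hj, ← pow_add] at hSc
      exact Nat.pow_right_injective (le_refl 3 |>.trans' (by norm_num)) hSc
    obtain ⟨N, hNc, hSN⟩ := Sylow.exists_subgroup_card_pow_prime_le (p := 3) (n := j) (m := k - 1)
      (by rw [hk]; exact pow_dvd_pow 3 (by omega)) S hj (by omega)
    have hNi : N.index = 3 := by
      have h2 := N.card_mul_index
      rw [hNc, hk] at h2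
      have h3 : 3 ^ k = 3 ^ (k - 1) * 3 := by
        rw [← pow_succ]; congr 1; omega
      rw [h3] at h2
      exact Nat.eq_of_mul_eq_mul_left (by positivity) h2
    have hmf : (Nat.card T).minFac = 3 := by
      rw [hk]
      exact Nat.Prime.pow_minFac Nat.prime_three (by omega)
    have hNn : N.Normal := Subgroup.normal_of_index_eq_minFac_card (by rw [hNi, hmf])
    let r : Fin n → Fin n → Prop := fun x y => ∃ g ∈ N, (g : Perm (Fin n)) x = y
    have hr : Equivalence r :=
      { refl := fun x => ⟨1, one_mem _, rfl⟩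
        symm := by
          rintro x y ⟨g, hg, rfl⟩
          exact ⟨g⁻¹, inv_mem hg, (g : Perm (Fin n)).symm_apply_apply x⟩
        trans := by
          rintro x y w ⟨g, hg, rfl⟩ ⟨g', hg', rfl⟩
          exact ⟨g' * g, mul_mem hg' hg, rfl⟩ }
    have hTr1 : ∀ t ∈ T, ∀ x y, r x y → r (t x) (t y) := by
      rintro t ht x y ⟨g, hg, rfl⟩
      refine ⟨⟨t, ht⟩ * g * (⟨t, ht⟩ : T)⁻¹, hNn.conj_mem g hg ⟨t, ht⟩, ?_⟩
      show (t * (g : Perm (Fin n)) * t⁻¹) (t x) = t ((g : Perm (Fin n)) x)
      rw [Perm.mul_apply, Perm.mul_apply, show t⁻¹ (t x) = x from t.symm_apply_apply x]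
    have hTr : T ≤ pres r := by
      intro t ht x y
      refine ⟨fun h2 => ?_, hTr1 t ht x y⟩
      have h3 := hTr1 t⁻¹ (inv_mem ht) _ _ h2
      rwa [show t⁻¹ (t x) = x from t.symm_apply_apply x, show t⁻¹ (t y) = y from t.symm_apply_apply y] at h3
    -- size of the class
    have hcl : 7 ≤ Nat.card (orbit N x₀) := by
      have h3 : Nat.card (orbit N x₀) * Nat.card (stabilizer N x₀) = 3 ^ (k - 1) := by
        rw [← hNc, Nat.card_congr (orbitProdStabilizerEquivGroup N x₀).symm, Nat.card_prod]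
      have h4 : Nat.card (stabilizer N x₀) ≤ Nat.card S := by
        let f : stabilizer N x₀ → S := fun g => ⟨g.1.1, g.2⟩
        apply Nat.card_le_card_of_injective f
        intro x y hxy
        apply Subtype.ext
        apply Subtype.ext
        exact congrArg (fun s : S => (s : T)) hxy
      have h5 : 3 ^ (k - 1) = 3 ^ j * 3 ^ b := by rw [← pow_add]; congr 1; omega
      rw [h5, ← hj] at h3
      have h6 : Nat.card S * 3 ^ b ≤ Nat.card (orbit N x₀) * Nat.card S := by
        rw [← h3]; exact Nat.mul_le_mul_left _ h4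
      have h7 : 3 ^ b ≤ Nat.card (orbit N x₀) := by
        rw [mul_comm] at h6
        exact Nat.le_of_mul_le_mul_right h6 Nat.card_pos
      have h8 : 3 ^ 2 ≤ 3 ^ b := Nat.pow_le_pow_right (by norm_num) (by omega)
      omega
    obtain ⟨p, q, s, hp, hq, hs, hpq, hps, hqs⟩ := pick3 z (orbit N x₀) hcl
    have hor : ∀ y, y ∈ orbit N x₀ ↔ r x₀ y := by
      intro y
      constructor
      · rintro ⟨g, rfl⟩
        exact ⟨g, g.2, rfl⟩
      · rintro ⟨g, hg, rfl⟩
        exact ⟨⟨g, hg⟩, rfl⟩
    rw [hor] at hp hq hs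
    have hnt : ∃ t, ¬ r x₀ t := by
      by_contra hcon
      push Not at hcon
      have h2 : N = ⊤ := by
        rw [eq_top_iff]
        intro t _
        obtain ⟨g, hg, hgt⟩ := hcon ((t : Perm (Fin n)) x₀)
        have h3 : g⁻¹ * t ∈ S := by
          rw [hS, mem_stabilizer_iff]
          show (g : Perm (Fin n))⁻¹ ((t : Perm (Fin n)) x₀) = x₀
          rw [← hgt]
          exact (g : Perm (Fin n)).symm_apply_apply x₀
        have h4 := mul_mem hg (hSN h3)
        rwa [mul_inv_cancel_left] at h4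
      rw [h2, Subgroup.index_top] at hNi
      omega
    obtain ⟨t, ht⟩ := hnt
    exact contra hz hz3 (by omega) h (fun t ht w => by
      have := congrArg (fun f : Perm (Fin n) => f w) (hzT t ht)
      exact this) hr hTr hpq hps hqs (hr.trans (hr.symm hp) hq) (hr.trans (hr.symm hp) hs)
      (fun h9 => ht (hr.trans hp h9))
  · obtain ⟨y₀, hy₀⟩ := (Set.ne_univ_iff_exists_notMem _).1 h1
    obtain ⟨b, hb⟩ := hT.card_orbit y₀
    have hdisj : ∀ w, w ∈ orbit T x₀ → w ∈ orbit T y₀ → False := by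
      intro w hw1 hw2
      apply hy₀
      rw [← orbit_eq_iff.2 hw1, orbit_eq_iff.2 hw2]
      exact mem_orbit_self y₀
    by_cases h2 : ∀ w, w ∈ orbit T x₀ ∨ w ∈ orbit T y₀
    · -- two orbits
      have hn : n = 3 ^ a + 3 ^ b := by
        have h3 : (orbit T x₀)ᶜ = orbit T y₀ := by
          ext w
          constructor
          · intro hw
            exact (h2 w).resolve_left hw
          · intro hw hw'
            exact hdisj w hw' hw
        have h4 := Set.ncard_add_ncard_compl (orbit T x₀)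
        rw [h3, Nat.card_fin] at h4
        rw [← ha, ← hb]
        exact h4.symm
      rcases Nat.eq_zero_or_pos a with ha0 | ha0
      · right; right
        refine ⟨b, ?_, by rw [hn, ha0]; ring⟩
        by_contra hcon
        have : b = 0 ∨ b = 1 := by omega
        rcases this with rfl | rfl <;> rw [ha0] at hn <;> norm_num at hn <;> omega
      rcases Nat.eq_zero_or_pos b with hb0 | hb0
      · right; right
        refine ⟨a, ?_, by rw [hn, hb0]; ring⟩
        by_contra hcon
        have : a = 0 ∨ a = 1 := by omega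
        rcases this with rfl | rfl <;> rw [hb0] at hn <;> norm_num at hn <;> omega
      by_cases h6 : n = 6
      · exact Or.inl h6
      exfalso
      obtain ⟨a', rfl⟩ : ∃ a', a = a' + 1 := ⟨a - 1, by omega⟩
      obtain ⟨b', rfl⟩ : ∃ b', b = b' + 1 := ⟨b - 1, by omega⟩
      obtain ⟨z, hz, hz3, hzT⟩ := exists_fpf (3 ^ a' + 3 ^ b') (by rw [hn]; ring) T hT
      -- a big orbit
      obtain ⟨O, hO, hOT, y, hyO⟩ : ∃ O : Set (Fin n), 7 ≤ Nat.card O ∧ (∀ t ∈ T, ∀ x, t x ∈ O ↔ x ∈ O) ∧ ∃ y, y ∉ O := by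
        rcases Nat.eq_zero_or_pos a' with ha' | ha'
        · have hb' : 1 ≤ b' := by
            by_contra hcon
            have : b' = 0 := by omega
            apply h6
            rw [hn, ha', this]; norm_num
          refine ⟨orbit T y₀, ?_, fun t ht x => hinv y₀ x t ht, x₀, fun hx => hdisj x₀ (mem_orbit_self x₀) hx⟩
          rw [hb]
          have : 3 ^ 2 ≤ 3 ^ (b' + 1) := Nat.pow_le_pow_right (by norm_num) (by omega)
          omega
        · refine ⟨orbit T x₀, ?_, fun t ht x => hinv x₀ x t ht, y₀, hy₀⟩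
          rw [ha]
          have : 3 ^ 2 ≤ 3 ^ (a' + 1) := Nat.pow_le_pow_right (by norm_num) (by omega)
          omega
      obtain ⟨p, q, s, hp, hq, hs, hpq, hps, hqs⟩ := pick3 z O hO
      let r : Fin n → Fin n → Prop := fun x y => (x ∈ O ↔ y ∈ O)
      have hr : Equivalence r :=
        { refl := fun x => Iff.rfl
          symm := fun h => h.symm
          trans := fun h h' => h.trans h' }
      have hTr : T ≤ pres r := by
        intro t ht x y
        show (t x ∈ O ↔ t y ∈ O) ↔ (x ∈ O ↔ y ∈ O)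
        rw [hOT t ht, hOT t ht]
      exact contra hz hz3 (by omega) h (fun t ht w => by
        have := congrArg (fun f : Perm (Fin n) => f w) (hzT t ht)
        exact this) hr hTr hpq hps hqs (iff_of_true hp hq) (iff_of_true hp hs) (fun (h9 : p ∈ O ↔ y ∈ O) => hyO (h9.1 hp))
    · exfalso
      push Not at h2
      obtain ⟨w, hw1, hw2⟩ := h2
      refine three_sets h5 h (fun x => if x ∈ orbit T x₀ then 0 else if x ∈ orbit T y₀ then 1 else 2) ?_ ?_
      · intro k
        fin_cases k
        · exact ⟨x₀, if_pos (mem_orbit_self x₀)⟩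
        · refine ⟨y₀, ?_⟩
          show (if y₀ ∈ orbit T x₀ then (0 : Fin 3) else if y₀ ∈ orbit T y₀ then 1 else 2) = 1
          rw [if_neg hy₀, if_pos (mem_orbit_self y₀)]
        · refine ⟨w, ?_⟩
          show (if w ∈ orbit T x₀ then (0 : Fin 3) else if w ∈ orbit T y₀ then 1 else 2) = 2
          rw [if_neg hw1, if_neg hw2]
      · intro t ht x
        simp only [hinv x₀ x t ht, hinv y₀ x t ht]

end Cfsg.Agent.H21.Alt3
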