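import Mathlib
import Cfsg.Agent.FStar.Basic
import Cfsg.Agent.H72.SmallSolvable
import Cfsg.Agent.S3707

/-! Transitive groups containing a Klein four group on four points and a quasisimple normal subgroup. -/

set_option autoImplicit false

namespace Cfsg.Agent.H21.AltA

open Equiv MulAction commutatorElement
open scoped Pointwise

section lemQ
variable {G : Type*} [Group G]

theorem le_or_commute {L M : Subgroup G} (hL : Cfsg.IsQuasisimple L) (h1 : ∀ m ∈ M, ∀ l ∈ L, m * l * m⁻¹ ∈ L)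
    (h2 : ∀ l ∈ L, ∀ m ∈ M, l * m * l⁻¹ ∈ M) : L ≤ M ∨ ∀ l ∈ L, ∀ m ∈ M, l * m = m * l := by
  have hN : ((M ⊓ L).subgroupOf L).Normal := by
    constructor
    rintro ⟨x, hx⟩ hxM ⟨l, hl⟩
    rw [Subgroup.mem_subgroupOf] at hxM ⊢
    exact ⟨h2 l hl x hxM.1, L.mul_mem (L.mul_mem hl hx) (L.inv_mem hl)⟩
  rcases FStar.eq_top_or_le_center_of_normal hL _ hN with h | h
  · left
    rw [Subgroup.subgroupOf_eq_top] at h
    exact h.trans inf_le_left
  · right
    have h3 : ⁅M, L⁆ ≤ M ⊓ L := by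
      rw [Subgroup.commutator_le]
      intro m hm l hl
      rw [commutatorElement_def]
      refine ⟨?_, ?_⟩
      · have : m * l * m⁻¹ * l⁻¹ = m * (l * m⁻¹ * l⁻¹) := by group
        rw [this]
        exact M.mul_mem hm (h2 l hl _ (M.inv_mem hm))
      · exact L.mul_mem (h1 m hm l hl) (L.inv_mem hl)
    have h4 : ⁅⁅M, L⁆, L⁆ = ⊥ := by
      rw [eq_bot_iff, Subgroup.commutator_le]
      intro x hx l hl
      have hx' := h3 hx
      have h5 : (⟨x, hx'.2⟩ : L) ∈ (M ⊓ L).subgroupOf L := hx'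
      have h6 := Subgroup.mem_center_iff.1 (h h5) ⟨l, hl⟩
      have h7 : l * x = x * l := congrArg Subtype.val h6
      rw [Subgroup.mem_bot, commutatorElement_eq_one_iff_mul_comm]
      exact h7.symm
    have h5 : ⁅⁅L, M⁆, L⁆ = ⊥ := by rw [Subgroup.commutator_comm L M]; exact h4
    have h6 : ⁅⁅L, L⁆, M⁆ = ⊥ := Subgroup.commutator_commutator_eq_bot_of_rotate h5 h4
    rw [FStar.commutator_self hL] at h6
    intro l hl m hm
    have h7 : ⁅l, m⁆ ∈ ⁅L, M⁆ := Subgroup.commutator_mem_commutator hl hm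
    rw [h6, Subgroup.mem_bot, commutatorElement_eq_one_iff_mul_comm] at h7
    exact h7

theorem hom_trivial {L : Type*} [Group L] (hL : Cfsg.IsQuasisimple L) {K : Type*} [Group K] (hK : Group.IsSolvable K)
    (f : L →* K) (l : L) : f l = 1 := by
  have h1 : ∀ n, derivedSeries L n = ⊤ := by
    intro n
    induction n with
    | zero => rfl
    | succ n ih => rw [derivedSeries_succ, ih, FStar.commutator_top_eq_top hL]
  obtain ⟨n, hn⟩ := (Group.isSolvable_def K).1 hK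
  have h2 := map_derivedSeries_le_derivedSeries f n
  rw [h1, hn] at h2
  exact Subgroup.mem_bot.1 (h2 ⟨l, Subgroup.mem_top _, rfl⟩)

end lemQ

variable {Δ : Type*} [Fintype Δ] [DecidableEq Δ]

theorem fix_small {L : Subgroup (Perm Δ)} (hL : Cfsg.IsQuasisimple L) (S : Finset Δ) (hS : S.card ≤ 4)
    (hLS : ∀ l ∈ L, ∀ x ∈ S, l x ∈ S) : ∀ l ∈ L, ∀ x ∈ S, l x = x := by
  intro l hl x hx
  have hiff : ∀ l ∈ L, ∀ x, (x ∈ S ↔ l x ∈ S) := by
    intro l hl x
    refine ⟨hLS l hl x, fun h => ?_⟩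
    have := hLS l⁻¹ (L.inv_mem hl) _ h
    rwa [show l⁻¹ (l x) = x from l.symm_apply_apply x] at this
  let f : L →* Perm {x // x ∈ S} :=
    { toFun := fun l => (l : Perm Δ).subtypePerm (fun x => (hiff l l.2 x).symm)
      map_one' := by ext x; rfl
      map_mul' := fun a b => by ext x; rfl }
  have h1 := hom_trivial hL (H72.isSolvable_perm_of_card_le_four (by
    rw [Nat.card_eq_fintype_card, Fintype.card_coe]; exact hS)) f ⟨l, hl⟩
  have h2 : f ⟨l, hl⟩ ⟨x, hx⟩ = ⟨x, hx⟩ := by rw [h1]; rfl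
  exact congrArg Subtype.val h2

/-- four distinct points -/
structure D4 (a b c d : Δ) : Prop where
  ab : a ≠ b
  ac : a ≠ c
  ad : a ≠ d
  bc : b ≠ c
  bd : b ≠ d
  cd : c ≠ d

omit [Fintype Δ] [DecidableEq Δ] in
theorem D4.p1 {a b c d : Δ} (h : D4 a b c d) : D4 b a c d := ⟨h.ab.symm, h.bc, h.bd, h.ac, h.ad, h.cd⟩
omit [Fintype Δ] [DecidableEq Δ] in
theorem D4.p2 {a b c d : Δ} (h : D4 a b c d) : D4 a c b d := ⟨h.ac, h.ab, h.ad, h.bc.symm, h.cd, h.bd⟩
omit [Fintype Δ] [DecidableEq Δ] in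
theorem D4.p3 {a b c d : Δ} (h : D4 a b c d) : D4 a b d c := ⟨h.ab, h.ad, h.ac, h.bd, h.bc, h.cd.symm⟩

/-- double transposition -/
def dd (a b c d : Δ) : Perm Δ := swap a b * swap c d

omit [Fintype Δ] in
theorem dd_1 {a b c d : Δ} (h : D4 a b c d) : dd a b c d a = b := by
  rw [dd, Perm.mul_apply, swap_apply_of_ne_of_ne h.ac h.ad, swap_apply_left]
omit [Fintype Δ] in
theorem dd_2 {a b c d : Δ} (h : D4 a b c d) : dd a b c d b = a := by
  rw [dd, Perm.mul_apply, swap_apply_of_ne_of_ne h.bc h.bd, swap_apply_right]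
omit [Fintype Δ] in
theorem dd_3 {a b c d : Δ} (h : D4 a b c d) : dd a b c d c = d := by
  rw [dd, Perm.mul_apply, swap_apply_left, swap_apply_of_ne_of_ne h.ad.symm h.bd.symm]
omit [Fintype Δ] in
theorem dd_4 {a b c d : Δ} (h : D4 a b c d) : dd a b c d d = c := by
  rw [dd, Perm.mul_apply, swap_apply_right, swap_apply_of_ne_of_ne h.ac.symm h.bc.symm]
omit [Fintype Δ] in
theorem dd_5 {a b c d x : Δ} (h1 : x ≠ a) (h2 : x ≠ b) (h3 : x ≠ c) (h4 : x ≠ d) : dd a b c d x = x := by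
  rw [dd, Perm.mul_apply, swap_apply_of_ne_of_ne h3 h4, swap_apply_of_ne_of_ne h1 h2]

omit [Fintype Δ] in
theorem dd_mul {a b c d : Δ} (h : D4 a b c d) : dd a b c d * dd a c b d = dd a d b c := by
  have h2 := h.p2
  have h3 : D4 a d b c := ⟨h.ad, h.ab, h.ac, h.bd.symm, h.cd.symm, h.bc⟩
  ext x
  rw [Perm.mul_apply]
  by_cases e1 : x = a
  · rw [e1, dd_1 h2, dd_3 h, dd_1 h3]
  by_cases e2 : x = b
  · rw [e2, dd_3 h2, dd_4 h, dd_3 h3]
  by_cases e3 : x = c
  · rw [e3, dd_2 h2, dd_1 h, dd_4 h3]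
  by_cases e4 : x = d
  · rw [e4, dd_4 h2, dd_2 h, dd_2 h3]
  rw [dd_5 e1 e3 e2 e4, dd_5 e1 e2 e3 e4, dd_5 e1 e4 e2 e3]

omit [Fintype Δ] in
theorem dd_comm12 (a b c d : Δ) : dd b a c d = dd a b c d := by rw [dd, dd, swap_comm]
omit [Fintype Δ] in
theorem dd_comm34 (a b c d : Δ) : dd a b d c = dd a b c d := by rw [dd, dd, swap_comm d c]
omit [Fintype Δ] in
theorem dd_swap {a b c d : Δ} (h : D4 a b c d) : dd c d a b = dd a b c d := by
  have h2 : D4 c d a b := ⟨h.cd, h.ac.symm, h.bc.symm, h.ad.symm, h.bd.symm, h.ab⟩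
  ext x
  by_cases e1 : x = a
  · rw [e1, dd_1 h, dd_3 h2]
  by_cases e2 : x = b
  · rw [e2, dd_2 h, dd_4 h2]
  by_cases e3 : x = c
  · rw [e3, dd_3 h, dd_1 h2]
  by_cases e4 : x = d
  · rw [e4, dd_4 h, dd_2 h2]
  rw [dd_5 e1 e2 e3 e4, dd_5 e3 e4 e1 e2]

omit [Fintype Δ] in
theorem dd_sq {a b c d : Δ} (h : D4 a b c d) : dd a b c d * dd a b c d = 1 := by
  ext x
  rw [Perm.mul_apply]
  by_cases e1 : x = a
  · rw [e1, dd_1 h, dd_2 h]; rfl
  by_cases e2 : x = b
  · rw [e2, dd_2 h, dd_1 h]; rfl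
  by_cases e3 : x = c
  · rw [e3, dd_3 h, dd_4 h]; rfl
  by_cases e4 : x = d
  · rw [e4, dd_4 h, dd_3 h]; rfl
  rw [dd_5 e1 e2 e3 e4, dd_5 e1 e2 e3 e4]; rfl

omit [Fintype Δ] in
theorem dd_conj (g : Perm Δ) (a b c d : Δ) : g * dd a b c d * g⁻¹ = dd (g a) (g b) (g c) (g d) := by
  rw [dd, dd, swap_apply_apply, swap_apply_apply]
  group

/-- the setting -/
structure Setting (G L : Subgroup (Perm Δ)) : Prop where
  tr : ∀ x y : Δ, ∃ g ∈ G, g x = y
  hLG : L ≤ G
  hLn : ∀ g ∈ G, ∀ l ∈ L, g * l * g⁻¹ ∈ L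
  hq : Cfsg.IsQuasisimple L

variable {G L : Subgroup (Perm Δ)}

omit [Fintype Δ] [DecidableEq Δ] in
theorem no_fix (h : Setting G L) (x : Δ) (hx : ∀ l ∈ L, l x = x) : False := by
  apply FStar.ne_bot h.hq
  rw [eq_bot_iff]
  intro l hl
  rw [Subgroup.mem_bot]
  ext y
  obtain ⟨g, hg, rfl⟩ := h.tr x y
  have := hx _ (h.hLn g⁻¹ (inv_mem hg) l hl)
  rw [inv_inv, Perm.mul_apply, Perm.mul_apply] at this
  have h2 := congrArg g this
  rwa [show g (g⁻¹ (l (g x))) = l (g x) from g.apply_symm_apply _] at h2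

theorem no_comm (h : Setting G L) {a b c d : Δ} (h4 : D4 a b c d) (hc : ∀ l ∈ L, l * dd a b c d = dd a b c d * l) : False := by
  apply no_fix h a
  intro l hl
  refine fix_small h.hq {a, b, c, d} Finset.card_le_four ?_ l hl a (by simp)
  intro l hl x hx
  by_contra hne
  simp only [Finset.mem_insert, Finset.mem_singleton, not_or] at hne
  have h1 : dd a b c d (l x) = l x := dd_5 hne.1 hne.2.1 hne.2.2.1 hne.2.2.2
  have h2 : l (dd a b c d x) = dd a b c d (l x) := by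
    rw [← Perm.mul_apply, hc l hl, Perm.mul_apply]
  rw [h1] at h2
  have h3 := l.injective h2
  simp only [Finset.mem_insert, Finset.mem_singleton] at hx
  rcases hx with rfl | rfl | rfl | rfl
  · rw [dd_1 h4] at h3; exact h4.ab h3.symm
  · rw [dd_2 h4] at h3; exact h4.ab h3
  · rw [dd_3 h4] at h3; exact h4.cd h3.symm
  · rw [dd_4 h4] at h3; exact h4.cd h3

/-- setwise stabilizer -/
def stab (B : Set Δ) : Subgroup (Perm Δ) where
  carrier := {u | ∀ x, u x ∈ B ↔ x ∈ B}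
  one_mem' := fun x => Iff.rfl
  mul_mem' := by
    intro u v hu hv x
    rw [Perm.mul_apply, hu, hv]
  inv_mem' := by
    intro u hu x
    rw [← hu, show u (u⁻¹ x) = x from u.apply_symm_apply x]

/-- core -/
def coreK (G : Subgroup (Perm Δ)) (B : Set Δ) : Subgroup (Perm Δ) where
  carrier := {g | g ∈ G ∧ ∀ h ∈ G, h⁻¹ * g * h ∈ stab B}
  one_mem' := ⟨one_mem _, fun h _ => by
    have : h⁻¹ * 1 * h = 1 := by group
    rw [this]; exact one_mem _⟩
  mul_mem' := by
    rintro u v ⟨hu, hu'⟩ ⟨hv, hv'⟩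
    refine ⟨mul_mem hu hv, fun h hh => ?_⟩
    have : h⁻¹ * (u * v) * h = (h⁻¹ * u * h) * (h⁻¹ * v * h) := by group
    rw [this]
    exact mul_mem (hu' h hh) (hv' h hh)
  inv_mem' := by
    rintro u ⟨hu, hu'⟩
    refine ⟨inv_mem hu, fun h hh => ?_⟩
    have : h⁻¹ * u⁻¹ * h = (h⁻¹ * u * h)⁻¹ := by group
    rw [this]
    exact inv_mem (hu' h hh)

/-- pointwise stabilizer of the complement -/
def supp (G : Subgroup (Perm Δ)) (B : Set Δ) : Subgroup (Perm Δ) where
  carrier := {g | g ∈ G ∧ ∀ x, x ∉ B → g x = x}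
  one_mem' := ⟨one_mem _, fun x _ => rfl⟩
  mul_mem' := by
    rintro u v ⟨hu, hu'⟩ ⟨hv, hv'⟩
    refine ⟨mul_mem hu hv, fun x hx => ?_⟩
    rw [Perm.mul_apply, hv' x hx, hu' x hx]
  inv_mem' := by
    rintro u ⟨hu, hu'⟩
    refine ⟨inv_mem hu, fun x hx => ?_⟩
    have := hu' x hx
    conv_lhs => rw [← this]
    exact u.symm_apply_apply x

omit [Fintype Δ] [DecidableEq Δ] in
theorem L_le_core {B : Set Δ} (h : Setting G L) {v : Perm Δ} (hv : v ∈ coreK G B) (hnc : ¬ ∀ l ∈ L, l * v = v * l) :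
    L ≤ coreK G B := by
  rcases le_or_commute (M := coreK G B) h.hq (fun m hm l hl => h.hLn m hm.1 l hl) (fun l hl m hm => ⟨mul_mem (mul_mem (h.hLG hl) hm.1) (inv_mem (h.hLG hl)), fun k hk => by
    have e : k⁻¹ * (l * m * l⁻¹) * k = (l⁻¹ * k)⁻¹ * m * (l⁻¹ * k) := by group
    rw [e]
    exact hm.2 _ (mul_mem (inv_mem (h.hLG hl)) hk)⟩) with h1 | h1
  · exact h1
  · exact absurd (fun l hl => h1 l hl v hv) hnc

theorem primA (h : Setting G L) {a b c d : Δ} (h4 : D4 a b c d) (hv : dd a b c d ∈ G)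
    {B : Set Δ} (hB : ∀ g ∈ G, ∀ x ∈ B, g x ∈ B → g ∈ stab B) (ha : a ∈ B) (hb : b ∈ B) (hc : c ∈ B) (hd : d ∈ B) :
    B = Set.univ := by
  have hvs : dd a b c d ∈ stab B := hB _ hv a ha (by rw [dd_1 h4]; exact hb)
  have hvK : dd a b c d ∈ coreK G B := by
    refine ⟨hv, fun k hk => ?_⟩
    by_cases h5 : k a = a ∨ k a = b ∨ k a = c ∨ k a = d
    · have hks : k ∈ stab B := hB k hk a ha (by rcases h5 with h5 | h5 | h5 | h5 <;> rw [h5] <;> assumption)
      exact mul_mem (mul_mem (inv_mem hks) hvs) hks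
    · push Not at h5
      refine hB _ (mul_mem (mul_mem (inv_mem hk) hv) hk) a ha ?_
      rw [Perm.mul_apply, Perm.mul_apply, dd_5 h5.1 h5.2.1 h5.2.2.1 h5.2.2.2, show k⁻¹ (k a) = a from k.symm_apply_apply a]
      exact ha
  have hLK := L_le_core h hvK (fun hc => no_comm h h4 hc)
  have hLs : ∀ l ∈ L, l ∈ stab B := by
    intro l hl
    have := (hLK hl).2 1 (one_mem _)
    rwa [inv_one, one_mul, mul_one] at this
  have hLM : L ≤ supp G B := by
    rcases le_or_commute (M := supp G B) h.hq (fun m hm l hl => h.hLn m hm.1 l hl) (fun l hl m hm => ⟨mul_mem (mul_mem (h.hLG hl) hm.1) (inv_mem (h.hLG hl)), fun x hx => by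
      have h6 : l⁻¹ x ∉ B := fun h7 => hx ((inv_mem (hLs l hl) x).1 h7)
      rw [Perm.mul_apply, Perm.mul_apply, hm.2 _ h6]
      exact l.apply_symm_apply x⟩) with h1 | h1
    · exact h1
    · exact (no_comm h h4 (fun l hl => h1 l hl _ ⟨hv, fun x hx => dd_5 (fun e => hx (e ▸ ha)) (fun e => hx (e ▸ hb))
        (fun e => hx (e ▸ hc)) (fun e => hx (e ▸ hd))⟩)).elim
  by_contra hne
  obtain ⟨x, hx⟩ := (Set.ne_univ_iff_exists_notMem B).1 hne
  exact no_fix h x (fun l hl => (hLM hl).2 x hx)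

theorem primB (h : Setting G L) {a b c d : Δ} (h4 : D4 a b c d) (hv : dd a b c d ∈ G) (hv2 : dd a c b d ∈ G)
    {B : Set Δ} (hB : ∀ g ∈ G, ∀ x ∈ B, g x ∈ B → g ∈ stab B) (ha : a ∈ B) (hb : b ∈ B) :
    B = Set.univ := by
  have hvs : dd a b c d ∈ stab B := hB _ hv a ha (by rw [dd_1 h4]; exact hb)
  by_cases hc : c ∈ B
  · exact primA h h4 hv hB ha hb hc (by
      have := (hvs c).2 hc
      rwa [dd_3 h4] at this)
  by_cases hd : d ∈ B
  · exact primA h h4 hv hB ha hb (by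
      have := (hvs d).2 hd
      rwa [dd_4 h4] at this) hd
  by_cases hp : ∃ p ∈ B, p ≠ a ∧ p ≠ b
  · obtain ⟨p, hp, hpa, hpb⟩ := hp
    exfalso
    apply hc
    have h2 : dd a c b d ∈ stab B := hB _ hv2 p hp (by
      rw [dd_5 hpa (fun e : p = c => hc (e ▸ hp)) hpb (fun e : p = d => hd (e ▸ hp))]; exact hp)
    have := (h2 a).2 ha
    rwa [dd_1 h4.p2] at this
  push Not at hp
  have hBab : ∀ p ∈ B, p = a ∨ p = b := by
    intro p hpB
    by_cases e : p = a
    · exact Or.inl e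
    · exact Or.inr (hp p hpB e)
  have hvK : dd a b c d ∈ coreK G B := by
    refine ⟨hv, fun k hk => ?_⟩
    by_cases h5 : k a = a ∨ k a = b
    · have hks : k ∈ stab B := hB k hk a ha (by rcases h5 with h5 | h5 <;> rw [h5] <;> assumption)
      exact mul_mem (mul_mem (inv_mem hks) hvs) hks
    by_cases h6 : k a = c ∨ k a = d
    · have hks : dd a c b d * k ∈ stab B := hB _ (mul_mem hv2 hk) a ha (by
        rw [Perm.mul_apply]
        rcases h6 with h6 | h6
        · rw [h6, dd_2 h4.p2]; exact ha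
        · rw [h6, dd_4 h4.p2]; exact hb)
      have h7 : dd a c b d * dd a b c d * (dd a c b d)⁻¹ = dd a b c d := by
        rw [dd_conj, dd_1 h4.p2, dd_2 h4.p2, dd_3 h4.p2, dd_4 h4.p2]
        exact dd_swap h4
      have h8 : k⁻¹ * dd a b c d * k = (dd a c b d * k)⁻¹ * dd a b c d * (dd a c b d * k) := by
        conv_rhs => rw [← h7]
        group
      rw [h8]
      exact mul_mem (mul_mem (inv_mem hks) hvs) hks
    · push Not at h5 h6
      refine hB _ (mul_mem (mul_mem (inv_mem hk) hv) hk) a ha ?_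
      rw [Perm.mul_apply, Perm.mul_apply, dd_5 h5.1 h5.2 h6.1 h6.2, show k⁻¹ (k a) = a from k.symm_apply_apply a]
      exact ha
  have hLK := L_le_core h hvK (fun hc => no_comm h h4 hc)
  exfalso
  apply no_fix h a
  intro l hl
  refine fix_small h.hq {a, b} (Finset.card_le_two.trans (by norm_num)) ?_ l hl a (by simp)
  intro l hl x hx
  have hls : l ∈ stab B := by
    have := (hLK hl).2 1 (one_mem _)
    rwa [inv_one, one_mul, mul_one] at this
  have hxB : x ∈ B := by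
    simp only [Finset.mem_insert, Finset.mem_singleton] at hx
    rcases hx with rfl | rfl <;> assumption
  have := hBab _ ((hls x).2 hxB)
  simpa using this

theorem prim (h : Setting G L) {a b c d : Δ} (h4 : D4 a b c d) (hv : dd a b c d ∈ G) (hv2 : dd a c b d ∈ G) :
    IsPreprimitive G Δ := by
  haveI : IsPretransitive G Δ := ⟨fun x y => by
    obtain ⟨g, hg, e⟩ := h.tr x y
    exact ⟨⟨g, hg⟩, e⟩⟩
  apply IsPreprimitive.of_isTrivialBlock_base a
  intro B ha hB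
  have hB' : ∀ g ∈ G, ∀ x ∈ B, g x ∈ B → g ∈ stab B := by
    intro g hg x hx hgx
    have h1 : (⟨g, hg⟩ : G) • B = B := by
      apply hB.smul_eq_of_mem hx
      exact hgx
    intro y
    constructor
    · intro hy
      have h2 : (⟨g, hg⟩ : G) • y ∈ (⟨g, hg⟩ : G) • B := by rw [h1]; exact hy
      exact Set.smul_mem_smul_set_iff.1 h2
    · intro hy
      have h2 : (⟨g, hg⟩ : G) • y ∈ (⟨g, hg⟩ : G) • B := Set.smul_mem_smul_set hy
      rw [h1] at h2
      exact h2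
  by_cases hs : B.Subsingleton
  · exact Or.inl hs
  · right
    have : ∃ p ∈ B, p ≠ a := by
      by_contra hcon
      push Not at hcon
      apply hs
      intro x hx y hy
      rw [hcon x hx, hcon y hy]
    obtain ⟨p, hp, hpa⟩ := this
    by_cases e1 : p = b
    · exact primB h h4 hv hv2 hB' ha (e1 ▸ hp)
    by_cases e2 : p = c
    · exact primB h h4.p2 hv2 hv hB' ha (e2 ▸ hp)
    by_cases e3 : p = d
    · refine primB h (a := a) (b := d) (c := b) (d := c) h4.p3.p2 ?_ ?_ hB' ha (e3 ▸ hp)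
      · rw [← dd_mul h4]; exact mul_mem hv hv2
      · rw [dd_comm34]; exact hv
    · refine primB h h4 hv hv2 hB' ha ?_
      have h2 : dd a b c d ∈ stab B := hB' _ hv p hp (by rw [dd_5 hpa e1 e2 e3]; exact hp)
      have := (h2 a).2 ha
      rwa [dd_1 h4] at this

end Cfsg.Agent.H21.AltA
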