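import Cfsg.Agent.H21.AltA

/-! Transitive groups containing a Klein four group on four points and a quasisimple normal subgroup: main theorem. -/

set_option autoImplicit false

namespace Cfsg.Agent.H21.AltA

open Equiv MulAction commutatorElement
open scoped Pointwise

variable {Δ : Type*} [DecidableEq Δ] {G L : Subgroup (Perm Δ)}

/-- block -/
structure Q (G : Subgroup (Perm Δ)) (a b c d : Δ) : Prop where
  d4 : D4 a b c d
  m1 : dd a b c d ∈ G
  m2 : dd a c b d ∈ G

theorem Q.m3 {a b c d : Δ} (h : Q G a b c d) : dd a d b c ∈ G := by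
  rw [← dd_mul h.d4]; exact mul_mem h.m1 h.m2

theorem Q.s12 {a b c d : Δ} (h : Q G a b c d) : Q G b a c d :=
  ⟨h.d4.p1, by rw [dd_comm12]; exact h.m1, by
    rw [dd_swap (a := a) (b := d) (c := b) (d := c) h.d4.p3.p2]; exact h.m3⟩

theorem Q.s23 {a b c d : Δ} (h : Q G a b c d) : Q G a c b d := ⟨h.d4.p2, h.m2, h.m1⟩

theorem Q.s34 {a b c d : Δ} (h : Q G a b c d) : Q G a b d c :=
  ⟨h.d4.p3, by rw [dd_comm34]; exact h.m1, h.m3⟩

/-- swap of the two pairs -/
theorem Q.sp {a b c d : Δ} (h : Q G a b c d) : Q G c d a b := (h.s23.s12.s34.s23)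

theorem Q.conj {a b c d : Δ} (h : Q G a b c d) {g : Perm Δ} (hg : g ∈ G) : Q G (g a) (g b) (g c) (g d) :=
  ⟨⟨fun e => h.d4.ab (g.injective e), fun e => h.d4.ac (g.injective e), fun e => h.d4.ad (g.injective e),
    fun e => h.d4.bc (g.injective e), fun e => h.d4.bd (g.injective e), fun e => h.d4.cd (g.injective e)⟩,
    by rw [← dd_conj]; exact mul_mem (mul_mem hg h.m1) (inv_mem hg),
    by rw [← dd_conj]; exact mul_mem (mul_mem hg h.m2) (inv_mem hg)⟩

theorem uniq [Fintype Δ] (h3 : ∀ g ∈ G, ¬ g.IsThreeCycle) {a b c x y : Δ} (h1 : Q G a b c x) (h2 : Q G a b c y) : x = y := by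
  by_contra hne
  apply h3 ((dd a b c x)⁻¹ * dd a b c y) (mul_mem (inv_mem h1.m1) h2.m1)
  have : (dd a b c x)⁻¹ * dd a b c y = swap c x * swap c y := by
    rw [dd, dd, mul_inv_rev, swap_inv, swap_inv, mul_assoc, ← mul_assoc (swap a b) (swap a b), swap_mul_self, one_mul]
  rw [this]
  exact Perm.isThreeCycle_swap_mul_swap_same h1.d4.cd h2.d4.cd hne

theorem diff {a b c d e f : Δ} (h1 : Q G a b c d) (h2 : Q G a b e f) (hce : c ≠ e) (hcf : c ≠ f) (hde : d ≠ e) (hdf : d ≠ f) :
    Q G c d e f := by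
  have h3 := h1.conj h2.m2
  rw [dd_1 h2.d4.p2, dd_3 h2.d4.p2, dd_5 h1.d4.ac.symm hce h1.d4.bc.symm hcf, dd_5 h1.d4.ad.symm hde h1.d4.bd.symm hdf] at h3
  exact h3.sp

/-- translations -/
def IsT (G : Subgroup (Perm Δ)) (t : Perm Δ) : Prop := ∀ z, t z ≠ z ∧ ∀ w, w ≠ z → w ≠ t z → Q G z (t z) w (t w)

section

variable (hu : ∀ {a b c x y : Δ}, Q G a b c x → Q G a b c y → x = y) (hcard : ∀ a b : Δ, ∃ c, c ≠ a ∧ c ≠ b)

include hu hcard in
theorem T_inv {t : Perm Δ} (ht : IsT G t) (z : Δ) : t (t z) = z := by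
  obtain ⟨w, hw1, hw2⟩ := hcard z (t z)
  have h1 := (ht z).2 w hw1 hw2
  have h2 := (ht w).2 (t z) h1.d4.bc h1.d4.bd
  exact hu h2 h1.sp.s34

include hu hcard in
theorem T_det {t s : Perm Δ} (ht : IsT G t) (hs : IsT G s) {z : Δ} (h : t z = s z) : t = s := by
  ext w
  by_cases e1 : w = z
  · rw [e1, h]
  by_cases e2 : w = t z
  · rw [e2, T_inv hu hcard ht, h, T_inv hu hcard hs]
  · have h1 := (ht z).2 w e1 e2
    have h2 := (hs z).2 w e1 (h ▸ e2)
    rw [← h] at h2
    exact hu h1 h2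

include hu hcard in
theorem T_Q {t s : Perm Δ} (ht : IsT G t) (hs : IsT G s) (hne : t ≠ s) (z : Δ) : Q G z (t z) (s z) (t (s z)) :=
  (ht z).2 (s z) (hs z).1 (fun e => hne (T_det hu hcard ht hs e.symm))

include hu hcard in
theorem T_comm {t s : Perm Δ} (ht : IsT G t) (hs : IsT G s) (z : Δ) : t (s z) = s (t z) := by
  by_cases hne : t = s
  · rw [hne]
  have h1 := T_Q hu hcard ht hs hne z
  have h2 := T_Q hu hcard hs ht (Ne.symm hne) z
  exact hu h1 h2.s23

include hu hcard in
theorem T_mul {t s : Perm Δ} (ht : IsT G t) (hs : IsT G s) (hne : t ≠ s) : IsT G (t * s) := by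
  have hi := T_inv hu hcard ht
  have hj := T_inv hu hcard hs
  have hc := T_comm hu hcard ht hs
  have hnf : ∀ z, t (s z) ≠ z := fun z e => (T_Q hu hcard ht hs hne z).d4.ad e.symm
  intro z
  refine ⟨hnf z, ?_⟩
  intro w hw1 hw2
  rw [Perm.mul_apply] at hw2
  rw [Perm.mul_apply, Perm.mul_apply]
  have h1 := T_Q hu hcard ht hs hne z
  by_cases e1 : w = s z
  · rw [e1, hj]
    exact h1.s34.s23.s34
  by_cases e2 : w = t z
  · rw [e2, ← hc, hi]
    exact h1.s34.s23
  have h2 := (hs z).2 w hw1 e1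
  have h3 := (ht (s z)).2 (s w) (fun e => hw1 (s.injective e)) (fun e => e2 (by
    have := congrArg s e
    rwa [hj, ← hc, hj] at this))
  have h4 : Q G (s z) (s w) z w := h2.s12.s34.s23
  have h5 : Q G (s z) (s w) (t (s z)) (t (s w)) := h3.s23
  exact (diff h4 h5 (fun e => hnf z e.symm) (fun e => hw2 (by
    have h6 := congrArg t e
    rw [hi] at h6
    have h7 := congrArg s h6
    rw [hj, ← hc] at h7
    exact h7.symm)) hw2 (fun e => hnf w e.symm)).s23

theorem T_conj {t g : Perm Δ} (ht : IsT G t) (hg : g ∈ G) : IsT G (g * t * g⁻¹) := by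
  intro z
  have hz : g (g⁻¹ z) = z := g.apply_symm_apply z
  refine ⟨?_, ?_⟩
  · intro e
    apply (ht (g⁻¹ z)).1
    apply g.injective
    rw [hz]
    exact e
  · intro w hw1 hw2
    have hw : g (g⁻¹ w) = w := g.apply_symm_apply w
    have h1 := (ht (g⁻¹ z)).2 (g⁻¹ w) (fun e => hw1 (by
      have := congrArg g e
      rwa [hz, hw] at this)) (fun e => hw2 (by
      have := congrArg g e
      rwa [hw] at this))
    have h2 := h1.conj hg
    rw [hz, hw] at h2
    exact h2

include hu hcard in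
theorem T_exists (hex : ∀ a b c : Δ, a ≠ b → a ≠ c → b ≠ c → ∃ d, Q G a b c d) {x y : Δ} (hxy : x ≠ y) :
    ∃ t : Perm Δ, IsT G t ∧ t x = y := by
  have hF : ∀ z, ∃ w, (z = x → w = y) ∧ (z = y → w = x) ∧ (z ≠ x → z ≠ y → Q G x y z w) := by
    intro z
    by_cases e1 : z = x
    · exact ⟨y, fun _ => rfl, fun e => absurd (e1.symm.trans e) hxy, fun h => absurd e1 h⟩
    by_cases e2 : z = y
    · exact ⟨x, fun h => absurd h e1, fun _ => rfl, fun _ h => absurd e2 h⟩
    · obtain ⟨w, hw⟩ := hex x y z hxy (Ne.symm e1) (Ne.symm e2)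
      exact ⟨w, fun h => absurd h e1, fun h => absurd h e2, fun _ _ => hw⟩
  choose F hF1 hF2 hF3 using hF
  have hinv : Function.Involutive F := by
    intro z
    by_cases e1 : z = x
    · rw [hF1 z e1, hF2 y rfl, e1]
    by_cases e2 : z = y
    · rw [hF2 z e2, hF1 x rfl, e2]
    have h1 := hF3 z e1 e2
    have h2 := hF3 (F z) h1.d4.ad.symm h1.d4.bd.symm
    exact hu h2 h1.s34
  have hx : F x = y := hF1 x rfl
  have hy : F y = x := hF2 y rfl
  refine ⟨hinv.toPerm F, ?_, hx⟩
  intro z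
  show F z ≠ z ∧ ∀ w, w ≠ z → w ≠ F z → Q G z (F z) w (F w)
  by_cases e1 : z = x
  · rw [e1, hx]
    exact ⟨hxy.symm, fun w h1 h2 => hF3 w h1 h2⟩
  by_cases e2 : z = y
  · rw [e2, hy]
    exact ⟨hxy, fun w h1 h2 => (hF3 w h2 h1).s12⟩
  have h1 := hF3 z e1 e2
  refine ⟨h1.d4.cd.symm, fun w hw1 hw2 => ?_⟩
  by_cases e3 : w = x
  · rw [e3, hx]; exact h1.sp
  by_cases e4 : w = y
  · rw [e4, hy]; exact h1.sp.s34
  have h2 := hF3 w e3 e4
  exact diff h1 h2 (Ne.symm hw1) (fun e => hw2 (by rw [e, hinv])) (Ne.symm hw2) (fun e => hw1 (hinv.injective e).symm)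

include hu in
theorem T_block {e : Perm Δ} (he : IsT G e) (hei : ∀ z, e (e z) = z) {x y z w : Δ} (h : Q G x y z w) (h1 : e x ≠ y) (h2 : e x ≠ z) (h3 : e x ≠ w) :
    Q G (e x) (e y) (e z) (e w) := by
  have q1 := (he x).2 y h.d4.ab.symm (Ne.symm h1)
  have ey1 : e y ≠ z := by
    intro e'
    rw [e'] at q1
    -- Q x (e x) y z
    exact h3 (hu q1.s23.s34 h)
  have ey2 : e y ≠ w := by
    intro e'
    rw [e'] at q1
    exact h2 (hu q1.s23.s34 h.s34)
  have q2 : Q G x y (e x) (e y) := q1.s23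
  have q3 : Q G z w (e x) (e y) := diff h q2 (Ne.symm h2) (Ne.symm ey1) (Ne.symm h3) (Ne.symm ey2)
  have q4 := (he x).2 z h.d4.ac.symm (Ne.symm h2)
  have ez : w ≠ e z := by
    intro e'
    rw [← e'] at q4
    -- Q x (e x) z w
    exact h1 (hu q4.s23.s34 h.s23.s34)
  have q5 := (he z).2 w h.d4.cd.symm ez
  exact diff q3 q5.s23 (fun e' => h.d4.ac (e.injective e')) (fun e' => h.d4.ad (e.injective e'))
    (fun e' => h.d4.bc (e.injective e')) (fun e' => h.d4.bd (e.injective e'))

end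

section final

variable [Fintype Δ]

theorem three_tr (hG : IsMultiplyPretransitive G Δ 3) {a b c a' b' c' : Δ} (h1 : a ≠ b) (h2 : a ≠ c) (h3 : b ≠ c)
    (h1' : a' ≠ b') (h2' : a' ≠ c') (h3' : b' ≠ c') : ∃ g ∈ G, g a = a' ∧ g b = b' ∧ g c = c' := by
  have key : ∀ {x y z : Δ}, x ≠ y → x ≠ z → y ≠ z → Function.Injective (![x, y, z] : Fin 3 → Δ) := by
    intro x y z hxy hxz hyz i j hij
    fin_cases i <;> fin_cases j <;> simp at hij ⊢ <;> first | exact absurd hij hxy | exact absurd hij hxz | exact absurd hij hyz | exact absurd hij.symm hxy | exact absurd hij.symm hxz | exact absurd hij.symm hyz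
  let u : Fin 3 ↪ Δ := ⟨![a, b, c], key h1 h2 h3⟩
  let v : Fin 3 ↪ Δ := ⟨![a', b', c'], key h1' h2' h3'⟩
  obtain ⟨g, hg⟩ := hG.exists_smul_eq u v
  refine ⟨g, g.2, ?_, ?_, ?_⟩
  · exact congrArg (fun f : Fin 3 ↪ Δ => f 0) hg
  · exact congrArg (fun f : Fin 3 ↪ Δ => f 1) hg
  · exact congrArg (fun f : Fin 3 ↪ Δ => f 2) hg

theorem main (h8 : 8 ≤ Fintype.card Δ) (h : Setting G L) {a b c d : Δ} (h4 : D4 a b c d) (hv : dd a b c d ∈ G)
    (hv2 : dd a c b d ∈ G) : L = alternatingGroup Δ := by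
  have hprim := prim h h4 hv hv2
  have hQ : Q G a b c d := ⟨h4, hv, hv2⟩
  by_cases h3c : ∃ g ∈ G, g.IsThreeCycle
  · obtain ⟨g, hg, hg3⟩ := h3c
    have hle := Equiv.Perm.alternatingGroup_le_of_isPreprimitive_of_isThreeCycle_mem hprim hg3 hg
    have hLA : L ≤ alternatingGroup Δ := by
      intro l hl
      have hs : Group.IsSolvable ℤˣ := inferInstance
      have h1 := hom_trivial h.hq hs ((Perm.sign (α := Δ)).comp L.subtype) ⟨l, hl⟩
      exact h1
    have hN : (L.subgroupOf (alternatingGroup Δ)).Normal := by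
      constructor
      rintro ⟨x, hx⟩ hxL ⟨y, hy⟩
      rw [Subgroup.mem_subgroupOf] at hxL ⊢
      exact h.hLn y (hle hy) x hxL
    haveI : Nontrivial Δ := ⟨⟨a, b, h4.ab⟩⟩
    have hsimp : IsSimpleGroup (alternatingGroup Δ) := alternatingGroup.isSimpleGroup (by
      rw [Nat.card_eq_fintype_card]; omega)
    rcases hsimp.eq_bot_or_eq_top_of_normal _ hN with h1 | h1
    · exfalso
      apply FStar.ne_bot h.hq
      rw [Subgroup.subgroupOf_eq_bot] at h1
      rw [eq_bot_iff]
      intro l hl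
      exact h1.le_bot ⟨hl, hLA hl⟩
    · rw [Subgroup.subgroupOf_eq_top] at h1
      exact le_antisymm hLA h1
  · exfalso
    push Not at h3c
    have hu : ∀ {a b c x y : Δ}, Q G a b c x → Q G a b c y → x = y := fun h1 h2 => uniq h3c h1 h2
    have hcard : ∀ x y : Δ, ∃ z, z ≠ x ∧ z ≠ y := by
      intro x y
      obtain ⟨z, hz⟩ := Finset.exists_mem_notMem_of_card_lt_card (s := {x, y}) (t := (Finset.univ : Finset Δ)) (by
        rw [Finset.card_univ]
        exact lt_of_le_of_lt Finset.card_le_two (by omega))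
      refine ⟨z, ?_, ?_⟩ <;> rintro rfl <;> simp at hz
    have h3t : IsMultiplyPretransitive G Δ 3 := by
      refine Cfsg.Agent.S3707.result hprim {a, b, c, d} ?_ ?_ ?_
      · have : ({a, b, c, d} : Set Δ) = (({a, b, c, d} : Finset Δ) : Set Δ) := by simp
        rw [this, Set.ncard_coe_finset]
        have : ({a, b, c, d} : Finset Δ).card = 4 := by
          rw [Finset.card_insert_of_notMem, Finset.card_insert_of_notMem, Finset.card_insert_of_notMem, Finset.card_singleton]
          · simpa using h4.cd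
          · simpa using ⟨h4.bc, h4.bd⟩
          · simpa using ⟨h4.ab, h4.ac, h4.ad⟩
        omega
      · have : ({a, b, c, d} : Set Δ) = (({a, b, c, d} : Finset Δ) : Set Δ) := by simp
        rw [this, Set.ncard_coe_finset, Nat.card_eq_fintype_card]
        have := Finset.card_le_four (a := a) (b := b) (c := c) (d := d)
        omega
      · have hg : ∀ {p q r s : Δ}, Q G p q r s → ({p, q, r, s} : Set Δ) = {a, b, c, d} → ∀ y ∈ ({a, b, c, d} : Set Δ),
            ∃ g : G, (∀ z ∉ ({a, b, c, d} : Set Δ), g • z = z) ∧ g • p = y := by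
          intro p q r s hq he y hy
          rw [← he] at hy ⊢
          simp only [Set.mem_insert_iff, Set.mem_singleton_iff] at hy
          have h5 : ∀ z ∉ ({p, q, r, s} : Set Δ), z ≠ p ∧ z ≠ q ∧ z ≠ r ∧ z ≠ s := by
            intro z hz
            simpa [not_or] using hz
          rcases hy with rfl | rfl | rfl | rfl
          · exact ⟨1, fun z _ => one_smul _ z, one_smul _ _⟩
          · refine ⟨⟨_, hq.m1⟩, fun z hz => ?_, dd_1 hq.d4⟩
            obtain ⟨k1, k2, k3, k4⟩ := h5 z hz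
            exact dd_5 k1 k2 k3 k4
          · refine ⟨⟨_, hq.m2⟩, fun z hz => ?_, dd_1 hq.d4.p2⟩
            obtain ⟨k1, k2, k3, k4⟩ := h5 z hz
            exact dd_5 k1 k3 k2 k4
          · refine ⟨⟨_, hq.m3⟩, fun z hz => ?_, dd_1 hq.d4.p3.p2⟩
            obtain ⟨k1, k2, k3, k4⟩ := h5 z hz
            exact dd_5 k1 k4 k2 k3
        intro x hx y hy
        have hx' := hx
        simp only [Set.mem_insert_iff, Set.mem_singleton_iff] at hx'
        rcases hx' with rfl | rfl | rfl | rfl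
        · exact hg hQ rfl y hy
        · exact hg hQ.s12 (by ext t; simp only [Set.mem_insert_iff, Set.mem_singleton_iff]; tauto) y hy
        · exact hg hQ.sp (by ext t; simp only [Set.mem_insert_iff, Set.mem_singleton_iff]; tauto) y hy
        · exact hg hQ.sp.s12 (by ext t; simp only [Set.mem_insert_iff, Set.mem_singleton_iff]; tauto) y hy
    have hex : ∀ x y z : Δ, x ≠ y → x ≠ z → y ≠ z → ∃ w, Q G x y z w := by
      intro x y z h1 h2 h3
      obtain ⟨g, hg, rfl, rfl, rfl⟩ := three_tr h3t h4.ab h4.ac h4.bc h1 h2 h3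
      exact ⟨_, hQ.conj hg⟩
    -- a point outside the block
    obtain ⟨y', hy1, hy2, hy3, hy4⟩ : ∃ y', y' ≠ a ∧ y' ≠ b ∧ y' ≠ c ∧ y' ≠ d := by
      obtain ⟨z, hz⟩ := Finset.exists_mem_notMem_of_card_lt_card (s := {a, b, c, d}) (t := (Finset.univ : Finset Δ)) (by
        rw [Finset.card_univ]
        exact lt_of_le_of_lt Finset.card_le_four (by omega))
      refine ⟨z, ?_, ?_, ?_, ?_⟩ <;> rintro rfl <;> simp at hz
    obtain ⟨e, he, hea⟩ := T_exists hu hcard hex (Ne.symm hy1)
    have hei := T_inv hu hcard he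
    have hQe : Q G (e a) (e b) (e c) (e d) := T_block hu he hei hQ (by rw [hea]; exact hy2) (by rw [hea]; exact hy3) (by rw [hea]; exact hy4)
    have heinv : e⁻¹ = e := by
      ext z
      apply e.injective
      rw [show e (e⁻¹ z) = z from e.apply_symm_apply z, hei]
    set v := dd a b c d with hvdef
    have hvinv : v⁻¹ = v := inv_eq_of_mul_eq_one_left (dd_sq h4)
    have hc1 : IsT G (v * e * v⁻¹) := T_conj he hv
    have hne1 : v * e * v⁻¹ ≠ e := by
      intro h5
      have h6 : (v * e * v⁻¹) a = y' := by rw [h5, hea]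
      rw [hvinv, Perm.mul_apply, Perm.mul_apply, hvdef, dd_1 h4] at h6
      have h7 : dd a b c d y' = y' := dd_5 hy1 hy2 hy3 hy4
      rw [← h7] at h6
      have h8 := (dd a b c d).injective h6
      rw [← hea] at h8
      exact h4.ab (e.injective h8).symm
    have hg0 : IsT G (v * e * v⁻¹ * e) := T_mul hu hcard hc1 he hne1
    have hgG : v * e * v⁻¹ * e ∈ G := by
      have : v * e * v⁻¹ * e = v * (e * dd a b c d * e⁻¹) := by rw [← hvdef, heinv, hvinv]; group
      rw [this, dd_conj]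
      exact mul_mem hv hQe.m1
    set g₀ := v * e * v⁻¹ * e with hg₀
    -- the abelian normal subgroup
    let A : Subgroup (Perm Δ) :=
      { carrier := {g | g ∈ G ∧ (g = 1 ∨ IsT G g)}
        one_mem' := ⟨one_mem _, Or.inl rfl⟩
        mul_mem' := by
          rintro x y ⟨hx, hx'⟩ ⟨hy, hy'⟩
          refine ⟨mul_mem hx hy, ?_⟩
          rcases hx' with rfl | hx'
          · rw [one_mul]; exact hy'
          rcases hy' with rfl | hy'
          · rw [mul_one]; exact Or.inr hx'
          by_cases hxy : x = y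
          · left
            rw [hxy]
            ext z
            exact T_inv hu hcard hy' z
          · exact Or.inr (T_mul hu hcard hx' hy' hxy)
        inv_mem' := by
          rintro x ⟨hx, hx'⟩
          refine ⟨inv_mem hx, ?_⟩
          rcases hx' with rfl | hx'
          · exact Or.inl inv_one
          · right
            have : x⁻¹ = x := by
              ext z
              apply x.injective
              rw [show x (x⁻¹ z) = z from x.apply_symm_apply z, T_inv hu hcard hx']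
            rw [this]; exact hx' }
    have hAcomm : ∀ x ∈ A, ∀ y ∈ A, ∀ z, x (y z) = y (x z) := by
      rintro x ⟨-, hx⟩ y ⟨-, hy⟩ z
      rcases hx with rfl | hx
      · rfl
      rcases hy with rfl | hy
      · rfl
      exact T_comm hu hcard hx hy z
    have hAtr : ∀ x y : Δ, ∃ g ∈ A, g x = y := by
      intro x y
      by_cases hxy : x = y
      · exact ⟨1, one_mem _, hxy⟩
      · have h5 : a ≠ g₀ a := ((hg0 a).1).symm
        obtain ⟨p, hp1, hp2⟩ := hcard a (g₀ a)
        obtain ⟨q, hq1, hq2⟩ := hcard x y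
        obtain ⟨k, hk, hk1, hk2, -⟩ := three_tr h3t h5 hp1.symm hp2.symm hxy hq1.symm hq2.symm
        refine ⟨k * g₀ * k⁻¹, ⟨mul_mem (mul_mem hk hgG) (inv_mem hk), Or.inr (T_conj hg0 hk)⟩, ?_⟩
        rw [Perm.mul_apply, Perm.mul_apply, ← hk1, show k⁻¹ (k a) = a from k.symm_apply_apply a, hk2]
    have hAconj : ∀ k ∈ G, ∀ x ∈ A, k * x * k⁻¹ ∈ A := by
      rintro k hk x ⟨hx, hx'⟩
      refine ⟨mul_mem (mul_mem hk hx) (inv_mem hk), ?_⟩
      rcases hx' with rfl | hx'
      · left; group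
      · exact Or.inr (T_conj hx' hk)
    have hLA : L ≤ A := by
      rcases le_or_commute (M := A) h.hq (fun m hm l hl => h.hLn m hm.1 l hl) (fun l hl m hm => hAconj l (h.hLG hl) m hm) with h5 | h5
      · exact h5
      · intro l hl
        obtain ⟨x, hx, hxl⟩ := hAtr a (l a)
        have : l = x := by
          ext y
          obtain ⟨z, hz, rfl⟩ := hAtr a y
          have h6 : l (z a) = z (l a) := by
            rw [← Perm.mul_apply, h5 l hl z hz, Perm.mul_apply]
          rw [h6, ← hxl, hAcomm z hz x hx]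
        rw [this]; exact hx
    apply FStar.center_ne_top_of_isQuasisimple h.hq
    rw [eq_top_iff]
    rintro ⟨x, hx⟩ -
    rw [Subgroup.mem_center_iff]
    rintro ⟨y, hy⟩
    apply Subtype.ext
    ext z
    exact hAcomm y (hLA hy) x (hLA hx) z

end final

end Cfsg.Agent.H21.AltA
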