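import Cfsg.Agent.H21.AltB
import Cfsg.Agent.FStar.Layer

/-! Overgroups of Sylow 2-subgroups of the alternating group: reduction to the transitive case. -/

set_option autoImplicit false

namespace Cfsg.Agent.H21.AltA

open Equiv MulAction commutatorElement
open scoped Pointwise

theorem fix_of_comm {Δ : Type*} [Fintype Δ] [DecidableEq Δ] {L : Subgroup (Perm Δ)} (hq : Cfsg.IsQuasisimple L)
    {a b c d : Δ} (h4 : D4 a b c d) (hc : ∀ l ∈ L, l * dd a b c d = dd a b c d * l) : ∀ l ∈ L, l a = a := by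
  intro l hl
  refine fix_small hq {a, b, c, d} Finset.card_le_four ?_ l hl a (by simp)
  intro l hl x hx
  by_contra hne
  simp only [Finset.mem_insert, Finset.mem_singleton, not_or] at hne
  have h1 : dd a b c d (l x) = l x := dd_5 hne.1 hne.2.1 hne.2.2.1 hne.2.2.2
  have h2 : l (dd a b c d x) = dd a b c d (l x) := by
    rw [← Perm.mul_apply, hc l hl, Perm.mul_apply]
  rw [h1] at h2
  have h3 := l.injective h2
  simp only [Finset.mem_insert, Finset.mem_singleton] at hx
  rcases hx with rfl | rfl | rfl | rfl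
  · rw [dd_1 h4] at h3; exact h4.ab h3.symm
  · rw [dd_2 h4] at h3; exact h4.ab h3
  · rw [dd_3 h4] at h3; exact h4.cd h3.symm
  · rw [dd_4 h4] at h3; exact h4.cd h3

/-- Klein four groups inside a Sylow subgroup -/
theorem exists_klein {n : ℕ} (hn : 4 ≤ n) (P : Sylow 2 (alternatingGroup (Fin n))) :
    ∃ a b c d : Fin n, D4 a b c d ∧ dd a b c d ∈ (P : Subgroup (alternatingGroup (Fin n))).map (alternatingGroup (Fin n)).subtype ∧
      dd a c b d ∈ (P : Subgroup (alternatingGroup (Fin n))).map (alternatingGroup (Fin n)).subtype := by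
  classical
  let p : Fin 4 → Fin n := Fin.castLE hn
  have hp : Function.Injective p := Fin.castLE_injective hn
  have h4 : D4 (p 0) (p 1) (p 2) (p 3) := by
    constructor <;> · intro e; exact absurd (hp e) (by decide)
  have hsgn : ∀ {a b c d : Fin n}, D4 a b c d → dd a b c d ∈ alternatingGroup (Fin n) := by
    intro a b c d h
    rw [Perm.mem_alternatingGroup, dd, map_mul, Perm.sign_swap h.ab, Perm.sign_swap h.cd]
    rfl
  set v1 := dd (p 0) (p 1) (p 2) (p 3) with hv1
  set v2 := dd (p 0) (p 2) (p 1) (p 3) with hv2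
  have h12 : v1 * v2 = v2 * v1 := by
    have h1 := dd_mul h4
    have h2 := dd_mul h4.p2
    rw [← hv1, ← hv2] at h1
    rw [← hv1, ← hv2] at h2
    rw [h1, h2, dd_comm34]
  have hs1 : v1 * v1 = 1 := dd_sq h4
  have hs2 : v2 * v2 = 1 := dd_sq h4.p2
  let V : Subgroup (alternatingGroup (Fin n)) :=
    { carrier := {g | (g : Perm (Fin n)) = 1 ∨ (g : Perm (Fin n)) = v1 ∨ (g : Perm (Fin n)) = v2 ∨ (g : Perm (Fin n)) = v1 * v2}
      one_mem' := Or.inl rfl
      mul_mem' := by
        rintro ⟨x, hx⟩ ⟨y, hy⟩ hx' hy'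
        simp only [Set.mem_setOf_eq] at hx' hy' ⊢
        show x * y = 1 ∨ x * y = v1 ∨ x * y = v2 ∨ x * y = v1 * v2
        have e1 : v1 * (v1 * v2) = v2 := by rw [← mul_assoc, hs1, one_mul]
        have e2 : v2 * (v1 * v2) = v1 := by rw [h12, ← mul_assoc, hs2, one_mul]
        have e3 : v1 * v2 * v1 = v2 := by rw [h12, mul_assoc, hs1, mul_one]
        have e4 : v1 * v2 * v2 = v1 := by rw [mul_assoc, hs2, mul_one]
        have e5 : v1 * v2 * (v1 * v2) = 1 := by rw [mul_assoc, e2, hs1]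
        rcases hx' with rfl | rfl | rfl | rfl <;> rcases hy' with rfl | rfl | rfl | rfl <;>
          simp [hs1, hs2, e1, e2, e3, e4, e5, ← h12]
      inv_mem' := by
        rintro ⟨x, hx⟩ hx'
        simp only [Set.mem_setOf_eq] at hx' ⊢
        show x⁻¹ = 1 ∨ x⁻¹ = v1 ∨ x⁻¹ = v2 ∨ x⁻¹ = v1 * v2
        have i1 : v1⁻¹ = v1 := inv_eq_of_mul_eq_one_left hs1
        have i2 : v2⁻¹ = v2 := inv_eq_of_mul_eq_one_left hs2
        rcases hx' with rfl | rfl | rfl | rfl
        · left; exact inv_one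
        · right; left; exact i1
        · right; right; left; exact i2
        · right; right; right; rw [mul_inv_rev, i1, i2, h12] }
  have hVp : IsPGroup 2 V := by
    rintro ⟨⟨x, hx⟩, hx'⟩
    refine ⟨1, ?_⟩
    apply Subtype.ext
    apply Subtype.ext
    show x ^ (2 ^ 1) = 1
    have hx'' : x = 1 ∨ x = v1 ∨ x = v2 ∨ x = v1 * v2 := hx'
    rw [pow_one, pow_two]
    rcases hx'' with rfl | rfl | rfl | rfl
    · exact mul_one 1
    · exact hs1
    · exact hs2
    · rw [mul_assoc, ← mul_assoc v2, ← h12, mul_assoc, hs2, mul_one, hs1]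
  obtain ⟨Q, hQ⟩ := hVp.exists_le_sylow
  obtain ⟨g, hg⟩ := MulAction.exists_smul_eq (alternatingGroup (Fin n)) Q P
  have hconj : ∀ v ∈ V, g * v * g⁻¹ ∈ (P : Subgroup (alternatingGroup (Fin n))) := by
    intro v hv
    rw [← hg, Sylow.coe_subgroup_smul]
    exact Subgroup.smul_mem_pointwise_smul v (MulAut.conj g) (Q : Subgroup _) (hQ hv)
  have hgi := (g : Perm (Fin n)).injective
  refine ⟨(g : Perm (Fin n)) (p 0), (g : Perm (Fin n)) (p 1), (g : Perm (Fin n)) (p 2), (g : Perm (Fin n)) (p 3),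
    ⟨fun e => h4.ab (hgi e), fun e => h4.ac (hgi e), fun e => h4.ad (hgi e), fun e => h4.bc (hgi e), fun e => h4.bd (hgi e),
      fun e => h4.cd (hgi e)⟩, ?_, ?_⟩
  · rw [← dd_conj]
    exact ⟨_, hconj ⟨v1, hsgn h4⟩ (Or.inr (Or.inl rfl)), rfl⟩
  · rw [← dd_conj]
    exact ⟨_, hconj ⟨v2, hsgn h4.p2⟩ (Or.inr (Or.inr (Or.inl rfl))), rfl⟩

theorem reduction {n : ℕ} (hn : 8 ≤ n) (H L : Subgroup (Perm (Fin n))) (hLH : L ≤ H)
    (hLn : ∀ h ∈ H, ∀ l ∈ L, h * l * h⁻¹ ∈ L)
    (hq : Cfsg.IsQuasisimple L) (hC : ∀ h ∈ H, (∀ l ∈ L, l * h = h * l) → h ∈ L)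
    (P : Sylow 2 (alternatingGroup (Fin n)))
    (hP : (P : Subgroup (alternatingGroup (Fin n))).map (alternatingGroup (Fin n)).subtype ≤ H) :
    ∃ m, (m = n - 3 ∨ m = n - 2 ∨ m = n - 1 ∨ m = n) ∧ Nonempty (L ≃* alternatingGroup (Fin m)) := by
  classical
  obtain ⟨a, b, c, d, h4, hv1, hv2⟩ := exists_klein (by omega) P
  set T := (P : Subgroup (alternatingGroup (Fin n))).map (alternatingGroup (Fin n)).subtype with hT
  have hvH := hP hv1
  have hvH2 := hP hv2
  -- the orbit
  let D : Set (Fin n) := {x | ∃ h ∈ H, h a = x}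
  have haD : a ∈ D := ⟨1, one_mem _, rfl⟩
  have hDinv : ∀ h ∈ H, ∀ x, x ∈ D → h x ∈ D := by
    rintro h hh x ⟨k, hk, rfl⟩
    exact ⟨h * k, mul_mem hh hk, rfl⟩
  have hDiff : ∀ h ∈ H, ∀ x, h x ∈ D ↔ x ∈ D := by
    intro h hh x
    refine ⟨fun hx => ?_, hDinv h hh x⟩
    have := hDinv h⁻¹ (inv_mem hh) _ hx
    rwa [show h⁻¹ (h x) = x from h.symm_apply_apply x] at this
  have hbD : b ∈ D := ⟨_, hvH, dd_1 h4⟩
  have hcD : c ∈ D := ⟨_, hvH2, dd_1 h4.p2⟩
  have hdD : d ∈ D := by
    have := hDinv _ hvH c hcD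
    rwa [dd_3 h4] at this
  have hnorm : ∀ (B : Set (Fin n)), (∀ h ∈ H, ∀ x, h x ∈ B ↔ x ∈ B) → ∀ h ∈ H, ∀ m ∈ supp H B, h * m * h⁻¹ ∈ supp H B := by
    intro B hB h hh m hm
    refine ⟨mul_mem (mul_mem hh hm.1) (inv_mem hh), fun x hx => ?_⟩
    have h6 : h⁻¹ x ∉ B := fun h7 => hx ((hB h⁻¹ (inv_mem hh) x).1 h7)
    rw [Perm.mul_apply, Perm.mul_apply, hm.2 _ h6]
    exact h.apply_symm_apply x
  have hLD : L ≤ supp H D := by
    rcases le_or_commute (M := supp H D) hq (fun m hm l hl => hLn m hm.1 l hl) (fun l hl m hm => hnorm D hDiff l (hLH hl) m hm) with h1 | h1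
    · exact h1
    · exfalso
      have hvs : dd a b c d ∈ supp H D := ⟨hvH, fun x hx => dd_5 (fun e => hx (e ▸ haD)) (fun e => hx (e ▸ hbD))
        (fun e => hx (e ▸ hcD)) (fun e => hx (e ▸ hdD))⟩
      have h2 : ∀ l ∈ L, l * dd a b c d = dd a b c d * l := fun l hl => h1 l hl _ hvs
      have h3 := fix_of_comm hq h4 h2 _ (hC _ hvH h2)
      rw [dd_1 h4] at h3
      exact h4.ab h3.symm
  -- cardinalities
  set k := Nat.card D with hk
  have hkn : k + Nat.card (Dᶜ : Set (Fin n)) = n := by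
    have := Set.ncard_add_ncard_compl D
    rw [Nat.card_fin] at this
    exact this
  -- restriction homs
  let rD : H →* Perm D :=
    { toFun := fun h => (h : Perm (Fin n)).subtypePerm (fun x => hDiff h h.2 x)
      map_one' := by ext x; rfl
      map_mul' := fun a b => by ext x; rfl }
  have hDc : ∀ h ∈ H, ∀ x, h x ∈ Dᶜ ↔ x ∈ Dᶜ := by
    intro h hh x
    rw [Set.mem_compl_iff, Set.mem_compl_iff, hDiff h hh]
  let rC : H →* Perm (Dᶜ : Set (Fin n)) :=
    { toFun := fun h => (h : Perm (Fin n)).subtypePerm (fun x => hDc h h.2 x)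
      map_one' := by ext x; rfl
      map_mul' := fun a b => by ext x; rfl }
  let iP : (P : Subgroup (alternatingGroup (Fin n))) →* H :=
    { toFun := fun p => ⟨(p : alternatingGroup (Fin n)), hP ⟨p, p.2, rfl⟩⟩
      map_one' := rfl
      map_mul' := fun _ _ => rfl }
  haveI : Fact (Nat.Prime 2) := ⟨Nat.prime_two⟩
  haveI : Nontrivial (Fin n) := ⟨⟨a, b, h4.ab⟩⟩
  have hA : 2 * Nat.card (alternatingGroup (Fin n)) = n.factorial := by
    rw [two_mul_nat_card_alternatingGroup, Nat.card_perm, Nat.card_fin]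
  have hPc : Nat.card P = 2 ^ (Nat.card (alternatingGroup (Fin n))).factorization 2 := Sylow.card_eq_multiplicity P
  set A := Nat.card (alternatingGroup (Fin n)) with hAdef
  -- the rest is small
  have hsmall : Nat.card (Dᶜ : Set (Fin n)) ≤ 3 := by
    by_contra hcon
    push Not at hcon
    -- kernel on `D`
    have hker : ∃ p : (P : Subgroup (alternatingGroup (Fin n))), p ≠ 1 ∧ rD (iP p) = 1 := by
      by_contra hk0
      push Not at hk0
      have hinj : Function.Injective (rD.comp iP) := by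
        rw [injective_iff_map_eq_one]
        intro p hp
        by_contra hne
        exact hk0 p hne hp
      have h1 : Nat.card P ∣ k.factorial := by
        have h2 := Subgroup.card_dvd_of_injective (rD.comp iP) hinj
        rw [Nat.card_perm] at h2
        exact h2
      have h2 : k.factorial * 24 ∣ 2 * A := by
        rw [hA, ← hkn]
        refine (Nat.mul_dvd_mul_left _ ?_).trans (Nat.factorial_mul_factorial_dvd_factorial_add _ _)
        have : (4 : ℕ).factorial ∣ (Nat.card (Dᶜ : Set (Fin n))).factorial := Nat.factorial_dvd_factorial (by omega)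
        exact this
      have h3 : k.factorial * 12 ∣ A := by
        have : 2 * (k.factorial * 12) ∣ 2 * A := by
          rw [show 2 * (k.factorial * 12) = k.factorial * 24 by ring]; exact h2
        exact Nat.dvd_of_mul_dvd_mul_left (by norm_num) this
      have hA0 : A ≠ 0 := Nat.card_pos.ne'
      have h4 : 2 * k.factorial ∣ A := (Dvd.intro 6 (by ring)).trans h3
      rw [hPc] at h1
      have h5 : A.factorization 2 ≤ (k.factorial).factorization 2 := (Nat.prime_two.pow_dvd_iff_le_factorization (Nat.factorial_ne_zero k)).1 h1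
      have h6 := (Nat.factorization_le_iff_dvd (mul_ne_zero two_ne_zero (Nat.factorial_ne_zero k)) hA0).2 h4 2
      rw [Nat.factorization_mul two_ne_zero (Nat.factorial_ne_zero k)] at h6
      simp [Nat.prime_two.factorization_self] at h6
      omega
    obtain ⟨p, hp1, hp2⟩ := hker
    have hpH : (iP p : Perm (Fin n)) ∈ supp H Dᶜ := by
      refine ⟨(iP p).2, fun x hx => ?_⟩
      have hx' : x ∈ D := not_not.1 hx
      have := congrArg (fun f : Perm D => ((f ⟨x, hx'⟩ : D) : Fin n)) hp2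
      exact this
    rcases le_or_commute (M := supp H Dᶜ) hq (fun m hm l hl => hLn m hm.1 l hl) (fun l hl m hm => hnorm Dᶜ hDc l (hLH hl) m hm) with h1 | h1
    · apply FStar.ne_bot hq
      rw [eq_bot_iff]
      intro l hl
      rw [Subgroup.mem_bot]
      ext x
      by_cases hx : x ∈ D
      · rw [(h1 hl).2 x (not_not.2 hx)]; rfl
      · rw [(hLD hl).2 x hx]; rfl
    · have h2 := hC _ hpH.1 (fun l hl => h1 l hl _ hpH)
      apply hp1
      apply Subtype.ext
      apply Subtype.ext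
      ext x
      by_cases hx : x ∈ D
      · exact congrArg Fin.val (hpH.2 x (not_not.2 hx))
      · exact congrArg Fin.val ((hLD h2).2 x hx)
  have hk8 : 8 ≤ k := by
    by_contra hcon
    push Not at hcon
    have hinj : Function.Injective ((rD.comp iP).prod (rC.comp iP)) := by
      rw [injective_iff_map_eq_one]
      intro p hp
      have e1 : rD (iP p) = 1 := congrArg Prod.fst hp
      have e2 : rC (iP p) = 1 := congrArg Prod.snd hp
      apply Subtype.ext
      apply Subtype.ext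
      ext x
      by_cases hx : x ∈ D
      · exact congrArg Fin.val (congrArg (fun f : Perm D => ((f ⟨x, hx⟩ : D) : Fin n)) e1)
      · exact congrArg Fin.val (congrArg (fun f : Perm (Dᶜ : Set (Fin n)) => ((f ⟨x, hx⟩ : (Dᶜ : Set (Fin n))) : Fin n)) e2)
    have h1 : Nat.card P ∣ k.factorial * (n - k).factorial := by
      have h2 := Subgroup.card_dvd_of_injective _ hinj
      rw [Nat.card_prod, Nat.card_perm, Nat.card_perm] at h2
      have h3 : Nat.card (Dᶜ : Set (Fin n)) = n - k := by omega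
      rw [h3] at h2
      exact h2
    rw [hPc] at h1
    have h2 : ∀ e, 2 ^ e ∣ A → 2 ^ e ∣ k.factorial * (n - k).factorial := by
      intro e he
      refine dvd_trans ?_ h1
      exact pow_dvd_pow 2 ((Nat.prime_two.pow_dvd_iff_le_factorization Nat.card_pos.ne').1 he)
    have hn10 : n = 8 ∨ n = 9 ∨ n = 10 := by omega
    have hk5 : 5 ≤ k := by omega
    rcases hn10 with rfl | rfl | rfl
    · have hA' : A = 20160 := by
        have : (8 : ℕ).factorial = 40320 := by decide
        omega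
      have h3 := h2 6 (by rw [hA']; norm_num)
      have hk' : k = 5 ∨ k = 6 ∨ k = 7 := by omega
      rcases hk' with hk' | hk' | hk' <;> rw [hk'] at h3 <;> revert h3 <;> decide
    · have hA' : A = 181440 := by
        have : (9 : ℕ).factorial = 362880 := by decide
        omega
      have h3 := h2 6 (by rw [hA']; norm_num)
      have hk' : k = 6 ∨ k = 7 := by omega
      rcases hk' with hk' | hk' <;> rw [hk'] at h3 <;> revert h3 <;> decide
    · have hA' : A = 1814400 := by
        have : (10 : ℕ).factorial = 3628800 := by decide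
        omega
      have h3 := h2 7 (by rw [hA']; norm_num)
      have hk' : k = 7 := by omega
      rw [hk'] at h3
      revert h3; decide
  -- apply the transitive case
  let G' : Subgroup (Perm D) := rD.range
  let L' : Subgroup (Perm D) := (L.subgroupOf H).map rD
  have hinjL : Function.Injective (rD.comp (Subgroup.inclusion hLH)) := by
    rw [injective_iff_map_eq_one]
    rintro ⟨l, hl⟩ h1
    apply Subtype.ext
    ext x
    by_cases hx : x ∈ D
    · exact congrArg Fin.val (congrArg (fun f : Perm D => ((f ⟨x, hx⟩ : D) : Fin n)) h1)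
    · exact congrArg Fin.val ((hLD hl).2 x hx)
  have hL' : L' = (rD.comp (Subgroup.inclusion hLH)).range := by
    ext x
    constructor
    · rintro ⟨⟨l, hlH⟩, hl, rfl⟩
      exact ⟨⟨l, hl⟩, rfl⟩
    · rintro ⟨⟨l, hl⟩, rfl⟩
      exact ⟨⟨l, hLH hl⟩, hl, rfl⟩
  let eL : L ≃* L' := (MonoidHom.ofInjective hinjL).trans (MulEquiv.subgroupCongr hL'.symm)
  have hset : Setting G' L' := by
    refine ⟨?_, ?_, ?_, (FStar.isQuasisimple_congr eL).1 hq⟩
    · rintro ⟨x, h, hh, rfl⟩ ⟨y, h', hh', rfl⟩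
      refine ⟨rD ⟨h' * h⁻¹, mul_mem hh' (inv_mem hh)⟩, ⟨_, rfl⟩, ?_⟩
      apply Subtype.ext
      show (h' * h⁻¹) (h a) = h' a
      rw [Perm.mul_apply, show h⁻¹ (h a) = a from h.symm_apply_apply a]
    · rintro x ⟨l, hl, rfl⟩
      exact ⟨l, rfl⟩
    · rintro g ⟨h, rfl⟩ x ⟨l, hl, rfl⟩
      refine ⟨h * l * h⁻¹, hLn _ h.2 _ hl, ?_⟩
      rw [map_mul, map_mul, map_inv]
  have h4' : D4 (⟨a, haD⟩ : D) ⟨b, hbD⟩ ⟨c, hcD⟩ ⟨d, hdD⟩ :=
    ⟨fun e => h4.ab (congrArg Subtype.val e), fun e => h4.ac (congrArg Subtype.val e), fun e => h4.ad (congrArg Subtype.val e),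
      fun e => h4.bc (congrArg Subtype.val e), fun e => h4.bd (congrArg Subtype.val e), fun e => h4.cd (congrArg Subtype.val e)⟩
  have hdd : ∀ {x y z w : Fin n} (hx : x ∈ D) (hy : y ∈ D) (hz : z ∈ D) (hw : w ∈ D), D4 x y z w → ∀ hm : dd x y z w ∈ H,
      rD ⟨dd x y z w, hm⟩ = dd (⟨x, hx⟩ : D) ⟨y, hy⟩ ⟨z, hz⟩ ⟨w, hw⟩ := by
    intro x y z w hx hy hz hw h hm
    have h' : D4 (⟨x, hx⟩ : D) ⟨y, hy⟩ ⟨z, hz⟩ ⟨w, hw⟩ :=
      ⟨fun e => h.ab (congrArg Subtype.val e), fun e => h.ac (congrArg Subtype.val e), fun e => h.ad (congrArg Subtype.val e),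
      fun e => h.bc (congrArg Subtype.val e), fun e => h.bd (congrArg Subtype.val e), fun e => h.cd (congrArg Subtype.val e)⟩
    apply Equiv.ext
    rintro ⟨t, ht⟩
    apply Subtype.ext
    show dd x y z w t = _
    by_cases e1 : t = x
    · subst e1; rw [dd_1 h, dd_1 h']
    by_cases e2 : t = y
    · subst e2; rw [dd_2 h, dd_2 h']
    by_cases e3 : t = z
    · subst e3; rw [dd_3 h, dd_3 h']
    by_cases e4 : t = w
    · subst e4; rw [dd_4 h, dd_4 h']
    rw [dd_5 e1 e2 e3 e4, dd_5 (fun e => e1 (congrArg Subtype.val e)) (fun e => e2 (congrArg Subtype.val e))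
      (fun e => e3 (congrArg Subtype.val e)) (fun e => e4 (congrArg Subtype.val e))]
  have hfin := main (G := G') (L := L') (by rw [← Nat.card_eq_fintype_card]; exact hk8) hset h4'
    ⟨⟨_, hvH⟩, hdd haD hbD hcD hdD h4 hvH⟩ ⟨⟨_, hvH2⟩, hdd haD hcD hbD hdD h4.p2 hvH2⟩
  refine ⟨k, by omega, ?_⟩
  have e1 : L' ≃* alternatingGroup D := MulEquiv.subgroupCongr hfin
  have e2 : D ≃ Fin k := Finite.equivFin D
  exact ⟨eL.trans (e1.trans (Equiv.altCongrHom e2))⟩

end Cfsg.Agent.H21.AltA
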