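import Mathlib

/-! Factorizations of even permutations as products of two permutations of the same cycle type. -/

set_option autoImplicit false

namespace Cfsg.Agent.H21.CovA

open Equiv Equiv.Perm

variable {α : Type*} [Fintype α] [DecidableEq α]

theorem disj_swap {p c : α} {x : Perm α} (hp : x p = p) (hc : x c = c) :
    Disjoint (swap p c) x := by
  intro v
  by_cases h1 : v = p
  · right; rw [h1, hp]
  by_cases h2 : v = c
  · right; rw [h2, hc]
  left
  exact swap_apply_of_ne_of_ne h1 h2

theorem type_swap_mul {p c : α} (hpc : p ≠ c) {x : Perm α} (hp : x p = p) (hc : x c = c) {a : ℕ}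
    (h : x.cycleType = Multiset.replicate a 2) :
    (swap p c * x).cycleType = Multiset.replicate (a + 1) 2 := by
  rw [(disj_swap hp hc).cycleType_mul, h, (isCycle_swap hpc).cycleType, card_support_swap hpc,
    Multiset.replicate_succ]
  rfl

/-- the cycle lemma -/
theorem list_fac (l : List α) : l.Nodup → l ≠ [] → ∃ x y : Perm α, l.formPerm = x * y ∧
    x.cycleType = Multiset.replicate ((l.length - 1) / 2) 2 ∧
    y.cycleType = Multiset.replicate (l.length / 2) 2 ∧ (∀ v, v ∉ l → x v = v) ∧
    (∀ v, v ∉ l → y v = v) ∧ ∀ c l', l = c :: l' → x c = c := by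
  induction l using List.bidirectionalRec with
  | nil => intro _ h; exact absurd rfl h
  | singleton a =>
    intro _ _
    refine ⟨1, 1, by simp, by simp, by simp, fun _ _ => rfl, fun _ _ => rfl, fun _ _ _ => rfl⟩
  | cons_append q l0 p ih =>
    intro hnd _
    rcases l0 with _ | ⟨c, l'⟩
    · have hqp : q ≠ p := by
        simp at hnd
        exact hnd
      refine ⟨1, swap q p, by simp, by simp, ?_, fun _ _ => rfl, ?_, fun _ _ _ => rfl⟩
      · rw [(isCycle_swap hqp).cycleType, card_support_swap hqp]
        simp
      · intro v hv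
        simp at hv
        exact swap_apply_of_ne_of_ne hv.1 hv.2
    · have hnd' : (q :: c :: (l' ++ [p])).Nodup := by simpa using hnd
      have hnd1 : (p :: c :: l').Nodup := by
        have h1 : ((c :: l') ++ [p]).Nodup := by
          have := (List.nodup_cons.1 hnd').2
          simpa using this
        exact (List.perm_append_singleton p (c :: l')).nodup_iff.1 h1
      have hnd2 : (c :: l').Nodup := (List.nodup_cons.1 hnd1).2
      obtain ⟨x, y, h1, h2, h3, h4, h5, h6⟩ := ih hnd2 (by simp)
      have hq : q ∉ c :: (l' ++ [p]) := (List.nodup_cons.1 hnd').1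
      have hp : p ∉ c :: l' := (List.nodup_cons.1 hnd1).1
      have hqp : q ≠ p := by
        rintro rfl
        exact hq (by simp)
      have hqc : q ≠ c := by
        rintro rfl
        exact hq (by simp)
      have hpc : p ≠ c := by
        rintro rfl
        exact hp (by simp)
      have hq' : q ∉ c :: l' := by
        intro h
        apply hq
        simp only [List.mem_cons, List.mem_append] at h ⊢
        tauto
      have hxc : x c = c := h6 c l' rfl
      have hlen : (q :: ((c :: l') ++ [p])).length = (c :: l').length + 2 := by simp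
      refine ⟨swap p c * x, swap p q * y, ?_, ?_, ?_, ?_, ?_, ?_⟩
      · have e1 : (q :: ((c :: l') ++ [p])).formPerm = swap q c * (c :: (l' ++ [p])).formPerm := by
          rw [List.cons_append, List.formPerm_cons_cons]
        have e2 : (c :: (l' ++ [p])).formPerm = (p :: c :: l').formPerm := by
          have := List.formPerm_rotate_one (p :: c :: l') hnd1
          rw [← this]
          congr 1
        have e3 : x * swap p q = swap p q * x := by
          rw [Equiv.mul_swap_eq_swap_mul, h4 p hp, h4 q hq']
        rw [e1, e2, List.formPerm_cons_cons, h1]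
        calc swap q c * (swap p c * (x * y)) = (swap q c * swap p c) * (x * y) := by
              simp only [mul_assoc]
          _ = (swap p c * swap p q) * (x * y) := by
              rw [Equiv.mul_swap_eq_swap_mul (swap p c) p q, swap_apply_left,
                swap_apply_of_ne_of_ne hqp hqc, swap_comm c q]
          _ = swap p c * (swap p q * x) * y := by simp only [mul_assoc]
          _ = swap p c * (x * swap p q) * y := by rw [e3]
          _ = swap p c * x * (swap p q * y) := by simp only [mul_assoc]
      · rw [type_swap_mul hpc (h4 p hp) hxc h2, hlen]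
        congr 1
        simp only [List.length_cons]
        omega
      · rw [type_swap_mul hqp.symm (h5 p hp) (h5 q hq') h3, hlen]
        congr 1
        omega
      · intro v hv
        simp only [List.mem_cons, List.mem_append, List.not_mem_nil, not_or, or_false] at hv
        have hv1 : v ∉ c :: l' := by
          simp only [List.mem_cons, not_or]; tauto
        rw [Perm.mul_apply, h4 v hv1, swap_apply_of_ne_of_ne (by tauto) (by tauto)]
      · intro v hv
        simp only [List.mem_cons, List.mem_append, List.not_mem_nil, not_or, or_false] at hv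
        have hv1 : v ∉ c :: l' := by
          simp only [List.mem_cons, not_or]; tauto
        rw [Perm.mul_apply, h5 v hv1, swap_apply_of_ne_of_ne (by tauto) (by tauto)]
      · intro c' l'' h
        have : q = c' := (List.cons.inj h).1
        rw [← this, Perm.mul_apply, h4 q hq', swap_apply_of_ne_of_ne hqp hqc]

/-- factorization into involutions of given sizes -/
def Fac (g : Perm α) (a b : ℕ) : Prop :=
  ∃ x y : Perm α, g = x * y ∧ x.cycleType = Multiset.replicate a 2 ∧
    y.cycleType = Multiset.replicate b 2 ∧ (∀ v, g v = v → x v = v) ∧ (∀ v, g v = v → y v = v)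

theorem Fac.inv {g : Perm α} {a b : ℕ} (h : Fac g a b) : Fac g⁻¹ b a := by
  obtain ⟨x, y, h1, h2, h3, h4, h5⟩ := h
  refine ⟨y⁻¹, x⁻¹, by rw [h1, mul_inv_rev], by rw [cycleType_inv, h3], by rw [cycleType_inv, h2],
    ?_, ?_⟩
  · intro v hv
    exact inv_eq_iff_eq.2 (h5 v (inv_eq_iff_eq.1 hv).symm).symm
  · intro v hv
    exact inv_eq_iff_eq.2 (h4 v (inv_eq_iff_eq.1 hv).symm).symm

theorem Fac.mul {g h : Perm α} {a b c d : ℕ} (hd : Disjoint g h) (hg : Fac g a b)
    (hh : Fac h c d) : Fac (g * h) (a + c) (b + d) := by
  obtain ⟨x, y, h1, h2, h3, h4, h5⟩ := hg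
  obtain ⟨x', y', h1', h2', h3', h4', h5'⟩ := hh
  have dxx : Disjoint x x' := fun v => (hd v).imp (h4 v) (h4' v)
  have dyy : Disjoint y y' := fun v => (hd v).imp (h5 v) (h5' v)
  have dyx : Disjoint y x' := fun v => (hd v).imp (h5 v) (h4' v)
  refine ⟨x * x', y * y', ?_, ?_, ?_, ?_, ?_⟩
  · rw [h1, h1']
    calc x * y * (x' * y') = x * (y * x') * y' := by simp only [mul_assoc]
      _ = x * (x' * y) * y' := by rw [dyx.commute.eq]
      _ = x * x' * (y * y') := by simp only [mul_assoc]
  · rw [dxx.cycleType_mul, h2, h2', Multiset.replicate_add]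
  · rw [dyy.cycleType_mul, h3, h3', Multiset.replicate_add]
  · intro v hv
    have := (hd.mul_apply_eq_iff).1 hv
    rw [Perm.mul_apply, h4' v this.2, h4 v this.1]
  · intro v hv
    have := (hd.mul_apply_eq_iff).1 hv
    rw [Perm.mul_apply, h5' v this.2, h5 v this.1]

/-- a cycle as a list -/
theorem exists_list {g : Perm α} (hg : g.IsCycle) : ∃ l : List α, l.Nodup ∧ l.formPerm = g ∧
    l.length = g.support.card ∧ ∀ v, g v = v ↔ v ∉ l := by
  obtain ⟨a, ha⟩ := hg.nonempty_support
  refine ⟨toList g a, nodup_toList g a, ?_, ?_, ?_⟩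
  · rw [formPerm_toList, hg.cycleOf_eq (mem_support.1 ha)]
  · rw [length_toList, hg.cycleOf_eq (mem_support.1 ha)]
  · intro v
    rw [mem_toList_iff, not_and_or]
    constructor
    · intro h
      left
      intro h2
      exact mem_support.1 ha ((h2.apply_eq_self_iff).2 h)
    · rintro (h | h)
      · by_contra hv
        exact h (hg.sameCycle (mem_support.1 ha) hv)
      · exact absurd ha h

theorem fac_cycle {g : Perm α} (hg : g.IsCycle) :
    Fac g ((g.support.card - 1) / 2) (g.support.card / 2) := by
  obtain ⟨l, h1, h2, h3, h4⟩ := exists_list hg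
  have hne : l ≠ [] := by
    rintro rfl
    have := hg.two_le_card_support
    rw [← h3] at this
    simp at this
  obtain ⟨x, y, k1, k2, k3, k4, k5, -⟩ := list_fac l h1 hne
  rw [h3] at k2 k3
  rw [h2] at k1
  exact ⟨x, y, k1, k2, k3, fun v hv => k4 v ((h4 v).1 hv), fun v hv => k5 v ((h4 v).1 hv)⟩

theorem fac_cycle' {g : Perm α} (hg : g.IsCycle) :
    Fac g (g.support.card / 2) ((g.support.card - 1) / 2) := by
  have := (fac_cycle hg.inv).inv
  rwa [inv_inv, support_inv] at this

/-- the sum of the lengths minus one -/
def N (g : Perm α) : ℕ := (g.cycleType.map (fun k => k - 1)).sum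

theorem N_mul {g h : Perm α} (hd : Disjoint g h) : N (g * h) = N g + N h := by
  unfold N
  rw [hd.cycleType_mul, Multiset.map_add, Multiset.sum_add]

theorem N_cycle {g : Perm α} (hg : g.IsCycle) : N g = g.support.card - 1 := by
  unfold N
  rw [hg.cycleType]; simp

theorem N_one : N (1 : Perm α) = 0 := by unfold N; simp

theorem N_pos {g : Perm α} (hg : g ≠ 1) : 0 < N g := by
  rw [Nat.pos_iff_ne_zero]
  intro h
  apply hg
  rw [← cycleType_eq_zero]
  rw [Multiset.eq_zero_iff_forall_notMem]
  intro k hk
  unfold N at h
  rw [Multiset.sum_eq_zero_iff] at h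
  have h1 := h (k - 1) (Multiset.mem_map_of_mem _ hk)
  have h2 := two_le_of_mem_cycleType hk
  omega

theorem exists_fac (g : Perm α) : ∀ a b : ℕ, a + b = N g → a ≤ b + 1 → b ≤ a + 1 → Fac g a b := by
  induction g using cycle_induction_on with
  | base_one =>
    intro a b h _ _
    rw [N_one] at h
    obtain rfl : a = 0 := by omega
    obtain rfl : b = 0 := by omega
    exact ⟨1, 1, by simp, by simp, by simp, fun _ _ => rfl, fun _ _ => rfl⟩
  | base_cycles σ hσ =>
    intro a b h h1 h2
    rw [N_cycle hσ] at h
    have h3 := hσ.two_le_card_support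
    rcases Nat.lt_or_ge b a with h4 | h4
    · have := fac_cycle' hσ
      have ea : σ.support.card / 2 = a := by omega
      have eb : (σ.support.card - 1) / 2 = b := by omega
      rwa [ea, eb] at this
    · have := fac_cycle hσ
      have ea : σ.support.card / 2 = b := by omega
      have eb : (σ.support.card - 1) / 2 = a := by omega
      rwa [ea, eb] at this
  | induction_disjoint σ τ hd hσ h1 h2 =>
    intro a b h h3 h4
    rw [N_mul hd] at h
    obtain ⟨a1, b1, a2, b2, e1, e2, e3, e4, l1, l2, l3, l4⟩ : ∃ a1 b1 a2 b2 : ℕ, a1 + b1 = N σ ∧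
        a2 + b2 = N τ ∧ a1 + a2 = a ∧ b1 + b2 = b ∧ a1 ≤ b1 + 1 ∧ b1 ≤ a1 + 1 ∧ a2 ≤ b2 + 1 ∧
        b2 ≤ a2 + 1 := by
      rcases Nat.even_or_odd' (N σ) with ⟨u, hu | hu⟩
      · exact ⟨u, u, a - u, b - u, by omega, by omega, by omega, by omega, by omega, by omega,
          by omega, by omega⟩
      · rcases Nat.even_or_odd' (N τ) with ⟨w, hw | hw⟩
        · exact ⟨a - w, b - w, w, w, by omega, by omega, by omega, by omega, by omega, by omega,
            by omega, by omega⟩
        · exact ⟨u + 1, u, w, w + 1, by omega, by omega, by omega, by omega, by omega, by omega,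
            by omega, by omega⟩
    rw [← e3, ← e4]
    exact Fac.mul hd (h1 _ _ e1 l1 l2) (h2 _ _ e2 l3 l4)

theorem sum_add_card (M : Multiset ℕ) (h : ∀ k ∈ M, 2 ≤ k) :
    M.sum + M.card = (M.map (fun k => k - 1)).sum + 2 * M.card := by
  induction M using Multiset.induction_on with
  | empty => simp
  | cons a s ih =>
    have h1 := ih (fun k hk => h k (Multiset.mem_cons_of_mem hk))
    have h2 := h a (Multiset.mem_cons_self a s)
    simp only [Multiset.sum_cons, Multiset.card_cons, Multiset.map_cons]
    omega

theorem even_N {g : Perm α} : sign g = 1 ↔ Even (N g) := by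
  rw [sign_of_cycleType, sum_add_card _ (fun k hk => two_le_of_mem_cycleType hk), pow_add,
    pow_mul]
  have : ((-1 : ℤˣ) ^ 2) = 1 := by decide
  rw [this, one_pow, mul_one]
  show (-1 : ℤˣ) ^ (N g) = 1 ↔ _
  rcases Nat.even_or_odd (N g) with h | h
  · simp [h.neg_one_pow, h]
  · rw [h.neg_one_pow]
    constructor
    · intro h'; exact absurd h' (by decide)
    · intro h'; exact absurd h' (Nat.not_even_iff_odd.2 h)

end Cfsg.Agent.H21.CovA
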