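import Cfsg.Agent.H21.CoverA

/-! Every nontrivial even permutation of degree at least five is a product of two permutations
of the same cycle type, with at least two cycles of length two. -/

set_option autoImplicit false

namespace Cfsg.Agent.H21.CovA

open Equiv Equiv.Perm

variable {α : Type*} [Fintype α] [DecidableEq α]

/-- the factorizations we want -/
def Good (g : Perm α) : Prop := ∃ x y : Perm α, g = x * y ∧ x.cycleType = y.cycleType ∧
  sign x = 1 ∧ ∃ M : Multiset ℕ, x.cycleType = 2 ::ₘ 2 ::ₘ M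

theorem sign_one {x : Perm α} {M : Multiset ℕ} (h : x.cycleType = M) (h2 : Even (M.sum + M.card)) :
    sign x = 1 := by
  rw [sign_of_cycleType, h, h2.neg_one_pow]

theorem good_of {g : Perm α} {t : ℕ} {x y : Perm α} (hg : g = x * y)
    (h1 : x.cycleType = Multiset.replicate t 2) (h2 : y.cycleType = Multiset.replicate t 2)
    (ht : Even t) (h0 : t ≠ 0) : Good g := by
  obtain ⟨u, rfl⟩ := ht
  obtain ⟨w, hw⟩ : ∃ w, u + u = w + 1 + 1 := ⟨u + u - 2, by omega⟩
  refine ⟨x, y, hg, by rw [h1, h2], sign_one h1 ?_, Multiset.replicate w 2, ?_⟩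
  · rw [Multiset.sum_replicate, Multiset.card_replicate, smul_eq_mul]
    exact ⟨u * 3, by ring⟩
  · rw [h1, hw, Multiset.replicate_succ, Multiset.replicate_succ]

theorem good_of' {g : Perm α} {t k : ℕ} {x y : Perm α} (hg : g = x * y)
    (h1 : x.cycleType = k ::ₘ Multiset.replicate t 2)
    (h2 : y.cycleType = k ::ₘ Multiset.replicate t 2)
    (ht : Even (t + k + 1)) (h0 : 2 ≤ t) : Good g := by
  obtain ⟨w, hw⟩ : ∃ w, t = w + 1 + 1 := ⟨t - 2, by omega⟩
  refine ⟨x, y, hg, by rw [h1, h2], sign_one h1 ?_, k ::ₘ Multiset.replicate w 2, ?_⟩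
  · rw [Multiset.sum_cons, Multiset.card_cons, Multiset.sum_replicate, Multiset.card_replicate,
      smul_eq_mul]
    obtain ⟨r, hr⟩ := ht
    exact ⟨r + t, by omega⟩
  · rw [h1, hw, Multiset.replicate_succ, Multiset.replicate_succ, Multiset.cons_swap k 2,
      Multiset.cons_swap k 2]

theorem three_type {a b c : α} (ab : a ≠ b) (ac : a ≠ c) (bc : b ≠ c) :
    (swap a b * swap a c).cycleType = {3} := isThreeCycle_swap_mul_swap_same ab ac bc

/-- two even cycles -/
theorem pair_fac {g1 g2 : Perm α} (h1 : g1.IsCycle) (h2 : g2.IsCycle) (hd : Disjoint g1 g2)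
    {m1 m2 : ℕ} (c1 : g1.support.card = 2 * m1 + 2) (c2 : g2.support.card = 2 * m2 + 2) :
    ∃ x y : Perm α, g1 * g2 = x * y ∧ x.cycleType = 3 ::ₘ Multiset.replicate (m1 + m2) 2 ∧
      y.cycleType = 3 ::ₘ Multiset.replicate (m1 + m2) 2 ∧
      (∀ v, g1 v = v → g2 v = v → x v = v) ∧ (∀ v, g1 v = v → g2 v = v → y v = v) := by
  obtain ⟨l1, n1, f1, len1, fix1⟩ := exists_list h1
  obtain ⟨l2, n2, f2, len2, fix2⟩ := exists_list h2.inv
  rw [support_inv] at len2
  obtain ⟨p, q, l, rfl⟩ : ∃ p q l, l1 = p :: q :: l := by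
    rcases l1 with _ | ⟨p, _ | ⟨q, l⟩⟩
    · rw [c1] at len1; simp at len1
    · rw [c1] at len1; simp at len1
    · exact ⟨p, q, l, rfl⟩
  obtain ⟨r, s, l', rfl⟩ : ∃ p q l, l2 = p :: q :: l := by
    rcases l2 with _ | ⟨p, _ | ⟨q, l⟩⟩
    · rw [c2] at len2; simp at len2
    · rw [c2] at len2; simp at len2
    · exact ⟨p, q, l, rfl⟩
  have fix2' : ∀ v, g2 v = v ↔ v ∉ r :: s :: l' := by
    intro v
    rw [← fix2 v]
    constructor
    · intro h; exact (inv_eq_iff_eq.2 h.symm)
    · intro h; exact (inv_eq_iff_eq.1 h).symm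
  obtain ⟨x1, y1, a1, a2, a3, a4, a5, a6⟩ := list_fac (q :: l) (List.nodup_cons.1 n1).2 (by simp)
  obtain ⟨X, Y, b1, b2, b3, b4, b5, b6⟩ := list_fac (s :: l') (List.nodup_cons.1 n2).2 (by simp)
  have a6' := a6 q l rfl
  have b6' := b6 s l' rfl
  have e1 : g1 = swap p q * (x1 * y1) := by rw [← f1, List.formPerm_cons_cons, a1]
  have e2 : g2⁻¹ = swap r s * (X * Y) := by rw [← f2, List.formPerm_cons_cons, b1]
  have e2' : g2 = Y⁻¹ * X⁻¹ * swap r s := by
    rw [← inv_inv g2, e2, mul_inv_rev, mul_inv_rev, swap_inv]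
  have hp1 : p ∉ q :: l := (List.nodup_cons.1 n1).1
  have hr1 : r ∉ s :: l' := (List.nodup_cons.1 n2).1
  have hm : ∀ v, v ∈ p :: q :: l → v ∉ r :: s :: l' := by
    intro v hv
    rw [← fix2' v]
    rcases hd v with h | h
    · exact absurd hv ((fix1 v).1 h)
    · exact h
  have hmp := hm p (by simp)
  have hmq := hm q (by simp)
  have hpq : p ≠ q := fun h => hp1 (by rw [h]; simp)
  have hrs : r ≠ s := fun h => hr1 (by rw [h]; simp)
  have hpr : p ≠ r := fun h => hmp (by rw [h]; simp)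
  have hps : p ≠ s := fun h => hmp (by rw [h]; simp)
  have hqr : q ≠ r := fun h => hmq (by rw [h]; simp)
  have hqs : q ≠ s := fun h => hmq (by rw [h]; simp)
  have hr2 : r ∉ p :: q :: l := fun h => hm r h (by simp)
  have hs2 : s ∉ p :: q :: l := fun h => hm s h (by simp)
  have hr3 : r ∉ q :: l := fun h => hr2 (List.mem_cons_of_mem _ h)
  have hs3 : s ∉ q :: l := fun h => hs2 (List.mem_cons_of_mem _ h)
  have hp3 : p ∉ s :: l' := fun h => hmp (List.mem_cons_of_mem _ h)
  have hq3 : q ∉ s :: l' := fun h => hmq (List.mem_cons_of_mem _ h)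
  have hinv : ∀ (Z : Perm α) (v : α), Z v = v → Z⁻¹ v = v := fun Z v h => inv_eq_iff_eq.2 h.symm
  -- disjointness in general
  have dis : ∀ (A B : Perm α), (∀ v, v ∉ q :: l → A v = v) → (∀ v, v ∉ s :: l' → B v = v) →
      Disjoint A B := by
    intro A B hA hB v
    by_cases hv : v ∈ q :: l
    · right
      exact hB v (fun h => hm v (List.mem_cons_of_mem _ hv) (List.mem_cons_of_mem _ h))
    · left; exact hA v hv
  have hX : ∀ v, v ∉ s :: l' → X⁻¹ v = v := fun v hv => hinv X v (b4 v hv)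
  have hY : ∀ v, v ∉ s :: l' → Y⁻¹ v = v := fun v hv => hinv Y v (b5 v hv)
  have d12 : Disjoint x1 Y⁻¹ := dis _ _ a4 hY
  have d34 : Disjoint y1 X⁻¹ := dis _ _ a5 hX
  have d32 : Disjoint y1 Y⁻¹ := dis _ _ a5 hY
  have comm_sw : ∀ (Z : Perm α) (u v : α), Z u = u → Z v = v → Z * swap u v = swap u v * Z := by
    intro Z u v hu hv
    rw [Equiv.mul_swap_eq_swap_mul, hu, hv]
  have k1 : x1 p = p := a4 p hp1
  have k2 : y1 p = p := a5 p hp1
  have D1 : Disjoint (x1 * Y⁻¹) (swap r p * swap r q) := by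
    intro v
    by_cases h1 : v = r
    · left; rw [h1, Perm.mul_apply, hY r hr1, a4 r hr3]
    by_cases h2 : v = p
    · left; rw [h2, Perm.mul_apply, hY p hp3, k1]
    by_cases h3 : v = q
    · left; rw [h3, Perm.mul_apply, hY q hq3, a6']
    right
    rw [Perm.mul_apply, swap_apply_of_ne_of_ne h1 h3, swap_apply_of_ne_of_ne h1 h2]
  have D2 : Disjoint (swap r p * swap r s) (y1 * X⁻¹) := by
    intro v
    by_cases h1 : v = r
    · right; rw [h1, Perm.mul_apply, hX r hr1, a5 r hr3]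
    by_cases h2 : v = p
    · right; rw [h2, Perm.mul_apply, hX p hp3, k2]
    by_cases h3 : v = s
    · right; rw [h3, Perm.mul_apply, hinv X s b6', a5 s hs3]
    left
    rw [Perm.mul_apply, swap_apply_of_ne_of_ne h1 h3, swap_apply_of_ne_of_ne h1 h2]
  have l1' : ((q :: l).length - 1) / 2 = m1 := by
    rw [c1] at len1
    simp only [List.length_cons] at len1 ⊢
    omega
  have l1'' : (q :: l).length / 2 = m1 := by
    rw [c1] at len1
    simp only [List.length_cons] at len1 ⊢
    omega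
  have l2' : ((s :: l').length - 1) / 2 = m2 := by
    rw [c2] at len2
    simp only [List.length_cons] at len2 ⊢
    omega
  have l2'' : (s :: l').length / 2 = m2 := by
    rw [c2] at len2
    simp only [List.length_cons] at len2 ⊢
    omega
  rw [l1'] at a2
  rw [l1''] at a3
  rw [l2'] at b2
  rw [l2''] at b3
  refine ⟨(x1 * Y⁻¹) * (swap r p * swap r q), (swap r p * swap r s) * (y1 * X⁻¹), ?_, ?_, ?_, ?_, ?_⟩
  · have h1 := comm_sw x1 p q k1 a6'
    have h2 := comm_sw Y⁻¹ p q (hY p hp3) (hY q hq3)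
    have h3 := comm_sw y1 r s (a5 r hr3) (a5 s hs3)
    have h4 := comm_sw X⁻¹ r s (hX r hr1) (hinv X s b6')
    have h5 : swap p q * swap r s = (swap r p * swap r q) * (swap r p * swap r s) := by
      have : (swap r p * swap r q) = swap p q * swap r p := by
        rw [Equiv.mul_swap_eq_swap_mul, swap_apply_left, swap_apply_of_ne_of_ne hqr hpq.symm]
      rw [this]
      calc swap p q * swap r s = swap p q * (swap r p * swap r p) * swap r s := by
            rw [swap_mul_self, mul_one]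
        _ = _ := by simp only [mul_assoc]
    rw [e1, e2']
    calc swap p q * (x1 * y1) * (Y⁻¹ * X⁻¹ * swap r s)
        = (swap p q * x1) * (y1 * Y⁻¹) * (X⁻¹ * swap r s) := by simp only [mul_assoc]
      _ = (x1 * swap p q) * (Y⁻¹ * y1) * (swap r s * X⁻¹) := by rw [h1, d32.commute.eq, h4]
      _ = x1 * (swap p q * Y⁻¹) * (y1 * swap r s) * X⁻¹ := by simp only [mul_assoc]
      _ = x1 * (Y⁻¹ * swap p q) * (swap r s * y1) * X⁻¹ := by rw [h2, h3]
      _ = x1 * Y⁻¹ * (swap p q * swap r s) * (y1 * X⁻¹) := by simp only [mul_assoc]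
      _ = x1 * Y⁻¹ * ((swap r p * swap r q) * (swap r p * swap r s)) * (y1 * X⁻¹) := by rw [h5]
      _ = _ := by simp only [mul_assoc]
  · rw [D1.cycleType_mul, d12.cycleType_mul, a2, cycleType_inv, b3,
      three_type hpr.symm hqr.symm hpq, ← Multiset.replicate_add, add_comm, Multiset.singleton_add]
  · rw [D2.cycleType_mul, d34.cycleType_mul, a3, cycleType_inv, b2,
      three_type hpr.symm hrs hps, ← Multiset.replicate_add, Multiset.singleton_add]
  · intro v hv1 hv2
    rw [fix1 v] at hv1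
    rw [fix2' v] at hv2
    have w1 : v ≠ p := fun h => hv1 (by rw [h]; simp)
    have w2 : v ≠ q := fun h => hv1 (by rw [h]; simp)
    have w3 : v ≠ r := fun h => hv2 (by rw [h]; simp)
    have w5 : v ∉ q :: l := fun h => hv1 (List.mem_cons_of_mem _ h)
    have w6 : v ∉ s :: l' := fun h => hv2 (List.mem_cons_of_mem _ h)
    simp only [Perm.mul_apply]
    rw [swap_apply_of_ne_of_ne w3 w2, swap_apply_of_ne_of_ne w3 w1, hY v w6, a4 v w5]
  · intro v hv1 hv2
    rw [fix1 v] at hv1
    rw [fix2' v] at hv2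
    have w1 : v ≠ p := fun h => hv1 (by rw [h]; simp)
    have w3 : v ≠ r := fun h => hv2 (by rw [h]; simp)
    have w4 : v ≠ s := fun h => hv2 (by rw [h]; simp)
    have w5 : v ∉ q :: l := fun h => hv1 (List.mem_cons_of_mem _ h)
    have w6 : v ∉ s :: l' := fun h => hv2 (List.mem_cons_of_mem _ h)
    simp only [Perm.mul_apply]
    rw [hX v w6, a5 v w5, swap_apply_of_ne_of_ne w3 w4, swap_apply_of_ne_of_ne w3 w1]

/-- odd cycles are squares of cycles -/
theorem sq_cycle {c : Perm α} (hc : c.IsCycle) (ho : c.support.card % 2 = 1) :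
    ∃ d : Perm α, c = d * d ∧ d.cycleType = {c.support.card} ∧ ∀ v, c v = v → d v = v := by
  have hord := hc.orderOf
  set k := c.support.card with hk
  obtain ⟨m, hm⟩ : ∃ m, k = 2 * m + 1 := ⟨k / 2, by omega⟩
  have hcop : (m + 1).Coprime (orderOf c) := by
    rw [hord, hm, Nat.coprime_iff_gcd_eq_one]
    have h1 : Nat.gcd (m + 1) (2 * m + 1) ∣ 1 := by
      have h2 : Nat.gcd (m + 1) (2 * m + 1) ∣ 2 * (m + 1) := (Nat.gcd_dvd_left _ _).mul_left 2
      have h3 := (Nat.dvd_sub h2 (Nat.gcd_dvd_right (m + 1) (2 * m + 1)))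
      have h4 : 2 * (m + 1) - (2 * m + 1) = 1 := by omega
      rwa [h4] at h3
    exact Nat.dvd_one.1 h1
  refine ⟨c ^ (m + 1), ?_, ?_, ?_⟩
  · rw [← pow_add]
    have : m + 1 + (m + 1) = orderOf c + 1 := by rw [hord]; omega
    rw [this, pow_add, pow_orderOf_eq_one, one_mul, pow_one]
  · rw [((hc.pow_iff).2 hcop).cycleType, support_pow_coprime hcop]
  · intro v hv
    exact pow_apply_eq_self_of_apply_eq_self hv _

end Cfsg.Agent.H21.CovA
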