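import Cfsg.Agent.H21.CoverB

/-! The main combinatorial statement. -/

set_option autoImplicit false

namespace Cfsg.Agent.H21.CovA

open Equiv Equiv.Perm

variable {α : Type*} [Fintype α] [DecidableEq α]

theorem fp_append (u : List α) (c : α) (v : List α) :
    (u ++ c :: v).formPerm = (u ++ [c]).formPerm * (c :: v).formPerm := by
  induction u with
  | nil => simp
  | cons a u ih =>
    rcases u with _ | ⟨b, u'⟩
    · simp [List.formPerm_cons_cons]
    · simp only [List.cons_append, List.formPerm_cons_cons] at ih ⊢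
      rw [ih, mul_assoc]

theorem type_form {l : List α} (hn : l.Nodup) (hl : 2 ≤ l.length) :
    l.formPerm.cycleType = {l.length} := by
  rw [(List.isCycle_formPerm hn hl).cycleType, List.support_formPerm_of_nodup l hn]
  · rw [List.toFinset_card_of_nodup hn]
  · rintro x rfl
    simp at hl

theorem five {c d e f h : α} (hn : [c, d, e, f, h].Nodup) :
    [c, d, e, f, h].formPerm = [d, e, h, f].formPerm * [c, f, e, h].formPerm := by
  simp only [List.nodup_cons, List.mem_cons, List.not_mem_nil, not_or, or_false,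
    not_false_eq_true, List.nodup_nil, and_true] at hn
  obtain ⟨⟨n1, n2, n3, n4⟩, ⟨n5, n6, n7⟩, ⟨n8, n9⟩, n10⟩ := hn
  simp only [List.formPerm_cons_cons, List.formPerm_singleton, mul_one]
  have key : ∀ v, (swap c d * (swap d e * (swap e f * swap f h))) v =
      (swap d e * (swap e h * swap h f) * (swap c f * (swap f e * swap e h))) v := by
    intro v
    simp only [Perm.mul_apply]
    by_cases v1 : v = c
    · subst v1
      rw [swap_apply_of_ne_of_ne n3 n4, swap_apply_of_ne_of_ne n2 n3,
        swap_apply_of_ne_of_ne n1 n2, swap_apply_left, swap_apply_of_ne_of_ne n2 n4,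
        swap_apply_of_ne_of_ne n3 n2, swap_apply_left, swap_apply_right, swap_apply_right,
        swap_apply_right]
    by_cases v2 : v = d
    · subst v2
      rw [swap_apply_of_ne_of_ne n6 n7, swap_apply_of_ne_of_ne n5 n6, swap_apply_left,
        swap_apply_of_ne_of_ne (Ne.symm n2) (Ne.symm n5), swap_apply_of_ne_of_ne n5 n7,
        swap_apply_of_ne_of_ne n6 n5, swap_apply_of_ne_of_ne (Ne.symm n1) n6,
        swap_apply_of_ne_of_ne n7 n6, swap_apply_of_ne_of_ne n5 n7, swap_apply_left]
    by_cases v3 : v = e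
    · subst v3
      rw [swap_apply_of_ne_of_ne n8 n9, swap_apply_left,
        swap_apply_of_ne_of_ne (Ne.symm n6) (Ne.symm n8),
        swap_apply_of_ne_of_ne (Ne.symm n3) (Ne.symm n6), swap_apply_left,
        swap_apply_of_ne_of_ne (Ne.symm n10) (Ne.symm n9),
        swap_apply_of_ne_of_ne (Ne.symm n4) (Ne.symm n10), swap_apply_left,
        swap_apply_of_ne_of_ne (Ne.symm n8) n10, swap_apply_of_ne_of_ne (Ne.symm n6) (Ne.symm n8)]
    by_cases v4 : v = f
    · subst v4
      rw [swap_apply_left, swap_apply_of_ne_of_ne (Ne.symm n9) (Ne.symm n10),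
        swap_apply_of_ne_of_ne (Ne.symm n7) (Ne.symm n9),
        swap_apply_of_ne_of_ne (Ne.symm n4) (Ne.symm n7), swap_apply_of_ne_of_ne (Ne.symm n8) n10,
        swap_apply_left, swap_apply_of_ne_of_ne (Ne.symm n2) n8, swap_apply_of_ne_of_ne n9 n8,
        swap_apply_left, swap_apply_of_ne_of_ne (Ne.symm n7) (Ne.symm n9)]
    by_cases v5 : v = h
    · subst v5
      rw [swap_apply_right, swap_apply_right, swap_apply_right, swap_apply_right,
        swap_apply_right, swap_apply_right, swap_apply_right, swap_apply_of_ne_of_ne n4 n3,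
        swap_apply_of_ne_of_ne n2 n4, swap_apply_of_ne_of_ne n1 n2]
    rw [swap_apply_of_ne_of_ne v4 v5, swap_apply_of_ne_of_ne v3 v4,
      swap_apply_of_ne_of_ne v2 v3, swap_apply_of_ne_of_ne v1 v2, swap_apply_of_ne_of_ne v3 v5,
      swap_apply_of_ne_of_ne v4 v3, swap_apply_of_ne_of_ne v1 v4, swap_apply_of_ne_of_ne v5 v4,
      swap_apply_of_ne_of_ne v3 v5, swap_apply_of_ne_of_ne v2 v3]
  exact Equiv.ext key

theorem cycle_big {g : Perm α} (hg : g.IsCycle) (h3 : g.support.card % 4 = 3)
    (h11 : 11 ≤ g.support.card) : Good g := by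
  obtain ⟨l, n, f, len, -⟩ := exists_list hg
  set m := g.support.card with hm
  set u := l.take (m - 5) with hu
  have hul : u.length = m - 5 := by rw [hu, List.length_take]; omega
  obtain ⟨c, d, e, f', h, htail⟩ : ∃ c d e f h, l.drop (m - 5) = [c, d, e, f, h] := by
    have hl : (l.drop (m - 5)).length = 5 := by rw [List.length_drop]; omega
    rcases hL : l.drop (m - 5) with _ | ⟨c, _ | ⟨d, _ | ⟨e, _ | ⟨f, _ | ⟨h, _ | ⟨i, t⟩⟩⟩⟩⟩⟩ <;>
      rw [hL] at hl <;> simp at hl
    exact ⟨c, d, e, f, h, rfl⟩
  have hl : l = u ++ [c, d, e, f', h] := by rw [← htail, hu, List.take_append_drop]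
  rw [hl] at n f
  obtain ⟨nu, n5, nd⟩ := List.nodup_append.1 n
  have hcu : c ∉ u := fun hc => nd c hc c (by simp) rfl
  have ncu : (c :: u.reverse).Nodup := by
    rw [List.nodup_cons]
    exact ⟨by rwa [List.mem_reverse], List.nodup_reverse.2 nu⟩
  obtain ⟨X, Y, b1, b2, b3, b4, b5, b6⟩ := list_fac (c :: u.reverse) ncu (by simp)
  have hXc := b6 c _ rfl
  have hrev : (u ++ [c]).formPerm = Y⁻¹ * X⁻¹ := by
    rw [← mul_inv_rev, ← b1, ← List.formPerm_reverse]
    simp
  obtain ⟨j, hj, hjo⟩ : ∃ j, m = 2 * j + 5 ∧ j % 2 = 1 := ⟨(m - 5) / 2, by omega, by omega⟩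
  have hlen : (c :: u.reverse).length = 2 * j + 1 := by
    simp only [List.length_cons, List.length_reverse]
    omega
  have ej : ((c :: u.reverse).length - 1) / 2 = j := by omega
  have ej' : (c :: u.reverse).length / 2 = j := by omega
  rw [ej] at b2
  rw [ej'] at b3
  have hinv : ∀ (Z : Perm α) (v : α), Z v = v → Z⁻¹ v = v := fun Z v h => inv_eq_iff_eq.2 h.symm
  have hmem : ∀ v, v ∈ [d, e, h, f'] → v ∉ c :: u.reverse := by
    intro v hv hv2
    simp only [List.mem_cons, List.mem_reverse, List.not_mem_nil, or_false] at hv hv2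
    rcases hv2 with rfl | hv2
    · simp only [List.nodup_cons, List.mem_cons, List.not_mem_nil, not_or, or_false] at n5
      tauto
    · refine nd v hv2 v ?_ rfl
      simp only [List.mem_cons, List.not_mem_nil, or_false]
      tauto
  have hmem2 : ∀ v, v ∈ [c, f', e, h] → v ∉ u.reverse := by
    intro v hv hv2
    simp only [List.mem_cons, List.mem_reverse, List.not_mem_nil, or_false] at hv hv2
    refine nd v hv2 v ?_ rfl
    simp only [List.mem_cons, List.not_mem_nil, or_false]
    tauto
  have D1 : Disjoint Y⁻¹ [d, e, h, f'].formPerm := by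
    intro v
    by_cases hv : v ∈ [d, e, h, f']
    · left; exact hinv _ _ (b5 v (hmem v hv))
    · right; exact List.formPerm_apply_of_notMem hv
  have D2 : Disjoint X⁻¹ [d, e, h, f'].formPerm := by
    intro v
    by_cases hv : v ∈ [d, e, h, f']
    · left; exact hinv _ _ (b4 v (hmem v hv))
    · right; exact List.formPerm_apply_of_notMem hv
  have D3 : Disjoint X⁻¹ [c, f', e, h].formPerm := by
    intro v
    by_cases hv : v ∈ [c, f', e, h]
    · left
      by_cases hvc : v = c
      · rw [hvc]; exact hinv _ _ hXc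
      · exact hinv _ _ (b4 v (fun h' => (List.mem_cons.1 h').elim hvc (hmem2 v hv)))
    · right; exact List.formPerm_apply_of_notMem hv
  have na : [d, e, h, f'].Nodup := by
    simp only [List.nodup_cons, List.mem_cons, List.not_mem_nil, not_or, or_false,
      not_false_eq_true, List.nodup_nil, and_true] at n5 ⊢
    obtain ⟨⟨n1, n2, n3, n4⟩, ⟨n5, n6, n7⟩, ⟨n8, n9⟩, n10⟩ := n5
    exact ⟨⟨n5, n7, n6⟩, ⟨n9, n8⟩, Ne.symm n10⟩
  have nb : [c, f', e, h].Nodup := by
    simp only [List.nodup_cons, List.mem_cons, List.not_mem_nil, not_or, or_false,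
      not_false_eq_true, List.nodup_nil, and_true] at n5 ⊢
    obtain ⟨⟨n1, n2, n3, n4⟩, ⟨n5, n6, n7⟩, ⟨n8, n9⟩, n10⟩ := n5
    exact ⟨⟨n3, n2, n4⟩, ⟨Ne.symm n8, n10⟩, n9⟩
  refine good_of' (t := j) (k := 4) (x := Y⁻¹ * [d, e, h, f'].formPerm)
    (y := X⁻¹ * [c, f', e, h].formPerm) ?_ ?_ ?_ ?_ (by omega)
  · rw [← f, fp_append, hrev, five n5]
    calc Y⁻¹ * X⁻¹ * ([d, e, h, f'].formPerm * [c, f', e, h].formPerm)
        = Y⁻¹ * (X⁻¹ * [d, e, h, f'].formPerm) * [c, f', e, h].formPerm := by
          simp only [mul_assoc]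
      _ = Y⁻¹ * ([d, e, h, f'].formPerm * X⁻¹) * [c, f', e, h].formPerm := by
          rw [D2.commute.eq]
      _ = _ := by simp only [mul_assoc]
  · rw [D1.cycleType_mul, cycleType_inv, b3, type_form na (by simp), add_comm,
      Multiset.singleton_add]
    rfl
  · rw [D3.cycleType_mul, cycleType_inv, b2, type_form nb (by simp), add_comm,
      Multiset.singleton_add]
    rfl
  · rw [Nat.even_iff]; omega

theorem Good.conj {g : Perm α} (h : Good g) (c : Perm α) : Good (c * g * c⁻¹) := by
  obtain ⟨x, y, h1, h2, h3, M, h4⟩ := h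
  refine ⟨c * x * c⁻¹, c * y * c⁻¹, ?_, ?_, ?_, M, ?_⟩
  · rw [h1]; group
  · rw [cycleType_conj, cycleType_conj, h2]
  · rw [Perm.sign_mul, Perm.sign_mul, h3, mul_one, ← Perm.sign_mul, mul_inv_cancel,
      Perm.sign_one]
  · rw [cycleType_conj, h4]

/-- one factor of the 7-cycle -/
def x7 : Perm (Fin 7) := swap 0 2 * (swap 3 6 * (swap 1 4 * swap 1 5))
/-- the other factor of the 7-cycle -/
def y7 : Perm (Fin 7) := swap 2 6 * (swap 3 5 * (swap 0 1 * swap 0 4))

theorem xy7 : finRotate 7 = x7 * y7 := by
  unfold x7 y7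
  decide

theorem tx7 : x7.cycleType = 2 ::ₘ 2 ::ₘ {3} := by
  unfold x7
  have h3 : (swap (1 : Fin 7) 4 * swap 1 5).cycleType = {3} :=
    three_type (by decide) (by decide) (by decide)
  have d1 : Disjoint (swap (3 : Fin 7) 6) (swap 1 4 * swap 1 5) := by
    intro v; revert v; decide
  have d2 : Disjoint (swap (0 : Fin 7) 2) (swap 3 6 * (swap 1 4 * swap 1 5)) := by
    intro v; revert v; decide
  rw [d2.cycleType_mul, d1.cycleType_mul, h3, (isCycle_swap (by decide)).cycleType,
    (isCycle_swap (by decide)).cycleType, card_support_swap (by decide),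
    card_support_swap (by decide)]
  rfl

theorem ty7 : y7.cycleType = 2 ::ₘ 2 ::ₘ {3} := by
  unfold y7
  have h3 : (swap (0 : Fin 7) 1 * swap 0 4).cycleType = {3} :=
    three_type (by decide) (by decide) (by decide)
  have d1 : Disjoint (swap (3 : Fin 7) 5) (swap 0 1 * swap 0 4) := by
    intro v; revert v; decide
  have d2 : Disjoint (swap (2 : Fin 7) 6) (swap 3 5 * (swap 0 1 * swap 0 4)) := by
    intro v; revert v; decide
  rw [d2.cycleType_mul, d1.cycleType_mul, h3, (isCycle_swap (by decide)).cycleType,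
    (isCycle_swap (by decide)).cycleType, card_support_swap (by decide),
    card_support_swap (by decide)]
  rfl

theorem cycle_seven {g : Perm α} (hg : g.cycleType = {7}) : Good g := by
  have hcard : Fintype.card (Fin 7) ≤ Fintype.card α := by
    rw [Fintype.card_fin]
    have h1 := sum_cycleType g
    rw [hg, Multiset.sum_singleton] at h1
    rw [h1]
    exact Finset.card_le_univ _
  obtain ⟨emb⟩ := Function.Embedding.nonempty_of_card_le hcard
  let e : Fin 7 ≃ {a // a ∈ Set.range emb} := Equiv.ofInjective emb emb.injective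
  have h1 : ((finRotate 7).extendDomain e).cycleType = {7} := by
    rw [cycleType_extendDomain, cycleType_finRotate]
  obtain ⟨c, hc⟩ := isConj_iff.1 (isConj_iff_cycleType_eq.2 (h1.trans hg.symm))
  rw [← hc]
  apply Good.conj
  refine ⟨x7.extendDomain e, y7.extendDomain e, ?_, ?_, ?_, {3}, ?_⟩
  · rw [extendDomain_mul, ← xy7]
  · rw [cycleType_extendDomain, cycleType_extendDomain, tx7, ty7]
  · rw [sign_extendDomain]
    exact sign_one tx7 (by decide)
  · rw [cycleType_extendDomain, tx7]

theorem cycle_good {g : Perm α} (hg : g.IsCycle) (h3 : g.support.card % 4 = 3)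
    (h7 : 7 ≤ g.support.card) : Good g := by
  by_cases h : g.support.card = 7
  · apply cycle_seven
    rw [hg.cycleType, h]
  · exact cycle_big hg h3 (by omega)

theorem three_good {g : Perm α} (hg : g.IsCycle) (h3 : g.support.card = 3)
    (hα : 5 ≤ Fintype.card α) : Good g := by
  obtain ⟨x, y, h1, h2, h4, h5, h6⟩ := exists_fac g 1 1 (by rw [N_cycle hg, h3]) (by omega)
    (by omega)
  have h7 : 1 < (g.supportᶜ).card := by
    rw [Finset.card_compl, h3]; omega
  obtain ⟨u, hu, v, hv, huv⟩ := Finset.one_lt_card.1 h7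
  rw [Finset.mem_compl, notMem_support] at hu hv
  refine good_of (t := 2) (x := x * swap u v) (y := swap u v * y) ?_ ?_ ?_ (by decide) (by omega)
  · rw [h1]
    calc x * y = x * (swap u v * swap u v) * y := by rw [swap_mul_self, mul_one]
      _ = _ := by simp only [mul_assoc]
  · have : x * swap u v = swap u v * x := by
      rw [Equiv.mul_swap_eq_swap_mul, h5 u hu, h5 v hv]
    rw [this]
    exact type_swap_mul huv (h5 u hu) (h5 v hv) h2
  · exact type_swap_mul huv (h6 u hu) (h6 v hv) h4

theorem mod_count (M : Multiset ℕ) (h : ∀ k ∈ M, 2 ≤ k) (h3 : ∀ k ∈ M, k % 4 ≠ 3) :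
    ((M.map (fun k => k - 1)).sum + (M.filter (fun k => k % 4 = 0)).card) % 4 =
      (M.filter (fun k => k % 4 = 2)).card % 4 := by
  induction M using Multiset.induction_on with
  | empty => simp
  | cons a s ih =>
    have h1 := ih (fun k hk => h k (Multiset.mem_cons_of_mem hk))
      (fun k hk => h3 k (Multiset.mem_cons_of_mem hk))
    have h2 := h a (Multiset.mem_cons_self a s)
    have h4 := h3 a (Multiset.mem_cons_self a s)
    simp only [Multiset.map_cons, Multiset.sum_cons, Multiset.filter_cons, Multiset.card_add]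
    have h5 : a % 4 = 0 ∨ a % 4 = 1 ∨ a % 4 = 2 := by omega
    rcases h5 with h5 | h5 | h5
    · rw [if_pos h5, if_neg (by omega)]
      simp only [Multiset.card_singleton, Multiset.card_zero]
      omega
    · rw [if_neg (by omega), if_neg (by omega)]
      simp only [Multiset.card_zero]
      omega
    · rw [if_neg (by omega), if_pos h5]
      simp only [Multiset.card_singleton, Multiset.card_zero]
      omega

theorem two_of_card {M : Multiset ℕ} {P : ℕ → Prop} [DecidablePred P]
    (h : 2 ≤ (M.filter P).card) : ∃ a b M', P a ∧ P b ∧ M = a ::ₘ b ::ₘ M' := by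
  obtain ⟨a, ha⟩ := Multiset.card_pos_iff_exists_mem.1 (show 0 < (M.filter P).card by omega)
  obtain ⟨M1, hM1⟩ := Multiset.exists_cons_of_mem ha
  rw [hM1, Multiset.card_cons] at h
  obtain ⟨b, hb⟩ := Multiset.card_pos_iff_exists_mem.1 (show 0 < M1.card by omega)
  obtain ⟨M2, hM2⟩ := Multiset.exists_cons_of_mem hb
  rw [hM2] at hM1
  have hle := Multiset.filter_le P M
  rw [hM1] at hle
  obtain ⟨M', hM'⟩ := Multiset.le_iff_exists_add.1 hle
  refine ⟨a, b, M2 + M', ?_, ?_, ?_⟩
  · exact (Multiset.mem_filter.1 ha).2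
  · have : b ∈ M.filter P := by rw [hM1]; simp
    exact (Multiset.mem_filter.1 this).2
  · rw [hM', Multiset.cons_add, Multiset.cons_add]

theorem main_comb {g : Perm α} (hs : sign g = 1) (h1 : g ≠ 1) (hα : 5 ≤ Fintype.card α) :
    Good g := by
  obtain ⟨t, ht⟩ := even_N.1 hs
  have hpos := N_pos h1
  rcases Nat.even_or_odd t with he | ho
  · obtain ⟨x, y, k1, k2, k3, -, -⟩ := exists_fac g t t ht.symm (by omega) (by omega)
    exact good_of k1 k2 k3 he (by omega)
  by_cases hB : ∃ k ∈ g.cycleType, k % 4 = 3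
  · obtain ⟨k, hk, hk3⟩ := hB
    obtain ⟨c, τ, e1, e2, e3, e4⟩ := mem_cycleType_iff.1 hk
    by_cases hτ : τ = 1
    · rw [hτ, mul_one] at e1
      subst e1
      have h5 := e3.two_le_card_support
      by_cases h6 : g.support.card = 3
      · exact three_good e3 h6 hα
      · exact cycle_good e3 (by rw [e4]; exact hk3) (by omega)
    · have h5 := N_pos hτ
      have h6 := N_mul e2
      rw [← e1, N_cycle e3, e4, ht] at h6
      obtain ⟨t', ht', ht''⟩ : ∃ t', N τ = t' + t' ∧ t' % 2 = 0 := by
        obtain ⟨w, hw⟩ := ho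
        exact ⟨N τ / 2, by omega, by omega⟩
      obtain ⟨x, y, k1, k2, k3, k4, k5⟩ := exists_fac τ t' t' ht'.symm (by omega) (by omega)
      obtain ⟨d, d1, d2, d3⟩ := sq_cycle e3 (by omega)
      have D1 : Disjoint d x := fun v => (e2 v).imp (d3 v) (k4 v)
      have D2 : Disjoint d y := fun v => (e2 v).imp (d3 v) (k5 v)
      refine good_of' (t := t') (k := k) (x := d * x) (y := d * y) ?_ ?_ ?_ ?_ (by omega)
      · rw [e1, d1, k1]
        calc d * d * (x * y) = d * (d * x) * y := by simp only [mul_assoc]
          _ = d * (x * d) * y := by rw [D1.commute.eq]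
          _ = _ := by simp only [mul_assoc]
      · rw [D1.cycleType_mul, d2, k2, e4, Multiset.singleton_add]
      · rw [D2.cycleType_mul, d2, k3, e4, Multiset.singleton_add]
      · rw [Nat.even_iff]; omega
  · push Not at hB
    have hc := mod_count g.cycleType (fun k hk => two_le_of_mem_cycleType hk) hB
    have hN : (g.cycleType.map (fun k => k - 1)).sum = t + t := ht
    rw [hN] at hc
    obtain ⟨a, b, M, ha, hab, hM⟩ : ∃ a b M, a % 2 = 0 ∧ (a + b) % 4 = 0 ∧
        g.cycleType = a ::ₘ b ::ₘ M := by
      obtain ⟨w, hw⟩ := ho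
      by_cases h2 : 2 ≤ (g.cycleType.filter (fun k => k % 4 = 2)).card
      · obtain ⟨a, b, M, ha, hb, hM⟩ := two_of_card h2
        exact ⟨a, b, M, by omega, by omega, hM⟩
      · obtain ⟨a, b, M, ha, hb, hM⟩ := two_of_card
          (show 2 ≤ (g.cycleType.filter (fun k => k % 4 = 0)).card by omega)
        exact ⟨a, b, M, by omega, by omega, hM⟩
    obtain ⟨c1, τ1, e1, e2, e3, e4⟩ := mem_cycleType_iff.1
      (show a ∈ g.cycleType by rw [hM]; simp)
    have hτ1 : τ1.cycleType = b ::ₘ M := by
      have := e2.cycleType_mul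
      rw [← e1, hM, e3.cycleType, e4, Multiset.singleton_add] at this
      exact ((Multiset.cons_inj_right a).1 this).symm
    obtain ⟨c2, τ, f1, f2, f3, f4⟩ := mem_cycleType_iff.1
      (show b ∈ τ1.cycleType by rw [hτ1]; simp)
    rw [f1] at e1 e2
    have e2' : Disjoint c1 c2 := by
      intro v
      rcases e2 v with h | h
      · exact Or.inl h
      · exact Or.inr ((f2.mul_apply_eq_iff).1 h).1
    have e2'' : Disjoint c1 τ := by
      intro v
      rcases e2 v with h | h
      · exact Or.inl h
      · exact Or.inr ((f2.mul_apply_eq_iff).1 h).2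
    have a2 := e3.two_le_card_support
    have b2 := f3.two_le_card_support
    obtain ⟨m1, hm1⟩ : ∃ m1, a = 2 * m1 + 2 := ⟨(a - 2) / 2, by omega⟩
    obtain ⟨m2, hm2⟩ : ∃ m2, b = 2 * m2 + 2 := ⟨(b - 2) / 2, by omega⟩
    obtain ⟨x, y, p1, p2, p3, p4, p5⟩ := pair_fac e3 f3 e2' (by rw [e4, hm1]) (by rw [f4, hm2])
    have hN2 : t + t = 2 * m1 + 1 + (2 * m2 + 1) + N τ := by
      rw [← ht, e1, N_mul e2, N_mul f2, N_cycle e3, N_cycle f3, e4, f4, hm1, hm2]
      omega
    obtain ⟨t', ht', ht''⟩ : ∃ t', N τ = t' + t' ∧ t' % 2 = 0 := by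
      obtain ⟨w, hw⟩ := ho
      exact ⟨N τ / 2, by omega, by omega⟩
    by_cases h0 : m1 + m2 + t' = 0
    · -- a double transposition
      obtain rfl : m1 = 0 := by omega
      obtain rfl : m2 = 0 := by omega
      have hτ : τ = 1 := by
        by_contra h
        have := N_pos h
        omega
      rw [hτ, mul_one] at e1
      have s1 : c1.IsSwap := card_support_eq_two.1 (by rw [e4, hm1])
      have s2 : c2.IsSwap := card_support_eq_two.1 (by rw [f4, hm2])
      obtain ⟨p, q, hpq, rfl⟩ := s1
      obtain ⟨r, s, hrs, rfl⟩ := s2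
      have hp : swap r s p = p := (e2' p).resolve_left (by rw [swap_apply_left]; exact hpq.symm)
      have hq : swap r s q = q := (e2' q).resolve_left (by rw [swap_apply_right]; exact hpq)
      have hpr : p ≠ r := by
        rintro rfl
        rw [swap_apply_left] at hp
        exact hrs hp.symm
      have hps : p ≠ s := by
        rintro rfl
        rw [swap_apply_right] at hp
        exact hrs hp
      have hqr : q ≠ r := by
        rintro rfl
        rw [swap_apply_left] at hq
        exact hrs hq.symm
      have hqs : q ≠ s := by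
        rintro rfl
        rw [swap_apply_right] at hq
        exact hrs hq
      have one2 : ∀ {u v : α}, u ≠ v → (swap u v).cycleType = Multiset.replicate 1 2 := by
        intro u v h
        rw [(isCycle_swap h).cycleType, card_support_swap h]
        rfl
      refine good_of (t := 2) (x := swap p r * swap q s) (y := swap p s * swap q r) ?_ ?_ ?_
        (by decide) (by omega)
      · rw [e1]
        have key : ∀ v, (swap p q * swap r s) v =
            (swap p r * swap q s * (swap p s * swap q r)) v := by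
          intro v
          simp only [Perm.mul_apply]
          by_cases v1 : v = p
          · subst v1
            rw [swap_apply_of_ne_of_ne hpr hps, swap_apply_left, swap_apply_of_ne_of_ne hpq hpr,
              swap_apply_left, swap_apply_right, swap_apply_of_ne_of_ne hpq.symm hqr]
          by_cases v2 : v = q
          · subst v2
            rw [swap_apply_of_ne_of_ne hqr hqs, swap_apply_right, swap_apply_left,
              swap_apply_of_ne_of_ne hpr.symm hrs, swap_apply_of_ne_of_ne hqr.symm hrs,
              swap_apply_right]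
          by_cases v3 : v = r
          · subst v3
            rw [swap_apply_left, swap_apply_of_ne_of_ne hps.symm hqs.symm, swap_apply_right,
              swap_apply_of_ne_of_ne hpq.symm hqs, swap_apply_left,
              swap_apply_of_ne_of_ne hps.symm hrs.symm]
          by_cases v4 : v = s
          · subst v4
            rw [swap_apply_right, swap_apply_of_ne_of_ne hpr.symm hqr.symm,
              swap_apply_of_ne_of_ne hqs.symm hrs.symm, swap_apply_right,
              swap_apply_of_ne_of_ne hpq hps, swap_apply_left]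
          rw [swap_apply_of_ne_of_ne v3 v4, swap_apply_of_ne_of_ne v1 v2,
            swap_apply_of_ne_of_ne v2 v3, swap_apply_of_ne_of_ne v1 v4,
            swap_apply_of_ne_of_ne v2 v4, swap_apply_of_ne_of_ne v1 v3]
        exact Equiv.ext key
      · exact type_swap_mul hpr (swap_apply_of_ne_of_ne hpq hps)
          (swap_apply_of_ne_of_ne hqr.symm hrs) (one2 hqs)
      · exact type_swap_mul hps (swap_apply_of_ne_of_ne hpq hpr)
          (swap_apply_of_ne_of_ne hqs.symm hrs.symm) (one2 hqr)
    · obtain ⟨x', y', k1, k2, k3, k4, k5⟩ := exists_fac τ t' t' ht'.symm (by omega) (by omega)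
      have dd : ∀ v, (c1 v = v ∧ c2 v = v) ∨ τ v = v := by
        intro v
        rcases f2 v with h | h
        · rcases e2'' v with h' | h'
          · exact Or.inl ⟨h', h⟩
          · exact Or.inr h'
        · exact Or.inr h
      have D1 : Disjoint x x' := fun v => (dd v).imp (fun h => p4 v h.1 h.2) (k4 v)
      have D2 : Disjoint y x' := fun v => (dd v).imp (fun h => p5 v h.1 h.2) (k4 v)
      have D3 : Disjoint y y' := fun v => (dd v).imp (fun h => p5 v h.1 h.2) (k5 v)
      refine good_of' (t := m1 + m2 + t') (k := 3) (x := x * x') (y := y * y') ?_ ?_ ?_ ?_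
        (by omega)
      · rw [e1, k1, ← mul_assoc, p1]
        calc x * y * (x' * y') = x * (y * x') * y' := by simp only [mul_assoc]
          _ = x * (x' * y) * y' := by rw [D2.commute.eq]
          _ = _ := by simp only [mul_assoc]
      · rw [D1.cycleType_mul, p2, k2, Multiset.cons_add, ← Multiset.replicate_add]
      · rw [D3.cycleType_mul, p3, k3, Multiset.cons_add, ← Multiset.replicate_add]
      · rw [Nat.even_iff]; omega

end Cfsg.Agent.H21.CovA
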