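import Cfsg.Agent.H21.CoverC
import Cfsg.Agent.H73.MooreAlt

/-! Double covers of the alternating groups: every element is a commutator. -/

set_option autoImplicit false

namespace Cfsg.Agent.H21.CovA

open Equiv Equiv.Perm Cfsg.Agent.H73.MooreAlt Cfsg.Agent.ThreeTransp

/-- the setting -/
structure Dat {G : Type*} [Group G] {n : ℕ} (π : G →* Perm (Fin n)) (z : G) : Prop where
  sgn : ∀ g, sign (π g) = 1
  surj : ∀ σ, sign σ = 1 → ∃ g, π g = σ
  z_ne : z ≠ 1
  z_sq : z * z = 1
  z_comm : ∀ g, z * g = g * z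
  ker : ∀ g, π g = 1 → g = 1 ∨ g = z
  z_ker : π z = 1

variable {G : Type*} [Group G] {n : ℕ} {π : G →* Perm (Fin n)} {z : G}

theorem Dat.eq_or (D : Dat π z) {a b : G} (h : π a = π b) : a = b ∨ a = z * b := by
  rcases D.ker (a * b⁻¹) (by rw [map_mul, map_inv, h, mul_inv_cancel]) with h1 | h1
  · left; exact mul_inv_eq_one.1 h1
  · right; rw [← h1]; group

theorem Dat.zinv (D : Dat π z) : z⁻¹ = z := inv_eq_of_mul_eq_one_left D.z_sq

/-- all double transpositions lift to elements of the same square -/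
def Inv (π : G →* Perm (Fin n)) : Prop := ∀ a b c d : Fin n, a ≠ b → a ≠ c → a ≠ d → b ≠ c →
  b ≠ d → c ≠ d → ∀ A : G, π A = swap a b * swap c d → A * A = 1

theorem adj_eq {m i : ℕ} (h : i < m) :
    adj m i = swap (⟨i, by omega⟩ : Fin (m + 1)) ⟨i + 1, by omega⟩ := by
  unfold adj; rw [dif_pos h]

theorem not_inv {m : ℕ} {π : G →* Perm (Fin (m + 2 + 1))} [Finite G] (D : Dat π z)
    (hperf : commutator G = ⊤) (hm : 2 ≤ m) : ¬ Inv π := by
  intro hI
  have hnat : ∀ (i : ℕ) (hi : i < m + 1), (adj (m + 2) 0 * adj (m + 2) (i + 1)) =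
      img (⟨i, hi⟩ : Fin (m + 1)) := fun i hi => rfl
  -- cube adjusting
  have adjust : ∀ (u v : G) (σ : Perm (Fin (m + 2 + 1))), π v = σ → (π u * σ) ^ 3 = 1 →
      ∃ w, π w = σ ∧ (u * w) ^ 3 = 1 := by
    intro u v σ hv h3
    have h4 : π ((u * v) ^ 3) = 1 := by rw [map_pow, map_mul, hv, h3]
    rcases D.ker _ h4 with h5 | h5
    · exact ⟨v, hv, h5⟩
    · refine ⟨v * z, by rw [map_mul, hv, D.z_ker, mul_one], ?_⟩
      have hc : Commute (u * v) z := (D.z_comm (u * v)).symm
      rw [← mul_assoc, hc.mul_pow, h5, pow_succ, pow_two, D.z_sq, one_mul, D.z_sq]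
  have hbr := mo_img (m := m)
  have seq : ∀ k : ℕ, k ≤ m → ∃ y : ℕ → G, (∀ i, i ≤ k → π (y i) =
      adj (m + 2) 0 * adj (m + 2) (i + 1)) ∧ y 0 ^ 3 = 1 ∧
      ∀ i, i < k → (y i * y (i + 1)) ^ 3 = 1 := by
    intro k
    induction k with
    | zero =>
      intro _
      obtain ⟨v, hv⟩ := D.surj _ (sign_img (⟨0, by omega⟩ : Fin (m + 1)))
      obtain ⟨w, hw, hw3⟩ := adjust 1 v _ hv (by
        rw [map_one, one_mul]
        exact hbr.cube)
      refine ⟨fun _ => w, ?_, ?_, ?_⟩
      · intro i hi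
        obtain rfl : i = 0 := by omega
        rw [hw]; exact (hnat 0 (by omega)).symm
      · rwa [one_mul] at hw3
      · intro i hi; omega
    | succ k ih =>
      intro hk
      obtain ⟨y, h1, h2, h3⟩ := ih (by omega)
      obtain ⟨v, hv⟩ := D.surj _ (sign_img (⟨k + 1, by omega⟩ : Fin (m + 1)))
      obtain ⟨w, hw, hw3⟩ := adjust (y k) v _ hv (by
        rw [h1 k le_rfl, hnat k (by omega)]
        exact hbr.braid _ _ rfl)
      refine ⟨fun i => if i ≤ k then y i else w, ?_, ?_, ?_⟩
      · intro i hi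
        show π (if i ≤ k then y i else w) = _
        by_cases h : i ≤ k
        · rw [if_pos h]; exact h1 i h
        · rw [if_neg h, hw]
          obtain rfl : i = k + 1 := by omega
          rfl
      · show (if 0 ≤ k then y 0 else w) ^ 3 = 1
        rw [if_pos (Nat.zero_le k)]; exact h2
      · intro i hi
        show ((if i ≤ k then y i else w) * (if i + 1 ≤ k then y (i + 1) else w)) ^ 3 = 1
        rw [if_pos (by omega)]
        by_cases h : i + 1 ≤ k
        · rw [if_pos h]; exact h3 i (by omega)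
        · rw [if_neg h]
          obtain rfl : i = k := by omega
          exact hw3
  obtain ⟨y, y1, y2, y3⟩ := seq m le_rfl
  have hMo : Mo m (fun i : Fin (m + 1) => y i.val) := by
    constructor
    · exact y2
    · intro i hi
      have h1 := y1 i.val (by omega)
      rw [adj_eq (show 0 < m + 2 by omega), adj_eq (show i.val + 1 < m + 2 by omega)] at h1
      show y i.val ^ 2 = 1
      rw [pow_two]
      refine hI _ _ _ _ ?_ ?_ ?_ ?_ ?_ ?_ _ h1 <;>
        · intro h
          have := congrArg Fin.val h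
          simp only at this
          omega
    · intro i j hij
      show (y i.val * y j.val) ^ 3 = 1
      rw [hij]
      exact y3 i.val (by omega)
    · intro i j hij
      show (y i.val * y j.val) ^ 2 = 1
      have hA := adj_braidRel (m + 2)
      have hc := hA.comm 0 (j.val + 1) (by omega) (by omega)
      have h2 : π (y i.val * y j.val) = adj (m + 2) 0 * (adj (m + 2) (i.val + 1) *
          adj (m + 2) (j.val + 1)) * (adj (m + 2) 0)⁻¹ := by
        rw [map_mul, y1 _ (by omega), y1 _ (by omega), hc]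
        have : (adj (m + 2) 0)⁻¹ = adj (m + 2) 0 := by
          rw [inv_eq_iff_mul_eq_one, hA.sq 0 (by omega)]
        rw [this]
        simp only [mul_assoc]
      rw [adj_eq (show i.val + 1 < m + 2 by omega), adj_eq (show j.val + 1 < m + 2 by omega)] at h2
      generalize adj (m + 2) 0 = σ at h2
      have h3 : π (y i.val * y j.val) = swap (σ ⟨i.val + 1, by omega⟩) (σ ⟨i.val + 1 + 1, by omega⟩) *
          swap (σ ⟨j.val + 1, by omega⟩) (σ ⟨j.val + 1 + 1, by omega⟩) := by
        rw [h2, Equiv.swap_apply_apply, Equiv.swap_apply_apply]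
        group
      rw [pow_two]
      refine hI _ _ _ _ ?_ ?_ ?_ ?_ ?_ ?_ _ h3 <;>
        · intro h
          have := congrArg Fin.val (σ.injective h)
          simp only at this
          omega
  set f := hom hMo with hf
  have hcomp : π.comp f = hom mo_img := by
    apply hom_ext'
    intro i
    rw [MonoidHom.comp_apply, hf, hom_gen, hom_gen]
    exact y1 i.val (by omega)
  have hR : ∀ g : G, ∃ p : PG m, g = f p ∨ g = z * f p := by
    intro g
    obtain ⟨p, hp⟩ := toAlt_surjective (m := m) ⟨π g, Perm.mem_alternatingGroup.2 (D.sgn g)⟩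
    refine ⟨p, D.eq_or ?_⟩
    have h1 : (toAlt p : Perm (Fin (m + 2 + 1))) = π g := by rw [hp]
    rw [toAlt_coe, ← hcomp] at h1
    exact h1.symm
  have hcR : commutator G ≤ f.range := by
    rw [commutator_def, Subgroup.commutator_le]
    intro a _ b _
    obtain ⟨p, hp⟩ := hR a
    obtain ⟨q, hq⟩ := hR b
    refine ⟨p * q * p⁻¹ * q⁻¹, ?_⟩
    rw [commutatorElement_def, map_mul, map_mul, map_mul, map_inv, map_inv]
    have hz : ∀ g, z * g = g * z := D.z_comm
    have e1 : ∀ u v : G, (z * u) * v * (z * u)⁻¹ * v⁻¹ = u * v * u⁻¹ * v⁻¹ := by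
      intro u v
      rw [mul_inv_rev, D.zinv]
      calc z * u * v * (u⁻¹ * z) * v⁻¹ = z * ((u * v * u⁻¹) * z) * v⁻¹ := by group
        _ = z * (z * (u * v * u⁻¹)) * v⁻¹ := by rw [← hz (u * v * u⁻¹)]
        _ = (z * z) * (u * v * u⁻¹) * v⁻¹ := by group
        _ = _ := by rw [D.z_sq, one_mul]
    have e2 : ∀ u v : G, u * (z * v) * u⁻¹ * (z * v)⁻¹ = u * v * u⁻¹ * v⁻¹ := by
      intro u v
      rw [mul_inv_rev, D.zinv]
      calc u * (z * v) * u⁻¹ * (v⁻¹ * z) = u * (z * (v * u⁻¹ * v⁻¹)) * z := by group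
        _ = u * ((v * u⁻¹ * v⁻¹) * z) * z := by rw [hz (v * u⁻¹ * v⁻¹)]
        _ = u * v * u⁻¹ * v⁻¹ * (z * z) := by group
        _ = _ := by rw [D.z_sq, mul_one]
    rcases hp with rfl | rfl <;> rcases hq with rfl | rfl
    · rfl
    · rw [e2]
    · rw [e1]
    · rw [e1, e2]
  have hsurj : Function.Surjective f := by
    rw [← MonoidHom.range_eq_top, eq_top_iff, ← hperf]
    exact hcR
  obtain ⟨hfP, hcP⟩ := card_le (m := m)
  have hc1 := Nat.card_le_card_of_surjective f hsurj
  let π' : G →* alternatingGroup (Fin (m + 2 + 1)) :=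
    π.codRestrict _ (fun g => Perm.mem_alternatingGroup.2 (D.sgn g))
  have hs' : Function.Surjective π' := by
    intro σ
    obtain ⟨g, hg⟩ := D.surj σ.1 (Perm.mem_alternatingGroup.1 σ.2)
    exact ⟨g, Subtype.ext hg⟩
  have hc2 : 2 * Nat.card (alternatingGroup (Fin (m + 2 + 1))) = (m + 2 + 1).factorial := by
    have := nat_card_alternatingGroup (α := Fin (m + 2 + 1))
    rw [this, Nat.card_fin]
    exact Nat.mul_div_cancel' (Nat.dvd_factorial (by norm_num) (by omega))
  have hc3 : (m + 2 + 1).factorial = (m + 3).factorial := rfl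
  have hbij : Function.Bijective π' := by
    rw [Nat.bijective_iff_surjective_and_card]
    exact ⟨hs', le_antisymm (by omega) (Nat.card_le_card_of_surjective _ hs')⟩
  apply D.z_ne
  apply hbij.1
  apply Subtype.ext
  show π z = π 1
  rw [D.z_ker, map_one]

end Cfsg.Agent.H21.CovA
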