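import Cfsg.Agent.H21.CoverD

/-! Double covers of the alternating groups: every element is a commutator. -/

set_option autoImplicit false

namespace Cfsg.Agent.H21.CovA

open Equiv Equiv.Perm

variable {G : Type*} [Group G] {n : ℕ} {π : G →* Perm (Fin n)} {z : G}

theorem two_type {p q r s : Fin n} (hpq : p ≠ q) (hpr : p ≠ r) (hps : p ≠ s) (hqr : q ≠ r)
    (hqs : q ≠ s) (hrs : r ≠ s) : (swap p q * swap r s).cycleType = Multiset.replicate 2 2 := by
  apply type_swap_mul hpq (swap_apply_of_ne_of_ne hpr hps) (swap_apply_of_ne_of_ne hqr hqs)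
  rw [(isCycle_swap hrs).cycleType, card_support_swap hrs]
  rfl

theorem sign_dt {p q r s : Fin n} (hpq : p ≠ q) (hrs : r ≠ s) :
    sign (swap p q * swap r s) = 1 := by
  rw [Perm.sign_mul, sign_swap hpq, sign_swap hrs]; rfl

/-- the square of every lift of a double transposition is `z` -/
theorem sq_eq (D : Dat π z) (hI : ¬ Inv π) {p q r s : Fin n} (hpq : p ≠ q) (hpr : p ≠ r)
    (hps : p ≠ s) (hqr : q ≠ r) (hqs : q ≠ s) (hrs : r ≠ s) {B : G}
    (hB : π B = swap p q * swap r s) : B * B = z := by
  unfold Inv at hI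
  push Not at hI
  obtain ⟨a, b, c, d, hab, hac, had, hbc, hbd, hcd, A, hA, hA2⟩ := hI
  have h1 := two_type hab hac had hbc hbd hcd
  have h2 := two_type hpq hpr hps hqr hqs hrs
  have hAA : A * A = z := by
    refine (D.ker (A * A) ?_).resolve_left hA2
    have hd : swap c d * swap a b = swap a b * swap c d := by
      rw [Equiv.mul_swap_eq_swap_mul, swap_apply_of_ne_of_ne hac had,
        swap_apply_of_ne_of_ne hbc hbd]
    rw [map_mul, hA]
    calc swap a b * swap c d * (swap a b * swap c d)
        = swap a b * (swap c d * swap a b) * swap c d := by simp only [mul_assoc]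
      _ = swap a b * (swap a b * swap c d) * swap c d := by rw [hd]
      _ = (swap a b * swap a b) * (swap c d * swap c d) := by simp only [mul_assoc]
      _ = 1 := by rw [swap_mul_self, swap_mul_self, mul_one]
  obtain ⟨σ, hσ⟩ := isConj_iff.1 (isConj_iff_cycleType_eq.2 (h1.trans h2.symm))
  obtain ⟨τ, hτ, hτ1⟩ : ∃ τ : Perm (Fin n), τ * (swap a b * swap c d) * τ⁻¹ =
      swap p q * swap r s ∧ sign τ = 1 := by
    rcases Int.units_eq_one_or (sign σ) with h | h
    · exact ⟨σ, hσ, h⟩
    · refine ⟨σ * swap a b, ?_, ?_⟩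
      · rw [← hσ, mul_inv_rev, swap_inv]
        have hd : swap a b * swap c d = swap c d * swap a b := by
          rw [Equiv.mul_swap_eq_swap_mul, swap_apply_of_ne_of_ne hac.symm hbc.symm,
            swap_apply_of_ne_of_ne had.symm hbd.symm]
        calc σ * swap a b * (swap a b * swap c d) * (swap a b * σ⁻¹)
            = σ * (swap a b * swap a b) * (swap c d * swap a b) * σ⁻¹ := by
              simp only [mul_assoc]
          _ = _ := by rw [swap_mul_self, mul_one, hd, mul_assoc]
      · rw [Perm.sign_mul, h, sign_swap hab]; rfl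
  obtain ⟨g, hg⟩ := D.surj τ hτ1
  have h3 : π B = π (g * A * g⁻¹) := by
    rw [hB, map_mul, map_mul, map_inv, hg, hA, hτ]
  have h4 : g * A * g⁻¹ * (g * A * g⁻¹) = z := by
    calc g * A * g⁻¹ * (g * A * g⁻¹) = g * (A * A) * g⁻¹ := by group
      _ = z := by rw [hAA, ← D.z_comm g, mul_assoc, mul_inv_cancel, mul_one]
  rcases D.eq_or h3 with h | h
  · rw [h, h4]
  · rw [h]
    calc z * (g * A * g⁻¹) * (z * (g * A * g⁻¹))
        = z * ((g * A * g⁻¹) * z) * (g * A * g⁻¹) := by simp only [mul_assoc]
      _ = z * (z * (g * A * g⁻¹)) * (g * A * g⁻¹) := by rw [← D.z_comm (g * A * g⁻¹)]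
      _ = (z * z) * (g * A * g⁻¹ * (g * A * g⁻¹)) := by simp only [mul_assoc]
      _ = z := by rw [D.z_sq, one_mul, h4]

theorem anti (D : Dat π z) (hI : ¬ Inv π) {p q r s : Fin n} (hpq : p ≠ q) (hpr : p ≠ r)
    (hps : p ≠ s) (hqr : q ≠ r) (hqs : q ≠ s) (hrs : r ≠ s) {A C : G}
    (hA : π A = swap p q * swap r s) (hC : π C = swap p r * swap q s) :
    C * A = z * (A * C) := by
  have hAA := sq_eq D hI hpq hpr hps hqr hqs hrs hA
  have hCC := sq_eq D hI hpr hpq hps hqr.symm hrs hqs hC
  have hAC : π (A * C) = swap p s * swap q r := by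
    rw [map_mul, hA, hC]
    -- direct pointwise check
    have key : ∀ v, (swap p q * swap r s * (swap p r * swap q s)) v = (swap p s * swap q r) v := by
      intro v
      simp only [Perm.mul_apply]
      by_cases v1 : v = p
      · subst v1
        rw [swap_apply_of_ne_of_ne hpq hps, swap_apply_left, swap_apply_left,
          swap_apply_of_ne_of_ne hps.symm hqs.symm, swap_apply_of_ne_of_ne hpq hpr,
          swap_apply_left]
      by_cases v2 : v = q
      · subst v2
        rw [swap_apply_left, swap_apply_of_ne_of_ne hps.symm hrs.symm, swap_apply_right,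
          swap_apply_of_ne_of_ne hpr.symm hqr.symm, swap_apply_left,
          swap_apply_of_ne_of_ne hpr.symm hrs]
      by_cases v3 : v = r
      · subst v3
        rw [swap_apply_of_ne_of_ne hqr.symm hrs, swap_apply_right,
          swap_apply_of_ne_of_ne hpr hps, swap_apply_left, swap_apply_right,
          swap_apply_of_ne_of_ne hpq.symm hqs]
      by_cases v4 : v = s
      · subst v4
        rw [swap_apply_right, swap_apply_of_ne_of_ne hpq.symm hqr,
          swap_apply_of_ne_of_ne hqr hqs, swap_apply_right,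
          swap_apply_of_ne_of_ne hqs.symm hrs.symm, swap_apply_right]
      rw [swap_apply_of_ne_of_ne v2 v4, swap_apply_of_ne_of_ne v1 v3,
        swap_apply_of_ne_of_ne v3 v4, swap_apply_of_ne_of_ne v1 v2,
        swap_apply_of_ne_of_ne v2 v3, swap_apply_of_ne_of_ne v1 v4]
    exact Equiv.ext key
  have h := sq_eq D hI hps hpq hpr hqs.symm hrs.symm hqr hAC
  have hAi : A⁻¹ = z * A := by
    rw [inv_eq_iff_mul_eq_one, D.z_comm, ← mul_assoc, hAA, D.z_sq]
  have hCi : C⁻¹ = z * C := by
    rw [inv_eq_iff_mul_eq_one, D.z_comm, ← mul_assoc, hCC, D.z_sq]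
  calc C * A = A⁻¹ * (A * C * (A * C)) * C⁻¹ := by group
    _ = z * A * z * (z * C) := by rw [h, hAi, hCi]
    _ = z * A * (z * z) * C := by simp only [mul_assoc]
    _ = z * (A * C) := by rw [D.z_sq, mul_one, mul_assoc]

theorem comm_even (D : Dat π z) {p q r s : Fin n} {C : G} (hC : π C = swap p r * swap q s)
    {σ : Perm (Fin n)} (hσ : sign σ = 1) (hp : σ p = p) (hq : σ q = q) (hr : σ r = r)
    (hs : σ s = s) {H : G} (hH : π H = σ) : C * H = H * C := by
  classical
  let P : Fin n → Prop := fun v => v ≠ p ∧ v ≠ q ∧ v ≠ r ∧ v ≠ s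
  have key : ∀ τ : Perm {v // P v}, τ ∈ Subgroup.closure {σ : Perm {v // P v} | IsThreeCycle σ} →
      ∀ H : G, π H = ofSubtype τ → C * H = H * C := by
    intro τ hτ
    have hsg : ∀ τ : Perm {v // P v},
        τ ∈ Subgroup.closure {σ : Perm {v // P v} | IsThreeCycle σ} → sign τ = 1 := by
      intro τ hτ
      rw [closure_three_cycles_eq_alternating] at hτ
      exact Perm.mem_alternatingGroup.1 hτ
    have hcen : ∀ H : G, π H = 1 → ∀ g, g * H = H * g := by
      intro H hH g
      rcases D.ker H hH with h | h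
      · rw [h, mul_one, one_mul]
      · rw [h, D.z_comm]
    induction hτ using Subgroup.closure_induction with
    | mem τ hτ =>
      intro H hH
      have hfix : ∀ v, ¬ P v → ofSubtype τ v = v := fun v hv => ofSubtype_apply_of_not_mem τ hv
      have hcom : (swap p r * swap q s) * ofSubtype τ = ofSubtype τ * (swap p r * swap q s) := by
        have h1 : Disjoint (swap p r * swap q s) (ofSubtype τ) := by
          intro v
          by_cases hv : P v
          · left
            rw [Perm.mul_apply, swap_apply_of_ne_of_ne hv.2.1 hv.2.2.2,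
              swap_apply_of_ne_of_ne hv.1 hv.2.2.1]
          · right; exact hfix v hv
        exact h1.commute.eq
      have h3 : π (H ^ 3) = 1 := by
        rw [map_pow, hH, ← map_pow]
        have : τ ^ 3 = 1 := by
          have h4 : IsThreeCycle τ := hτ
          rw [← h4.orderOf, pow_orderOf_eq_one]
        rw [this, map_one]
      have h4 : π (C * H * C⁻¹) = π H := by
        rw [map_mul, map_mul, map_inv, hH, hC, hcom, mul_assoc, mul_inv_cancel, mul_one]
      rcases D.eq_or h4 with h5 | h5
      · calc C * H = C * H * C⁻¹ * C := by group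
          _ = H * C := by rw [h5]
      · exfalso
        have h6 : C * H ^ 3 * C⁻¹ = H ^ 3 := by
          rw [hcen _ h3 C]; group
        have h7 : C * H ^ 3 * C⁻¹ = z * H ^ 3 := by
          have h8 : C * H ^ 3 * C⁻¹ = (C * H * C⁻¹) ^ 3 := by
            rw [pow_succ, pow_two, pow_succ, pow_two]; group
          have hc : Commute z H := D.z_comm H
          rw [h8, h5, hc.mul_pow, pow_succ z, pow_two, D.z_sq, one_mul]
        rw [h6] at h7
        exact D.z_ne (mul_eq_right.1 h7.symm)
    | one =>
      intro H hH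
      exact hcen H (by rw [hH, map_one]) C
    | mul τ1 τ2 m1 m2 h1 h2 =>
      intro H hH
      obtain ⟨H1, hH1⟩ := D.surj (ofSubtype τ1) (by rw [sign_ofSubtype, hsg τ1 m1])
      have h3 := h1 H1 hH1
      have h4 := h2 (H1⁻¹ * H) (by
        rw [map_mul, map_inv, hH1, hH, map_mul]; group)
      calc C * H = (C * H1) * (H1⁻¹ * H) := by group
        _ = H1 * (C * (H1⁻¹ * H)) := by rw [h3, mul_assoc]
        _ = H * C := by rw [h4]; group
    | inv τ m1 h1 =>
      intro H hH
      have h3 := h1 H⁻¹ (by rw [map_inv, hH, map_inv, inv_inv])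
      calc C * H = H * (H⁻¹ * C) * H := by group
        _ = H * (C * H⁻¹) * H := by rw [h3]
        _ = H * C := by group
  have hP : ∀ v, P (σ v) ↔ P v := by
    intro v
    show (σ v ≠ p ∧ σ v ≠ q ∧ σ v ≠ r ∧ σ v ≠ s) ↔ (v ≠ p ∧ v ≠ q ∧ v ≠ r ∧ v ≠ s)
    have e : ∀ w, σ w = w → (σ v ≠ w ↔ v ≠ w) := by
      intro w hw
      rw [not_iff_not]
      constructor
      · intro h; exact σ.injective (h.trans hw.symm)
      · intro h; rw [h, hw]
    rw [e p hp, e q hq, e r hr, e s hs]
  have h1 : ofSubtype (σ.subtypePerm hP) = σ := by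
    apply ofSubtype_subtypePerm
    intro v hv
    refine ⟨?_, ?_, ?_, ?_⟩ <;>
    · rintro rfl
      apply hv
      assumption
  refine key (σ.subtypePerm hP) ?_ H (by rw [h1, hH])
  rw [closure_three_cycles_eq_alternating, Perm.mem_alternatingGroup]
  rw [← sign_ofSubtype, h1, hσ]

theorem main (D : Dat π z) (hI : ¬ Inv π) (hn : 5 ≤ n) (g : G) :
    ∃ a b : G, a * b * a⁻¹ * b⁻¹ = g := by
  by_cases h1 : π g = 1
  · rcases D.ker g h1 with h | h
    · exact ⟨1, 1, by rw [h]; group⟩
    · have w : ∀ i j : ℕ, ∀ (hi : i < 5) (hj : j < 5), i ≠ j →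
          (⟨i, by omega⟩ : Fin n) ≠ ⟨j, by omega⟩ := by
        intro i j hi hj hij h'
        exact hij (congrArg Fin.val h')
      have w01 := w 0 1 (by omega) (by omega) (by omega)
      have w02 := w 0 2 (by omega) (by omega) (by omega)
      have w03 := w 0 3 (by omega) (by omega) (by omega)
      have w12 := w 1 2 (by omega) (by omega) (by omega)
      have w13 := w 1 3 (by omega) (by omega) (by omega)
      have w23 := w 2 3 (by omega) (by omega) (by omega)
      obtain ⟨A, hA⟩ := D.surj _ (sign_dt w01 w23)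
      obtain ⟨C, hC⟩ := D.surj _ (sign_dt w02 w13)
      have h2 := anti D hI w01 w02 w03 w12 w13 w23 hA hC
      refine ⟨C, A, ?_⟩
      rw [h2, h]; group
  · obtain ⟨x, y, e1, e2, e3, M, e4⟩ := main_comb (D.sgn g) h1 (by rw [Fintype.card_fin]; exact hn)
    obtain ⟨c, τ, f1, f2, f3, f4⟩ := mem_cycleType_iff.1
      (show 2 ∈ x.cycleType by rw [e4]; simp)
    have hτ : τ.cycleType = 2 ::ₘ M := by
      have := f2.cycleType_mul
      rw [← f1, e4, f3.cycleType, f4, Multiset.singleton_add] at this
      exact ((Multiset.cons_inj_right 2).1 this).symm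
    obtain ⟨c', x', k1, k2, k3, k4⟩ := mem_cycleType_iff.1
      (show 2 ∈ τ.cycleType by rw [hτ]; simp)
    obtain ⟨p, q, hpq, rfl⟩ := card_support_eq_two.1 f4
    obtain ⟨r, s, hrs, rfl⟩ := card_support_eq_two.1 k4
    rw [k1] at f1 f2
    have hfix : ∀ v, swap p q v ≠ v → swap r s v = v ∧ x' v = v := by
      intro v hv
      exact (k2.mul_apply_eq_iff).1 ((f2 v).resolve_left hv)
    have hp := hfix p (by rw [swap_apply_left]; exact hpq.symm)
    have hq := hfix q (by rw [swap_apply_right]; exact hpq)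
    have hr := (k2 r).resolve_left (by rw [swap_apply_left]; exact hrs.symm)
    have hs := (k2 s).resolve_left (by rw [swap_apply_right]; exact hrs)
    have hpr : p ≠ r := by
      rintro rfl
      rw [swap_apply_left] at hp
      exact hrs hp.1.symm
    have hps : p ≠ s := by
      rintro rfl
      rw [swap_apply_right] at hp
      exact hrs hp.1
    have hqr : q ≠ r := by
      rintro rfl
      rw [swap_apply_left] at hq
      exact hrs hq.1.symm
    have hqs : q ≠ s := by
      rintro rfl
      rw [swap_apply_right] at hq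
      exact hrs hq.1
    have hx' : sign x' = 1 := by
      rw [f1, ← mul_assoc, Perm.sign_mul, sign_dt hpq hrs, one_mul] at e3
      exact e3
    obtain ⟨A, hA⟩ := D.surj _ (sign_dt hpq hrs)
    obtain ⟨C, hC⟩ := D.surj _ (sign_dt hpr hqs)
    obtain ⟨H, hH⟩ := D.surj _ hx'
    have a1 := anti D hI hpq hpr hps hqr hqs hrs hA hC
    have a2 := comm_even D hC hx' hp.2 hq.2 hr hs hH
    have hX : π (A * H) = x := by rw [map_mul, hA, hH, f1, mul_assoc]
    have a3 : C * (A * H) = z * ((A * H) * C) := by
      calc C * (A * H) = (C * A) * H := by group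
        _ = z * (A * (C * H)) := by rw [a1]; simp only [mul_assoc]
        _ = _ := by rw [a2]; simp only [mul_assoc]
    set X := A * H with hXdef
    -- conjugating element
    have hcx : swap p q * x = x * swap p q := by
      have h2 : Disjoint (swap p q) (swap r s * x') := f2
      rw [f1, mul_assoc, h2.commute.eq.symm]
    obtain ⟨b0, hb0⟩ := isConj_iff.1 (isConj_iff_cycleType_eq.2
      (show x.cycleType = y⁻¹.cycleType by rw [cycleType_inv, e2]))
    obtain ⟨b, hb, hb1⟩ : ∃ b : Perm (Fin n), b * x * b⁻¹ = y⁻¹ ∧ sign b = 1 := by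
      rcases Int.units_eq_one_or (sign b0) with h | h
      · exact ⟨b0, hb0, h⟩
      · refine ⟨b0 * swap p q, ?_, ?_⟩
        · rw [← hb0, mul_inv_rev, swap_inv]
          calc b0 * swap p q * x * (swap p q * b0⁻¹)
              = b0 * (swap p q * x) * swap p q * b0⁻¹ := by simp only [mul_assoc]
            _ = b0 * x * (swap p q * swap p q) * b0⁻¹ := by rw [hcx]; simp only [mul_assoc]
            _ = _ := by rw [swap_mul_self, mul_one]
        · rw [Perm.sign_mul, h, sign_swap hpq]; rfl
    obtain ⟨B, hB⟩ := D.surj b hb1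
    have hcomm : π g = π (X * B * X⁻¹ * B⁻¹) := by
      rw [map_mul, map_mul, map_mul, map_inv, map_inv, hX, hB, e1]
      have : y = b * x⁻¹ * b⁻¹ := by
        rw [← inv_inv y, ← hb]; group
      rw [this]; group
    rcases D.eq_or hcomm with h | h
    · exact ⟨X, B, h.symm⟩
    · refine ⟨X, B * C, ?_⟩
      rw [h]
      have a4 : C * X⁻¹ * C⁻¹ = z * X⁻¹ := by
        have : C * X⁻¹ * C⁻¹ = (C * X * C⁻¹)⁻¹ := by group
        rw [this, a3]
        have h5 : (z * (X * C) * C⁻¹)⁻¹ = X⁻¹ * z⁻¹ := by group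
        rw [h5, D.zinv, D.z_comm]
      calc X * (B * C) * X⁻¹ * (B * C)⁻¹ = X * B * (C * X⁻¹ * C⁻¹) * B⁻¹ := by group
        _ = (X * B * z) * X⁻¹ * B⁻¹ := by rw [a4]; simp only [mul_assoc]
        _ = z * (X * B * X⁻¹ * B⁻¹) := by rw [← D.z_comm (X * B)]; simp only [mul_assoc]

end Cfsg.Agent.H21.CovA
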