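import Cfsg.Agent.H21.Fpf3c

/-! The field with sixteen elements as a module for the group of order five; invariant quadratic maps. -/

set_option autoImplicit false

namespace Cfsg.Agent.H21.F320

open Sq

abbrev A := ZMod 2 × ZMod 2 × ZMod 2 × ZMod 2
abbrev B := ZMod 2 × ZMod 2

/-- the shift -/
def S (a : A) : A := (a.2.2.2, a.1 + a.2.2.2, a.2.1 + a.2.2.2, a.2.2.1 + a.2.2.2)

/-- the invariant quadratic map -/
def Q0 (a : A) : B := (a.1 + a.2.1 + a.2.2.1 + a.2.2.2 + a.1 * a.2.2.1 + a.2.1 * a.2.2.2 + a.1 * a.2.2.2,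
  a.1 * a.2.1 + a.2.1 * a.2.2.1 + a.2.2.1 * a.2.2.2 + a.1 * a.2.2.1 + a.2.1 * a.2.2.2 + a.1 * a.2.2.2)

def sm {W : Type*} [Zero W] (c : ZMod 2) (w : W) : W := if c = 0 then 0 else w

theorem zcases : ∀ c : ZMod 2, c = 0 ∨ c = 1 := by decide

section
variable {W : Type*} [AddCommGroup W]

theorem sm_zero (w : W) : sm 0 w = 0 := if_pos rfl
theorem sm_one (w : W) : sm 1 w = w := if_neg (by decide)
theorem sm_z (c : ZMod 2) : sm c (0 : W) = 0 := by
  rcases zcases c with rfl | rfl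
  · exact sm_zero _
  · exact sm_one _

theorem sm_add (h2 : ∀ w : W, w + w = 0) (c d : ZMod 2) (w : W) : sm (c + d) w = sm c w + sm d w := by
  rcases zcases c with rfl | rfl
  · rw [zero_add, sm_zero, zero_add]
  · rcases zcases d with rfl | rfl
    · rw [add_zero, sm_zero, add_zero]
    · rw [show (1 : ZMod 2) + 1 = 0 by decide, sm_zero, sm_one, h2]

theorem sm_map {W' : Type*} [AddCommGroup W'] (f : W →+ W') (c : ZMod 2) (w : W) : f (sm c w) = sm c (f w) := by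
  rcases zcases c with rfl | rfl
  · rw [sm_zero, sm_zero, map_zero]
  · rw [sm_one, sm_one]

end

theorem S_add : ∀ a b : A, S (a + b) = S a + S b := by decide

theorem gen_dec : ∀ a : A, a ≠ 0 → ∃ b : A, sm b.1 a + sm b.2.1 (S a) + sm b.2.2.1 (S (S a)) + sm b.2.2.2 (S (S (S a))) = (1, 0, 0, 0) := by
  decide

theorem Q0_S : ∀ a, Q0 (S a) = Q0 a := by decide

theorem orbit_dec : ∀ a : A, a = 0 ∨ ∃ i : Fin 5, a = S^[i] (1, 0, 0, 0) ∨ a = S^[i] (1, 1, 0, 0) ∨ a = S^[i] (1, 0, 1, 0) := by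
  decide

theorem model_equiv {W : Type*} [AddCommGroup W] (h2 : ∀ w : W, w + w = 0) (hW : Nat.card W = 16) (R : W →+ W)
    (hR : ∀ w, w + R w + R (R w) + R (R (R w)) + R (R (R (R w))) = 0) {w₀ : W} (hw₀ : w₀ ≠ 0) :
    ∃ e : A ≃+ W, e (1, 0, 0, 0) = w₀ ∧ ∀ a, e (S a) = R (e a) := by
  have : Finite W := Nat.finite_of_card_ne_zero (by omega)
  let f : A →+ W := AddMonoidHom.mk' (fun a => sm a.1 w₀ + sm a.2.1 (R w₀) + sm a.2.2.1 (R (R w₀)) + sm a.2.2.2 (R (R (R w₀)))) (by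
    intro a b
    show sm (a.1 + b.1) w₀ + sm (a.2.1 + b.2.1) (R w₀) + sm (a.2.2.1 + b.2.2.1) (R (R w₀)) + sm (a.2.2.2 + b.2.2.2) (R (R (R w₀))) = _
    rw [sm_add h2, sm_add h2, sm_add h2, sm_add h2]
    abel)
  have hf : ∀ a, f a = sm a.1 w₀ + sm a.2.1 (R w₀) + sm a.2.2.1 (R (R w₀)) + sm a.2.2.2 (R (R (R w₀))) := fun _ => rfl
  have h4 : R (R (R (R w₀))) = w₀ + R w₀ + R (R w₀) + R (R (R w₀)) := by
    have h1 := hR w₀
    have h3 := h2 (R (R (R (R w₀))))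
    exact add_right_cancel (h3.trans h1.symm)
  have hfS : ∀ a, f (S a) = R (f a) := by
    intro a
    rw [hf, hf, map_add, map_add, map_add, sm_map, sm_map, sm_map, sm_map, h4]
    show sm a.2.2.2 w₀ + sm (a.1 + a.2.2.2) (R w₀) + sm (a.2.1 + a.2.2.2) (R (R w₀)) + sm (a.2.2.1 + a.2.2.2) (R (R (R w₀))) = _
    rw [sm_add h2, sm_add h2, sm_add h2]
    have e1 : sm a.2.2.2 (w₀ + R w₀ + R (R w₀) + R (R (R w₀))) = sm a.2.2.2 w₀ + sm a.2.2.2 (R w₀) + sm a.2.2.2 (R (R w₀)) + sm a.2.2.2 (R (R (R w₀))) := by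
      rcases zcases a.2.2.2 with h | h
      · rw [h, sm_zero, sm_zero, sm_zero, sm_zero, sm_zero, add_zero, add_zero, add_zero]
      · rw [h, sm_one, sm_one, sm_one, sm_one, sm_one]
    rw [e1]
    abel
  have hf1 : f (1, 0, 0, 0) = w₀ := by
    rw [hf]
    show sm 1 w₀ + sm 0 (R w₀) + sm 0 (R (R w₀)) + sm 0 (R (R (R w₀))) = w₀
    rw [sm_one, sm_zero, sm_zero, sm_zero, add_zero, add_zero, add_zero]
  have hinj : Function.Injective f := by
    rw [injective_iff_map_eq_zero]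
    intro a ha
    by_contra h0
    obtain ⟨b, hb⟩ := gen_dec a h0
    have h5 := congrArg f hb
    rw [map_add, map_add, map_add, sm_map, sm_map, sm_map, sm_map, hf1, hfS (S (S a)), hfS (S a), hfS a, ha, map_zero, map_zero,
      map_zero, sm_z, sm_z, sm_z, sm_z, add_zero, add_zero, add_zero] at h5
    exact hw₀ h5.symm
  have hbij : Function.Bijective f := by
    have hcA : Nat.card A = 16 := by
      rw [Nat.card_eq_fintype_card]; rfl
    exact (Nat.bijective_iff_injective_and_card f).2 ⟨hinj, by rw [hcA, hW]⟩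
  exact ⟨AddEquiv.ofBijective f hbij, hf1, hfS⟩

/-- invariant quadratic maps -/
theorem model_quad {V : Type*} [AddCommGroup V] (h2 : ∀ v : V, v + v = 0) (Q : A → V) (h0 : Q 0 = 0)
    (hQ : ∀ w w' v, pol Q (w + w') v = pol Q w v + pol Q w' v) (hS : ∀ a, Q (S a) = Q a) :
    ∃ g : B →+ V, ∀ a, Q a = g (Q0 a) := by
  have hsub : ∀ v w : V, v - w = v + w := fun v w => by
    rw [sub_eq_add_neg, neg_eq_of_add_eq_zero_left (h2 w)]
  set q := Q (1, 0, 0, 0) with hq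
  set β := pol Q (1, 0, 0, 0) (0, 1, 0, 0) with hβ
  set γ := pol Q (1, 0, 0, 0) (0, 0, 1, 0) with hγ
  have hpS : ∀ a b, pol Q (S a) (S b) = pol Q a b := by
    intro a b
    rw [pol, pol, ← S_add, hS, hS, hS]
  have hQ' : ∀ w v v', pol Q w (v + v') = pol Q w v + pol Q w v' := by
    intro w v v'
    rw [SqData.pol_symm, hQ, SqData.pol_symm, SqData.pol_symm Q v']
  have hexp : ∀ w v, Q (w + v) = Q w + Q v + pol Q w v := by
    intro w v
    rw [pol]; abel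
  have b1 : pol Q (0, 1, 0, 0) (0, 0, 1, 0) = β := hpS (1, 0, 0, 0) (0, 1, 0, 0)
  have b2 : pol Q (0, 0, 1, 0) (0, 0, 0, 1) = β := (hpS (0, 1, 0, 0) (0, 0, 1, 0)).trans b1
  have c1 : pol Q (0, 1, 0, 0) (0, 0, 0, 1) = γ := hpS (1, 0, 0, 0) (0, 0, 1, 0)
  have c2 : pol Q (1, 0, 0, 0) (0, 0, 0, 1) = γ := by
    have e1 : pol Q (S (1, 0, 0, 0)) (S (0, 0, 0, 1)) = pol Q (1, 0, 0, 0) (0, 0, 0, 1) := hpS _ _
    have e2 : pol Q (S (S (1, 0, 0, 0))) (S (S (0, 0, 0, 1))) = pol Q (S (1, 0, 0, 0)) (S (0, 0, 0, 1)) := hpS _ _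
    rw [← e1, ← e2]
    have e3 : S (S ((0, 0, 0, 1) : A)) = (1, 0, 0, 0) := by decide
    have e4 : S (S ((1, 0, 0, 0) : A)) = (0, 0, 1, 0) := by decide
    rw [e3, e4, SqData.pol_symm]
  have q1 : Q (0, 1, 0, 0) = q := hS (1, 0, 0, 0)
  have q2 : Q (0, 0, 1, 0) = q := (hS (0, 1, 0, 0)).trans q1
  have q3 : Q (0, 0, 0, 1) = q := (hS (0, 0, 1, 0)).trans q2
  have q4 : Q (1, 1, 1, 1) = q := (hS (0, 0, 0, 1)).trans q3
  have r1 : Q (1, 1, 0, 0) = β := by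
    have : ((1, 1, 0, 0) : A) = (1, 0, 0, 0) + (0, 1, 0, 0) := by decide
    rw [this, hexp, q1, ← hq, h2, zero_add]
  have r2 : Q (0, 0, 1, 1) = β := by
    have : ((0, 0, 1, 1) : A) = (0, 0, 1, 0) + (0, 0, 0, 1) := by decide
    rw [this, hexp, q2, q3, h2, zero_add, b2]
  have r3 : Q (1, 0, 1, 0) = γ := by
    have : ((1, 0, 1, 0) : A) = (1, 0, 0, 0) + (0, 0, 1, 0) := by decide
    rw [this, hexp, q2, ← hq, h2, zero_add]
  have rel : q = β + γ := by
    have e1 : ((1, 1, 1, 1) : A) = (1, 1, 0, 0) + (0, 0, 1, 1) := by decide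
    have e2 : ((1, 1, 0, 0) : A) = (1, 0, 0, 0) + (0, 1, 0, 0) := by decide
    have e3 : ((0, 0, 1, 1) : A) = (0, 0, 1, 0) + (0, 0, 0, 1) := by decide
    have e4 := q4
    rw [e1, hexp, r1, r2, h2, zero_add, e2, e3, hQ, hQ', hQ', c2, b1, c1, ← hγ, h2, zero_add] at e4
    exact e4.symm
  have hg : ∀ x y : B, sm (x + y).1 q + sm (x + y).2 β = sm x.1 q + sm x.2 β + (sm y.1 q + sm y.2 β) := by
    intro x y
    show sm (x.1 + y.1) q + sm (x.2 + y.2) β = _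
    rw [sm_add h2, sm_add h2]; abel
  refine ⟨AddMonoidHom.mk' (fun x => sm x.1 q + sm x.2 β) hg, ?_⟩
  intro a
  show Q a = sm (Q0 a).1 q + sm (Q0 a).2 β
  have hit : ∀ (i : ℕ) (a : A), (Q a = sm (Q0 a).1 q + sm (Q0 a).2 β) → Q (S^[i] a) = sm (Q0 (S^[i] a)).1 q + sm (Q0 (S^[i] a)).2 β := by
    intro i
    induction i with
    | zero => exact fun a h => h
    | succ i ih =>
      intro a h
      rw [Function.iterate_succ_apply', hS, Q0_S]
      exact ih a h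
  rcases orbit_dec a with rfl | ⟨i, rfl | rfl | rfl⟩
  · rw [h0, show Q0 0 = (0, 0) by decide, sm_zero, sm_zero, add_zero]
  · apply hit
    rw [show Q0 (1, 0, 0, 0) = (1, 0) by decide, sm_zero, sm_one, add_zero]
  · apply hit
    rw [show Q0 (1, 1, 0, 0) = (0, 1) by decide, sm_zero, sm_one, zero_add, r1]
  · apply hit
    rw [show Q0 (1, 0, 1, 0) = (1, 1) by decide, sm_one, sm_one, r3, rel]
    have : β + γ + β = β + β + γ := by abel
    rw [this, h2, zero_add]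

end Cfsg.Agent.H21.F320
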