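import Cfsg.Agent.H21.F320a

/-! Groups of order 320. -/

set_option autoImplicit false

namespace Cfsg.Agent.H21.F320

open Sq TF Fpf3

theorem triv {G : Type*} [Group G] {T : Subgroup G} [T.Normal] (hT : commutator G = T) {s : G}
    (hg : ∀ g : G, ∃ t : T, ∃ i : ℕ, g = t * s ^ i) {X : Type*} [CommGroup X] (f : T →* X)
    (hf : ∀ t, f (MulAut.conjNormal s t) = f t) (t : T) : f t = 1 := by
  have hit : ∀ (i : ℕ) (t : T), f (MulAut.conjNormal (s ^ i) t) = f t := by
    intro i
    induction i with
    | zero => intro t; rw [pow_zero, map_one]; rfl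
    | succ i ih =>
      intro t
      rw [pow_succ', map_mul, MulAut.mul_apply, hf, ih]
  have h1 : commutator G ≤ f.ker.map T.subtype := by
    rw [commutator_def, Subgroup.commutator_le]
    intro g _ h _
    obtain ⟨t, i, rfl⟩ := hg g
    obtain ⟨t', j, rfl⟩ := hg h
    refine ⟨t * MulAut.conjNormal (s ^ i) t' * MulAut.conjNormal (s ^ j) t⁻¹ * t'⁻¹, ?_, ?_⟩
    · show f _ = 1
      rw [map_mul, map_mul, map_mul, hit, hit, map_inv, map_inv]
      rw [mul_comm (f t) (f t'), mul_assoc (f t'), mul_inv_cancel, mul_one, mul_inv_cancel]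
    · show ((t * MulAut.conjNormal (s ^ i) t' * MulAut.conjNormal (s ^ j) t⁻¹ * t'⁻¹ : T) : G) = _
      rw [Subgroup.coe_mul, Subgroup.coe_mul, Subgroup.coe_mul, MulAut.conjNormal_apply, MulAut.conjNormal_apply,
        Subgroup.coe_inv, Subgroup.coe_inv, commutatorElement_def]
      have e1 : (s ^ i)⁻¹ * s ^ j = s ^ j * (s ^ i)⁻¹ := by
        rw [inv_mul_eq_iff_eq_mul, ← mul_assoc, ← pow_add, add_comm, pow_add, mul_inv_cancel_right]
      calc (t : G) * (s ^ i * t' * (s ^ i)⁻¹) * (s ^ j * (t : G)⁻¹ * (s ^ j)⁻¹) * (t' : G)⁻¹ =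
          (t : G) * (s ^ i * t') * ((s ^ i)⁻¹ * s ^ j) * (t : G)⁻¹ * (s ^ j)⁻¹ * (t' : G)⁻¹ := by group
        _ = _ := by rw [e1]; group
  rw [hT] at h1
  obtain ⟨t', ht', h2⟩ := h1 t.2
  have : t' = t := Subtype.ext h2
  rw [← this]; exact ht'

/-- fixed points -/
def fixSub {X : Type*} [Group X] (τ : MulAut X) : Subgroup X where
  carrier := {x | τ x = x}
  one_mem' := map_one τ
  mul_mem' := fun {a b} ha hb => by
    have ha' : τ a = a := ha
    have hb' : τ b = b := hb
    show τ (a * b) = a * b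
    rw [map_mul, ha', hb']
  inv_mem' := fun {a} ha => by
    have ha' : τ a = a := ha
    show τ a⁻¹ = a⁻¹
    rw [map_inv, ha']

theorem mem_fixSub {X : Type*} [Group X] {τ : MulAut X} {x : X} : x ∈ fixSub τ ↔ τ x = x := Iff.rfl

theorem card_mod5 {X : Type*} [Group X] [Finite X] (τ : MulAut X) (h5 : ∀ x, τ (τ (τ (τ (τ x)))) = x) (H : Subgroup X)
    (hH : ∀ x ∈ H, τ x ∈ H) : Nat.card H % 5 = Nat.card (H ⊓ fixSub τ : Subgroup X) % 5 := by
  classical
  have := Fintype.ofFinite H
  have hp : Fact (Nat.Prime 5) := ⟨Nat.prime_five⟩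
  let f : Function.End H := fun x => ⟨τ x, hH _ x.2⟩
  have hf : f ^ 5 ^ 1 = 1 := by
    funext x
    apply Subtype.ext
    exact h5 x
  have h1 := Equiv.Perm.card_fixedPoints_modEq hf
  rw [← Nat.card_eq_fintype_card, ← Nat.card_eq_fintype_card] at h1
  have h2 : Nat.card (Function.fixedPoints f) = Nat.card (H ⊓ fixSub τ : Subgroup X) := by
    apply Nat.card_congr
    exact
      { toFun := fun x => ⟨((x : H) : X), (x : H).2, congrArg Subtype.val x.2⟩
        invFun := fun x => ⟨⟨x, x.2.1⟩, Subtype.ext x.2.2⟩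
        left_inv := fun _ => rfl
        right_inv := fun _ => rfl }
  rw [h2] at h1
  exact h1

theorem cases16 {k : ℕ} (h : k ∣ 16) (h5 : k % 5 = 1) : k = 1 ∨ k = 16 := by
  have h1 : k ≤ 16 := Nat.le_of_dvd (by norm_num) h
  interval_cases k <;> revert h <;> revert h5 <;> decide

/-- a group of order 16 with a fixed-point-free automorphism of order 5 -/
theorem sixteen {X : Type*} [Group X] [Finite X] (hX : Nat.card X = 16) (τ : MulAut X) (h5 : ∀ x, τ (τ (τ (τ (τ x)))) = x)
    (free : ∀ x, τ x = x → x = 1) : (∀ x y : X, x * y = y * x) ∧ ∀ x : X, x * x = 1 := by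
  have hp : Fact (Nat.Prime 2) := ⟨Nat.prime_two⟩
  have hpg : IsPGroup 2 X := IsPGroup.of_card (n := 4) (by rw [hX]; norm_num)
  have hnt : Nontrivial X := Finite.one_lt_card_iff_nontrivial.1 (by rw [hX]; norm_num)
  have key : ∀ H : Subgroup X, (∀ x ∈ H, τ x ∈ H) → H ≠ ⊥ → H = ⊤ := by
    intro H hH hne
    have h1 := card_mod5 τ h5 H hH
    have h2 : (H ⊓ fixSub τ : Subgroup X) = ⊥ := by
      rw [Subgroup.eq_bot_iff_forall]
      intro x hx
      exact free x hx.2
    rw [h2, Subgroup.card_bot] at h1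
    have h3 : Nat.card H ∣ 16 := by
      rw [← hX]; exact Subgroup.card_subgroup_dvd_card H
    rcases cases16 h3 h1 with h | h
    · exact absurd (Subgroup.eq_bot_of_card_eq H h) hne
    · exact Subgroup.eq_top_of_card_eq H (by rw [h, hX])
  have hc : ∀ x y : X, x * y = y * x := by
    have h1 := hpg.center_nontrivial
    have h2 : Subgroup.center X = ⊤ := by
      apply key _ center_maps
      intro h
      rw [h] at h1
      exact (not_nontrivial_iff_subsingleton.2 inferInstance) h1
    intro x y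
    have h3 : y ∈ Subgroup.center X := by rw [h2]; exact Subgroup.mem_top _
    exact Subgroup.mem_center_iff.1 h3 x
  refine ⟨hc, ?_⟩
  let K : Subgroup X :=
    { carrier := {x | x * x = 1}
      one_mem' := mul_one 1
      mul_mem' := fun {a b} ha hb => by
        have ha' : a * a = 1 := ha
        have hb' : b * b = 1 := hb
        show a * b * (a * b) = 1
        calc a * b * (a * b) = a * (b * a) * b := by group
          _ = (a * a) * (b * b) := by rw [hc b a]; group
          _ = 1 := by rw [ha', hb', one_mul]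
      inv_mem' := fun {a} ha => by
        have ha' : a * a = 1 := ha
        show a⁻¹ * a⁻¹ = 1
        rw [← mul_inv_rev, ha', inv_one] }
  have hK : K = ⊤ := by
    apply key
    · intro x hx
      have hx' : x * x = 1 := hx
      show τ x * τ x = 1
      rw [← map_mul, hx', map_one]
    · intro h
      obtain ⟨x, hx⟩ := exists_prime_orderOf_dvd_card' (G := X) 2 (by rw [hX]; norm_num)
      have h1 : x ∈ K := by
        show x * x = 1
        rw [← pow_two, ← hx, pow_orderOf_eq_one]
      rw [h, Subgroup.mem_bot] at h1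
      rw [h1, orderOf_one] at hx
      omega
  intro x
  have : x ∈ K := by rw [hK]; exact Subgroup.mem_top _
  exact this

end Cfsg.Agent.H21.F320
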