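import Cfsg.Agent.H21.F320b

/-! Groups of order 320: the model of the derived subgroup. -/

set_option autoImplicit false

namespace Cfsg.Agent.H21.F320

open Sq TF Fpf3

universe u

theorem B_two : ∀ v : B, v + v = 0 := by decide

theorem exists_model {T : Type u} [Group T] [Finite T] (hT : Nat.card T = 64) (hZ : IsKleinFour (Subgroup.center T))
    (σ : MulAut T) (h5 : ∀ x, σ (σ (σ (σ (σ x)))) = x)
    (ht : ∀ (X : Type u) [CommGroup X] (f : T →* X), (∀ t, f (σ t) = f t) → ∀ t, f t = 1) :
    ∃ D : SqData T A B Q0, (∀ t, Multiplicative.toAdd (D.π (σ t)) = S (Multiplicative.toAdd (D.π t))) ∧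
      ∀ v, σ (D.ι v) = D.ι v := by
  classical
  have hp : Fact (Nat.Prime 2) := ⟨Nat.prime_two⟩
  have hZ4 : Nat.card (Subgroup.center T) = 4 := IsKleinFour.card_four
  have hZ2 : ∀ z ∈ Subgroup.center T, z * z = 1 := by
    intro z hz
    exact congrArg Subtype.val (IsKleinFour.mul_self (⟨z, hz⟩ : Subgroup.center T))
  have hcen : ∀ {z}, z ∈ Subgroup.center T → ∀ g, g * z = z * g := fun {z} hz g => Subgroup.mem_center_iff.1 hz g
  have hZmaps : ∀ x ∈ Subgroup.center T, σ x ∈ Subgroup.center T := center_maps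
  have hq16 : Nat.card (T ⧸ Subgroup.center T) = 16 := by
    have := Subgroup.card_eq_card_quotient_mul_card_subgroup (Subgroup.center T)
    rw [hT, hZ4] at this
    omega
  -- trivial action on the centre
  have hZfix : ∀ z ∈ Subgroup.center T, σ z = z := by
    have h1 := card_mod5 σ h5 (Subgroup.center T) hZmaps
    have h2 : Nat.card (Subgroup.center T ⊓ fixSub σ : Subgroup T) ≤ 4 := by
      rw [← hZ4]
      exact Subgroup.card_le_of_le inf_le_left
    have h3 : Nat.card (Subgroup.center T ⊓ fixSub σ : Subgroup T) = 4 := by rw [hZ4] at h1; omega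
    have h4 : (Subgroup.center T ⊓ fixSub σ : Subgroup T) = Subgroup.center T :=
      Subgroup.eq_of_le_of_card_ge inf_le_left (by rw [h3, hZ4])
    intro z hz
    rw [← h4] at hz
    exact hz.2
  -- the quotient
  let τ := qAut σ (Subgroup.center T) hZmaps
  have hτ : ∀ t : T, τ (QuotientGroup.mk t) = QuotientGroup.mk (σ t) := fun t => qAut_mk σ _ hZmaps t
  have hτ5 : ∀ x, τ (τ (τ (τ (τ x)))) = x := by
    intro x
    obtain ⟨t, rfl⟩ := QuotientGroup.mk_surjective x
    rw [hτ, hτ, hτ, hτ, hτ, h5]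
  have hτfree : ∀ x, τ x = x → x = 1 := by
    have h1 := card_mod5 τ hτ5 ⊤ (fun _ _ => Subgroup.mem_top _)
    rw [top_inf_eq, Subgroup.card_top, hq16] at h1
    have h2 : Nat.card (fixSub τ) ∣ 16 := by
      rw [← hq16]; exact Subgroup.card_subgroup_dvd_card _
    rcases cases16 h2 h1.symm with h | h
    · intro x hx
      have h3 := Subgroup.eq_bot_of_card_eq _ h
      have h4 : x ∈ fixSub τ := hx
      rw [h3] at h4
      exact Subgroup.mem_bot.1 h4
    · exfalso
      have h3 : fixSub τ = ⊤ := Subgroup.eq_top_of_card_eq _ (by rw [h, hq16])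
      have hfix : ∀ x, τ x = x := fun x => by
        have : x ∈ fixSub τ := by rw [h3]; exact Subgroup.mem_top _
        exact this
      have hpg : IsPGroup 2 (T ⧸ Subgroup.center T) := IsPGroup.of_card (n := 4) (by rw [hq16]; norm_num)
      have hnt : Nontrivial (T ⧸ Subgroup.center T) := Finite.one_lt_card_iff_nontrivial.1 (by rw [hq16]; norm_num)
      have hnil : Group.IsNilpotent (T ⧸ Subgroup.center T) := hpg.isNilpotent
      have hlt := IsSolvable.commutator_lt_top_of_nontrivial (T ⧸ Subgroup.center T)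
      have h4 := ht (Abelianization (T ⧸ Subgroup.center T)) (Abelianization.of.comp (QuotientGroup.mk' _)) (by
        intro t
        show Abelianization.of (QuotientGroup.mk (σ t)) = Abelianization.of (QuotientGroup.mk t)
        rw [← hτ, hfix])
      apply hlt.ne
      rw [Subgroup.eq_top_iff']
      intro x
      obtain ⟨t, rfl⟩ := QuotientGroup.mk_surjective x
      rw [← Abelianization.ker_of, MonoidHom.mem_ker]
      exact h4 t
  obtain ⟨hcommq, hsqq⟩ := sixteen hq16 τ hτ5 hτfree
  have hsq : ∀ t : T, t * t ∈ Subgroup.center T := by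
    intro t
    rw [← QuotientGroup.eq_one_iff]
    exact hsqq (QuotientGroup.mk t)
  -- the first coordinate
  let _ : CommGroup (T ⧸ Subgroup.center T) := { (inferInstance : Group (T ⧸ Subgroup.center T)) with mul_comm := hcommq }
  let R : Additive (T ⧸ Subgroup.center T) →+ Additive (T ⧸ Subgroup.center T) := MonoidHom.toAdditive τ.toMonoidHom
  have hRfree : ∀ w, R w = w → w = 0 := hτfree
  have hW2 : ∀ w : Additive (T ⧸ Subgroup.center T), w + w = 0 := hsqq
  have hR : ∀ w, w + R w + R (R w) + R (R (R w)) + R (R (R (R w))) = 0 := by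
    intro w
    apply hRfree
    have h1 : R (R (R (R (R w)))) = w := hτ5 w
    rw [map_add, map_add, map_add, map_add, h1]
    abel
  obtain ⟨w₀, hw₀⟩ : ∃ w₀ : Additive (T ⧸ Subgroup.center T), w₀ ≠ 0 := by
    have hnt : Nontrivial (T ⧸ Subgroup.center T) := Finite.one_lt_card_iff_nontrivial.1 (by rw [hq16]; norm_num)
    exact exists_ne (1 : T ⧸ Subgroup.center T)
  obtain ⟨e, -, he⟩ := model_equiv hW2 hq16 R hR hw₀
  have hesymm : ∀ w, e.symm (R w) = S (e.symm w) := by
    intro w
    apply e.injective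
    rw [e.apply_symm_apply, he, e.apply_symm_apply]
  let π : T →* Multiplicative A := (AddEquiv.toMultiplicative e.symm).toMonoidHom.comp
    (MonoidHom.mk' (fun t : T => (Multiplicative.ofAdd (Additive.ofMul (QuotientGroup.mk t : T ⧸ Subgroup.center T)))) (fun _ _ => rfl))
  have hπ : ∀ t, Multiplicative.toAdd (π t) = e.symm (Additive.ofMul (QuotientGroup.mk t : T ⧸ Subgroup.center T)) := fun _ => rfl
  have hπsurj : Function.Surjective π := by
    intro w
    obtain ⟨t, ht⟩ := QuotientGroup.mk_surjective (Additive.toMul (e (Multiplicative.toAdd w)))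
    refine ⟨t, Multiplicative.toAdd.injective ?_⟩
    rw [hπ, ht]
    exact e.symm_apply_apply _
  have hπ1 : ∀ t, π t = 1 ↔ t ∈ Subgroup.center T := by
    intro t
    rw [← QuotientGroup.eq_one_iff]
    constructor
    · intro h
      have h1 : e.symm (Additive.ofMul (QuotientGroup.mk t : T ⧸ Subgroup.center T)) = 0 := h
      have h2 := congrArg e h1
      rw [e.apply_symm_apply, map_zero] at h2
      exact h2
    · intro h
      apply Multiplicative.toAdd.injective
      rw [hπ, h]
      exact map_zero e.symm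
  have hπσ : ∀ t, Multiplicative.toAdd (π (σ t)) = S (Multiplicative.toAdd (π t)) := by
    intro t
    rw [hπ, hπ, ← hesymm]
    rfl
  -- the centre
  obtain ⟨j⟩ : Nonempty (Multiplicative B ≃* Subgroup.center T) := IsKleinFour.nonempty_mulEquiv
  let ι : Multiplicative B →* T := (Subgroup.center T).subtype.comp j.toMonoidHom
  have hιmem : ∀ v, ι v ∈ Subgroup.center T := fun v => (j v).2
  have hιinj : Function.Injective ι := fun a b hab => j.injective (Subtype.ext hab)
  have hιj : ∀ z (hz : z ∈ Subgroup.center T), ι (j.symm ⟨z, hz⟩) = z := fun z hz => by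
    show ((j (j.symm ⟨z, hz⟩) : Subgroup.center T) : T) = z
    rw [j.apply_symm_apply]
  have hB2 := B_two
  have hπsurj' := hπsurj
  choose g₀ hg₀ using hπsurj'
  let Q : A → B := fun w => Multiplicative.toAdd (j.symm ⟨g₀ (Multiplicative.ofAdd w) * g₀ (Multiplicative.ofAdd w), hsq _⟩)
  let D : SqData T A B Q :=
    { π := π
      ι := ι
      surj := hπsurj
      inj := hιinj
      exact := fun t => by
        rw [hπ1]
        constructor
        · intro h
          exact ⟨_, hιj t h⟩
        · rintro ⟨v, rfl⟩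
          exact hιmem v
      central := fun v t => (hcen (hιmem v) t).symm
      two := hB2
      sq := fun t => by
        have h1 : (g₀ (π t))⁻¹ * t ∈ Subgroup.center T := by
          rw [← hπ1, map_mul, map_inv, hg₀, inv_mul_cancel]
        have h2 : t * t = g₀ (π t) * g₀ (π t) := by
          have h4 := hcen h1 (g₀ (π t))
          have h5 := hZ2 _ h1
          calc t * t = g₀ (π t) * (((g₀ (π t))⁻¹ * t) * g₀ (π t)) * ((g₀ (π t))⁻¹ * t) := by group
            _ = g₀ (π t) * (g₀ (π t) * ((g₀ (π t))⁻¹ * t)) * ((g₀ (π t))⁻¹ * t) := by rw [h4]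
            _ = g₀ (π t) * g₀ (π t) * (((g₀ (π t))⁻¹ * t) * ((g₀ (π t))⁻¹ * t)) := by group
            _ = g₀ (π t) * g₀ (π t) := by rw [h5, mul_one]
        rw [h2]
        exact (hιj _ _).symm }
  have hσι : ∀ v, σ (ι v) = ι v := fun v => hZfix _ (hιmem v)
  -- invariance
  have hQS : ∀ a, Q (S a) = Q a := by
    intro a
    obtain ⟨t, ht⟩ := hπsurj (Multiplicative.ofAdd a)
    have h1 := D.sq (σ t)
    have h2 := D.sq t
    have h3 : Multiplicative.toAdd (D.π (σ t)) = S a := by
      show Multiplicative.toAdd (π (σ t)) = S a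
      rw [hπσ, ht]; rfl
    have h4 : Multiplicative.toAdd (D.π t) = a := by
      show Multiplicative.toAdd (π t) = a
      rw [ht]; rfl
    rw [h3] at h1
    rw [h4] at h2
    rw [← map_mul, h2] at h1
    have h5 : D.ι (Multiplicative.ofAdd (Q a)) = D.ι (Multiplicative.ofAdd (Q (S a))) := (hσι _).symm.trans h1
    exact (Multiplicative.ofAdd.injective (D.inj h5)).symm
  have hQ0 : Q 0 = 0 := by
    have h := D.sq 1
    rw [map_one, one_mul] at h
    have h1 := D.inj ((map_one D.ι).trans h)
    exact h1.symm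
  obtain ⟨g, hg⟩ := model_quad hB2 Q hQ0 D.pol_add hQS
  -- surjectivity of `g`
  have hgsurj : Function.Surjective g := by
    let Z₀ : Subgroup T := (AddMonoidHom.toMultiplicative g).range.map ι
    have hZ₀ : ∀ z ∈ Z₀, z ∈ Subgroup.center T := by
      rintro _ ⟨v, -, rfl⟩
      exact hιmem v
    have : Z₀.Normal := ⟨fun z hz x => by
      rw [hcen (hZ₀ z hz) x, mul_inv_cancel_right]; exact hz⟩
    have hZ₀sq : ∀ t : T, t * t ∈ Z₀ := by
      intro t
      rw [D.sq t, hg]
      exact ⟨_, ⟨Multiplicative.ofAdd (Q0 (Multiplicative.toAdd (D.π t))), rfl⟩, rfl⟩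
    have hcomm : ∀ x y : T ⧸ Z₀, x * y = y * x := by
      have hsq' : ∀ x : T ⧸ Z₀, x * x = 1 := by
        intro x
        obtain ⟨t, rfl⟩ := QuotientGroup.mk_surjective x
        rw [← QuotientGroup.mk_mul, QuotientGroup.eq_one_iff]
        exact hZ₀sq t
      intro x y
      have i1 : x⁻¹ = x := inv_eq_of_mul_eq_one_right (hsq' x)
      have i2 : y⁻¹ = y := inv_eq_of_mul_eq_one_right (hsq' y)
      have i3 : (x * y)⁻¹ = x * y := inv_eq_of_mul_eq_one_right (hsq' _)
      rw [← i3, mul_inv_rev, i1, i2]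
    let _ : CommGroup (T ⧸ Z₀) := { (inferInstance : Group (T ⧸ Z₀)) with mul_comm := hcomm }
    let p : T →* T ⧸ Z₀ := QuotientGroup.mk' Z₀
    let f : T →* T ⧸ Z₀ := p * p.comp σ.toMonoidHom * p.comp (σ.toMonoidHom.comp σ.toMonoidHom) *
      p.comp (σ.toMonoidHom.comp (σ.toMonoidHom.comp σ.toMonoidHom)) *
      p.comp (σ.toMonoidHom.comp (σ.toMonoidHom.comp (σ.toMonoidHom.comp σ.toMonoidHom)))
    have hf : ∀ t, f t = p t * p (σ t) * p (σ (σ t)) * p (σ (σ (σ t))) * p (σ (σ (σ (σ t)))) := fun _ => rfl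
    have h1 := ht (T ⧸ Z₀) f (by
      intro t
      rw [hf, hf, h5]
      rw [mul_comm _ (p t)]
      simp only [mul_assoc])
    have h2 : ∀ z ∈ Subgroup.center T, z ∈ Z₀ := by
      intro z hz
      have h3 := h1 z
      rw [hf, hZfix z hz, hZfix z hz, hZfix z hz, hZfix z hz, ← map_mul, hZ2 z hz, map_one, one_mul, ← map_mul, hZ2 z hz, map_one, one_mul] at h3
      exact (QuotientGroup.eq_one_iff z).1 h3
    intro v
    obtain ⟨u, ⟨w, rfl⟩, h3⟩ := h2 (ι (Multiplicative.ofAdd v)) (hιmem _)
    exact ⟨Multiplicative.toAdd w, hιinj h3⟩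
  have hgbij : Function.Bijective g := ⟨Finite.injective_iff_surjective.2 hgsurj, hgsurj⟩
  refine ⟨D.trans (AddEquiv.refl A) (AddEquiv.ofBijective g hgbij) Q0 (fun w => (hg w).symm), ?_, ?_⟩
  · exact hπσ
  · intro v
    exact hσι _

end Cfsg.Agent.H21.F320
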