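import Cfsg.Agent.H21.F320c
import Cfsg.Agent.H21.SqCount

/-! Groups of order 320: uniqueness. -/

set_option autoImplicit false

namespace Cfsg.Agent.H21.F320

open Sq TF Fpf3

theorem S_rel : ∀ a : A, a + S (S a) + S (S (S (S a))) = S a + S (S (S a)) := by decide

theorem equivariant {T₁ T₂ : Type*} [Group T₁] [Group T₂] [Finite T₁] [Finite T₂] (D₁ : SqData T₁ A B Q0) (D₂ : SqData T₂ A B Q0)
    (σ₁ : MulAut T₁) (σ₂ : MulAut T₂)
    (h₁ : ∀ t, Multiplicative.toAdd (D₁.π (σ₁ t)) = S (Multiplicative.toAdd (D₁.π t))) (h₁' : ∀ v, σ₁ (D₁.ι v) = D₁.ι v)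
    (h₂ : ∀ t, Multiplicative.toAdd (D₂.π (σ₂ t)) = S (Multiplicative.toAdd (D₂.π t))) (h₂' : ∀ v, σ₂ (D₂.ι v) = D₂.ι v) :
    ∃ φ : T₁ ≃* T₂, ∀ t, φ (σ₁ t) = σ₂ (φ t) := by
  classical
  obtain ⟨φ₀, e1, e2⟩ := iso_of_sq D₁ D₂ (AddEquiv.refl A) (AddEquiv.refl B) (fun w => rfl)
  have e1' : ∀ t, Multiplicative.toAdd (D₂.π (φ₀ t)) = Multiplicative.toAdd (D₁.π t) := e1
  have e2' : ∀ v, φ₀ (D₁.ι v) = D₂.ι v := e2
  have hk : ∀ t, ∃ v, D₂.ι v = (σ₂ (φ₀ t))⁻¹ * φ₀ (σ₁ t) := by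
    intro t
    apply (D₂.exact _).1
    rw [map_mul, map_inv, inv_mul_eq_one]
    apply Multiplicative.toAdd.injective
    rw [h₂, e1', e1', h₁]
  choose k hk using hk
  have hk' : ∀ t, φ₀ (σ₁ t) = σ₂ (φ₀ t) * D₂.ι (k t) := fun t => by rw [hk]; group
  have hkmul : ∀ t t', k (t * t') = k t * k t' := by
    intro t t'
    apply D₂.inj
    have a1 := hk' (t * t')
    rw [map_mul, map_mul, hk', hk', map_mul, map_mul] at a1
    have a2 := D₂.central (k t) (σ₂ (φ₀ t'))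
    rw [map_mul]
    have a3 : σ₂ (φ₀ t) * D₂.ι (k t) * (σ₂ (φ₀ t') * D₂.ι (k t')) = σ₂ (φ₀ t) * σ₂ (φ₀ t') * (D₂.ι (k t) * D₂.ι (k t')) := by
      calc σ₂ (φ₀ t) * D₂.ι (k t) * (σ₂ (φ₀ t') * D₂.ι (k t')) = σ₂ (φ₀ t) * (D₂.ι (k t) * σ₂ (φ₀ t')) * D₂.ι (k t') := by group
        _ = _ := by rw [a2]; group
    rw [a3] at a1
    exact (mul_left_cancel a1).symm
  have hkι : ∀ v, k (D₁.ι v) = 1 := by
    intro v
    apply D₂.inj
    rw [hk, h₁', e2', h₂', inv_mul_cancel, map_one]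
  have hkπ : ∀ t t', D₁.π t = D₁.π t' → k t = k t' := by
    intro t t' h
    obtain ⟨v, hv⟩ := (D₁.exact (t'⁻¹ * t)).1 (by rw [map_mul, map_inv, h, inv_mul_cancel])
    have : t = t' * D₁.ι v := by rw [hv]; group
    rw [this, hkmul, hkι, mul_one]
  have hs := D₁.surj
  choose l hl using hs
  let κ : A →+ B := AddMonoidHom.mk' (fun a => Multiplicative.toAdd (k (l (Multiplicative.ofAdd a)))) (by
    intro a b
    show Multiplicative.toAdd (k (l (Multiplicative.ofAdd a * Multiplicative.ofAdd b))) =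
      Multiplicative.toAdd (k (l (Multiplicative.ofAdd a)) * k (l (Multiplicative.ofAdd b)))
    rw [← hkmul]
    congr 1
    apply hkπ
    rw [map_mul, hl, hl, hl])
  have hκ : ∀ t, κ (Multiplicative.toAdd (D₁.π t)) = Multiplicative.toAdd (k t) := by
    intro t
    show Multiplicative.toAdd (k (l (D₁.π t))) = Multiplicative.toAdd (k t)
    congr 1
    apply hkπ
    rw [hl]
  let μ : A →+ B := AddMonoidHom.mk' (fun a => κ (S a + S (S (S a)))) (by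
    intro a b
    show κ (S (a + b) + S (S (S (a + b)))) = κ (S a + S (S (S a))) + κ (S b + S (S (S b)))
    rw [S_add, S_add, S_add, ← map_add]
    congr 1
    abel)
  have hμ : ∀ a, κ a + μ (S a) = μ a := by
    intro a
    show κ a + κ (S (S a) + S (S (S (S a)))) = κ (S a + S (S (S a)))
    rw [← map_add, ← add_assoc, S_rel]
  refine ⟨φ₀.trans (ofHom D₂ μ), fun t => ?_⟩
  show ofHom D₂ μ (φ₀ (σ₁ t)) = σ₂ (ofHom D₂ μ (φ₀ t))
  rw [ofHom_apply, ofHom_apply, map_mul, h₂', e1', e1', h₁, ← hμ (Multiplicative.toAdd (D₁.π t)), hk', hκ, ofAdd_add, map_mul]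
  rw [mul_assoc]
  rfl

/-- groups with a normal subgroup and a cyclic complement -/
theorem iso_ext {G₁ G₂ : Type*} [Group G₁] [Group G₂] {T₁ : Subgroup G₁} {T₂ : Subgroup G₂} [T₁.Normal] [T₂.Normal] {s₁ : G₁} {s₂ : G₂}
    (ho : orderOf s₁ = orderOf s₂) (hd₁ : ∀ n : ℤ, s₁ ^ n ∈ T₁ → s₁ ^ n = 1) (hd₂ : ∀ n : ℤ, s₂ ^ n ∈ T₂ → s₂ ^ n = 1)
    (hg₁ : ∀ g, ∃ t ∈ T₁, ∃ n : ℤ, g = t * s₁ ^ n) (hg₂ : ∀ g, ∃ t ∈ T₂, ∃ n : ℤ, g = t * s₂ ^ n)
    (φ : T₁ ≃* T₂) (hφ : ∀ t, φ (MulAut.conjNormal s₁ t) = MulAut.conjNormal s₂ (φ t)) : Nonempty (G₁ ≃* G₂) := by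
  have hφn : ∀ (n : ℤ) t, φ ((MulAut.conjNormal s₁ ^ n) t) = (MulAut.conjNormal s₂ ^ n) (φ t) := by
    intro n t
    have h1 : MulAut.congr φ (MulAut.conjNormal s₁) = MulAut.conjNormal s₂ := by
      ext t
      show ((φ (MulAut.conjNormal s₁ (φ.symm t)) : T₂) : G₂) = _
      rw [hφ, φ.apply_symm_apply]
    have h2 : (MulAut.congr φ (MulAut.conjNormal s₁)) ^ n = MulAut.congr φ ((MulAut.conjNormal s₁) ^ n) := (map_zpow _ _ _).symm
    rw [← h1, h2]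
    show _ = φ ((MulAut.conjNormal s₁ ^ n) (φ.symm (φ t)))
    rw [φ.symm_apply_apply]
  let ψ : Multiplicative ℤ →* MulAut T₁ := zpowersHom _ (MulAut.conjNormal s₁)
  let f₁ : T₁ ⋊[ψ] Multiplicative ℤ →* G₁ := SemidirectProduct.lift T₁.subtype (zpowersHom G₁ s₁) (by
    intro n
    ext t
    show (((MulAut.conjNormal s₁ ^ (Multiplicative.toAdd n)) t : T₁) : G₁) = s₁ ^ (Multiplicative.toAdd n) * t * (s₁ ^ (Multiplicative.toAdd n))⁻¹
    rw [← map_zpow, MulAut.conjNormal_apply])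
  let f₂ : T₁ ⋊[ψ] Multiplicative ℤ →* G₂ := SemidirectProduct.lift (T₂.subtype.comp φ.toMonoidHom) (zpowersHom G₂ s₂) (by
    intro n
    ext t
    show ((φ ((MulAut.conjNormal s₁ ^ (Multiplicative.toAdd n)) t) : T₂) : G₂) = s₂ ^ (Multiplicative.toAdd n) * (φ t : T₂) * (s₂ ^ (Multiplicative.toAdd n))⁻¹
    rw [hφn, ← map_zpow, MulAut.conjNormal_apply])
  have hf₁ : ∀ x, f₁ x = x.1 * s₁ ^ (Multiplicative.toAdd x.2) := fun x => rfl
  have hf₂ : ∀ x, f₂ x = φ x.1 * s₂ ^ (Multiplicative.toAdd x.2) := fun x => rfl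
  have k₁ : ∀ x, f₁ x = 1 ↔ x.1 = 1 ∧ s₁ ^ (Multiplicative.toAdd x.2) = 1 := by
    intro x
    rw [hf₁]
    constructor
    · intro h
      have h1 : s₁ ^ (Multiplicative.toAdd x.2) = (x.1 : G₁)⁻¹ := eq_inv_of_mul_eq_one_right h
      have h2 := hd₁ _ (by rw [h1]; exact T₁.inv_mem x.1.2)
      rw [h2, mul_one] at h
      exact ⟨Subtype.ext h, h2⟩
    · rintro ⟨h1, h2⟩
      rw [h1, h2, Subgroup.coe_one, one_mul]
  have k₂ : ∀ x, f₂ x = 1 ↔ x.1 = 1 ∧ s₂ ^ (Multiplicative.toAdd x.2) = 1 := by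
    intro x
    rw [hf₂]
    constructor
    · intro h
      have h1 : s₂ ^ (Multiplicative.toAdd x.2) = ((φ x.1 : T₂) : G₂)⁻¹ := eq_inv_of_mul_eq_one_right h
      have h2 := hd₂ _ (by rw [h1]; exact T₂.inv_mem (φ x.1).2)
      rw [h2, mul_one] at h
      exact ⟨φ.injective (by rw [map_one]; exact Subtype.ext h), h2⟩
    · rintro ⟨h1, h2⟩
      rw [h1, h2, map_one, Subgroup.coe_one, one_mul]
  have hker : f₁.ker = f₂.ker := by
    ext x
    rw [MonoidHom.mem_ker, MonoidHom.mem_ker, k₁, k₂, ← orderOf_dvd_iff_zpow_eq_one, ← orderOf_dvd_iff_zpow_eq_one, ho]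
  have s1 : Function.Surjective f₁ := by
    intro g
    obtain ⟨t, ht, n, rfl⟩ := hg₁ g
    exact ⟨⟨⟨t, ht⟩, Multiplicative.ofAdd n⟩, rfl⟩
  have s2 : Function.Surjective f₂ := by
    intro g
    obtain ⟨t, ht, n, rfl⟩ := hg₂ g
    refine ⟨⟨φ.symm ⟨t, ht⟩, Multiplicative.ofAdd n⟩, ?_⟩
    rw [hf₂]
    show ((φ (φ.symm ⟨t, ht⟩) : T₂) : G₂) * s₂ ^ n = _
    rw [φ.apply_symm_apply]
  exact ⟨(QuotientGroup.quotientKerEquivOfSurjective f₁ s1).symm.trans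
    ((QuotientGroup.quotientMulEquivOfEq hker).trans (QuotientGroup.quotientKerEquivOfSurjective f₂ s2))⟩

universe u v

/-- the structure -/
theorem exists_str {G : Type u} [Group G] [Finite G] (hG : Nat.card G = 320) (hD : Nat.card (commutator G) = 64)
    (hZ : IsKleinFour (Subgroup.center (commutator G))) :
    ∃ s : G, orderOf s = 5 ∧ (∀ n : ℤ, s ^ n ∈ commutator G → s ^ n = 1) ∧ (∀ g, ∃ t ∈ commutator G, ∃ n : ℤ, g = t * s ^ n) ∧
      ∃ D : SqData (commutator G) A B Q0, (∀ t, Multiplicative.toAdd (D.π (MulAut.conjNormal s t)) = S (Multiplicative.toAdd (D.π t))) ∧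
      ∀ v, MulAut.conjNormal s (D.ι v) = D.ι v := by
  have hp : Fact (Nat.Prime 5) := ⟨Nat.prime_five⟩
  obtain ⟨s, hs⟩ := exists_prime_orderOf_dvd_card' (G := G) 5 (by rw [hG]; norm_num)
  have hcs : Nat.card (Subgroup.zpowers s) = 5 := by rw [Nat.card_zpowers, hs]
  have hcomp : Subgroup.IsComplement' (commutator G) (Subgroup.zpowers s) :=
    Subgroup.isComplement'_of_coprime (by rw [hD, hcs, hG]) (by rw [hD, hcs]; norm_num)
  have hd : ∀ n : ℤ, s ^ n ∈ commutator G → s ^ n = 1 := by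
    intro n hn
    have h1 := hcomp.disjoint
    rw [Subgroup.disjoint_def] at h1
    exact h1 hn (Subgroup.zpow_mem_zpowers s n)
  have hg : ∀ g, ∃ t ∈ commutator G, ∃ n : ℤ, g = t * s ^ n := by
    intro g
    obtain ⟨⟨⟨t, ht⟩, ⟨_, n, rfl⟩⟩, h⟩ := hcomp.2 g
    exact ⟨t, ht, n, h.symm⟩
  have hg' : ∀ g : G, ∃ t : commutator G, ∃ i : ℕ, g = t * s ^ i := by
    intro g
    obtain ⟨t, ht, n, rfl⟩ := hg g
    obtain ⟨i, hi⟩ := mem_powers_iff_mem_zpowers.2 (Subgroup.zpow_mem_zpowers s n)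
    have hi' : s ^ i = s ^ n := hi
    exact ⟨⟨t, ht⟩, i, by rw [hi']⟩
  refine ⟨s, hs, hd, hg, ?_⟩
  refine exists_model hD hZ (MulAut.conjNormal s) ?_ ?_
  · intro x
    have h1 : (MulAut.conjNormal s : MulAut (commutator G)) ^ 5 = 1 := by
      rw [← map_pow, ← hs, pow_orderOf_eq_one, map_one]
    have h2 := DFunLike.congr_fun h1 x
    simpa [pow_succ] using h2
  · intro X _ f hf t
    exact triv rfl hg' f hf t

theorem uniq {G₁ : Type u} {G₂ : Type v} [Group G₁] [Group G₂] [Finite G₁] [Finite G₂] (hG₁ : Nat.card G₁ = 320)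
    (hD₁ : Nat.card (commutator G₁) = 64) (hZ₁ : IsKleinFour (Subgroup.center (commutator G₁))) (hG₂ : Nat.card G₂ = 320)
    (hD₂ : Nat.card (commutator G₂) = 64) (hZ₂ : IsKleinFour (Subgroup.center (commutator G₂))) : Nonempty (G₁ ≃* G₂) := by
  obtain ⟨s₁, o₁, d₁, g₁, D₁, a₁, b₁⟩ := exists_str hG₁ hD₁ hZ₁
  obtain ⟨s₂, o₂, d₂, g₂, D₂, a₂, b₂⟩ := exists_str hG₂ hD₂ hZ₂
  obtain ⟨φ, hφ⟩ := equivariant D₁ D₂ _ _ a₁ b₁ a₂ b₂
  exact iso_ext (o₁.trans o₂.symm) d₁ d₂ g₁ g₂ φ hφ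

end Cfsg.Agent.H21.F320
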