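import Cfsg.Agent.H21.F320d
import Cfsg.Agent.H21.SqU3
import Cfsg.Agent.Uni.Stab

/-! Groups of order 320: the centralizer of an involution in `PSU₃(4)`. -/

set_option autoImplicit false

namespace Cfsg.Agent.H21.F320

open Cfsg Cfsg.Agent.Uni Cfsg.Agent.AutPSU Cfsg.Agent.H38.PSU3 Sq

variable {F : Type*} [Field F] [Fintype F] {q : ℕ}

/-- the squaring data of the unipotent radical -/
theorem exists_rrData' (hF : Fintype.card F = q ^ 2) [CharP F 2] {u : Fin 3 → F} (hu : Iso q u) {v z : Fin 3 → F}
    (hv : Hyp q u v) (hzu : hermForm 3 F q z u = 0) (hzv : hermForm 3 F q z v = 0) (hzz : hermForm 3 F q z z = 1)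
    (hzs : ∀ x, hermForm 3 F q x u = 0 → hermForm 3 F q x v = 0 → x = (hermForm 3 F q x z) • z) :
    ∃ D : SqData (RR hF hu) F (fixedAdd (conjE hF)) (nrm (conjE hF) (conjE_conjE hF)),
      ∀ g, Multiplicative.toAdd (D.π g) = hermForm 3 F q (act g.1 v) z := by
  have hvu : hermForm 3 F q v u = 1 := (hv.symm hF).2.2
  have huz : hermForm 3 F q u z = 0 := (hermForm_eq_zero_comm hF).1 hzu
  have hvz : hermForm 3 F q v z = 0 := (hermForm_eq_zero_comm hF).1 hzv
  have hneg : ∀ s : F, -s = s := fun s => CharTwo.neg_eq s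
  -- the coordinate
  have hcoord : ∀ (g : SU 3 F q) (w : Fin 3 → F) (s : F), IsEich g u w s →
      hermForm 3 F q (act g v) z = hermForm 3 F q w z := by
    intro g w s hg
    rw [hg v, hvu, hermForm_add_left, hermForm_sub_left, hermForm_add_left, hermForm_smul_left,
      hermForm_smul_left, hermForm_smul_left, huz, hvz]
    ring
  have hpimul : ∀ g g' : RR hF hu, hermForm 3 F q (act (g * g' : RR hF hu).1 v) z =
      hermForm 3 F q (act g.1 v) z + hermForm 3 F q (act g'.1 v) z := by
    rintro ⟨g, w, s, hw, hs, hg⟩ ⟨g', w', s', hw', hs', hg'⟩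
    have h1 := hg.mul hF hu.2 hw hw' hg'
    show hermForm 3 F q (act (g * g') v) z = _
    rw [hcoord _ _ _ h1, hcoord _ _ _ hg, hcoord _ _ _ hg', hermForm_add_left]
  let π : RR hF hu →* Multiplicative F :=
    MonoidHom.mk' (fun g => Multiplicative.ofAdd (hermForm 3 F q (act g.1 v) z)) (fun g g' => by
      rw [hpimul]; rfl)
  -- the centre
  have hex : ∀ c : fixedAdd (conjE hF), ∃ g : SU 3 F q, IsEich g u 0 c.1 := by
    rintro ⟨c, hc⟩
    have hc' : c ^ q = c := hc
    exact exists_eich hF u 0 c hu.2 (hermForm_zero_right hF u) (by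
      rw [hc', hermForm_zero_right hF, CharTwo.add_self_eq_zero, neg_zero])
  choose E hE using hex
  have hER : ∀ c, E c ∈ RR hF hu := fun c => ⟨0, c.1, hermForm_zero_right hF u, by
    have hc' : c.1 ^ q = c.1 := c.2
    rw [hc', hermForm_zero_right hF, CharTwo.add_self_eq_zero, neg_zero], hE c⟩
  have hEmul : ∀ c d, E (c + d) = E c * E d := by
    intro c d
    have h1 := (hE c).mul hF hu.2 (hermForm_zero_right hF u) (hermForm_zero_right hF u) (hE d)
    rw [hermForm_zero_right hF, add_zero, sub_zero] at h1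
    exact (hE (c + d)).unique h1
  let ι : Multiplicative (fixedAdd (conjE hF)) →* RR hF hu :=
    MonoidHom.mk' (fun c => ⟨E (Multiplicative.toAdd c), hER _⟩) (fun c d => by
      apply Subtype.ext
      exact hEmul _ _)
  have hEv : ∀ c, act (E c) v = v + c.1 • u := by
    intro c
    rw [(isEich_zero_iff hF _ _ _).1 (hE c) v, hvu, mul_one]
  -- the shape of a vector orthogonal to u
  have hshape : ∀ w, hermForm 3 F q u w = 0 → w = (hermForm 3 F q w v) • u + (hermForm 3 F q w z) • z := by
    intro w hw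
    obtain ⟨w', hw'u, hw'v, e⟩ := decomp hF hv w
    have hwu : hermForm 3 F q w u = 0 := (hermForm_eq_zero_comm hF).1 hw
    rw [hwu, zero_smul, add_zero] at e
    have h1 : hermForm 3 F q w z = hermForm 3 F q w' z := by
      rw [e, hermForm_add_left, hermForm_smul_left, huz, mul_zero, zero_add]
    rw [h1, ← hzs w' hw'u hw'v]
    exact e
  have hform : ∀ w, hermForm 3 F q u w = 0 → hermForm 3 F q w w = hermForm 3 F q w z * (hermForm 3 F q w z) ^ q := by
    intro w hw
    set a := hermForm 3 F q w v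
    set b := hermForm 3 F q w z
    rw [hshape w hw, hermForm_add_left, hermForm_add_right hF, hermForm_add_right hF, hermForm_smul_left,
      hermForm_smul_left, hermForm_smul_left, hermForm_smul_left, hermForm_smul_right, hermForm_smul_right,
      hermForm_smul_right, hermForm_smul_right, hu.2, huz, hzu, hzz]
    ring
  refine ⟨⟨π, ι, ?_, ?_, ?_, ?_, ?_, ?_⟩, fun g => rfl⟩
  · -- surjectivity
    intro b
    set b' : F := Multiplicative.toAdd b
    obtain ⟨s, g, hs, hg⟩ := exists_eich' hF u (b' • z) hu.2 (by rw [hermForm_smul_right, huz, mul_zero])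
    refine ⟨⟨g, b' • z, s, by rw [hermForm_smul_right, huz, mul_zero], hs, hg⟩, ?_⟩
    show Multiplicative.ofAdd (hermForm 3 F q (act g v) z) = b
    rw [hcoord _ _ _ hg, hermForm_smul_left, hzz, mul_one]
    rfl
  · -- injectivity
    intro c d hcd
    have h1 : E (Multiplicative.toAdd c) = E (Multiplicative.toAdd d) := congrArg Subtype.val hcd
    have h2 := hEv (Multiplicative.toAdd c)
    rw [h1, hEv] at h2
    have h3 := add_left_cancel h2
    have h4 : ((Multiplicative.toAdd d).1 - (Multiplicative.toAdd c).1) • u = 0 := by rw [sub_smul, h3, sub_self]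
    have h5 := sub_eq_zero.1 ((smul_eq_zero.1 h4).resolve_right hu.1)
    exact (Subtype.ext h5.symm : Multiplicative.toAdd c = Multiplicative.toAdd d)
  · -- exactness
    rintro ⟨g, w, s, hw, hs, hg⟩
    constructor
    · intro h
      have h1 : hermForm 3 F q w z = 0 := by
        rw [← hcoord _ _ _ hg]; exact h
      have h2 := hshape w hw
      rw [h1, zero_smul, add_zero] at h2
      set a := hermForm 3 F q w v
      have h3 : IsEich g u 0 (s + a - a ^ q) := by
        intro x
        rw [hg x, h2, hermForm_zero_right hF, hermForm_smul_right]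
        module
      have h4 := skew_of_isEich hF hu.1 hu.2 h3
      rw [CharTwo.neg_eq] at h4
      refine ⟨Multiplicative.ofAdd ⟨s + a - a ^ q, h4⟩, ?_⟩
      apply Subtype.ext
      exact (hE ⟨s + a - a ^ q, h4⟩).unique h3
    · rintro ⟨c, hc⟩
      rw [← hc]
      show Multiplicative.ofAdd (hermForm 3 F q (act (E (Multiplicative.toAdd c)) v) z) = 1
      rw [hcoord _ _ _ (hE _), hermForm_zero_left]
      rfl
  · -- central
    rintro c ⟨g, w, s, hw, hs, hg⟩
    apply Subtype.ext
    show E (Multiplicative.toAdd c) * g = g * E (Multiplicative.toAdd c)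
    have h1 := (hE (Multiplicative.toAdd c)).mul hF hu.2 (hermForm_zero_right hF u) hw hg
    have h2 := hg.mul hF hu.2 hw (hermForm_zero_right hF u) (hE (Multiplicative.toAdd c))
    rw [hermForm_zero_right hF, zero_add, sub_zero] at h1
    rw [hermForm_zero_left, add_zero, sub_zero, add_comm] at h2
    exact h1.unique h2
  · intro c
    apply Subtype.ext
    exact CharTwo.add_self_eq_zero c.1
  · -- squares
    rintro ⟨g, w, s, hw, hs, hg⟩
    apply Subtype.ext
    have h1 := hg.mul hF hu.2 hw hw hg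
    have hww : w + w = 0 := by
      ext i
      exact CharTwo.add_self_eq_zero (w i)
    rw [hww, CharTwo.add_self_eq_zero, zero_sub, hneg, hform w hw] at h1
    show g * g = E (nrm (conjE hF) (conjE_conjE hF) (hermForm 3 F q (act g v) z))
    apply h1.unique
    have h2 := hE (nrm (conjE hF) (conjE_conjE hF) (hermForm 3 F q (act g v) z))
    have h3 : (nrm (conjE hF) (conjE_conjE hF) (hermForm 3 F q (act g v) z)).1 =
        hermForm 3 F q w z * (hermForm 3 F q w z) ^ q := by
      show hermForm 3 F q (act g v) z * conjE hF (hermForm 3 F q (act g v) z) = _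
      rw [hcoord _ _ _ hg, conjE_apply]
    rwa [h3] at h2


/-- an element fixing a hyperbolic pair is trivial -/
theorem fix_two (hF : Fintype.card F = q ^ 2) {u v z : Fin 3 → F}
    (hv : Hyp q u v) (hzu : hermForm 3 F q z u = 0) (hzv : hermForm 3 F q z v = 0) (hzz : hermForm 3 F q z z = 1)
    (hzs : ∀ x, hermForm 3 F q x u = 0 → hermForm 3 F q x v = 0 → x = (hermForm 3 F q x z) • z)
    {k : SU 3 F q} (hku : act k u = u) (hkv : act k v = v) : k = 1 := by
  have e1 : act k z = (hermForm 3 F q (act k z) z) • z := by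
    apply hzs
    · have : hermForm 3 F q (act k z) u = hermForm 3 F q (act k z) (act k u) := by rw [hku]
      rw [this, act_form, hzu]
    · have : hermForm 3 F q (act k z) v = hermForm 3 F q (act k z) (act k v) := by rw [hkv]
      rw [this, act_form, hzv]
  set c := hermForm 3 F q (act k z) z with hc
  have hcc : c ^ (q + 1) = 1 := by
    have h1 : hermForm 3 F q (act k z) (act k z) = 1 := by rw [act_form, hzz]
    rw [e1, hermForm_smul_left, hermForm_smul_right, hzz, mul_one] at h1
    rw [pow_succ']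
    exact h1
  obtain ⟨g, hg, hdet⟩ := exists_grefl hF hzz hcc
  have h1 : suToGU hF 3 k = g := by
    apply gact_ext
    intro x
    rw [gact_suToGU, hg]
    obtain ⟨x', hx'u, hx'v, e⟩ := decomp hF hv x
    have hx'z := hzs x' hx'u hx'v
    obtain ⟨d, hd⟩ : ∃ d, d = hermForm 3 F q x' z := ⟨_, rfl⟩
    have hxz : hermForm 3 F q x z = d := by
      rw [hd, e, hermForm_add_left, hermForm_add_left, hermForm_smul_left, hermForm_smul_left,
        (hermForm_eq_zero_comm hF).1 hzu, (hermForm_eq_zero_comm hF).1 hzv]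
      ring
    rw [← hd] at hx'z
    rw [hxz]
    rw [hx'z] at e
    generalize hermForm 3 F q x v = a at e
    generalize hermForm 3 F q x u = b at e
    rw [e, act_add, act_add, act_smul, act_smul, act_smul, hku, hkv, e1]
    module
  have h2 : detHom hF 3 g = 1 := by
    rw [← h1]
    have : suToGU hF 3 k ∈ (suToGU hF 3).range := ⟨_, rfl⟩
    rw [suToGU_range hF] at this
    exact this
  have hc1 : c = 1 := by
    rw [← hdet, h2]; rfl
  rw [hc1, one_smul] at e1
  apply act_ext
  intro x
  rw [act_one]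
  obtain ⟨x', hx'u, hx'v, e⟩ := decomp hF hv x
  have hx'z := hzs x' hx'u hx'v
  obtain ⟨d, hd⟩ : ∃ d, d = hermForm 3 F q x' z := ⟨_, rfl⟩
  rw [← hd] at hx'z
  rw [hx'z] at e
  generalize hermForm 3 F q x v = a at e
  generalize hermForm 3 F q x u = b at e
  rw [e, act_add, act_add, act_smul, act_smul, act_smul, hku, hkv, e1]

theorem fix_mem_RR (hF : Fintype.card F = q ^ 2) {u : Fin 3 → F} (hu : Iso q u) {g : SU 3 F q} (hgu : act g u = u) :
    g ∈ RR hF hu := by
  obtain ⟨v, hv⟩ := exists_hyp' hF hu.1 hu.2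
  obtain ⟨z, hzu, hzv, hzz, hzs⟩ := exists_unit hF hv
  set v' := act g v with hv'
  have hv'1 : hermForm 3 F q v' v' = 0 := by rw [hv', act_form, hv.2.1]
  have huv' : hermForm 3 F q u v' = 1 := by
    have : hermForm 3 F q u v' = hermForm 3 F q (act g u) (act g v) := by rw [hgu]
    rw [this, act_form, hv.2.2]
  have hvu : hermForm 3 F q v u = 1 := (hv.symm hF).2.2
  have huw : hermForm 3 F q u (v' - v) = 0 := by
    rw [hermForm_sub_right hF, huv', hv.2.2, sub_self]
  have hs : hermForm 3 F q v v' + (hermForm 3 F q v v') ^ q = -hermForm 3 F q (v' - v) (v' - v) := by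
    rw [hermForm_sub_left, hermForm_sub_right hF, hermForm_sub_right hF, hv'1, hv.2.1, hermForm_symm hF]
    ring
  obtain ⟨h, hh⟩ := exists_eich hF u (v' - v) _ hu.2 huw hs
  have hhR : h ∈ RR hF hu := ⟨_, _, huw, hs, hh⟩
  have hhv : act h v = v' := by
    rw [hh v, hvu, hermForm_sub_right hF, hv.2.1]
    module
  have h1 := fix_two hF hv hzu hzv hzz hzs (k := h⁻¹ * g) (by
    rw [act_mul, hgu]
    have := RR_fix hF hu (inv_mem hhR)
    exact this) (by
    rw [act_mul, ← hv', ← hhv, act_inv_act])
  rw [← inv_mul_eq_one.1 h1]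
  exact hhR

theorem exists_tor (hF : Fintype.card F = q ^ 2) {u v z : Fin 3 → F}
    (hv : Hyp q u v) (hzu : hermForm 3 F q z u = 0) (hzv : hermForm 3 F q z v = 0) (hzz : hermForm 3 F q z z = 1)
    {lam : F} (hl : lam ^ (q + 1) = 1) :
    ∃ s : SU 3 F q, act s u = lam • u ∧ act s v = lam • v ∧ act s z = (lam ^ 2)⁻¹ • z := by
  have hl0 : lam ≠ 0 := by
    rintro rfl
    rw [zero_pow (by omega)] at hl
    exact zero_ne_one hl
  have hlq : (lam ^ q)⁻¹ = lam := by
    rw [pow_succ] at hl
    exact inv_eq_of_mul_eq_one_right hl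
  have hvu : hermForm 3 F q v u = 1 := (hv.symm hF).2.2
  have huz : hermForm 3 F q u z = 0 := (hermForm_eq_zero_comm hF).1 hzu
  have hvz : hermForm 3 F q v z = 0 := (hermForm_eq_zero_comm hF).1 hzv
  obtain ⟨g, hg, hgd⟩ := exists_gtorus hF hv hl0
  obtain ⟨k, hk, hkd⟩ := exists_grefl hF hzz (a := (lam ^ 2)⁻¹) (by
    rw [inv_pow, ← pow_mul, mul_comm, pow_mul, hl, one_pow, inv_one])
  have h1 : detHom hF 3 (g * k) = 1 := by
    apply Subtype.ext
    apply Units.ext
    rw [map_mul]
    show (((detHom hF 3 g : Fˣ) : F)) * ((detHom hF 3 k : Fˣ) : F) = 1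
    rw [hgd, hkd, hlq]
    field_simp
  have h2 : g * k ∈ (suToGU hF 3).range := by
    rw [suToGU_range hF]; exact h1
  obtain ⟨s, hs⟩ := h2
  have h3 : ∀ x, act s x = gact g (gact k x) := by
    intro x
    rw [← gact_suToGU hF, hs, gact_mul]
  refine ⟨s, ?_, ?_, ?_⟩
  · rw [h3, hk, huz, hg, mul_zero, zero_smul, add_zero, hv.2.2, hv.1]
    module
  · rw [h3, hk, hvz, hg, mul_zero, zero_smul, add_zero, hv.2.1, hvu, hlq]
    module
  · rw [h3, hk, hzz]
    have : z + (((lam ^ 2)⁻¹ - 1) * 1) • z = (lam ^ 2)⁻¹ • z := by module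
    rw [this, hg, hermForm_smul_left, hermForm_smul_left, hzv, hzu]
    module

end Cfsg.Agent.H21.F320
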