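import Cfsg.Agent.H21.F320e
import Cfsg.Agent.H21.SqAut

/-! Groups of order 320: the centralizer of an involution in `SU₃(4)`. -/

set_option autoImplicit false

namespace Cfsg.Agent.H21.F320

open Cfsg Cfsg.Agent.Uni Cfsg.Agent.AutPSU Cfsg.Agent.H38.PSU3 Sq

variable {F : Type*} [Field F] [Fintype F]

theorem klein_center (hF : Fintype.card F = 4 ^ 2) [CharP F 2] {T : Type*} [Group T] [Finite T]
    (D : SqData T F (fixedAdd (conjE hF)) (nrm (conjE hF) (conjE_conjE hF))) : IsKleinFour (Subgroup.center T) := by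
  have h1 := D.center_eq (nrm_nondeg (conjE hF) (conjE_conjE hF) (conjE_ne_one hF))
  have h2 : Nat.card (Subgroup.center T) = 4 := by
    rw [h1, ← Nat.card_congr (MonoidHom.ofInjective D.inj).toEquiv]
    exact card_fixedAdd hF
  refine ⟨h2, ?_⟩
  have hnt : Nontrivial (Subgroup.center T) := Finite.one_lt_card_iff_nontrivial.1 (by rw [h2]; norm_num)
  rw [Monoid.exponent_eq_prime_iff Nat.prime_two]
  intro g hg
  apply orderOf_eq_prime _ hg
  apply Subtype.ext
  have h3 : (g : T) ∈ D.ι.range := by rw [← h1]; exact g.2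
  obtain ⟨v, hv⟩ := h3
  show (g : T) ^ 2 = 1
  rw [← hv, pow_two, D.iota_sq]

theorem cent_facts (hF : Fintype.card F = 4 ^ 2) [CharP F 2] {u : Fin 3 → F} (hu : Iso 4 u) {t₀ : SU 3 F 4}
    (ht₀ : IsEich t₀ u 0 1) :
    Nat.card (Subgroup.centralizer ({t₀} : Set (SU 3 F 4))) = 320 ∧
      Nat.card (commutator (Subgroup.centralizer ({t₀} : Set (SU 3 F 4)))) = 64 ∧
      IsKleinFour (Subgroup.center (commutator (Subgroup.centralizer ({t₀} : Set (SU 3 F 4))))) := by
  classical
  obtain ⟨v, hv⟩ := exists_hyp' hF hu.1 hu.2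
  obtain ⟨z, hzu, hzv, hzz, hzs⟩ := exists_unit hF hv
  obtain ⟨D, hD⟩ := exists_rrData' hF hu hv hzu hzv hzz hzs
  have hvu : hermForm 3 F 4 v u = 1 := (hv.symm hF).2.2
  have ht : ∀ x, act t₀ x = x + hermForm 3 F 4 x u • u := by
    intro x
    have := (isEich_zero_iff hF t₀ u 1).1 ht₀ x
    rwa [one_mul] at this
  set C := Subgroup.centralizer ({t₀} : Set (SU 3 F 4)) with hC
  have hmem : ∀ {g}, g ∈ C → act g u = hermForm 3 F 4 (act g v) u • u := by
    intro g hg
    have h1 := Subgroup.mem_centralizer_singleton_iff.1 hg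
    have h2 : act (t₀ * g) v = act (g * t₀) v := by rw [h1]
    rw [act_mul, act_mul, ht, ht, hvu, one_smul, act_add] at h2
    exact (add_left_cancel h2).symm
  have hmem1 : ∀ {g}, g ∈ C → act g u = hermForm 3 F 4 (act g u) v • u ∧ (hermForm 3 F 4 (act g u) v) ^ (4 + 1) = 1 := by
    intro g hg
    have h1 := hmem hg
    set μ := hermForm 3 F 4 (act g v) u with hμ
    have h2 : hermForm 3 F 4 (act g u) v = μ := by
      rw [h1, hermForm_smul_left, hv.2.2, mul_one]
    refine ⟨by rw [h2]; exact h1, ?_⟩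
    rw [h2]
    have h3 : hermForm 3 F 4 (act g v) (act g u) = 1 := by rw [act_form, hvu]
    rw [h1, hermForm_smul_right, ← hμ] at h3
    rw [pow_succ]; exact h3
  have hmem2 : ∀ {g : SU 3 F 4} {μ : F}, act g u = μ • u → μ ^ (4 + 1) = 1 → g ∈ C := by
    intro g μ hg hμ
    rw [hC, Subgroup.mem_centralizer_singleton_iff]
    apply act_ext
    intro x
    rw [act_mul, act_mul, ht, ht, act_add, act_smul, hg]
    congr 1
    rw [smul_smul]
    congr 1
    have h1 : hermForm 3 F 4 (act g x) (act g u) = hermForm 3 F 4 x u := act_form _ _ _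
    rw [hg, hermForm_smul_right] at h1
    rw [← h1]
    rw [pow_succ] at hμ
    linear_combination (hermForm 3 F 4 (act g x) u) * hμ
  have hRC : RR hF hu ≤ C := fun g hg => hmem2 (μ := 1) (by rw [one_smul]; exact RR_fix hF hu hg) (one_pow _)
  -- the multiplier
  let m : C →* F :=
    { toFun := fun g => hermForm 3 F 4 (act g.1 u) v
      map_one' := by
        show hermForm 3 F 4 (act (1 : SU 3 F 4) u) v = 1
        rw [act_one, hv.2.2]
      map_mul' := by
        intro g h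
        show hermForm 3 F 4 (act (g.1 * h.1) u) v = _
        conv_lhs => rw [act_mul, (hmem1 h.2).1, act_smul, hermForm_smul_left, mul_comm] }
  have hm : ∀ g : C, m g = hermForm 3 F 4 (act g.1 u) v := fun _ => rfl
  let M : C →* Fˣ := m.toHomUnits
  have hM : ∀ g, ((M g : Fˣ) : F) = m g := fun _ => rfl
  have hker : M.ker = (RR hF hu).subgroupOf C := by
    ext g
    rw [MonoidHom.mem_ker, Subgroup.mem_subgroupOf]
    constructor
    · intro h
      have h1 : m g = 1 := by rw [← hM, h]; rfl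
      apply fix_mem_RR hF hu
      rw [(hmem1 g.2).1, ← hm, h1, one_smul]
    · intro h
      apply Units.ext
      rw [hM, hm, RR_fix hF hu h, hv.2.2]; rfl
  have hcR : Nat.card (RR hF hu) = 64 := by
    rw [D.card, card_fixedAdd, Nat.card_eq_fintype_card, hF]
    norm_num
  have hcR' : Nat.card ((RR hF hu).subgroupOf C) = 64 := by
    rw [Nat.card_congr (Subgroup.subgroupOfEquivOfLe hRC).toEquiv, hcR]
  -- the torus
  obtain ⟨lam, hl, hl1⟩ : ∃ lam : F, lam ^ (4 + 1) = 1 ∧ lam ≠ 1 := by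
    have h1 := card_norm_ker hF
    have h2 : Nontrivial ((powMonoidHom (4 + 1) : Fˣ →* Fˣ).ker) := Finite.one_lt_card_iff_nontrivial.1 (by rw [h1]; norm_num)
    obtain ⟨x, hx⟩ := exists_ne (1 : (powMonoidHom (4 + 1) : Fˣ →* Fˣ).ker)
    refine ⟨((x : Fˣ) : F), ?_, fun h => hx (Subtype.ext (Units.ext h))⟩
    have h3 : (x : Fˣ) ^ (4 + 1) = 1 := x.2
    have h4 := congrArg (fun y : Fˣ => (y : F)) h3
    simpa using h4
  obtain ⟨s, hsu, hsv, hsz⟩ := exists_tor hF hv hzu hzv hzz hl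
  have hsC : s ∈ C := hmem2 hsu hl
  have hl0 : lam ≠ 0 := by
    rintro rfl
    rw [zero_pow (by omega)] at hl
    exact zero_ne_one hl
  have hl3 : lam⁻¹ * ((lam ^ 2) ^ 4) ≠ 1 := by
    intro h
    apply hl1
    have h1 : lam ^ 7 = 1 := by
      have h2 : lam ^ 7 = lam⁻¹ * ((lam ^ 2) ^ 4) := by field_simp
      rw [h2, h]
    have h3 : lam ^ 2 = 1 := by
      have : lam ^ 7 = lam ^ (4 + 1) * lam ^ 2 := by ring
      rw [h1, hl, one_mul] at this
      exact this.symm
    have h4 : lam ^ (4 + 1) = lam ^ 2 * lam ^ 2 * lam := by ring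
    rw [hl, h3, one_mul, one_mul] at h4
    exact h4.symm
  have hcardC : Nat.card C = 320 := by
    have h1 : Nat.card C = Nat.card M.ker * Nat.card M.range := by
      rw [← Subgroup.index_ker, Subgroup.card_mul_index]
    have h2 : Nat.card M.range = 5 := by
      have h3 : M.range ≤ (powMonoidHom (4 + 1) : Fˣ →* Fˣ).ker := by
        rintro _ ⟨g, rfl⟩
        apply Units.ext
        show ((M g : Fˣ) : F) ^ (4 + 1) = 1
        rw [hM, hm]
        exact (hmem1 g.2).2
      have h4 : Nat.card M.range ∣ 5 := by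
        have h5 := Subgroup.card_dvd_of_le h3
        rwa [card_norm_ker hF] at h5
      rcases (Nat.dvd_prime Nat.prime_five).1 h4 with h | h
      · exfalso
        have h5 := Subgroup.eq_bot_of_card_eq _ h
        have h6 : M ⟨s, hsC⟩ ∈ M.range := ⟨_, rfl⟩
        rw [h5, Subgroup.mem_bot] at h6
        apply hl1
        have h7 : ((M ⟨s, hsC⟩ : Fˣ) : F) = 1 := by rw [h6]; rfl
        rw [hM, hm] at h7
        have h8 : hermForm 3 F 4 (act s u) v = 1 := h7
        rwa [hsu, hermForm_smul_left, hv.2.2, mul_one] at h8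
      · exact h
    rw [h1, hker, hcR', h2]
  -- the commutator subgroup
  have hcomm : commutator C = (RR hF hu).subgroupOf C := by
    apply le_antisymm
    · rw [← hker]
      exact Abelianization.commutator_subset_ker M
    · have hsub : ∀ a b : C, a * b * a⁻¹ * b⁻¹ ∈ commutator C := fun a b =>
        Subgroup.commutator_mem_commutator (Subgroup.mem_top a) (Subgroup.mem_top b)
      -- the centre
      have hι : ∀ w, (⟨(D.ι w : SU 3 F 4), hRC (D.ι w).2⟩ : C) ∈ commutator C := by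
        intro w
        obtain ⟨x, hx⟩ := trc_surj (conjE hF) (conjE_conjE hF) (conjE_ne_one hF) (Multiplicative.toAdd w)
        obtain ⟨a, ha⟩ := D.surj (Multiplicative.ofAdd x)
        obtain ⟨b, hb⟩ := D.surj (Multiplicative.ofAdd 1)
        have h1 := D.comm_eq a b
        rw [ha, hb] at h1
        have h2 : pol (nrm (conjE hF) (conjE_conjE hF)) x 1 = Multiplicative.toAdd w := by
          rw [← hx]
          apply Subtype.ext
          show (x + 1) * conjE hF (x + 1) - x * conjE hF x - 1 * conjE hF 1 = x + conjE hF x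
          rw [map_add, map_one]
          ring
        have h3 : b * a = a * b * D.ι w := by
          rw [h1]
          congr 2
        have h4 : D.ι w = b⁻¹ * a⁻¹ * b⁻¹⁻¹ * a⁻¹⁻¹ := by
          have : D.ι w = (a * b)⁻¹ * (b * a) := by rw [h3]; group
          rw [this]; group
        have h5 := hsub ⟨(b : SU 3 F 4)⁻¹, C.inv_mem (hRC b.2)⟩ ⟨(a : SU 3 F 4)⁻¹, C.inv_mem (hRC a.2)⟩
        have h6 : (⟨(D.ι w : SU 3 F 4), hRC (D.ι w).2⟩ : C) = ⟨(b : SU 3 F 4)⁻¹, C.inv_mem (hRC b.2)⟩ * ⟨(a : SU 3 F 4)⁻¹, C.inv_mem (hRC a.2)⟩ *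
            (⟨(b : SU 3 F 4)⁻¹, C.inv_mem (hRC b.2)⟩ : C)⁻¹ * (⟨(a : SU 3 F 4)⁻¹, C.inv_mem (hRC a.2)⟩ : C)⁻¹ := by
          apply Subtype.ext
          have := congrArg (fun y : RR hF hu => (y : SU 3 F 4)) h4
          exact this
        rw [h6]; exact h5
      rintro ⟨r, hrC⟩ hr
      have hr' : r ∈ RR hF hu := hr
      obtain ⟨g, hg⟩ := D.surj (Multiplicative.ofAdd ((lam⁻¹ * ((lam ^ 2) ^ 4) - 1)⁻¹ * Multiplicative.toAdd (D.π ⟨r, hr'⟩)))
      have hsg : s * (g : SU 3 F 4) * s⁻¹ ∈ RR hF hu := RR_conj' hF hu g.2 hl0 hsu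
      have hpi : Multiplicative.toAdd (D.π ⟨s * (g : SU 3 F 4) * s⁻¹, hsg⟩) = lam⁻¹ * ((lam ^ 2) ^ 4) * Multiplicative.toAdd (D.π g) := by
        rw [hD, hD]
        show hermForm 3 F 4 (act (s * (g : SU 3 F 4) * s⁻¹) v) z = _
        have e1 : act s⁻¹ v = lam⁻¹ • v := by
          have : v = lam⁻¹ • act s v := by rw [hsv, smul_smul, inv_mul_cancel₀ hl0, one_smul]
          conv_lhs => rw [this, act_smul, act_inv_act]
        have e2 : z = (lam ^ 2) • act s z := by rw [hsz, smul_smul, mul_inv_cancel₀ (pow_ne_zero _ hl0), one_smul]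
        rw [act_mul, act_mul, e1, act_smul, act_smul, hermForm_smul_left]
        conv_lhs => rw [e2]
        rw [hermForm_smul_right, act_form]
        ring
      have h1 : D.π ((⟨s * (g : SU 3 F 4) * s⁻¹, hsg⟩ * g⁻¹)⁻¹ * ⟨r, hr'⟩) = 1 := by
        rw [map_mul, map_inv, inv_mul_eq_one, map_mul, map_inv]
        apply Multiplicative.toAdd.injective
        show Multiplicative.toAdd (D.π ⟨s * (g : SU 3 F 4) * s⁻¹, hsg⟩) + - Multiplicative.toAdd (D.π g) = _
        rw [hpi]
        have h2 : Multiplicative.toAdd (D.π g) = (lam⁻¹ * ((lam ^ 2) ^ 4) - 1)⁻¹ * Multiplicative.toAdd (D.π ⟨r, hr'⟩) := by rw [hg]; rfl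
        rw [h2]
        have h3 := sub_ne_zero.2 hl3
        generalize (lam⁻¹ * ((lam ^ 2) ^ 4)) = c at h3
        field_simp
        ring
      obtain ⟨w, hw⟩ := (D.exact _).1 h1
      have h2 : (⟨r, hr'⟩ : RR hF hu) = ⟨s * (g : SU 3 F 4) * s⁻¹, hsg⟩ * g⁻¹ * D.ι w := by rw [hw]; group
      have h3 : (⟨r, hrC⟩ : C) = ⟨s, hsC⟩ * ⟨g, hRC g.2⟩ * (⟨s, hsC⟩ : C)⁻¹ * (⟨g, hRC g.2⟩ : C)⁻¹ * ⟨D.ι w, hRC (D.ι w).2⟩ := by
        apply Subtype.ext
        exact congrArg (fun y : RR hF hu => (y : SU 3 F 4)) h2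
      rw [h3]
      exact (commutator C).mul_mem (hsub _ _) (hι w)
  refine ⟨hcardC, by rw [hcomm, hcR'], ?_⟩
  have e : commutator C ≃* RR hF hu := (MulEquiv.subgroupCongr hcomm).trans (Subgroup.subgroupOfEquivOfLe hRC)
  exact klein_center hF (D.congr e)

end Cfsg.Agent.H21.F320
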