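import Cfsg.Agent.H21.TFApp

/-!
# Automorphisms of the Sylow 2-subgroup of `PSU(3,4)` (helper21)
-/

set_option autoImplicit false

namespace Cfsg.Agent.H21.TF

open scoped commutatorElement

namespace Conf

variable {T : Type*} [Group T] {Z : Subgroup T} {α : MulAut T}

theorem near [Finite T] (h : Conf Z α) (hc : Nat.card T = 64) (hsq : ∀ w : T, w * w ∈ Z) {x y : T} (hx : x ∉ Z)
    (hyx : y * y = x * x) (hxy : ⁅x, y⁆ = 1 ∨ ⁅x, y⁆ = x * x) : x⁻¹ * y ∈ Z := by
  haveI := h.normal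
  have hcm : ∀ x y : T, ⁅x, y⁆ ∈ Z := fun x y => comm_of_sq (fun x y hx => by
    rw [← h.cen x hx, mul_inv_cancel_right]; exact hx) hsq x y
  obtain ⟨hcube, hcyc⟩ := h.cube_eq hc hsq
  have hkey : ∀ w t : T, α ⁅t, α w⁆ = ⁅t, w⁆ := fun w t => h.key (fun r => hcm r w) (hcyc w) t
  have hz := hsq x
  obtain ⟨p1, p2, p3, p4, p5, p6⟩ := h.prod hz
  have hz1 : x * x ≠ 1 := fun e => hx ((h.mem x).2 e)
  rcases hxy with e | e
  · have hxy := commutatorElement_eq_one_iff_mul_comm.1 e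
    have hxy' : x⁻¹ * y = y * x⁻¹ := ((show Commute x y from hxy).inv_left).eq
    rw [h.mem]
    calc x⁻¹ * y * (x⁻¹ * y) = x⁻¹ * y * (y * x⁻¹) := by rw [← hxy']
      _ = x⁻¹ * (y * y) * x⁻¹ := by group
      _ = 1 := by rw [hyx]; group
  · exfalso
    have h1 : ⁅y, α x⁆ = α (α (x * x)) := by
      have h2 := hkey x y
      rw [h.c_symm (hcm x y), e] at h2
      apply α.injective
      rw [h2, h.cube hz]
    have h2 : α x * y ∈ Z := by
      rw [h.mem, h.mul_sq' (hcm _ _), h1, ← map_mul, hyx, p6]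
      exact h.sq hz
    have h3 : y = (α x)⁻¹ * (α x * y) := by group
    have h4 : y * y = α (x * x) := by
      have c1 := h.cen _ h2 (α x)⁻¹
      calc y * y = ((α x)⁻¹ * (α x * y)) * ((α x)⁻¹ * (α x * y)) := by rw [← h3]
        _ = (α x)⁻¹ * ((α x * y) * (α x)⁻¹) * (α x * y) := by group
        _ = (α x)⁻¹ * ((α x)⁻¹ * (α x * y)) * (α x * y) := by rw [c1]
        _ = (α x * α x)⁻¹ * ((α x * y) * (α x * y)) := by group
        _ = (α x * α x)⁻¹ := by rw [h.sq h2, mul_one]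
        _ = α (x * x) := by rw [← map_mul, h.inv (h.maps _ hz)]
    rw [hyx] at h4
    exact hz1 (h.free _ h4.symm)

theorem sq_mul_mem (h : Conf Z α) {w c : T} (hc : c ∈ Z) : w * c * (w * c) = w * w := by
  calc w * c * (w * c) = w * (c * w) * c := by group
    _ = w * (w * c) * c := by rw [h.cen c hc w]
    _ = w * w * (c * c) := by group
    _ = w * w := by rw [h.sq hc, mul_one]

/-- involutory automorphisms act trivially on `Z` -/
theorem invol_trivial [Finite T] (h : Conf Z α) (hc : Nat.card T = 64) (hsq : ∀ w : T, w * w ∈ Z) {τ : MulAut T}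
    (hτ : ∀ t, τ (τ t) = t) : ∀ z ∈ Z, τ z = z := by
  haveI := h.normal
  have hcm : ∀ x y : T, ⁅x, y⁆ ∈ Z := fun x y => comm_of_sq (fun x y hx => by
    rw [← h.cen x hx, mul_inv_cancel_right]; exact hx) hsq x y
  have hZτ : ∀ z ∈ Z, τ z ∈ Z := fun z hz => by
    rw [h.mem, ← map_mul, h.sq hz, map_one]
  by_contra hcon
  push Not at hcon
  obtain ⟨z, hz, hzτ⟩ := hcon
  have hz1 : z ≠ 1 := by rintro rfl; exact hzτ (map_one τ)
  set z0 := z * τ z with hz0
  have hz0Z : z0 ∈ Z := Z.mul_mem hz (hZτ z hz)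
  have hz01 : z0 ≠ 1 := by
    intro e
    apply hzτ
    have := eq_inv_of_mul_eq_one_right e
    rw [this, h.inv hz]
  have hz0τ : τ z0 = z0 := by
    rw [hz0, map_mul, hτ, h.cen z hz]
  -- fixed elements of `Z`
  have hfix : ∀ u ∈ Z, τ u = u → u = 1 ∨ u = z0 := by
    intro u hu hut
    rcases h.cyc.2 z0 hz0Z hz01 u hu with e | e | e | e
    · exact Or.inl e
    · exact Or.inr e
    · exfalso
      -- `τ` fixes `z0`, `α z0`, hence everything
      have h1 : τ (α z0) = α z0 := by rw [← e]; exact hut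
      obtain ⟨p1, p2, p3, p4, p5, p6⟩ := h.prod hz0Z
      have h2 : τ (α (α z0)) = α (α z0) := by rw [← p1, map_mul, hz0τ, h1]
      rcases h.cyc.2 z0 hz0Z hz01 z hz with e | e | e | e
      · exact hz1 e
      · exact hzτ (by rw [e]; exact hz0τ)
      · exact hzτ (by rw [e]; exact h1)
      · exact hzτ (by rw [e]; exact h2)
    · exfalso
      have h2 : τ (α (α z0)) = α (α z0) := by rw [← e]; exact hut
      obtain ⟨p1, p2, p3, p4, p5, p6⟩ := h.prod hz0Z
      have h1 : τ (α z0) = α z0 := by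
        have : α z0 = z0 * α (α z0) := by
          rw [← p1, ← mul_assoc, h.sq hz0Z, one_mul]
        rw [this, map_mul, hz0τ, h2]
      rcases h.cyc.2 z0 hz0Z hz01 z hz with e | e | e | e
      · exact hz1 e
      · exact hzτ (by rw [e]; exact hz0τ)
      · exact hzτ (by rw [e]; exact h1)
      · exact hzτ (by rw [e]; exact h2)
  obtain ⟨w0, hw0⟩ : ∃ w0 : T, w0 ∉ Z := by
    by_contra hcon
    push Not at hcon
    have : Z = ⊤ := (Subgroup.eq_top_iff' Z).2 hcon
    have h4 := h.card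
    rw [this, Subgroup.card_top, hc] at h4
    omega
  obtain ⟨x, -, hxx⟩ := h.sq_cover ⊤ (fun _ _ => Subgroup.mem_top _) (Subgroup.mem_top w0) hw0 (hsq w0) z0 hz0Z
  have hxZ : x ∉ Z := fun e => hz01 (by rw [← hxx, h.sq e])
  obtain ⟨y, hyx, hyZ, hxyZ, -, -⟩ := h.exists_y hc hsq hxZ
  have hw : ∀ w : T, w * w = z0 → w⁻¹ * τ w ∈ Z := by
    intro w hww
    have hwZ : w ∉ Z := fun e => hz01 (by rw [← hww, h.sq e])
    apply h.near hc hsq hwZ
    · rw [← map_mul, hww, hz0τ]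
    · rw [hww]
      apply hfix _ (hcm _ _)
      rw [map_commutatorElement, hτ, h.c_symm (hcm _ _)]
  apply hxyZ
  apply h.near hc hsq hxZ hyx
  rw [hxx]
  apply hfix _ (hcm _ _)
  have e1 : τ x = x * (x⁻¹ * τ x) := by group
  have e2 : τ y = y * (y⁻¹ * τ y) := by group
  have d1 := hw x hxx
  have d2 := hw y (by rw [hyx, hxx])
  have f1 : ∀ t : T, ⁅t, y⁻¹ * τ y⁆ = 1 := fun t => commutatorElement_eq_one_iff_mul_comm.2 (h.cen _ d2 t).symm
  have f2 : ∀ t : T, ⁅x⁻¹ * τ x, t⁆ = 1 := fun t => commutatorElement_eq_one_iff_mul_comm.2 (h.cen _ d1 t)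
  rw [map_commutatorElement, e1, e2, h.c_right (hcm _ _), f1, mul_one, h.c_left (hcm _ _), f2, mul_one]

/-- automorphisms of order three trivial on `Z` are trivial -/
theorem three_trivial [Finite T] (h : Conf Z α) (hc : Nat.card T = 64) (hsq : ∀ w : T, w * w ∈ Z) {σ : MulAut T}
    (hσ : ∀ t, σ (σ (σ t)) = t) (hZ : ∀ z ∈ Z, σ z = z) : ∀ t, σ t = t := by
  haveI := h.normal
  have hcm : ∀ x y : T, ⁅x, y⁆ ∈ Z := fun x y => comm_of_sq (fun x y hx => by
    rw [← h.cen x hx, mul_inv_cancel_right]; exact hx) hsq x y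
  have hmem : ∀ w : T, w⁻¹ * σ w ∈ Z := by
    intro w
    set x := w⁻¹ * σ w with hx
    by_contra hxZ
    have h1 : x * σ x * σ (σ x) = 1 := by
      rw [hx]
      simp only [map_mul, map_inv, hσ]
      group
    have h2 : σ x * σ x = x * x := by rw [← map_mul, hZ _ (hsq x)]
    have h3 : σ (σ x) * σ (σ x) = x * x := by rw [← map_mul, ← map_mul, hZ _ (hsq x), hZ _ (hsq x)]
    have h4 : x * σ x = (σ (σ x))⁻¹ := eq_inv_of_mul_eq_one_left h1
    have h5 : x * σ x * (x * σ x) = x * x := by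
      rw [h4, ← mul_inv_rev, h3, h.inv (hsq x)]
    have h6 : ⁅x, σ x⁆ = x * x := by
      rw [h.mul_sq' (hcm _ _), h2, mul_assoc, h.sq (hsq x), mul_one, h.c_symm (hcm _ _)] at h5
      exact h5
    have h7 := h.near hc hsq hxZ h2 (Or.inr h6)
    have h8 : σ x = x * (x⁻¹ * σ x) := by group
    set c := x⁻¹ * σ x with hcdef
    have h9 : σ (σ x) = x := by
      rw [h8, map_mul, h8, hZ _ h7, mul_assoc, h.sq h7, mul_one]
    rw [h9, h8] at h1
    apply hxZ
    have h10 : x * (x * c) * x = (x * x) * c * x := by group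
    rw [h10] at h1
    have h11 : x = ((x * x) * c)⁻¹ := eq_inv_of_mul_eq_one_right h1
    rw [h11]
    exact Z.inv_mem (Z.mul_mem (hsq x) h7)
  intro t
  have h1 := hmem t
  set c := t⁻¹ * σ t with hc
  have h2 : σ t = t * c := by rw [hc]; group
  have h3 := hσ t
  rw [h2, map_mul, h2, hZ _ h1, map_mul, map_mul, h2, hZ _ h1] at h3
  have h4 : t * c * c * c = t * c := by rw [mul_assoc (t * c), h.sq h1, mul_one]
  rw [h4] at h3
  rw [h2, h3]

/-- no symmetric group of degree three -/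
theorem no_sym_three [Finite T] (h : Conf Z α) (hc : Nat.card T = 64) (hsq : ∀ w : T, w * w ∈ Z) {σ τ : MulAut T}
    (hσ : σ ^ 3 = 1) (hτ : τ ^ 2 = 1) (hστ : τ * σ * τ = σ⁻¹) : σ = 1 := by
  have hτ' : ∀ t, τ (τ t) = t := fun t => by
    have := congrArg (fun f : MulAut T => f t) hτ
    rwa [pow_two] at this
  have hσ' : ∀ t, σ (σ (σ t)) = t := fun t => by
    have := congrArg (fun f : MulAut T => f t) hσ
    rwa [pow_succ, pow_two] at this
  have h1 := h.invol_trivial hc hsq hτ'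
  have hZσ : ∀ z ∈ Z, σ z ∈ Z := fun z hz => by
    rw [h.mem, ← map_mul, h.sq hz, map_one]
  refine MulEquiv.ext (h.three_trivial hc hsq hσ' fun z hz => ?_)
  have h2 := congrArg (fun f : MulAut T => f (σ z)) hστ
  have h3 : τ (σ (τ (σ z))) = z := by
    have h5 : (σ⁻¹ : MulAut T) (σ z) = z := MulAut.inv_apply_self T σ z
    exact h2.trans h5
  rw [h1 _ (hZσ z hz), h1 _ (hZσ _ (hZσ z hz))] at h3
  have h4 := hσ' z
  rw [h3] at h4
  exact h4

end Conf

end Cfsg.Agent.H21.TF
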