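import Cfsg.Agent.H21.Fpf3c
import Cfsg.Agent.H21.SI8
import Cfsg.Agent.H21.TFAut
import Cfsg.Agent.Fus.SmallP
import Cfsg.Agent.H62.SL23Rec

/-! Nonabelian groups of order 64 with a symmetric group of degree three acting. -/

set_option autoImplicit false

namespace Cfsg.Agent.H21.Fpf3

open Sq TF Four SI

variable {T : Type*} [Group T] [Finite T] {ρ : MulAut T} {F : Type*} [Field F] [Finite F] {lam : F} {Q : F × F → F}

omit [Finite F] in
theorem pol_eq [CharP F 2] {a b c : F} (hQ : ∀ w, Q w = a * (w.1 * w.1) + b * (w.1 * w.2) + c * (w.2 * w.2)) (v w : F × F) :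
    pol Q v w = b * (v.1 * w.2 + v.2 * w.1) := by
  have h2 := CharTwo.two_eq_zero (R := F)
  rw [pol, hQ, hQ, hQ]
  show a * ((v.1 + w.1) * (v.1 + w.1)) + b * ((v.1 + w.1) * (v.2 + w.2)) + c * ((v.2 + w.2) * (v.2 + w.2)) - _ - _ = _
  linear_combination (a * v.1 * w.1 + c * v.2 * w.2) * h2

omit [Finite T] [Finite F] in
theorem b_ne_zero [CharP F 2] (hna : ∃ x y : T, x * y ≠ y * x) (D : SqData T (F × F) F Q) {a b c : F}
    (hQ : ∀ w, Q w = a * (w.1 * w.1) + b * (w.1 * w.2) + c * (w.2 * w.2)) : b ≠ 0 := by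
  rintro rfl
  obtain ⟨s, t, h⟩ := hna
  apply h
  rw [D.comm_eq t s, pol_eq hQ, zero_mul, ofAdd_zero, map_one, mul_one]

/-- identification -/
theorem iso_part (hT : Nat.card T = 64) (hna : ∃ x y : T, x * y ≠ y * x) (free : ∀ x : T, ρ x = x → x = 1)
    (h3 : ∀ x, ρ (ρ (ρ x)) = x) (hρ : ρ ^ 3 = 1) (hρ1 : ρ ≠ 1) {x : MulAut T} (hx : x ^ 2 = 1) (hxr : x * ρ * x = ρ⁻¹) :
    ∃ (F : Type) (_ : Field F) (_ : Fintype F), Fintype.card F = 4 ∧
        ∃ S : Sylow 2 (Matrix.ProjectiveSpecialLinearGroup (Fin 3) F), Nonempty (T ≃* ↥(S : Subgroup (Matrix.ProjectiveSpecialLinearGroup (Fin 3) F))) := by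
  classical
  have hp : Fact (Nat.Prime 2) := ⟨Nat.prime_two⟩
  let E := GaloisField 2 4
  have hcE : Nat.card E = 2 ^ 4 := GaloisField.card 2 4 (by omega)
  have : Finite E := Nat.finite_of_card_ne_zero (by rw [hcE]; positivity)
  let _ : Fintype E := Fintype.ofFinite E
  have hE : Fintype.card E = (2 ^ 2) ^ 2 := by
    rw [← Nat.card_eq_fintype_card, hcE]; norm_num
  have hcF := card_fixF hE
  have : CharP (fixF (conjE hE)) 2 := charP_fixF _
  have hcF4 : Nat.card (fixF (conjE hE)) = 4 := by rw [hcF]; norm_num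
  obtain ⟨lam, hl⟩ := exists_lam hcF4
  obtain ⟨Q, D, hD1, hD2⟩ := data hT hna free h3 hcF4 hl
  obtain ⟨a, b, c, hQ⟩ := quad hcF4 hl D (Q_lam D hD1 hD2)
  obtain ⟨e, ⟨D⟩⟩ := normal_form D (b_ne_zero hna D hQ) hQ
  by_cases he : ∃ r : fixF (conjE hE), r * r + r = e
  · obtain ⟨r, hr⟩ := he
    refine ⟨fixF (conjE hE), inferInstance, inferInstance, ?_, default, ?_⟩
    · rw [← Nat.card_eq_fintype_card, hcF4]
    · obtain ⟨D₂⟩ := psl_data (default : Sylow 2 (Matrix.ProjectiveSpecialLinearGroup (Fin 3) (fixF (conjE hE))))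
      exact iso_hyp D D₂ hr
  · exfalso
    push Not at he
    have key : ∀ (q : ℕ) (hq : q = 2 ^ 2) (P : Sylow 2 (Cfsg.PSU 3 E q)), Nonempty (T ≃* ↥(P : Subgroup (Cfsg.PSU 3 E q))) := by
      rintro q rfl P
      obtain ⟨D₂⟩ := psu_data hE P
      refine iso_ell (conjE hE) (conjE_conjE hE) (conjE_ne_one hE) ?_ D D₂ he
      rw [hcF, Nat.card_eq_fintype_card, hE, pow_two]
    have S : Sylow 2 (Cfsg.PSU 3 E 4) := default
    obtain ⟨f⟩ := key 4 (by norm_num) S
    obtain ⟨Z, α, h, hc, hsq, -⟩ := TF.psu_conf (by rw [hE]; norm_num) S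
    have h5 : (MulAut.congr f) ρ = 1 := by
      apply h.no_sym_three hc hsq (τ := (MulAut.congr f) x)
      · rw [← map_pow, hρ, map_one]
      · rw [← map_pow, hx, map_one]
      · rw [← map_mul, ← map_mul, ← map_inv, hxr]
    exact hρ1 ((MulAut.congr f).injective (h5.trans (map_one _).symm))

omit [Finite T] in
theorem meet_conj (free : ∀ x : T, ρ x = x → x = 1) (h3 : ∀ x, ρ (ρ (ρ x)) = x) {x : MulAut T}
    (hxr : ∀ t, x (ρ t) = ρ⁻¹ (x t)) {b : T} (hb : x b = b) (hb' : x (ρ b) = ρ b) : b = 1 := by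
  rw [hxr, hb] at hb'
  apply free
  have h1 : ρ (ρ⁻¹ b) = b := MulAut.apply_inv_self T ρ b
  rw [hb'] at h1
  have h2 := congrArg ρ h1
  rw [h3] at h2
  exact h2.symm

theorem card_sq_le (free : ∀ x : T, ρ x = x → x = 1) (h3 : ∀ x, ρ (ρ (ρ x)) = x) {x : MulAut T}
    (hxr : ∀ t, x (ρ t) = ρ⁻¹ (x t)) {C : Subgroup T} (hC : ∀ y : T, y ∈ C ↔ x y = y) (H : Subgroup T)
    (hH : ∀ t ∈ H, ρ t ∈ H) : Nat.card (H ⊓ C : Subgroup T) * Nat.card (H ⊓ C : Subgroup T) ≤ Nat.card H := by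
  rw [← Nat.card_prod]
  refine Nat.card_le_card_of_injective (fun p : (H ⊓ C : Subgroup T) × (H ⊓ C : Subgroup T) =>
    (⟨(p.1 : T)⁻¹ * ρ p.2, H.mul_mem (H.inv_mem p.1.2.1) (hH _ p.2.2.1)⟩ : H)) ?_
  rintro ⟨a, b⟩ ⟨a', b'⟩ hab
  have h1 : (a : T)⁻¹ * ρ b = (a' : T)⁻¹ * ρ b' := congrArg Subtype.val hab
  have h2 : (a' : T) * (a : T)⁻¹ = ρ ((b' : T) * (b : T)⁻¹) := by
    rw [map_mul, map_inv]
    calc (a' : T) * (a : T)⁻¹ = a' * ((a : T)⁻¹ * ρ b) * (ρ b)⁻¹ := by group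
      _ = _ := by rw [h1]; group
  have h4 : (b' : T) * (b : T)⁻¹ = 1 := by
    refine meet_conj free h3 hxr ((hC _).1 (C.mul_mem b'.2.2 (C.inv_mem b.2.2))) ?_
    rw [← h2]
    exact (hC _).1 (C.mul_mem a'.2.2 (C.inv_mem a.2.2))
  have h5 : (a' : T) * (a : T)⁻¹ = 1 := by rw [h2, h4, map_one]
  have e1 : a = a' := Subtype.ext (mul_inv_eq_one.1 h5).symm
  have e2 : b = b' := Subtype.ext (mul_inv_eq_one.1 h4).symm
  rw [e1, e2]

theorem card_fix (hT : Nat.card T = 64) (hF : Nat.card F = 4) (free : ∀ x : T, ρ x = x → x = 1) (h3 : ∀ x, ρ (ρ (ρ x)) = x) {x : MulAut T}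
    (hx : ∀ t, x (x t) = t)
    (hxr : ∀ t, x (ρ t) = ρ⁻¹ (x t)) {C : Subgroup T} (hC : ∀ y : T, y ∈ C ↔ x y = y)
    (D : SqData T (F × F) F Q) (hDZ : ∀ t, D.π t = 1 ↔ t ∈ Subgroup.center T) (hZ : Nat.card (Subgroup.center T) = 4) :
    Nat.card C = 8 ∧ Nat.card (Subgroup.center T ⊓ C : Subgroup T) ≤ 2 := by
  have hxZ : ∀ {t}, D.π t = 1 → D.π (x t) = 1 := by
    intro t ht
    rw [hDZ, Subgroup.mem_center_iff] at ht ⊢
    intro g
    obtain ⟨g, rfl⟩ := x.surjective g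
    rw [← map_mul, ← map_mul, ht]
  have c1 := card_sq_le free h3 hxr hC ⊤ (fun _ _ => Subgroup.mem_top _)
  rw [top_inf_eq, Subgroup.card_top, hT] at c1
  have c2 := card_sq_le free h3 hxr hC (Subgroup.center T) center_maps
  rw [hZ] at c2
  have c3 : Nat.card (Subgroup.center T ⊓ C : Subgroup T) ≤ 2 := by nlinarith
  have c4 : Nat.card C ≤ 8 := by nlinarith
  refine ⟨?_, c3⟩
  let h : T →* Multiplicative (F × F) := MonoidHom.mk' (fun t => (D.π t)⁻¹ * D.π (x t)) (by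
    intro s t
    rw [map_mul, map_mul, map_mul, mul_inv]
    exact mul_mul_mul_comm _ _ _ _)
  have hh : ∀ t, h t = (D.π t)⁻¹ * D.π (x t) := fun _ => rfl
  have hsq : ∀ w : Multiplicative (F × F), w * w = 1 := by
    intro w
    have := two_zero hF
    show Multiplicative.ofAdd (w.toAdd + w.toAdd) = 1
    have h1 : w.toAdd + w.toAdd = 0 := by
      ext
      · show w.toAdd.1 + w.toAdd.1 = 0
        linear_combination w.toAdd.1 * this
      · show w.toAdd.2 + w.toAdd.2 = 0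
        linear_combination w.toAdd.2 * this
    rw [h1]; rfl
  have hrange : ∀ t, h (t⁻¹ * x t) = 1 := by
    intro t
    rw [hh, map_mul, map_mul, map_inv x, hx, map_mul, map_inv, map_inv]
    have : ∀ a b : Multiplicative (F × F), (a⁻¹ * b)⁻¹ * (b⁻¹ * a) = (b⁻¹ * a) * (b⁻¹ * a) := fun a b => by group
    rw [this, hsq]
  -- the kernel of `h`
  have k1 : Nat.card T = Nat.card h.ker * Nat.card h.range := by
    rw [← Subgroup.index_ker, Subgroup.card_mul_index]
  let g : h.ker →* T := MonoidHom.mk' (fun t => (t : T)⁻¹ * x t) (by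
    intro s t
    show ((s : T) * t)⁻¹ * x (s * t) = ((s : T)⁻¹ * x s) * ((t : T)⁻¹ * x t)
    have h1 : (s : T)⁻¹ * x s ∈ Subgroup.center T := by
      rw [← hDZ, map_mul, map_inv]; exact s.2
    have h2 := Subgroup.mem_center_iff.1 h1 (t : T)⁻¹
    rw [map_mul]
    calc ((s : T) * t)⁻¹ * (x s * x t) = (t : T)⁻¹ * ((s : T)⁻¹ * x s) * x t := by group
      _ = _ := by rw [h2]; group)
  have hg : ∀ t, g t = (t : T)⁻¹ * x t := fun _ => rfl
  have k2 : Nat.card h.ker = Nat.card g.ker * Nat.card g.range := by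
    rw [← Subgroup.index_ker, Subgroup.card_mul_index]
  have k3 : Nat.card g.ker ≤ Nat.card C := by
    refine Nat.card_le_card_of_injective (fun t : g.ker => (⟨((t : h.ker) : T), by
      rw [hC]
      have h1 : g t = 1 := t.2
      rw [hg, inv_mul_eq_one] at h1
      exact h1.symm⟩ : C)) ?_
    intro a b hab
    exact Subtype.ext (Subtype.ext (congrArg (fun c : C => (c : T)) hab))
  have k4 : Nat.card g.range ≤ Nat.card (Subgroup.center T ⊓ C : Subgroup T) := by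
    apply Nat.card_le_card_of_injective (Subgroup.inclusion (?_ : g.range ≤ Subgroup.center T ⊓ C)) (Subgroup.inclusion_injective _)
    rintro _ ⟨t, rfl⟩
    rw [hg]
    have h1 : (t : T)⁻¹ * x t ∈ Subgroup.center T := by
      rw [← hDZ, map_mul, map_inv]; exact t.2
    refine ⟨h1, (hC _).2 ?_⟩
    rw [map_mul, map_inv, hx]
    have h2 : ((t : T)⁻¹ * x t) * ((t : T)⁻¹ * x t) = 1 := by
      obtain ⟨v, hv⟩ := (D.exact _).1 ((hDZ _).2 h1)
      rw [← hv]; exact D.iota_sq v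
    have h3 := inv_eq_of_mul_eq_one_right h2
    rw [← h3]; group
  have k5 : Nat.card h.range * 4 ≤ Nat.card h.ker := by
    -- `h.range ≤ π (h.ker)`
    let p : h.ker →* Multiplicative (F × F) := D.π.comp h.ker.subtype
    have h1 : Nat.card h.ker = Nat.card p.ker * Nat.card p.range := by
      rw [← Subgroup.index_ker, Subgroup.card_mul_index]
    have h2 : Nat.card h.range ≤ Nat.card p.range := by
      refine Nat.card_le_card_of_injective (Subgroup.inclusion (?_ : h.range ≤ p.range)) (Subgroup.inclusion_injective _)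
      rintro _ ⟨t, rfl⟩
      refine ⟨⟨t⁻¹ * x t, hrange t⟩, ?_⟩
      show D.π (t⁻¹ * x t) = _
      rw [hh, map_mul, map_inv]
    have h4 : 4 ≤ Nat.card p.ker := by
      rw [← hZ]
      refine Nat.card_le_card_of_injective (fun z : Subgroup.center T => (⟨⟨(z : T), ?_⟩, ?_⟩ : p.ker)) ?_
      · have h5 := (hDZ _).2 z.2
        show h z = 1
        rw [hh, h5, hxZ h5, inv_one, one_mul]
      · exact (hDZ _).2 z.2
      · intro a b hab
        exact Subtype.ext (congrArg (fun c : p.ker => ((c : h.ker) : T)) hab)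
    rw [h1]
    calc Nat.card h.range * 4 ≤ Nat.card p.range * Nat.card p.ker := Nat.mul_le_mul h2 h4
      _ = _ := mul_comm _ _
  rw [hT] at k1
  have k6 : 16 ≤ Nat.card h.ker := by nlinarith
  have k7 : Nat.card h.ker ≤ Nat.card C * 2 := by
    rw [k2]
    exact Nat.mul_le_mul k3 (k4.trans c3)
  omega

end Cfsg.Agent.H21.Fpf3
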