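import Cfsg.Agent.H21.Fpf3d

/-! Nonabelian groups of order 64 with a symmetric group of degree three acting: the fixed points of an involution. -/

set_option autoImplicit false

namespace Cfsg.Agent.H21.Fpf3

open Sq TF Four SI

variable {T : Type*} [Group T] [Finite T] {ρ : MulAut T} {F : Type*} [Field F] [Finite F] {lam : F} {Q : F × F → F}

theorem d8_or_q8 {C : Type*} [Group C] [Finite C] (h8 : Nat.card C = 8) (K : Subgroup C) (hK : Nat.card K ≤ 2)
    (hKc : K ≤ Subgroup.center C) (hsq : ∀ c : C, c * c ∈ K) {s t : C} (hst : s * t ≠ t * s) :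
    Nonempty (C ≃* DihedralGroup 4) ∨ Nonempty (C ≃* QuaternionGroup 2) := by
  have hcen : ∀ {k}, k ∈ K → ∀ g, g * k = k * g := fun {k} hk g => Subgroup.mem_center_iff.1 (hKc hk) g
  have huniq : ∀ {a b}, a ∈ K → b ∈ K → a ≠ 1 → b ≠ 1 → a = b := by
    intro a b ha hb ha1 hb1
    by_contra hab
    have h1 : Function.Injective (fun i : Fin 3 => (![⟨1, K.one_mem⟩, ⟨a, ha⟩, ⟨b, hb⟩] i : K)) := by
      have e1 : (⟨1, K.one_mem⟩ : K) ≠ ⟨a, ha⟩ := fun h => ha1 (congrArg Subtype.val h).symm
      have e2 : (⟨1, K.one_mem⟩ : K) ≠ ⟨b, hb⟩ := fun h => hb1 (congrArg Subtype.val h).symm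
      have e3 : (⟨a, ha⟩ : K) ≠ ⟨b, hb⟩ := fun h => hab (congrArg Subtype.val h)
      intro i j hij
      fin_cases i <;> fin_cases j <;> first | rfl | exact absurd hij e1 | exact absurd hij e2 | exact absurd hij e3 | exact absurd hij e1.symm | exact absurd hij e2.symm | exact absurd hij e3.symm
    have h2 := Nat.card_le_card_of_injective _ h1
    rw [Nat.card_eq_fintype_card, Fintype.card_fin] at h2
    omega
  have hkk : ∀ {k}, k ∈ K → k * k = 1 := by
    intro k hk
    by_contra h
    have hk1 : k ≠ 1 := by rintro rfl; exact h (mul_one 1)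
    have := huniq (K.mul_mem hk hk) hk h hk1
    exact hk1 (mul_eq_left.1 this)
  set k := t⁻¹ * s⁻¹ * t * s with hk
  have hkK : k ∈ K := by
    have : k = (t⁻¹ * t⁻¹) * ((t * s⁻¹) * (t * s⁻¹)) * (s * s) := by rw [hk]; group
    rw [this]
    exact K.mul_mem (K.mul_mem (hsq _) (hsq _)) (hsq _)
  have hts : t * s = s * t * k := by rw [hk]; group
  have hk1 : k ≠ 1 := by
    intro h
    rw [h, mul_one] at hts
    exact hst hts.symm
  have hkk' := hkk hkK
  have hprod : (s * t) * (s * t) = (s * s) * (t * t) * k := by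
    calc (s * t) * (s * t) = s * (t * s) * t := by group
      _ = s * (s * t) * (k * t) := by rw [hts]; group
      _ = _ := by rw [← hcen hkK t]; group
  by_cases hs : s * s = 1
  · left
    by_cases ht : t * t = 1
    · exact Fus.dihedral4_of_involutions h8 (by rw [pow_two, hs]) (by rw [pow_two, ht]) hst
    · have ht' : t * t = k := huniq (hsq t) hkK ht hk1
      refine Fus.dihedral4_of_involutions h8 (x := s) (y := s * t) (by rw [pow_two, hs]) (by
        rw [pow_two, hprod, hs, ht', one_mul, hkk']) ?_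
      rw [mul_assoc s t s, hts]
      intro h
      apply hk1
      have h1 : s * (s * t) = s * (s * t) * k := by rw [mul_assoc]; exact h
      exact (mul_eq_left.1 h1.symm)
  · have hs' : s * s = k := huniq (hsq s) hkK hs hk1
    by_cases ht : t * t = 1
    · left
      refine Fus.dihedral4_of_involutions h8 (x := t) (y := s * t) (by rw [pow_two, ht]) (by
        rw [pow_two, hprod, hs', ht, mul_one, hkk']) ?_
      intro h
      apply hk1
      have h1 : t * (s * t) = (s * t) * t * k := by
        rw [← mul_assoc, hts, mul_assoc, ← hcen hkK t]; group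
      rw [h1] at h
      exact mul_eq_left.1 h
    · right
      have ht' : t * t = k := huniq (hsq t) hkK ht hk1
      obtain ⟨e⟩ := H62.closure_equiv_quat (s := s) (t := t) (by
        rw [pow_mul, pow_two, pow_two, hs', hkk']) (by rw [pow_two, hs']; exact hk1) (by rw [pow_two, hs', ht']) (by
        rw [hts, mul_assoc (s * t), ← hcen hkK t⁻¹, ← mul_assoc, mul_inv_cancel_right]
        apply eq_inv_of_mul_eq_one_right
        rw [← mul_assoc, hs', hkk'])
      have htop : Subgroup.closure {s, t} = ⊤ := by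
        apply Subgroup.eq_top_of_card_eq
        rw [Nat.card_congr e.toEquiv, Nat.card_eq_fintype_card, QuaternionGroup.card, h8]
      rw [htop] at e
      exact ⟨Subgroup.topEquiv.symm.trans e⟩

theorem nonab_fix [CharP F 2] (hF : Nat.card F = 4) (hl : lam * lam = lam + 1) {x : MulAut T}
    (hxr : ∀ t, x (ρ t) = ρ⁻¹ (x t)) {C : Subgroup T} (hC : ∀ y : T, y ∈ C ↔ x y = y)
    (D : SqData T (F × F) F Q) (hDZ : ∀ t, D.π t = 1 ↔ t ∈ Subgroup.center T)
    (hD1 : ∀ t, Multiplicative.toAdd (D.π (ρ t)) = (lam * (Multiplicative.toAdd (D.π t)).1, lam * (Multiplicative.toAdd (D.π t)).2))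
    {a b c : F} (hb : b ≠ 0)
    (hQ : ∀ w, Q w = a * (w.1 * w.1) + b * (w.1 * w.2) + c * (w.2 * w.2)) 
    (hC8 : Nat.card C = 8) (hCZ : Nat.card (Subgroup.center T ⊓ C : Subgroup T) ≤ 2) : ∃ s t : C, s * t ≠ t * s := by
  by_contra hcon
  push Not at hcon
  have two := CharTwo.two_eq_zero (R := F)
  have hl0 := lam_ne_zero hl
  have hl1 := lam_ne_one hF hl
  have hll1 : lam * lam ≠ 1 := by
    rw [hl]
    intro h
    exact hl0 (by linear_combination h)
  have hxZ : ∀ {t}, D.π t = 1 → D.π (x t) = 1 := by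
    intro t ht
    rw [hDZ, Subgroup.mem_center_iff] at ht ⊢
    intro g
    obtain ⟨g, rfl⟩ := x.surjective g
    rw [← map_mul, ← map_mul, ht]
  have sub : ∀ c ∈ C, ∀ d ∈ C, (Multiplicative.toAdd (D.π c)) = (lam * (Multiplicative.toAdd (D.π d)).1, lam * (Multiplicative.toAdd (D.π d)).2) →
      D.π d = 1 := by
    intro c hc d hd h
    have h1 : D.π ((ρ d)⁻¹ * c) = 1 := by
      rw [map_mul, map_inv, inv_mul_eq_one]
      exact Multiplicative.toAdd.injective ((hD1 d).trans h.symm)
    have h2 := hxZ h1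
    rw [map_mul, map_inv, hxr, (hC _).1 hc, (hC _).1 hd, map_mul, map_inv, inv_mul_eq_one] at h2
    have h4 := hD1 (ρ⁻¹ d)
    rw [MulAut.apply_inv_self, h2, h] at h4
    have e1 := congrArg Prod.fst h4
    have e2 := congrArg Prod.snd h4
    have h5 : (Multiplicative.toAdd (D.π d)) = 0 := by
      ext
      · have : (lam * lam - 1) * (Multiplicative.toAdd (D.π d)).1 = 0 := by
          linear_combination -e1
        exact (mul_eq_zero.1 this).resolve_left (sub_ne_zero.2 hll1)
      · have : (lam * lam - 1) * (Multiplicative.toAdd (D.π d)).2 = 0 := by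
          linear_combination -e2
        exact (mul_eq_zero.1 this).resolve_left (sub_ne_zero.2 hll1)
    exact Multiplicative.toAdd.injective h5
  obtain ⟨c₁, hc₁, hne⟩ : ∃ c ∈ C, D.π c ≠ 1 := by
    by_contra hcon2
    push Not at hcon2
    have : (Subgroup.center T ⊓ C : Subgroup T) = C := by
      apply inf_eq_right.2
      intro c hc
      exact (hDZ _).1 (hcon2 c hc)
    rw [this, hC8] at hCZ
    omega
  have main : ∀ c ∈ C, D.π c = 1 ∨ D.π c = D.π c₁ := by
    intro c hc
    have h1 := hcon ⟨c₁, hc₁⟩ ⟨c, hc⟩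
    have h2 : c₁ * c = c * c₁ := congrArg Subtype.val h1
    have h3 := D.comm_eq c₁ c
    rw [← h2] at h3
    have h4 := mul_eq_left.1 h3.symm
    rw [← map_one D.ι] at h4
    have h5 := D.inj h4
    have h6 : pol Q (Multiplicative.toAdd (D.π c₁)) (Multiplicative.toAdd (D.π c)) = 0 := h5
    rw [pol_eq hQ] at h6
    have h7 := (mul_eq_zero.1 h6).resolve_left hb
    generalize hw : Multiplicative.toAdd (D.π c₁) = w at h7
    generalize hv : Multiplicative.toAdd (D.π c) = v at h7
    have hw0 : w ≠ 0 := by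
      rintro rfl
      exact hne (Multiplicative.toAdd.injective hw)
    obtain ⟨μ, hμ⟩ : ∃ μ : F, v = (μ * w.1, μ * w.2) := by
      by_cases h0 : w.1 = 0
      · have h1 : w.2 ≠ 0 := fun h => hw0 (Prod.ext h0 h)
        refine ⟨v.2 / w.2, Prod.ext ?_ ?_⟩
        · show v.1 = v.2 / w.2 * w.1
          rw [h0, mul_zero]
          rw [h0, zero_mul, zero_add] at h7
          exact (mul_eq_zero.1 h7).resolve_left h1
        · show v.2 = v.2 / w.2 * w.2
          field_simp
      · refine ⟨v.1 / w.1, Prod.ext ?_ ?_⟩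
        · show v.1 = v.1 / w.1 * w.1
          field_simp
        · show v.2 = v.1 / w.1 * w.2
          field_simp
          linear_combination h7 - w.2 * v.1 * two
    rcases four_cases hF hl μ with rfl | rfl | rfl | rfl
    · left
      apply Multiplicative.toAdd.injective
      rw [hv, hμ, zero_mul, zero_mul]; rfl
    · right
      apply Multiplicative.toAdd.injective
      rw [hv, hμ, one_mul, one_mul, hw]
    · exfalso
      exact hne (sub c hc c₁ hc₁ (by rw [hv, hμ, hw]))
    · exfalso
      refine hne (sub (c₁ * c) (C.mul_mem hc₁ hc) c₁ hc₁ ?_)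
      rw [map_mul]
      show Multiplicative.toAdd (D.π c₁) + Multiplicative.toAdd (D.π c) = _
      rw [hv, hμ, hw]
      ext
      · show w.1 + lam * lam * w.1 = lam * w.1
        rw [hl]
        linear_combination w.1 * two
      · show w.2 + lam * lam * w.2 = lam * w.2
        rw [hl]
        linear_combination w.2 * two
  let p : C →* Multiplicative (F × F) := D.π.comp C.subtype
  have h1 : Nat.card C = Nat.card p.ker * Nat.card p.range := by
    rw [← Subgroup.index_ker, Subgroup.card_mul_index]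
  have h2 : Nat.card p.range ≤ 2 := by
    have : Function.Surjective (fun i : Bool => (if i then (1 : p.range) else ⟨D.π c₁, ⟨⟨c₁, hc₁⟩, rfl⟩⟩)) := by
      rintro ⟨_, ⟨⟨c, hc⟩, rfl⟩⟩
      rcases main c hc with h | h
      · exact ⟨true, Subtype.ext h.symm⟩
      · exact ⟨false, Subtype.ext h.symm⟩
    have h3 := Nat.card_le_card_of_surjective _ this
    simpa using h3
  have h3 : Nat.card p.ker ≤ 2 := by
    refine le_trans (Nat.card_le_card_of_injective (fun t : p.ker => (⟨((t : C) : T), (hDZ _).1 t.2, t.1.2⟩ :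
      (Subgroup.center T ⊓ C : Subgroup T))) ?_) hCZ
    intro a b hab
    exact Subtype.ext (Subtype.ext (congrArg (fun c : (Subgroup.center T ⊓ C : Subgroup T) => (c : T)) hab))
  rw [hC8] at h1
  nlinarith

theorem fix_part (hT : Nat.card T = 64) (hna : ∃ x y : T, x * y ≠ y * x) (free : ∀ x : T, ρ x = x → x = 1)
    (h3 : ∀ x, ρ (ρ (ρ x)) = x) {x : MulAut T} (hx : ∀ t, x (x t) = t)
    (hxr : ∀ t, x (ρ t) = ρ⁻¹ (x t)) {C : Subgroup T} (hC : ∀ y : T, y ∈ C ↔ x y = y) :
    Nonempty (C ≃* DihedralGroup 4) ∨ Nonempty (C ≃* QuaternionGroup 2) := by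
  have hp : Fact (Nat.Prime 2) := ⟨Nat.prime_two⟩
  let F := GaloisField 2 2
  have hF : Nat.card F = 4 := by rw [GaloisField.card 2 2 (by omega)]; norm_num
  have : Finite F := Nat.finite_of_card_ne_zero (by rw [hF]; positivity)
  obtain ⟨lam, hl⟩ := exists_lam hF
  obtain ⟨Q, D, hD1, hD2⟩ := data hT hna free h3 hF hl
  obtain ⟨a, b, c, hQ⟩ := quad hF hl D (Q_lam D hD1 hD2)
  have hb := b_ne_zero hna D hQ
  obtain ⟨hZ, -, -, hsq⟩ := struct hT hna free h3
  have hDZ : ∀ t, D.π t = 1 ↔ t ∈ Subgroup.center T := by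
    have h1 : ∀ t, D.π t = 1 → t ∈ Subgroup.center T := by
      intro t ht
      obtain ⟨v, rfl⟩ := (D.exact t).1 ht
      rw [Subgroup.mem_center_iff]
      intro g
      exact (D.central v g).symm
    have h2 : D.π.ker = Subgroup.center T := by
      apply Subgroup.eq_of_le_of_card_ge (fun t ht => h1 t ht)
      rw [hZ, ← hF]
      refine Nat.card_le_card_of_injective (fun v : F => (⟨D.ι (Multiplicative.ofAdd v), (D.exact _).2 ⟨_, rfl⟩⟩ : D.π.ker)) ?_
      intro v w h
      exact Multiplicative.ofAdd.injective (D.inj (congrArg Subtype.val h))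
    intro t
    rw [← h2]; rfl
  obtain ⟨hC8, hCZ⟩ := card_fix hT hF free h3 hx hxr hC D hDZ hZ
  obtain ⟨s, t, hst⟩ := nonab_fix hF hl hxr hC D hDZ hD1 hb hQ hC8 hCZ
  refine d8_or_q8 hC8 ((Subgroup.center T).subgroupOf C) ?_ ?_ ?_ hst
  · refine le_trans (Nat.card_le_card_of_injective (fun t : (Subgroup.center T).subgroupOf C => (⟨((t : C) : T), t.2, t.1.2⟩ :
      (Subgroup.center T ⊓ C : Subgroup T))) ?_) hCZ
    intro a b hab
    exact Subtype.ext (Subtype.ext (congrArg (fun c : (Subgroup.center T ⊓ C : Subgroup T) => (c : T)) hab))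
  · intro k hk
    rw [Subgroup.mem_center_iff]
    intro g
    exact Subtype.ext (Subgroup.mem_center_iff.1 (Subgroup.mem_subgroupOf.1 hk) g)
  · intro c
    exact hsq _

end Cfsg.Agent.H21.Fpf3
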