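import Mathlib

/-! Groups `q^{1+2} : SL₂(q)`: coordinates. -/

set_option autoImplicit false

namespace Cfsg.Agent.H21.G648

open Matrix

/-- the determinant form -/
def dt {F : Type*} [Field F] (v w : Fin 2 → F) : F := v 0 * w 1 - v 1 * w 0

/-- coordinates of `q^{1+2} : SL₂(q)` -/
structure Coord (X F : Type*) [Group X] [Field F] where
  φ : (Fin 2 → F) → F → SpecialLinearGroup (Fin 2) F → X
  inj : ∀ v a g v' a' g', φ v a g = φ v' a' g' → v = v' ∧ a = a' ∧ g = g'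
  surj : ∀ x, ∃ v a g, φ v a g = x
  mul : ∀ v a g v' a' g', φ v a g * φ v' a' g' = φ (v + g.1 *ᵥ v') (a + a' + dt v (g.1 *ᵥ v')) (g * g')

theorem map_mulVec {F₁ F₂ : Type*} [Field F₁] [Field F₂] (θ : F₁ ≃+* F₂) (M : Matrix (Fin 2) (Fin 2) F₁) (v : Fin 2 → F₁) :
    (fun i => θ ((M *ᵥ v) i)) = (M.map θ) *ᵥ (fun i => θ (v i)) := by
  funext i
  simp only [Matrix.mulVec, dotProduct, Fin.sum_univ_two, map_add, map_mul, Matrix.map_apply]

theorem iso_of_coord {X₁ X₂ F₁ F₂ : Type*} [Group X₁] [Group X₂] [Field F₁] [Field F₂] (θ : F₁ ≃+* F₂)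
    (C₁ : Coord X₁ F₁) (C₂ : Coord X₂ F₂) : Nonempty (X₁ ≃* X₂) := by
  have h := C₁.surj
  choose vv aa gg hc using h
  let f : X₁ → X₂ := fun x => C₂.φ (fun i => θ (vv x i)) (θ (aa x)) (SpecialLinearGroup.map (θ : F₁ →+* F₂) (gg x))
  have key : ∀ v a g, f (C₁.φ v a g) = C₂.φ (fun i => θ (v i)) (θ a) (SpecialLinearGroup.map (θ : F₁ →+* F₂) g) := by
    intro v a g
    obtain ⟨h1, h2, h3⟩ := C₁.inj _ _ _ _ _ _ (hc (C₁.φ v a g))
    show C₂.φ (fun i => θ (vv (C₁.φ v a g) i)) (θ (aa (C₁.φ v a g))) (SpecialLinearGroup.map (θ : F₁ →+* F₂) (gg (C₁.φ v a g))) = _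
    rw [h1, h2, h3]
  have hmul : ∀ x y, f (x * y) = f x * f y := by
    intro x y
    obtain ⟨v, a, g, rfl⟩ := C₁.surj x
    obtain ⟨v', a', g', rfl⟩ := C₁.surj y
    rw [C₁.mul, key, key, key, C₂.mul]
    congr 1
    · funext i
      show θ ((v + g.1 *ᵥ v') i) = θ (v i) + ((g.1.map θ) *ᵥ (fun i => θ (v' i))) i
      rw [Pi.add_apply, map_add, ← map_mulVec θ g.1 v']
    · rw [map_add, map_add]
      congr 1
      have e1 := map_mulVec θ g.1 v'
      have e2 : ((SpecialLinearGroup.map (θ : F₁ →+* F₂) g).1) = g.1.map θ := rfl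
      rw [e2, ← e1, dt, dt, map_sub, map_mul, map_mul]
    · rw [map_mul]
  refine ⟨MulEquiv.ofBijective (MonoidHom.mk' f hmul) ⟨?_, ?_⟩⟩
  · intro x y hxy
    obtain ⟨v, a, g, rfl⟩ := C₁.surj x
    obtain ⟨v', a', g', rfl⟩ := C₁.surj y
    have h1 : f (C₁.φ v a g) = f (C₁.φ v' a' g') := hxy
    rw [key, key] at h1
    obtain ⟨h1, h2, h3⟩ := C₂.inj _ _ _ _ _ _ h1
    have e1 : v = v' := by
      funext i
      exact θ.injective (congrFun h1 i)
    have e2 : a = a' := θ.injective h2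
    have e3 : g = g' := by
      apply Subtype.ext
      ext i j
      have := congrArg (fun M : SpecialLinearGroup (Fin 2) F₂ => M.1 i j) h3
      exact θ.injective this
    rw [e1, e2, e3]
  · intro y
    obtain ⟨v, a, g, rfl⟩ := C₂.surj y
    refine ⟨C₁.φ (fun i => θ.symm (v i)) (θ.symm a) (SpecialLinearGroup.map (θ.symm : F₂ →+* F₁) g), ?_⟩
    show f _ = _
    rw [key]
    congr 1
    · funext i
      exact θ.apply_symm_apply _
    · exact θ.apply_symm_apply _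
    · apply Subtype.ext
      ext i j
      exact θ.apply_symm_apply _

end Cfsg.Agent.H21.G648
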