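import Cfsg.Agent.H21.G648a
import Cfsg.Agent.Fus.PSp4Sp
import Cfsg.Agent.ClassSp.Order
import Cfsg.Agent.ClassSp.Simple
import Cfsg.Agent.H81.SL2Card

/-! The centralizer of a transvection in `PSp(4, 3)`. -/

set_option autoImplicit false

namespace Cfsg.Agent.H21.G648

open Matrix

variable {F : Type*} [Field F]

/-- the matrix of a stabilizer element -/
def Mx (v : Fin 2 → F) (a : F) (g : Matrix (Fin 2) (Fin 2) F) : Matrix (Fin 2 ⊕ Fin 2) (Fin 2 ⊕ Fin 2) F :=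
  fromBlocks !![1, g 1 0 * v 0 - g 0 0 * v 1; 0, g 0 0] !![a, g 1 1 * v 0 - g 0 1 * v 1; v 0, g 0 1]
    !![0, 0; 0, g 1 0] !![1, 0; v 1, g 1 1]

theorem Mx_mul (v w : Fin 2 → F) (a b : F) (g h : Matrix (Fin 2) (Fin 2) F) (hg : g.det = 1) :
    Mx v a g * Mx w b h = Mx (v + g *ᵥ w) (a + b + dt v (g *ᵥ w)) (g * h) := by
  rw [det_fin_two] at hg
  unfold Mx dt
  rw [fromBlocks_multiply]
  congr 1 <;> ext i j <;> fin_cases i <;> fin_cases j <;>
    simp [mul_apply, Fin.sum_univ_two, mulVec, dotProduct] <;>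
    first
    | ring1
    | linear_combination (-(h 1 0 * w 0 - h 0 0 * w 1)) * hg
    | linear_combination (-(h 1 1 * w 0 - h 0 1 * w 1)) * hg

theorem Mx_mem (v : Fin 2 → F) (a : F) (g : Matrix (Fin 2) (Fin 2) F) (hg : g.det = 1) :
    Mx v a g ∈ symplecticGroup (Fin 2) F := by
  rw [det_fin_two] at hg
  rw [SymplecticGroup.mem_iff']
  unfold Mx J
  rw [fromBlocks_transpose, fromBlocks_multiply, fromBlocks_multiply]
  congr 1 <;> ext i j <;> fin_cases i <;> fin_cases j <;>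
    simp [mul_apply, Fin.sum_univ_two, mulVec, dotProduct] <;>
    first
    | ring1
    | linear_combination hg
    | linear_combination -hg
    | linear_combination (v 0) * hg
    | linear_combination (v 1) * hg
    | linear_combination (-v 0) * hg
    | linear_combination (-v 1) * hg

theorem eq_Mx {A : Matrix (Fin 2 ⊕ Fin 2) (Fin 2 ⊕ Fin 2) F} (hA : A ∈ symplecticGroup (Fin 2) F)
    (h1 : A (Sum.inl 0) (Sum.inl 0) = 1) (h2 : A (Sum.inl 1) (Sum.inl 0) = 0) (h3 : A (Sum.inr 0) (Sum.inl 0) = 0)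
    (h4 : A (Sum.inr 1) (Sum.inl 0) = 0) :
    ∃ (v : Fin 2 → F) (a : F) (g : SpecialLinearGroup (Fin 2) F), A = Mx v a g.1 := by
  rw [SymplecticGroup.mem_iff'] at hA
  have e : ∀ i j, (Aᵀ * J (Fin 2) F * A) i j = J (Fin 2) F i j := fun i j => by rw [hA]
  have ex : ∀ i j, (Aᵀ * J (Fin 2) F * A) i j = A (Sum.inr 0) i * A (Sum.inl 0) j + A (Sum.inr 1) i * A (Sum.inl 1) j
      - A (Sum.inl 0) i * A (Sum.inr 0) j - A (Sum.inl 1) i * A (Sum.inr 1) j := by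
    intro i j
    simp only [mul_apply, transpose_apply, J, Fintype.sum_sum_type, Fin.sum_univ_two, fromBlocks_apply₁₁, fromBlocks_apply₁₂,
      fromBlocks_apply₂₁, fromBlocks_apply₂₂, Matrix.zero_apply, Matrix.neg_apply, one_apply]
    simp
    ring
  have eij : ∀ i j, A (Sum.inr 0) i * A (Sum.inl 0) j + A (Sum.inr 1) i * A (Sum.inl 1) j
      - A (Sum.inl 0) i * A (Sum.inr 0) j - A (Sum.inl 1) i * A (Sum.inr 1) j = J (Fin 2) F i j := fun i j => by
    rw [← ex, e]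
  have e1 := eij (Sum.inl 0) (Sum.inl 1)
  have e2 := eij (Sum.inl 0) (Sum.inr 0)
  have e3 := eij (Sum.inl 0) (Sum.inr 1)
  have e4 := eij (Sum.inl 1) (Sum.inr 0)
  have e5 := eij (Sum.inl 1) (Sum.inr 1)
  have e6 := eij (Sum.inr 0) (Sum.inr 1)
  simp only [h1, h2, h3, h4, J, fromBlocks_apply₁₁, fromBlocks_apply₁₂,
      fromBlocks_apply₂₁, fromBlocks_apply₂₂, Matrix.zero_apply, Matrix.neg_apply, one_apply] at e1 e2 e3 e4 e5 e6
  simp at e1 e2 e3 e4 e5 e6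
  rw [e1, e2] at e4
  rw [e1, e3] at e5
  rw [e2, e3] at e6
  have hdet : (!![A (Sum.inl 1) (Sum.inl 1), A (Sum.inl 1) (Sum.inr 1); A (Sum.inr 1) (Sum.inl 1), A (Sum.inr 1) (Sum.inr 1)] : Matrix (Fin 2) (Fin 2) F).det = 1 := by
    rw [det_fin_two_of]
    linear_combination -e5
  refine ⟨![A (Sum.inl 1) (Sum.inr 0), A (Sum.inr 1) (Sum.inr 0)], A (Sum.inl 0) (Sum.inr 0), ⟨_, hdet⟩, ?_⟩
  ext i j
  rcases i with i | i <;> rcases j with j | j <;> fin_cases i <;> fin_cases j <;>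
    simp [Mx, h1, h2, h3, h4, e1, e2, e3]
  · linear_combination -e4
  · linear_combination e6


/-- the element of the symplectic group -/
def Ms (v : Fin 2 → F) (a : F) (g : SpecialLinearGroup (Fin 2) F) : symplecticGroup (Fin 2) F :=
  ⟨Mx v a g.1, Mx_mem v a g.1 g.2⟩

theorem Ms_mul (v w : Fin 2 → F) (a b : F) (g h : SpecialLinearGroup (Fin 2) F) :
    Ms v a g * Ms w b h = Ms (v + g.1 *ᵥ w) (a + b + dt v (g.1 *ᵥ w)) (g * h) :=
  Subtype.ext (Mx_mul v w a b g.1 h.1 g.2)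

theorem dt_zero_left (w : Fin 2 → F) : dt 0 w = 0 := by simp [dt]
theorem dt_zero_right (w : Fin 2 → F) : dt w 0 = 0 := by simp [dt]

theorem Ms_one : Ms (0 : Fin 2 → F) 0 1 = 1 := by
  have h := Ms_mul (0 : Fin 2 → F) 0 0 0 1 1
  have h2 : Ms (0 : Fin 2 → F) 0 1 * Ms (0 : Fin 2 → F) 0 1 = Ms (0 : Fin 2 → F) 0 1 := by
    rw [h]
    congr 1
    · simp
    · simp [dt]
    · rw [one_mul]
  exact mul_eq_left.1 h2

theorem zz_comm (v : Fin 2 → F) (a b : F) (g : SpecialLinearGroup (Fin 2) F) : Ms 0 b 1 * Ms v a g = Ms v a g * Ms 0 b 1 := by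
  rw [Ms_mul, Ms_mul, dt_zero_left, mulVec_zero, dt_zero_right, one_mul, mul_one]
  congr 1
  · simp
  · ring

theorem zz_mul (a b : F) : Ms 0 a (1 : SpecialLinearGroup (Fin 2) F) * Ms 0 b 1 = Ms 0 (a + b) 1 := by
  rw [Ms_mul, dt_zero_left, mulVec_zero, mul_one]
  congr 1
  · simp
  · ring

theorem Ms_inj {v w : Fin 2 → F} {a b : F} {g h : SpecialLinearGroup (Fin 2) F} (e : Ms v a g = Ms w b h) :
    v = w ∧ a = b ∧ g = h := by
  have e1 : Mx v a g.1 = Mx w b h.1 := congrArg Subtype.val e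
  have f : ∀ i j, Mx v a g.1 i j = Mx w b h.1 i j := fun i j => by rw [e1]
  have f1 := f (Sum.inl 0) (Sum.inr 0)
  have f2 := f (Sum.inl 1) (Sum.inr 0)
  have f3 := f (Sum.inr 1) (Sum.inr 0)
  have f4 := f (Sum.inl 1) (Sum.inl 1)
  have f5 := f (Sum.inl 1) (Sum.inr 1)
  have f6 := f (Sum.inr 1) (Sum.inl 1)
  have f7 := f (Sum.inr 1) (Sum.inr 1)
  simp [Mx] at f1 f2 f3 f4 f5 f6 f7
  refine ⟨?_, f1, ?_⟩
  · funext i
    fin_cases i
    · exact f2
    · exact f3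
  · ext i j
    fin_cases i <;> fin_cases j
    · exact f4
    · exact f5
    · exact f6
    · exact f7

theorem entry_Ms (v : Fin 2 → F) (a : F) (g : SpecialLinearGroup (Fin 2) F) : (Ms v a g).1 (Sum.inl 0) (Sum.inl 0) = 1 := by
  simp [Ms, Mx]

open Fus.PSp4

theorem comm_form [Fintype F] (h2 : (2 : F) ≠ 0) (h3 : (3 : F) = 0) (A : symplecticGroup (Fin 2) F)
    (hA : (QuotientGroup.mk' (Subgroup.center (symplecticGroup (Fin 2) F))) A * (QuotientGroup.mk' _) (Ms 0 1 1) =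
      (QuotientGroup.mk' _) (Ms 0 1 1) * (QuotientGroup.mk' _) A) :
    ∃ v a g, (QuotientGroup.mk' (Subgroup.center (symplecticGroup (Fin 2) F))) A = (QuotientGroup.mk' _) (Ms v a g) := by
  set z : symplecticGroup (Fin 2) F := Ms 0 1 1 with hz
  have hmm : ∀ x : symplecticGroup (Fin 2) F, x * mm = mm * x := fun x =>
    (Subgroup.mem_center_iff.1 ((mem_center4 (mm : symplecticGroup (Fin 2) F)).2 (Or.inr rfl)) x)
  have hmm2 : (mm : symplecticGroup (Fin 2) F) * mm = 1 := by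
    apply Subtype.ext
    rw [mm_mul]
    show -(-1 : Matrix (Fin 2 ⊕ Fin 2) (Fin 2 ⊕ Fin 2) F) = 1
    exact neg_neg _
  have hz3 : z * z * z = 1 := by
    rw [hz, zz_mul, zz_mul, ← Ms_one]
    congr 1
    linear_combination h3
  have h4 : (z * A)⁻¹ * (A * z) = 1 ∨ (z * A)⁻¹ * (A * z) = mm := by
    rw [← mem_center4, ← QuotientGroup.eq_one_iff]
    rw [← map_mul, ← map_mul] at hA
    have := (QuotientGroup.eq (s := Subgroup.center (symplecticGroup (Fin 2) F))).1 hA.symm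
    exact (QuotientGroup.eq_one_iff _).2 this
  have hcom : A * z = z * A := by
    rcases h4 with h | h
    · exact (inv_mul_eq_one.1 h).symm
    · exfalso
      have h5 : A * z = z * A * mm := by rw [← h]; group
      have h6 : A * z * A⁻¹ = z * mm := by
        rw [h5, mul_assoc, mul_assoc, ← mul_assoc A, hmm A, mul_assoc mm, mul_inv_cancel, mul_one]
      have h7 : (A * z * A⁻¹) * (A * z * A⁻¹) * (A * z * A⁻¹) = 1 := by
        have : (A * z * A⁻¹) * (A * z * A⁻¹) * (A * z * A⁻¹) = A * (z * z * z) * A⁻¹ := by group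
        rw [this, hz3]; group
      rw [h6] at h7
      have h8 : z * mm * (z * mm) * (z * mm) = (z * z * z) * (mm * mm) * mm := by
        rw [← mul_assoc (z * mm) z mm, mul_assoc z mm z, ← hmm z, ← mul_assoc z z mm, mul_assoc (z * z) mm mm, hmm2, mul_one,
          mul_one, ← mul_assoc]
      rw [h8, hz3, hmm2, one_mul, one_mul] at h7
      have h9 : (-1 : Matrix (Fin 2 ⊕ Fin 2) (Fin 2 ⊕ Fin 2) F) (Sum.inl 0) (Sum.inl 0) = (1 : Matrix (Fin 2 ⊕ Fin 2) (Fin 2 ⊕ Fin 2) F) (Sum.inl 0) (Sum.inl 0) := by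
        have : (-1 : Matrix (Fin 2 ⊕ Fin 2) (Fin 2 ⊕ Fin 2) F) = 1 := congrArg Subtype.val h7
        rw [this]
      simp at h9
      apply h2
      linear_combination -h9
  have hmat : A.1 * Mx 0 1 1 = Mx 0 1 1 * A.1 := congrArg Subtype.val hcom
  have f : ∀ i j : Fin 2 ⊕ Fin 2, (A.1 * (Mx 0 1 1 : Matrix (Fin 2 ⊕ Fin 2) (Fin 2 ⊕ Fin 2) F)) i j = ((Mx 0 1 1 : Matrix (Fin 2 ⊕ Fin 2) (Fin 2 ⊕ Fin 2) F) * A.1) i j := fun i j => by rw [hmat]
  have f1 := f (Sum.inl 0) (Sum.inr 0)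
  have f2 := f (Sum.inl 1) (Sum.inr 0)
  have f3 := f (Sum.inr 0) (Sum.inr 0)
  have f4 := f (Sum.inr 1) (Sum.inr 0)
  simp [Mx, mul_apply, Fintype.sum_sum_type, Fin.sum_univ_two] at f1 f2 f3 f4
  have hA2 := A.2
  rw [SymplecticGroup.mem_iff'] at hA2
  have e2 : (A.1ᵀ * J (Fin 2) F * A.1) (Sum.inl 0) (Sum.inr 0) = J (Fin 2) F (Sum.inl 0) (Sum.inr 0) := by rw [hA2]
  have ex : (A.1ᵀ * J (Fin 2) F * A.1) (Sum.inl 0) (Sum.inr 0) = A.1 (Sum.inr 0) (Sum.inl 0) * A.1 (Sum.inl 0) (Sum.inr 0)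
      + A.1 (Sum.inr 1) (Sum.inl 0) * A.1 (Sum.inl 1) (Sum.inr 0)
      - A.1 (Sum.inl 0) (Sum.inl 0) * A.1 (Sum.inr 0) (Sum.inr 0) - A.1 (Sum.inl 1) (Sum.inl 0) * A.1 (Sum.inr 1) (Sum.inr 0) := by
    simp only [mul_apply, transpose_apply, J, Fintype.sum_sum_type, Fin.sum_univ_two, fromBlocks_apply₁₁, fromBlocks_apply₁₂,
      fromBlocks_apply₂₁, fromBlocks_apply₂₂, Matrix.zero_apply, Matrix.neg_apply, one_apply]
    simp
    ring
  rw [ex] at e2
  simp [J, f2, f3, f4] at e2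
  have h10 : (A.1 (Sum.inl 0) (Sum.inl 0) - 1) * (A.1 (Sum.inl 0) (Sum.inl 0) + 1) = 0 := by
    have : A.1 (Sum.inl 0) (Sum.inl 0) = A.1 (Sum.inr 0) (Sum.inr 0) := by
      first | linear_combination f1 | linear_combination -f1
    rw [← this] at e2
    first | linear_combination e2 | linear_combination -e2
  rcases mul_eq_zero.1 h10 with h | h
  · obtain ⟨v, a, g, hv⟩ := eq_Mx A.2 (sub_eq_zero.1 h) f2 f3 f4
    refine ⟨v, a, g, ?_⟩
    have : A = Ms v a g := Subtype.ext hv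
    rw [this]
  · have hB := (A * mm).2
    obtain ⟨v, a, g, hv⟩ := eq_Mx hB (by rw [mm_mul, Matrix.neg_apply, eq_neg_of_add_eq_zero_left h, neg_neg])
      (by rw [mm_mul, Matrix.neg_apply, f2, neg_zero]) (by rw [mm_mul, Matrix.neg_apply, f3, neg_zero])
      (by rw [mm_mul, Matrix.neg_apply, f4, neg_zero])
    refine ⟨v, a, g, ?_⟩
    have h11 : A * mm = Ms v a g := Subtype.ext hv
    rw [← h11, map_mul, (pi_one_iff mm).2 (Or.inr rfl), mul_one]

end Cfsg.Agent.H21.G648
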