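import Cfsg.Agent.H21.G648b

/-! The centralizer of a transvection in `PSp(4, 3)`: the group side. -/

set_option autoImplicit false

namespace Cfsg.Agent.H21.G648

open Matrix Fus.PSp4

variable {F : Type*} [Field F]

theorem Coord.card {X : Type*} [Group X] [Fintype F] (C : Coord X F) :
    Nat.card X = Nat.card (Fin 2 → F) * (Nat.card F * Nat.card (SpecialLinearGroup (Fin 2) F)) := by
  rw [← Nat.card_prod, ← Nat.card_prod]
  symm
  refine Nat.card_congr (Equiv.ofBijective (fun p => C.φ p.1 p.2.1 p.2.2) ⟨?_, ?_⟩)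
  · rintro ⟨v, a, g⟩ ⟨v', a', g'⟩ h
    obtain ⟨h1, h2, h3⟩ := C.inj _ _ _ _ _ _ h
    exact Prod.ext h1 (Prod.ext h2 h3)
  · intro x
    obtain ⟨v, a, g, h⟩ := C.surj x
    exact ⟨⟨v, a, g⟩, h⟩

theorem psp_side [Fintype F] (hF : Fintype.card F = 3) :
    ∃ (c : Cfsg.PSp 2 F) (S : Sylow 3 (Cfsg.PSp 2 F)), orderOf c = 3 ∧ c ∈ (S : Subgroup (Cfsg.PSp 2 F)) ∧
      c ∈ Subgroup.centralizer ((S : Subgroup (Cfsg.PSp 2 F)) : Set (Cfsg.PSp 2 F)) ∧
      Nonempty (Coord (Subgroup.centralizer ({c} : Set (Cfsg.PSp 2 F))) F) := by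
  classical
  haveI : Fact (Nat.Prime 3) := ⟨Nat.prime_three⟩
  have h3 : (3 : F) = 0 := by
    have := FiniteField.cast_card_eq_zero F
    rw [hF] at this
    exact_mod_cast this
  have h2 : (2 : F) ≠ 0 := by
    intro h
    apply one_ne_zero (α := F)
    linear_combination h3 - h
  set π := QuotientGroup.mk' (Subgroup.center (symplecticGroup (Fin 2) F)) with hπ
  set c : Cfsg.PSp 2 F := π (Ms 0 1 1) with hc
  have hinj : ∀ v a g v' a' g', π (Ms v a g) = π (Ms v' a' g') → v = v' ∧ a = a' ∧ g = g' := by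
    intro v a g v' a' g' h
    have h4 : π ((Ms v a g)⁻¹ * Ms v' a' g') = 1 := by
      rw [map_mul, map_inv, h, inv_mul_cancel]
    rw [hπ, pi_one_iff] at h4
    rcases h4 with h4 | h4
    · exact Ms_inj (inv_mul_eq_one.1 h4)
    · exfalso
      have h5 : Ms v' a' g' = Ms v a g * mm := by rw [← h4]; group
      have h6 := entry_Ms v' a' g'
      rw [h5, mm_mul, Matrix.neg_apply, entry_Ms] at h6
      apply h2
      linear_combination -h6
  have hmem : ∀ v a g, π (Ms v a g) ∈ Subgroup.centralizer ({c} : Set (Cfsg.PSp 2 F)) := by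
    intro v a g
    rw [Subgroup.mem_centralizer_singleton_iff, hc, ← map_mul, ← map_mul, zz_comm]
  let C : Coord (Subgroup.centralizer ({c} : Set (Cfsg.PSp 2 F))) F :=
    { φ := fun v a g => ⟨π (Ms v a g), hmem v a g⟩
      inj := fun v a g v' a' g' h => hinj _ _ _ _ _ _ (congrArg Subtype.val h)
      surj := by
        rintro ⟨x, hx⟩
        obtain ⟨A, rfl⟩ := QuotientGroup.mk'_surjective _ x
        rw [Subgroup.mem_centralizer_singleton_iff] at hx
        obtain ⟨v, a, g, h⟩ := comm_form h2 h3 A hx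
        exact ⟨v, a, g, Subtype.ext h.symm⟩
      mul := by
        intro v a g v' a' g'
        apply Subtype.ext
        show π (Ms v a g) * π (Ms v' a' g') = π (Ms _ _ _)
        rw [← map_mul, Ms_mul] }
  have hcF : Nat.card F = 3 := by rw [Nat.card_eq_fintype_card, hF]
  have hcard : Nat.card (Subgroup.centralizer ({c} : Set (Cfsg.PSp 2 F))) = 648 := by
    rw [C.card, Nat.card_fun, H81.card_sl2, hF, hcF, Nat.card_eq_fintype_card, Fintype.card_fin]
    norm_num
  have hG : Nat.card (Cfsg.PSp 2 F) = 25920 := by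
    have h1 := Subgroup.card_eq_card_quotient_mul_card_subgroup (Subgroup.center (symplecticGroup (Fin 2) F))
    rw [ClassSp.card_fin, ClassSp.card_center, hF] at h1
    have h6 : 3 ^ 2 ^ 2 * ∏ i ∈ Finset.range 2, (3 ^ (2 * (i + 1)) - 1) = 51840 := by decide
    have h7 : Nat.gcd 2 (3 - 1) = 2 := by decide
    rw [h6, h7] at h1
    have h5 : Nat.card (Cfsg.PSp 2 F) = Nat.card (symplecticGroup (Fin 2) F ⧸ Subgroup.center (symplecticGroup (Fin 2) F)) := rfl
    omega
  have hc3 : c ^ 3 = 1 := by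
    have : (Ms 0 1 1 : symplecticGroup (Fin 2) F) ^ 3 = 1 := by
      rw [pow_succ, pow_two, zz_mul, zz_mul, ← Ms_one]
      congr 1
      linear_combination h3
    rw [hc, ← map_pow, this, map_one]
  have hc1 : c ≠ 1 := by
    intro h
    have h4 : π (Ms 0 1 1) = π (Ms 0 0 1) := by rw [Ms_one, map_one]; exact h
    exact one_ne_zero (hinj _ _ _ _ _ _ h4).2.1
  have hord : orderOf c = 3 := orderOf_eq_prime hc3 hc1
  have hcc : c ∈ Subgroup.centralizer ({c} : Set (Cfsg.PSp 2 F)) := by
    rw [Subgroup.mem_centralizer_singleton_iff]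
  set D := Subgroup.centralizer ({c} : Set (Cfsg.PSp 2 F)) with hD
  let c' : D := ⟨c, hcc⟩
  have hp : IsPGroup 3 (Subgroup.zpowers c') := by
    rw [IsPGroup.iff_card]
    refine ⟨1, ?_⟩
    rw [Nat.card_zpowers, Subgroup.orderOf_mk, hord]
    rfl
  obtain ⟨T, hT⟩ := hp.exists_le_sylow
  have hTc : Nat.card (T : Subgroup D) = 81 := by
    rw [Sylow.card_eq_multiplicity, hcard]
    have : Nat.factorization 648 3 = 4 := by
      rw [show 648 = 3 ^ 4 * 8 by norm_num, Nat.factorization_mul (by norm_num) (by norm_num), Nat.factorization_pow]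
      simp [Nat.Prime.factorization Nat.prime_three]
      exact Nat.factorization_eq_zero_of_not_dvd (by norm_num)
    rw [this]; norm_num
  have hSc : Nat.card (((T : Subgroup D)).map D.subtype) = 3 ^ (Nat.card (Cfsg.PSp 2 F)).factorization 3 := by
    rw [Subgroup.card_map_of_injective D.subtype_injective, hTc, hG]
    have : Nat.factorization 25920 3 = 4 := by
      rw [show 25920 = 3 ^ 4 * 320 by norm_num, Nat.factorization_mul (by norm_num) (by norm_num), Nat.factorization_pow]
      simp [Nat.Prime.factorization Nat.prime_three]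
      exact Nat.factorization_eq_zero_of_not_dvd (by norm_num)
    rw [this]; norm_num
  refine ⟨c, Sylow.ofCard _ hSc, hord, ?_, ?_, ⟨C⟩⟩
  · rw [Sylow.coe_ofCard]
    exact ⟨c', hT (Subgroup.mem_zpowers c'), rfl⟩
  · rw [Subgroup.mem_centralizer_iff]
    intro h hh
    have hh' : h ∈ ((T : Subgroup D)).map D.subtype := hh
    obtain ⟨d, -, rfl⟩ := hh'
    exact Subgroup.mem_centralizer_singleton_iff.1 d.2

end Cfsg.Agent.H21.G648
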