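import Cfsg.Agent.H21.G648a

/-! Heisenberg coordinates over `ZMod 3`. -/

set_option autoImplicit false

namespace Cfsg.Agent.H21.G648

open Matrix

abbrev F3 := ZMod 3
abbrev SL23 := SpecialLinearGroup (Fin 2) (ZMod 3)

theorem sq2 : ∀ g : SL23, ∃ a b : SL23, g = a * a * (b * b) := by decide +kernel

theorem nc : ∀ g : SL23, g ≠ 1 → g * g = -1 ∨ g * g * g = -1 ∨
    ∃ h : SL23, (g * h * g⁻¹ * h⁻¹) * (g * h * g⁻¹ * h⁻¹) = -1 := by decide +kernel

theorem invol : ∀ g : SL23, g * g = 1 → g = 1 ∨ g = -1 := by decide +kernel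

section pw

variable {X : Type*} [Group X]

/-- powers with exponents in `ZMod 3` -/
def pw (x : X) (i : F3) : X := x ^ i.val

theorem pow_mod3 {x : X} (hx : x ^ 3 = 1) (n : ℕ) : x ^ (n % 3) = x ^ n := by
  conv_rhs => rw [← Nat.mod_add_div n 3, pow_add, pow_mul, hx, one_pow, mul_one]

theorem pw_zero (x : X) : pw x 0 = 1 := pow_zero x

theorem pw_one (x : X) : pw x 1 = x := pow_one x

theorem pw_add {x : X} (hx : x ^ 3 = 1) (i j : F3) : pw x (i + j) = pw x i * pw x j := by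
  unfold pw
  rw [ZMod.val_add, pow_mod3 hx, pow_add]

theorem pw_neg {x : X} (hx : x ^ 3 = 1) (i : F3) : pw x (-i) = (pw x i)⁻¹ := by
  have h := pw_add hx (-i) i
  rw [neg_add_cancel, pw_zero] at h
  exact eq_inv_of_mul_eq_one_left h.symm

theorem pw_natCast {x : X} (hx : x ^ 3 = 1) (n : ℕ) : pw x (n : F3) = x ^ n := by
  unfold pw
  rw [ZMod.val_natCast, pow_mod3 hx]

theorem pw_mem {x : X} {E : Subgroup X} (hx : x ∈ E) (i : F3) : pw x i ∈ E := pow_mem hx _

theorem pw_comm {x y : X} (h : x * y = y * x) (i : F3) : pw x i * y = y * pw x i :=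
  ((show Commute x y from h).pow_left i.val)

theorem pw_map {Y : Type*} [Group Y] (f : X →* Y) (x : X) (i : F3) : f (pw x i) = pw (f x) i := map_pow f x _

theorem pw_conj (g x : X) (i : F3) : g * pw x i * g⁻¹ = pw (g * x * g⁻¹) i := by
  have := pw_map (MulAut.conj g).toMonoidHom x i
  simpa using this

theorem pw_eq_one {x : X} (hx : x ^ 3 = 1) (hx1 : x ≠ 1) {i : F3} (h : pw x i = 1) : i = 0 := by
  have h1 : orderOf x = 3 := orderOf_eq_prime hx hx1
  have h2 : 3 ∣ i.val := by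
    have := orderOf_dvd_of_pow_eq_one h
    rwa [h1] at this
  have h3 : i.val < 3 := ZMod.val_lt i
  have h4 : i.val = 0 := Nat.eq_zero_of_dvd_of_lt h2 h3
  exact (ZMod.val_eq_zero i).1 h4

theorem pw_mul {x : X} (hx : x ^ 3 = 1) (i j : F3) : pw x (i * j) = pw (pw x i) j := by
  unfold pw
  rw [ZMod.val_mul, pow_mod3 hx, pow_mul]

theorem pow_comm_nat {x y k : X} (hk : ∀ g : X, g * k = k * g) (hxy : x * y = k * (y * x)) (i j : ℕ) :
    x ^ i * y ^ j = k ^ (i * j) * (y ^ j * x ^ i) := by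
  have hkn : ∀ (n : ℕ) (g : X), g * k ^ n = k ^ n * g := fun n g => (show Commute g k from hk g).pow_right n
  have h1 : ∀ j : ℕ, x * y ^ j = k ^ j * (y ^ j * x) := by
    intro j
    induction j with
    | zero => simp
    | succ j ih =>
      rw [pow_succ y, ← mul_assoc, ih, mul_assoc, mul_assoc, hxy, ← mul_assoc (y ^ j) k, hk (y ^ j), pow_succ k]
      group
  induction i with
  | zero => simp
  | succ i ih =>
    rw [pow_succ x, mul_assoc, h1 j, ← mul_assoc, hkn, mul_assoc, ← mul_assoc (x ^ i), ih, Nat.succ_mul, pow_add]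
    have : k ^ (i * j) * k ^ j = k ^ j * k ^ (i * j) := (hkn _ _)
    rw [this]
    group

theorem pw_comm2 {x y k : X} (hx : x ^ 3 = 1) (hy : y ^ 3 = 1) (hk3 : k ^ 3 = 1) (hk : ∀ g : X, g * k = k * g)
    (hxy : x * y = k * (y * x)) (i j : F3) :
    pw x i * pw y j = pw k (i * j) * (pw y j * pw x i) := by
  have h := pow_comm_nat hk hxy i.val j.val
  unfold pw
  rw [h, ZMod.val_mul, pow_mod3 hk3]

end pw

/-- Heisenberg data -/
structure Heis (X : Type*) [Group X] (E : Subgroup X) where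
  s : (Fin 2 → F3) → X
  z : F3 → X
  z_add : ∀ a b, z (a + b) = z a * z b
  z_cen : ∀ a (g : X), g * z a = z a * g
  s_mul : ∀ v w, s v * s w = s (v + w) * z (dt v w)
  inj : ∀ v a w b, s v * z a = s w * z b → v = w ∧ a = b
  mem : ∀ v a, s v * z a ∈ E
  surj : ∀ r ∈ E, ∃ v a, r = s v * z a

/-- constructor -/
noncomputable def mkHeis {X : Type*} [Group X] [Finite X] (E : Subgroup X) (hE : Nat.card E = 27) (h3 : ∀ r ∈ E, r ^ 3 = 1)
    {x y k : X} (hx : x ∈ E) (hy : y ∈ E) (hkE : k ∈ E) (hk1 : k ≠ 1) (hk : ∀ g : X, g * k = k * g) (hxy : x * y = k * (y * x)) :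
    Heis X E :=
  have hx3 := h3 x hx
  have hy3 := h3 y hy
  have hk3 := h3 k hkE
  have hpk : ∀ (i : F3) (g : X), g * pw k i = pw k i * g := fun i g => (pw_comm (hk g).symm i).symm
  have hmem : ∀ (v : Fin 2 → F3) (a : F3), pw x (v 0) * pw y (v 1) * pw k (v 0 * v 1) * pw k (-a) ∈ E := fun v a =>
    E.mul_mem (E.mul_mem (E.mul_mem (pw_mem hx _) (pw_mem hy _)) (pw_mem hkE _)) (pw_mem hkE _)
  have hinj : ∀ (v : Fin 2 → F3) (a : F3) (w : Fin 2 → F3) (b : F3),
      pw x (v 0) * pw y (v 1) * pw k (v 0 * v 1) * pw k (-a) = pw x (w 0) * pw y (w 1) * pw k (w 0 * w 1) * pw k (-b) →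
        v = w ∧ a = b := by
    intro v a w b h
    -- compare conjugation on y and x
    have key : ∀ (i j c : F3), pw x i * pw y j * pw k c = 1 → i = 0 ∧ j = 0 ∧ c = 0 := by
      intro i j c hijc
      have e1 : pw x i = pw k (-c) * pw y (-j) := by
        rw [pw_neg hy3, pw_neg hk3]
        have : pw x i * pw y j = (pw k c)⁻¹ := eq_inv_of_mul_eq_one_left hijc
        rw [← this, mul_inv_cancel_right]
      have hyc : pw x i * y = y * pw x i := by
        rw [e1, mul_assoc, pw_comm rfl, ← mul_assoc, ← mul_assoc, hpk]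
      have e2 := pw_comm2 hx3 hy3 hk3 hk hxy i 1
      rw [pw_one, mul_one, hyc] at e2
      have e3 : pw k i = 1 := (mul_eq_right (a := pw k i) (b := y * pw x i)).1 e2.symm
      have hi := pw_eq_one hk3 hk1 e3
      rw [hi, pw_zero, one_mul] at hijc
      have e4 : pw y j = pw k (-c) := by rw [pw_neg hk3]; exact eq_inv_of_mul_eq_one_left hijc
      have e5 := pw_comm2 hx3 hy3 hk3 hk hxy 1 j
      rw [pw_one, one_mul, e4, hpk] at e5
      have e6 : pw k j = 1 := (mul_eq_right (a := pw k j) (b := pw k (-c) * x)).1 e5.symm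
      have hj := pw_eq_one hk3 hk1 e6
      rw [hj, pw_zero, one_mul] at hijc
      exact ⟨hi, hj, pw_eq_one hk3 hk1 hijc⟩
    have h2 : pw x (v 0 - w 0) * pw y (v 1 - w 1) * pw k ((v 0 * v 1 - a) - (w 0 * w 1 - b)) = 1 := by
      have a1 : pw x (v 0 - w 0) = (pw x (w 0))⁻¹ * pw x (v 0) := by
        rw [← pw_neg hx3, ← pw_add hx3]; congr 1; ring
      have a2 : pw y (v 1 - w 1) = pw y (v 1) * (pw y (w 1))⁻¹ := by
        rw [← pw_neg hy3, ← pw_add hy3]; congr 1; ring
      have a3 : pw k ((v 0 * v 1 - a) - (w 0 * w 1 - b)) = pw k (v 0 * v 1 - a) * (pw k (w 0 * w 1 - b))⁻¹ := by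
        rw [← pw_neg hk3, ← pw_add hk3, ← sub_eq_add_neg]
      have a4 : ∀ c d : F3, pw k c * pw k (-d) = pw k (c - d) := fun c d => by rw [← pw_add hk3]; congr 1; ring
      rw [mul_assoc _ (pw k (v 0 * v 1)), a4, mul_assoc _ (pw k (w 0 * w 1)), a4] at h
      rw [a1, a2, a3]
      have a5 : (pw x (w 0))⁻¹ * pw x (v 0) * (pw y (v 1) * (pw y (w 1))⁻¹) * (pw k (v 0 * v 1 - a) * (pw k (w 0 * w 1 - b))⁻¹)
          = (pw x (w 0))⁻¹ * (pw x (v 0) * pw y (v 1)) * ((pw y (w 1))⁻¹ * pw k (v 0 * v 1 - a)) * (pw k (w 0 * w 1 - b))⁻¹ := by group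
      rw [a5, hpk]
      have a6 : (pw x (w 0))⁻¹ * (pw x (v 0) * pw y (v 1)) * (pw k (v 0 * v 1 - a) * (pw y (w 1))⁻¹) * (pw k (w 0 * w 1 - b))⁻¹
          = (pw x (w 0))⁻¹ * (pw x (v 0) * pw y (v 1) * pw k (v 0 * v 1 - a)) * (pw y (w 1))⁻¹ * (pw k (w 0 * w 1 - b))⁻¹ := by group
      rw [a6, h]
      have a7 : (pw x (w 0))⁻¹ * (pw x (w 0) * pw y (w 1) * pw k (w 0 * w 1 - b)) * (pw y (w 1))⁻¹ * (pw k (w 0 * w 1 - b))⁻¹
        = (pw y (w 1) * pw k (w 0 * w 1 - b)) * (pw y (w 1))⁻¹ * (pw k (w 0 * w 1 - b))⁻¹ := by group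
      rw [a7, hpk]
      group
    obtain ⟨h3, h4, h5⟩ := key _ _ _ h2
    have e1 : v 0 = w 0 := sub_eq_zero.1 h3
    have e2 : v 1 = w 1 := sub_eq_zero.1 h4
    refine ⟨?_, ?_⟩
    · funext i
      fin_cases i
      · exact e1
      · exact e2
    · rw [e1, e2] at h5
      linear_combination -h5
  { s := fun v => pw x (v 0) * pw y (v 1) * pw k (v 0 * v 1)
    z := fun a => pw k (-a)
    z_add := fun a b => by rw [neg_add, pw_add hk3]
    z_cen := fun a g => hpk _ g
    s_mul := fun v w => by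
      have b1 := pw_comm2 hx3 hy3 hk3 hk hxy (w 0) (v 1)
      have b2 : pw y (v 1) * pw x (w 0) = pw x (w 0) * pw y (v 1) * pw k (-(w 0 * v 1)) := by
        rw [b1, pw_neg hk3, ← hpk, mul_inv_cancel_right]
      have b3 : (v + w) 0 = v 0 + w 0 := rfl
      have b4 : (v + w) 1 = v 1 + w 1 := rfl
      have b5 : ∀ c d : F3, pw k c * pw k d = pw k (c + d) := fun c d => (pw_add hk3 c d).symm
      rw [b3, b4, pw_add hx3, pw_add hy3, mul_assoc _ (pw k ((v 0 + w 0) * (v 1 + w 1))), b5]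
      calc pw x (v 0) * pw y (v 1) * pw k (v 0 * v 1) * (pw x (w 0) * pw y (w 1) * pw k (w 0 * w 1))
          = pw x (v 0) * (pw y (v 1) * (pw k (v 0 * v 1) * pw x (w 0))) * pw y (w 1) * pw k (w 0 * w 1) := by group
        _ = pw x (v 0) * (pw y (v 1) * pw x (w 0)) * (pw k (v 0 * v 1) * pw y (w 1)) * pw k (w 0 * w 1) := by
            rw [← hpk]; group
        _ = pw x (v 0) * pw x (w 0) * pw y (v 1) * (pw k (-(w 0 * v 1)) * pw y (w 1)) * (pw k (v 0 * v 1) * pw k (w 0 * w 1)) := by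
            rw [← hpk, b2]; group
        _ = pw x (v 0) * pw x (w 0) * pw y (v 1) * pw y (w 1) * (pw k (-(w 0 * v 1)) * (pw k (v 0 * v 1) * pw k (w 0 * w 1))) := by
            rw [← hpk]; group
        _ = pw x (v 0) * pw x (w 0) * (pw y (v 1) * pw y (w 1)) * pw k ((v 0 + w 0) * (v 1 + w 1) + -dt v w) := by
            rw [b5, b5, mul_assoc (pw x (v 0) * pw x (w 0)) (pw y (v 1)) (pw y (w 1))]
            congr 2
            unfold dt
            have : (3 : F3) = 0 := rfl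
            linear_combination (-(w 0 * v 1)) * this
    inj := hinj
    mem := hmem
    surj := by
      haveI : Fintype E := Fintype.ofFinite E
      let f : (Fin 2 → F3) × F3 → E := fun p => ⟨_, hmem p.1 p.2⟩
      have hf : Function.Injective f := by
        rintro ⟨v, a⟩ ⟨w, b⟩ h
        obtain ⟨h1, h2⟩ := hinj v a w b (congrArg Subtype.val h)
        rw [h1, h2]
      have hbij : Function.Bijective f := by
        rw [Fintype.bijective_iff_injective_and_card]
        refine ⟨hf, ?_⟩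
        rw [← Nat.card_eq_fintype_card (α := E), hE]
        rfl
      intro r hr
      obtain ⟨⟨v, a⟩, h⟩ := hbij.2 ⟨r, hr⟩
      exact ⟨v, a, (congrArg Subtype.val h).symm⟩ }

end Cfsg.Agent.H21.G648
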