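import Cfsg.Agent.H21.G648d

/-! The action on the Heisenberg group. -/

set_option autoImplicit false

namespace Cfsg.Agent.H21.G648

open Matrix

theorem dt_add_left (u v w : Fin 2 → F3) : dt (u + v) w = dt u w + dt v w := by
  simp only [dt, Pi.add_apply]; ring
theorem dt_neg_left (v w : Fin 2 → F3) : dt (-v) w = - dt v w := by
  simp only [dt, Pi.neg_apply]; ring
theorem dt_neg_right (v w : Fin 2 → F3) : dt v (-w) = - dt v w := by
  simp only [dt, Pi.neg_apply]; ring
theorem dt_self (v : Fin 2 → F3) : dt v v = 0 := by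
  simp only [dt]; ring
theorem dt_swap (v w : Fin 2 → F3) : dt w v = - dt v w := by
  simp only [dt]; ring

namespace Heis

variable {X : Type*} [Group X] {E : Subgroup X} (H : Heis X E)

include H

theorem z_zero : H.z 0 = 1 := by
  have h := H.z_add 0 0
  rw [add_zero] at h
  exact (mul_eq_left.1 h.symm)

theorem s_zero : H.s 0 = 1 := by
  have h := H.s_mul 0 0
  rw [add_zero, dt_self, H.z_zero, mul_one] at h
  exact mul_eq_left.1 h

theorem z_neg (a : F3) : H.z (-a) = (H.z a)⁻¹ := by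
  have h := H.z_add (-a) a
  rw [neg_add_cancel, H.z_zero] at h
  exact eq_inv_of_mul_eq_one_left h.symm

theorem s_neg (v : Fin 2 → F3) : H.s (-v) = (H.s v)⁻¹ := by
  have h := H.s_mul (-v) v
  rw [neg_add_cancel, dt_neg_left, dt_self, neg_zero, H.z_zero, mul_one, H.s_zero] at h
  exact eq_inv_of_mul_eq_one_left h

theorem s_mem (v : Fin 2 → F3) : H.s v ∈ E := by
  have := H.mem v 0
  rwa [H.z_zero, mul_one] at this

theorem z_mem (a : F3) : H.z a ∈ E := by
  have := H.mem 0 a
  rwa [H.s_zero, one_mul] at this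

theorem z_inj {a b : F3} (h : H.z a = H.z b) : a = b :=
  (H.inj 0 a 0 b (by rw [h])).2

theorem s_inj {v w : Fin 2 → F3} (h : H.s v = H.s w) : v = w :=
  (H.inj v 0 w 0 (by rw [h])).1

theorem s_comm (v w : Fin 2 → F3) : H.s v * H.s w = H.s w * H.s v * H.z (- dt v w) := by
  rw [H.s_mul, H.s_mul, add_comm w v, mul_assoc, ← H.z_add, dt_swap v w]
  congr 2
  have : (3 : F3) = 0 := rfl
  linear_combination (dt v w) * this

variable [hE : E.Normal]

theorem act_ex (g : X) (v : Fin 2 → F3) : ∃ w a, g * H.s v * g⁻¹ = H.s w * H.z a :=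
  H.surj _ (hE.conj_mem _ (H.s_mem v) g)

/-- action -/
noncomputable def act (g : X) (v : Fin 2 → F3) : Fin 2 → F3 := (H.act_ex g v).choose

/-- twist -/
noncomputable def lam (g : X) (v : Fin 2 → F3) : F3 := (H.act_ex g v).choose_spec.choose

theorem act_spec (g : X) (v : Fin 2 → F3) : g * H.s v * g⁻¹ = H.s (H.act g v) * H.z (H.lam g v) :=
  (H.act_ex g v).choose_spec.choose_spec

theorem act_unique {g : X} {v w : Fin 2 → F3} {a : F3} (h : g * H.s v * g⁻¹ = H.s w * H.z a) : H.act g v = w ∧ H.lam g v = a :=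
  H.inj _ _ _ _ (by rw [← H.act_spec, h])

theorem act_add (g : X) (v w : Fin 2 → F3) : H.act g (v + w) = H.act g v + H.act g w := by
  have h1 : g * H.s (v + w) * g⁻¹ = (g * H.s v * g⁻¹) * (g * H.s w * g⁻¹) * H.z (- dt v w) := by
    have : H.s (v + w) = H.s v * H.s w * H.z (- dt v w) := by
      rw [H.s_mul, mul_assoc, ← H.z_add, add_neg_cancel, H.z_zero, mul_one]
    rw [this]
    have h2 : g * (H.s v * H.s w * H.z (- dt v w)) * g⁻¹ = g * H.s v * H.s w * (H.z (- dt v w) * g⁻¹) := by group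
    rw [h2, ← H.z_cen]
    group
  rw [H.act_spec g v, H.act_spec g w] at h1
  have h3 : H.s (H.act g v) * H.z (H.lam g v) * (H.s (H.act g w) * H.z (H.lam g w)) * H.z (- dt v w) =
      H.s (H.act g v) * H.s (H.act g w) * (H.z (H.lam g v) * H.z (H.lam g w) * H.z (- dt v w)) := by
    have : H.s (H.act g v) * H.z (H.lam g v) * (H.s (H.act g w) * H.z (H.lam g w)) * H.z (- dt v w) =
      H.s (H.act g v) * (H.z (H.lam g v) * H.s (H.act g w)) * H.z (H.lam g w) * H.z (- dt v w) := by group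
    rw [this, ← H.z_cen]
    group
  rw [h3, H.s_mul, ← H.z_add, ← H.z_add, mul_assoc (H.s (H.act g v + H.act g w)), ← H.z_add] at h1
  exact (H.act_unique h1).1

theorem act_mul (g h : X) (v : Fin 2 → F3) : H.act (g * h) v = H.act g (H.act h v) := by
  have h1 : g * h * H.s v * (g * h)⁻¹ = g * (h * H.s v * h⁻¹) * g⁻¹ := by group
  rw [H.act_spec h v] at h1
  have h2 : g * (H.s (H.act h v) * H.z (H.lam h v)) * g⁻¹ = g * H.s (H.act h v) * (H.z (H.lam h v) * g⁻¹) := by group
  rw [h2, ← H.z_cen, ← mul_assoc, H.act_spec g, mul_assoc (H.s (H.act g (H.act h v))), ← H.z_add] at h1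
  exact (H.act_unique h1).1

theorem act_one (v : Fin 2 → F3) : H.act 1 v = v := by
  have h : 1 * H.s v * 1⁻¹ = H.s v * H.z 0 := by rw [H.z_zero]; group
  exact (H.act_unique h).1

theorem act_dt (g : X) (v w : Fin 2 → F3) : dt (H.act g v) (H.act g w) = dt v w := by
  have h1 : (g * H.s v * g⁻¹) * (g * H.s w * g⁻¹) = (g * H.s w * g⁻¹) * (g * H.s v * g⁻¹) * H.z (- dt v w) := by
    have h2 : (g * H.s v * g⁻¹) * (g * H.s w * g⁻¹) = g * (H.s v * H.s w) * g⁻¹ := by group
    rw [h2, H.s_comm v w]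
    have h3 : g * (H.s w * H.s v * H.z (- dt v w)) * g⁻¹ = g * (H.s w * H.s v) * (H.z (- dt v w) * g⁻¹) := by group
    rw [h3, ← H.z_cen]
    group
  rw [H.act_spec g v, H.act_spec g w] at h1
  have hc : ∀ (p q : Fin 2 → F3) (a b : F3), H.s p * H.z a * (H.s q * H.z b) = H.s p * H.s q * H.z (a + b) := by
    intro p q a b
    have : H.s p * H.z a * (H.s q * H.z b) = H.s p * (H.z a * H.s q) * H.z b := by group
    rw [this, ← H.z_cen, H.z_add]
    group
  rw [hc, hc, H.s_comm (H.act g v) (H.act g w), mul_assoc, mul_assoc (H.s (H.act g w) * H.s (H.act g v)), ← H.z_add, ← H.z_add] at h1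
  have h4 := H.z_inj (mul_left_cancel h1)
  linear_combination -h4

/-- the matrix of the action -/
noncomputable def mat (g : X) : Matrix (Fin 2) (Fin 2) F3 :=
  LinearMap.toMatrix' (AddMonoidHom.toZModLinearMap 3 ⟨⟨H.act g, by
    have := H.act_add g 0 0
    rw [add_zero] at this
    exact left_eq_add.1 this⟩, H.act_add g⟩)

theorem mat_mulVec (g : X) (v : Fin 2 → F3) : H.mat g *ᵥ v = H.act g v := by
  unfold mat
  rw [LinearMap.toMatrix'_mulVec]
  rfl

theorem mat_det (g : X) : (H.mat g).det = 1 := by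
  have h := H.act_dt g ![1, 0] ![0, 1]
  rw [← H.mat_mulVec, ← H.mat_mulVec] at h
  simp only [dt, mulVec, dotProduct, Fin.sum_univ_two] at h
  simp at h
  rw [det_fin_two]
  linear_combination h

/-- the representation -/
noncomputable def rho : X →* SL23 where
  toFun g := ⟨H.mat g, H.mat_det g⟩
  map_one' := by
    apply Subtype.ext
    apply Matrix.ext_of_mulVec_single
    intro i
    show H.mat 1 *ᵥ _ = (1 : Matrix (Fin 2) (Fin 2) F3) *ᵥ _
    rw [H.mat_mulVec, H.act_one, one_mulVec]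
  map_mul' g h := by
    apply Subtype.ext
    apply Matrix.ext_of_mulVec_single
    intro i
    show H.mat (g * h) *ᵥ _ = (H.mat g * H.mat h) *ᵥ _
    rw [H.mat_mulVec, H.act_mul, ← mulVec_mulVec, H.mat_mulVec, H.mat_mulVec]

theorem rho_mulVec (g : X) (v : Fin 2 → F3) : (H.rho g).1 *ᵥ v = H.act g v := H.mat_mulVec g v

theorem rho_eq {g : X} {M : SL23} (h : ∀ v, H.act g v = M.1 *ᵥ v) : H.rho g = M := by
  apply Subtype.ext
  apply Matrix.ext_of_mulVec_single
  intro i
  rw [H.rho_mulVec, h]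

theorem rho_s (w : Fin 2 → F3) : H.rho (H.s w) = 1 := by
  apply H.rho_eq
  intro v
  show _ = (1 : Matrix (Fin 2) (Fin 2) F3) *ᵥ v
  rw [one_mulVec]
  have h : H.s w * H.s v * (H.s w)⁻¹ = H.s v * H.z (- dt w v) := by
    rw [H.s_comm w v, mul_assoc, ← H.z_cen, ← mul_assoc, mul_inv_cancel_right]
  exact (H.act_unique h).1

theorem rho_z (a : F3) : H.rho (H.z a) = 1 := by
  apply H.rho_eq
  intro v
  show _ = (1 : Matrix (Fin 2) (Fin 2) F3) *ᵥ v
  rw [one_mulVec]
  have h : H.z a * H.s v * (H.z a)⁻¹ = H.s v * H.z 0 := by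
    rw [← H.z_cen, mul_inv_cancel_right, H.z_zero, mul_one]
  exact (H.act_unique h).1

theorem le_ker : E ≤ H.rho.ker := by
  intro r hr
  obtain ⟨v, a, rfl⟩ := H.surj r hr
  rw [MonoidHom.mem_ker, map_mul, H.rho_s, H.rho_z, mul_one]

end Heis

end Cfsg.Agent.H21.G648
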