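import Cfsg.Agent.H21.G648e
import Cfsg.Agent.Hall.Gaschutz

/-! The action on the Heisenberg group: kernel, complement. -/

set_option autoImplicit false

namespace Cfsg.Agent.H21.G648

open Matrix

namespace Heis

variable {X : Type*} [Group X] {E : Subgroup X} [hE : E.Normal] (H : Heis X E) (e : X ⧸ E ≃* SL23)

include H

theorem ker_eq {t : X} (ht : e (QuotientGroup.mk t) = -1) (h : H.rho t ≠ 1) : H.rho.ker = E := by
  apply le_antisymm _ H.le_ker
  intro g hg
  by_contra hgE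
  have h1 : e (QuotientGroup.mk g) ≠ 1 := by
    intro h1
    apply hgE
    rw [← QuotientGroup.eq_one_iff]
    exact e.injective (by rw [h1, map_one])
  have key : ∀ k : X, H.rho k = 1 → e (QuotientGroup.mk k) = -1 → False := by
    intro k hk hke
    have h2 : (QuotientGroup.mk k : X ⧸ E) = QuotientGroup.mk t := e.injective (by rw [hke, ht])
    have h3 : k⁻¹ * t ∈ E := QuotientGroup.eq.1 h2
    have h4 := H.le_ker h3
    apply h
    have : t = k * (k⁻¹ * t) := by group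
    rw [this, map_mul, hk, MonoidHom.mem_ker.1 h4, mul_one]
  have hg1 : H.rho g = 1 := hg
  rcases nc _ h1 with h2 | h2 | ⟨m, h2⟩
  · exact key (g * g) (by rw [map_mul, hg1, mul_one]) (by rw [QuotientGroup.mk_mul, map_mul, h2])
  · exact key (g * g * g) (by rw [map_mul, map_mul, hg1, mul_one, mul_one])
      (by rw [QuotientGroup.mk_mul, QuotientGroup.mk_mul, map_mul, map_mul, h2])
  · obtain ⟨y, hy⟩ := e.surjective m
    obtain ⟨y, rfl⟩ := QuotientGroup.mk_surjective y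
    refine key ((g * y * g⁻¹ * y⁻¹) * (g * y * g⁻¹ * y⁻¹)) ?_ ?_
    · simp only [map_mul, map_inv, hg1]
      group
    · rw [← hy] at h2
      rw [← h2]
      simp only [QuotientGroup.mk_mul, QuotientGroup.mk_inv, map_mul, map_inv]

include e in
theorem rho_surj (hk : H.rho.ker = E) : Function.Surjective H.rho := by
  have hle : ∀ x ∈ E, H.rho x = 1 := fun x hx => H.le_ker hx
  let f : SL23 → SL23 := fun m => (QuotientGroup.lift E H.rho hle) (e.symm m)
  have hinj : Function.Injective f := by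
    intro m n hmn
    obtain ⟨a, ha⟩ := QuotientGroup.mk_surjective (e.symm m)
    obtain ⟨b, hb⟩ := QuotientGroup.mk_surjective (e.symm n)
    have h1 : H.rho a = H.rho b := by
      have h2 : (QuotientGroup.lift E H.rho hle) (e.symm m) = (QuotientGroup.lift E H.rho hle) (e.symm n) := hmn
      rw [← ha, ← hb] at h2
      exact h2
    have h3 : a⁻¹ * b ∈ E := by
      rw [← hk, MonoidHom.mem_ker, map_mul, map_inv, h1, inv_mul_cancel]
    have h4 := QuotientGroup.eq.2 h3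
    rw [ha, hb] at h4
    exact e.symm.injective h4
  have hs : Function.Surjective f := Finite.surjective_of_injective hinj
  intro m
  obtain ⟨n, hn⟩ := hs m
  obtain ⟨x, hx⟩ := QuotientGroup.mk_surjective (e.symm n)
  refine ⟨x, ?_⟩
  rw [← hn]
  show _ = (QuotientGroup.lift E H.rho hle) (e.symm n)
  rw [← hx]
  rfl

theorem rho_ne_one {t : X} (ht2 : t * t = 1) (hn : ∃ r ∈ E, t * r ≠ r * t) : H.rho t ≠ 1 := by
  intro h
  obtain ⟨r, hr, hne⟩ := hn
  obtain ⟨v, a, rfl⟩ := H.surj r hr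
  apply hne
  have h1 : H.act t v = v := by rw [← H.rho_mulVec, h]; exact one_mulVec v
  have h2 := H.act_spec t v
  rw [h1] at h2
  have hti : t⁻¹ = t := inv_eq_of_mul_eq_one_left ht2
  have h3 : t * (t * H.s v * t⁻¹) * t⁻¹ = H.s v := by
    rw [hti]
    calc t * (t * H.s v * t) * t = (t * t) * H.s v * (t * t) := by group
      _ = H.s v := by rw [ht2]; group
  rw [h2] at h3
  have h4 : t * (H.s v * H.z (H.lam t v)) * t⁻¹ = (t * H.s v * t⁻¹) * H.z (H.lam t v) := by
    have : t * (H.s v * H.z (H.lam t v)) * t⁻¹ = t * H.s v * (H.z (H.lam t v) * t⁻¹) := by group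
    rw [this, ← H.z_cen]
    group
  rw [h4, h2, mul_assoc, ← H.z_add] at h3
  have h5 : H.z (H.lam t v + H.lam t v) = H.z 0 := by
    rw [H.z_zero]
    exact mul_eq_left.1 h3
  have h6 := H.z_inj h5
  have h7 : ∀ a : F3, a + a = 0 → a = 0 := by decide
  rw [h7 _ h6, H.z_zero, mul_one] at h2
  have h8 : t * H.s v = H.s v * t := mul_inv_eq_iff_eq_mul.1 h2
  rw [← mul_assoc, h8, mul_assoc, H.z_cen, mul_assoc]

theorem rho_t {t : X} (ht2 : t * t = 1) (h1 : H.rho t ≠ 1) : H.rho t = -1 := by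
  rcases invol (H.rho t) (by rw [← map_mul, ht2, map_one]) with h | h
  · exact absurd h h1
  · exact h

theorem new_coords [Finite X] (hE27 : Nat.card E = 27) (h3 : ∀ r ∈ E, r ^ 3 = 1) {t : X} (ht : H.rho t = -1) :
    ∃ H' : Heis X E, ∀ v, t * H'.s v * t⁻¹ = H'.s (-v) := by
  have hx : ∀ v, ∃ x ∈ E, t * x * t⁻¹ = x⁻¹ ∧ ∃ a, x = H.s v * H.z a := by
    intro v
    refine ⟨H.s v * H.z (H.lam t v), H.mem _ _, ?_, _, rfl⟩
    have h1 : H.act t v = -v := by
      rw [← H.rho_mulVec, ht]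
      show (-(1 : Matrix (Fin 2) (Fin 2) F3)) *ᵥ v = _
      rw [neg_mulVec, one_mulVec]
    have h2 := H.act_spec t v
    rw [h1] at h2
    have h4 : t * (H.s v * H.z (H.lam t v)) * t⁻¹ = (t * H.s v * t⁻¹) * H.z (H.lam t v) := by
      have : t * (H.s v * H.z (H.lam t v)) * t⁻¹ = t * H.s v * (H.z (H.lam t v) * t⁻¹) := by group
      rw [this, ← H.z_cen]
      group
    rw [h4, h2, mul_assoc, ← H.z_add, _root_.mul_inv_rev, ← H.s_neg, ← H.z_neg, ← H.z_cen]
    congr 2
    have : (3 : F3) = 0 := rfl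
    linear_combination (H.lam t v) * this
  obtain ⟨x, hxE, hxt, a, hxa⟩ := hx ![1, 0]
  obtain ⟨y, hyE, hyt, b, hyb⟩ := hx ![0, 1]
  have hk1 : H.z (-1) ≠ 1 := by
    intro h
    have h5 : H.z (-1) = H.z 0 := by rw [h, H.z_zero]
    have h6 := H.z_inj h5
    revert h6
    decide
  have hc : ∀ (p q : Fin 2 → F3) (a b : F3), H.s p * H.z a * (H.s q * H.z b) = H.s p * H.s q * H.z (a + b) := by
    intro p q a b
    have : H.s p * H.z a * (H.s q * H.z b) = H.s p * (H.z a * H.s q) * H.z b := by group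
    rw [this, ← H.z_cen, H.z_add]
    group
  have hxy : x * y = H.z (-1) * (y * x) := by
    rw [hxa, hyb, hc, hc, H.s_comm ![1, 0] ![0, 1]]
    have h5 : dt (![1, 0] : Fin 2 → F3) ![0, 1] = 1 := by decide
    rw [h5, ← H.z_cen (-1) (H.s ![0, 1] * H.s ![1, 0] * H.z (b + a)), mul_assoc (H.s ![0, 1] * H.s ![1, 0]),
      mul_assoc (H.s ![0, 1] * H.s ![1, 0]), ← H.z_add, ← H.z_add]
    congr 2
    ring
  let H' := mkHeis E hE27 h3 hxE hyE (H.z_mem (-1)) hk1 (fun g => H.z_cen _ g) hxy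
  refine ⟨H', ?_⟩
  intro v
  have hx3 := h3 x hxE
  have hy3 := h3 y hyE
  have hi : ∀ (u : X), u ^ 3 = 1 → ∀ i : F3, pw u⁻¹ i = pw u (-i) := by
    intro u hu i
    rw [pw_neg hu]
    exact inv_pow u _
  have hk3 := h3 _ (H.z_mem (-1))
  have hs : ∀ v, H'.s v = pw x (v 0) * pw y (v 1) * pw (H.z (-1)) (v 0 * v 1) := fun v => rfl
  rw [hs, hs]
  have h5 : t * (pw x (v 0) * pw y (v 1) * pw (H.z (-1)) (v 0 * v 1)) * t⁻¹ =
    (t * pw x (v 0) * t⁻¹) * (t * pw y (v 1) * t⁻¹) * (t * pw (H.z (-1)) (v 0 * v 1) * t⁻¹) := by group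
  rw [h5, pw_conj, pw_conj, pw_conj, hxt, hyt, H.z_cen, mul_inv_cancel_right, hi x hx3, hi y hy3]
  congr 2
  show v 0 * v 1 = (-v 0) * (-v 1)
  ring

end Heis

end Cfsg.Agent.H21.G648
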