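import Cfsg.Agent.H21.G648f

/-! The action on the Heisenberg group: complement. -/

set_option autoImplicit false

namespace Cfsg.Agent.H21.G648

open Matrix

theorem dt_zero_iff : ∀ v w : Fin 2 → F3, v ≠ 0 → dt w v = 0 → ∃ m : F3, w = m • v := by decide +kernel

theorem neg_self_vec : ∀ v : Fin 2 → F3, -v = v → v = 0 := by decide +kernel

theorem neg_self_F3 : ∀ a : F3, a = -a → a = 0 := by decide

theorem card_SL23 : Nat.card SL23 = 24 := by
  rw [Nat.card_eq_fintype_card]
  decide +kernel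

namespace Heis

variable {X : Type*} [Group X] {E : Subgroup X} [hE : E.Normal] (H : Heis X E)

include H

section inv

variable {t : X} (hinv : ∀ v, t * H.s v * t⁻¹ = H.s (-v))

include hinv

theorem t_conj (v : Fin 2 → F3) (a : F3) : t * (H.s v * H.z a) * t⁻¹ = H.s (-v) * H.z a := by
  rw [← hinv]
  have : t * (H.s v * H.z a) * t⁻¹ = t * H.s v * (H.z a * t⁻¹) := by group
  rw [this, ← H.z_cen]
  group

theorem L_act {g : X} (hg : g * t = t * g) (v : Fin 2 → F3) : g * H.s v * g⁻¹ = H.s (H.act g v) := by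
  have h1 := H.act_spec g v
  have h2 : t * (g * H.s v * g⁻¹) * t⁻¹ = (g * H.s v * g⁻¹)⁻¹ := by
    have h3 : t * (g * H.s v * g⁻¹) * t⁻¹ = (t * g) * H.s v * (t * g)⁻¹ := by group
    have h4 : (g * t) * H.s v * (g * t)⁻¹ = g * (t * H.s v * t⁻¹) * g⁻¹ := by group
    rw [h3, ← hg, h4, hinv, H.s_neg]
    group
  rw [h1, H.t_conj hinv, _root_.mul_inv_rev, ← H.s_neg, ← H.z_neg, ← H.z_cen] at h2
  have h5 := H.z_inj (mul_left_cancel h2)
  rw [neg_self_F3 _ h5, H.z_zero, mul_one] at h1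
  exact h1

theorem L_E {r : X} (hr : r ∈ E) (hrt : r * t = t * r) : ∃ a, r = H.z a := by
  obtain ⟨v, a, rfl⟩ := H.surj r hr
  have h1 := H.t_conj hinv v a
  rw [← hrt, mul_inv_cancel_right] at h1
  have h2 := (H.inj _ _ _ _ h1).1
  rw [neg_self_vec v h2.symm, H.s_zero, one_mul]
  exact ⟨a, rfl⟩

theorem rho_t' : H.rho t = -1 := by
  apply H.rho_eq
  intro v
  show _ = (-(1 : Matrix (Fin 2) (Fin 2) F3)) *ᵥ v
  rw [neg_mulVec, one_mulVec]
  exact (H.act_unique (a := 0) (by rw [hinv, H.z_zero, mul_one])).1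

theorem decomp (hk : H.rho.ker = E) (ht2 : t * t = 1) (h3 : ∀ r ∈ E, r ^ 3 = 1) (g : X) :
    ∃ u ∈ E, (u⁻¹ * g) * t = t * (u⁻¹ * g) := by
  have hti : t⁻¹ = t := inv_eq_of_mul_eq_one_left ht2
  set w := t * (g * t * g⁻¹) with hw
  have hwE : w ∈ E := by
    rw [← hk, MonoidHom.mem_ker, hw]
    simp only [map_mul, map_inv, H.rho_t' hinv]
    have h1 : H.rho g * (-1) = (-1) * H.rho g := by
      apply Subtype.ext
      show (H.rho g).1 * (-(1 : Matrix (Fin 2) (Fin 2) F3)) = (-(1 : Matrix (Fin 2) (Fin 2) F3)) * (H.rho g).1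
      simp
    have h2 : (-1 : SL23) * (-1) = 1 := by decide
    rw [h1]
    rw [mul_inv_cancel_right, h2]
  refine ⟨w, hwE, ?_⟩
  have h4 : t * w * t = w⁻¹ := by
    apply eq_inv_of_mul_eq_one_left
    rw [hw]
    calc t * (t * (g * t * g⁻¹)) * t * (t * (g * t * g⁻¹)) = (t * t) * (g * t * g⁻¹) * (t * t) * (g * t * g⁻¹) := by group
      _ = (g * t * g⁻¹) * (g * t * g⁻¹) := by rw [ht2, one_mul, mul_one]
      _ = g * (t * t) * g⁻¹ := by group
      _ = 1 := by rw [ht2, mul_one, mul_inv_cancel]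
  have h5 : w * t * w⁻¹ = g * t * g⁻¹ := by
    have h6 : w * t = t * w⁻¹ := by
      rw [← h4]
      calc w * t = 1 * w * t := by group
        _ = (t * t) * w * t := by rw [ht2]
        _ = t * (t * w * t) := by group
    rw [h6]
    have h7 : w⁻¹ * w⁻¹ = w := by
      have := h3 w hwE
      have h8 : w * (w⁻¹ * w⁻¹)⁻¹ = 1 * 1 := by
        have : w * (w⁻¹ * w⁻¹)⁻¹ = w ^ 3 := by group
        rw [this, h3 w hwE, mul_one]
      rw [mul_one] at h8
      exact (mul_inv_eq_one.1 h8).symm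
    rw [mul_assoc, h7, hw]
    calc t * (t * (g * t * g⁻¹)) = (t * t) * (g * t * g⁻¹) := by group
      _ = g * t * g⁻¹ := by rw [ht2, one_mul]
  have h9 : w⁻¹ * g * t = w⁻¹ * (g * t * g⁻¹) * g := by group
  rw [h9, ← h5]
  group

theorem exists_c [Finite X] (hE27 : Nat.card E = 27) (hk : H.rho.ker = E) (ht2 : t * t = 1) (h3 : ∀ r ∈ E, r ^ 3 = 1) (A : Subgroup X)
    (hAc : ∀ a ∈ A, ∀ b ∈ A, a * b = b * a) (hA3 : ∀ a ∈ A, a ^ 3 = 1) (hA : Nat.card A = 27) :
    ∃ c : X, c * t = t * c ∧ c ^ 3 = 1 ∧ c ∉ E := by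
  -- (i)
  have h1 : ∃ b ∈ A, b ∉ E := by
    by_contra hcon
    push Not at hcon
    have h2 : A = E := Subgroup.eq_of_le_of_card_ge hcon (by rw [hA, hE27])
    have h4 := hAc (H.s ![1, 0]) (by rw [h2]; exact H.s_mem _) (H.s ![0, 1]) (by rw [h2]; exact H.s_mem _)
    rw [H.s_comm] at h4
    have h5 := mul_eq_left.1 h4
    rw [← H.z_zero] at h5
    have h6 := H.z_inj h5
    revert h6
    decide
  have h2 : ∃ v a, H.s v * H.z a ∈ A ∧ v ≠ 0 := by
    by_contra hcon
    push Not at hcon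
    let f : A →* SL23 := H.rho.comp A.subtype
    have hfk : Nat.card f.ker ≤ 3 := by
      have hh : ∀ x : f.ker, ∃ a, (x.1 : X) = H.z a := by
        intro x
        have hx : (x.1 : X) ∈ E := by
          rw [← hk]
          exact x.2
        obtain ⟨v, a, hva⟩ := H.surj _ hx
        have := hcon v a (hva ▸ x.1.2)
        rw [this, H.s_zero, one_mul] at hva
        exact ⟨a, hva⟩
      choose ff hff using hh
      have hinj : Function.Injective ff := by
        intro x y hxy
        apply Subtype.ext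
        apply Subtype.ext
        rw [hff x, hff y, hxy]
      have := Nat.card_le_card_of_injective ff hinj
      rwa [Nat.card_eq_fintype_card (α := F3), ZMod.card] at this
    have hr : Nat.card f.range * Nat.card f.ker = 27 := by
      rw [← hA, Subgroup.card_eq_card_quotient_mul_card_subgroup f.ker, Nat.card_congr (QuotientGroup.quotientKerEquivRange f).toEquiv]
    have hr1 : Nat.card f.range ∣ 24 := by rw [← card_SL23]; exact Subgroup.card_subgroup_dvd_card _
    have hr2 : Nat.card f.range ∣ 27 := ⟨_, hr.symm⟩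
    have hr3 : Nat.card f.range ∣ 3 := by
      have := Nat.dvd_gcd hr1 hr2
      exact this
    have hr4 := Nat.le_of_dvd (by norm_num) hr3
    have : Nat.card f.range * Nat.card f.ker ≤ 3 * 3 := Nat.mul_le_mul hr4 hfk
    omega
  obtain ⟨b, hbA, hbE⟩ := h1
  obtain ⟨v, a, hvA, hv⟩ := h2
  obtain ⟨u, huE, hut⟩ := H.decomp hinv hk ht2 h3 b
  set l := u⁻¹ * b with hl
  have hbv : b * H.s v * b⁻¹ = H.s v := by
    have h4 := hAc _ hbA _ hvA
    have h5 : b * (H.s v * H.z a) = b * H.s v * H.z a := by group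
    have h6 : H.s v * H.z a * b = H.s v * b * H.z a := by rw [mul_assoc, ← H.z_cen, mul_assoc]
    rw [h5, h6] at h4
    rw [mul_right_cancel h4]
    group
  have hab : H.act b v = v := (H.act_unique (a := 0) (by rw [hbv, H.z_zero, mul_one])).1
  have hu1 : H.rho u = 1 := H.le_ker huE
  have hal : H.act l v = v := by
    rw [← H.rho_mulVec, hl, map_mul, map_inv, hu1, inv_one, one_mul, H.rho_mulVec, hab]
  have hls : l * H.s v * l⁻¹ = H.s v := by rw [H.L_act hinv hut, hal]
  obtain ⟨w, k, huw⟩ := H.surj u huE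
  have huv : H.s w * H.s v = H.s v * H.s w := by
    have h5 : u * H.s v * u⁻¹ = H.s v := by
      have : u = b * l⁻¹ := by rw [hl]; group
      have h6 : l⁻¹ * H.s v * l = H.s v := by
        have h7 : l⁻¹ * (l * H.s v * l⁻¹) * l = H.s v := by group
        rwa [hls] at h7
      calc u * H.s v * u⁻¹ = b * (l⁻¹ * H.s v * l) * b⁻¹ := by rw [this]; group
        _ = H.s v := by rw [h6, hbv]
    have h8 : u * H.s v = H.s v * u := mul_inv_eq_iff_eq_mul.1 h5
    rw [huw, mul_assoc, ← H.z_cen, ← mul_assoc, ← mul_assoc] at h8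
    exact mul_right_cancel h8
  have hdt : dt w v = 0 := by
    rw [H.s_comm w v] at huv
    have h9 := mul_eq_left.1 huv
    rw [← H.z_zero] at h9
    have := H.z_inj h9
    linear_combination -this
  obtain ⟨m, hm⟩ := dt_zero_iff v w hv hdt
  have hlw : l * H.s w * l⁻¹ = H.s w := by
    rw [H.L_act hinv hut, ← H.rho_mulVec, hm, mulVec_smul, H.rho_mulVec, hal]
  have hlu : l * u = u * l := by
    have h10 : l * H.s w = H.s w * l := mul_inv_eq_iff_eq_mul.1 hlw
    rw [huw, ← mul_assoc, h10, mul_assoc, H.z_cen, mul_assoc]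
  refine ⟨l, hut, ?_, ?_⟩
  · have hub : Commute u⁻¹ b := by
      have : b = u * l := by rw [hl]; group
      show u⁻¹ * b = b * u⁻¹
      rw [this]
      calc u⁻¹ * (u * l) = l := by group
        _ = (l * u) * u⁻¹ := by group
        _ = u * l * u⁻¹ := by rw [hlu]
    rw [hl, hub.mul_pow, hA3 b hbA, mul_one, inv_pow, h3 u huE, inv_one]
  · intro hlE
    apply hbE
    have : b = u * l := by rw [hl]; group
    rw [this]
    exact mul_mem huE hlE

end inv

end Heis

end Cfsg.Agent.H21.G648
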