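import Cfsg.Agent.H21.G648g
import Cfsg.Prelude.Def_Local
import Cfsg.Prelude.Def_Transfer

/-! Groups `3^{1+2} : SL₂(3)`. -/

set_option autoImplicit false

namespace Cfsg.Agent.H21.G648

open Matrix

namespace Heis

variable {X : Type*} [Group X] {E : Subgroup X} [hE : E.Normal] (H : Heis X E)

include H

theorem exists_hom [Finite X] (hE3 : ∀ r ∈ E, r ^ 3 = 1) {t c : X} (hinv : ∀ v, t * H.s v * t⁻¹ = H.s (-v)) (hk : H.rho.ker = E)
    (hs : Function.Surjective H.rho) (ht2 : t * t = 1) (hct : c * t = t * c) (hc3 : c ^ 3 = 1) (hcE : c ∉ E) :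
    ∃ h : SL23 →* X, (∀ g, h g * t = t * h g) ∧ ∀ g, H.rho (h g) = g := by
  set L := Subgroup.centralizer ({t} : Set X) with hL
  have hLm : ∀ x, x ∈ L ↔ x * t = t * x := fun x => Subgroup.mem_centralizer_singleton_iff
  let f : L →* SL23 := H.rho.comp L.subtype
  have hfs : Function.Surjective f := by
    intro m
    obtain ⟨g, hg⟩ := hs m
    obtain ⟨u, hu, hut⟩ := H.decomp hinv hk ht2 hE3 g
    refine ⟨⟨u⁻¹ * g, (hLm _).2 hut⟩, ?_⟩
    show H.rho (u⁻¹ * g) = m
    have hu1 : H.rho u = 1 := H.le_ker hu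
    rw [map_mul, map_inv, hu1, inv_one, one_mul, hg]
  have hK : ∀ x : L, x ∈ f.ker → ∃ a, (x : X) = H.z a := by
    intro x hx
    have hxE : (x : X) ∈ E := by rw [← hk]; exact hx
    exact H.L_E hinv hxE ((hLm _).1 x.2)
  haveI : IsMulCommutative f.ker := ⟨⟨by
    rintro ⟨x, hx⟩ ⟨y, hy⟩
    obtain ⟨a, ha⟩ := hK x hx
    apply Subtype.ext
    apply Subtype.ext
    show (x : X) * y = y * x
    rw [ha, H.z_cen]⟩⟩
  have hKp : IsPGroup 3 f.ker := by
    rintro ⟨x, hx⟩
    refine ⟨1, ?_⟩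
    apply Subtype.ext
    apply Subtype.ext
    show (x : X) ^ (3 ^ 1) = 1
    have hxE : (x : X) ∈ E := by rw [← hk]; exact hx
    exact hE3 _ hxE
  haveI : Fact (Nat.Prime 3) := ⟨Nat.prime_three⟩
  obtain ⟨n, hn⟩ := IsPGroup.iff_card.1 hKp
  let c' : L := ⟨c, (hLm _).2 hct⟩
  have hfc3 : f c' ^ 3 = 1 := by
    show (H.rho c) ^ 3 = 1
    rw [← map_pow, hc3, map_one]
  have hfc1 : f c' ≠ 1 := by
    intro h
    apply hcE
    rw [← hk]
    exact h
  have hfc : orderOf (f c') = 3 := orderOf_eq_prime hfc3 hfc1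
  have hc1 : c' ≠ 1 := by
    intro h
    apply hfc1
    rw [h, map_one]
  have hc'3 : c' ^ 3 = 1 := Subtype.ext hc3
  have hc' : orderOf c' = 3 := orderOf_eq_prime hc'3 hc1
  set A := Subgroup.zpowers c' with hA
  set U := (A.map f).comap f with hU
  have hKU : f.ker ≤ U := by
    intro x hx
    rw [hU, Subgroup.mem_comap, MonoidHom.mem_ker.1 hx]
    exact one_mem _
  have hUi : U.index = 8 := by
    rw [hU, Subgroup.index_comap_of_surjective _ hfs]
    have h1 : Nat.card (A.map f) = 3 := by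
      rw [hA, MonoidHom.map_zpowers, Nat.card_zpowers, hfc]
    have h2 := Subgroup.card_mul_index (A.map f)
    rw [h1, card_SL23] at h2
    omega
  have hcop : (Nat.card f.ker).Coprime U.index := by
    rw [hn, hUi]
    exact Nat.Coprime.pow_left n (by norm_num)
  have hAU : A ≤ U := Subgroup.le_comap_map _ _
  have hAK : A ⊓ f.ker = ⊥ := by
    rw [eq_bot_iff]
    rintro x ⟨hx, hxk⟩
    rw [Subgroup.mem_bot]
    by_contra hne
    have h1 : orderOf x = 3 := by
      have h2 : orderOf x ∣ 3 := by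
        rw [← hc']
        obtain ⟨m, rfl⟩ := Subgroup.mem_zpowers_iff.1 hx
        exact orderOf_dvd_of_mem_zpowers (Subgroup.zpow_mem_zpowers c' m)
      rcases (Nat.dvd_prime Nat.prime_three).1 h2 with h3 | h3
      · exact absurd (orderOf_eq_one_iff.1 h3) hne
      · exact h3
    have h4 : Subgroup.zpowers x = A := by
      apply Subgroup.eq_of_le_of_card_ge
      · rw [Subgroup.zpowers_le]; exact hx
      · rw [hA, Nat.card_zpowers, Nat.card_zpowers, hc', h1]
    have h5 : c' ∈ Subgroup.zpowers x := by rw [h4]; exact Subgroup.mem_zpowers c'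
    have h6 : Subgroup.zpowers x ≤ f.ker := by rw [Subgroup.zpowers_le]; exact hxk
    exact hfc1 (h6 h5)
  have hKA : f.ker ⊔ A = U := by
    rw [hU, Subgroup.comap_map_eq, sup_comm]
  obtain ⟨C, hC⟩ := Hall.gaschutz_exists f.ker U hKU hcop A hAU hAK hKA
  let fC : C →* SL23 := f.comp C.subtype
  have hbij : Function.Bijective fC := by
    constructor
    · rw [injective_iff_map_eq_one]
      intro x hx
      have h1 : (x : L) ∈ f.ker ⊓ C := ⟨hx, x.2⟩
      rw [hC.disjoint.eq_bot, Subgroup.mem_bot] at h1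
      exact Subtype.ext h1
    · intro m
      obtain ⟨l, hl⟩ := hfs m
      obtain ⟨⟨k, d⟩, hkd⟩ := hC.2 l
      refine ⟨d, ?_⟩
      have h1 : (k : L) * (d : L) = l := hkd
      show f d = m
      rw [← hl, ← h1, map_mul, MonoidHom.mem_ker.1 k.2, one_mul]
  let eC : C ≃* SL23 := MulEquiv.ofBijective fC hbij
  refine ⟨(L.subtype.comp C.subtype).comp eC.symm.toMonoidHom, ?_, ?_⟩
  · intro g
    exact (hLm _).1 (eC.symm g).1.2
  · intro g
    show fC (eC.symm g) = g
    exact eC.apply_symm_apply g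

theorem coord {t : X} (hinv : ∀ v, t * H.s v * t⁻¹ = H.s (-v)) (hk : H.rho.ker = E)
    (h : SL23 →* X) (h1 : ∀ g, h g * t = t * h g) (h2 : ∀ g, H.rho (h g) = g) : Nonempty (Coord X F3) := by
  have hact : ∀ g v, h g * H.s v = H.s (g.1 *ᵥ v) * h g := by
    intro g v
    have h3 := H.L_act hinv (h1 g) v
    rw [← H.rho_mulVec, h2] at h3
    exact mul_inv_eq_iff_eq_mul.1 h3
  refine ⟨{ φ := fun v a g => H.s v * H.z a * h g
            inj := ?_
            surj := ?_
            mul := ?_ }⟩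
  · intro v a g v' a' g' heq
    have h3 := congrArg H.rho heq
    simp only [map_mul, H.rho_s, H.rho_z, h2, one_mul] at h3
    rw [h3] at heq
    obtain ⟨h4, h5⟩ := H.inj _ _ _ _ (mul_right_cancel heq)
    exact ⟨h4, h5, h3⟩
  · intro x
    have h3 : x * (h (H.rho x))⁻¹ ∈ E := hk.le (by
      rw [MonoidHom.mem_ker, map_mul, map_inv, h2, mul_inv_cancel])
    obtain ⟨v, a, hva⟩ := H.surj _ h3
    refine ⟨v, a, H.rho x, ?_⟩
    rw [← hva]
    group
  · intro v a g v' a' g'
    calc H.s v * H.z a * h g * (H.s v' * H.z a' * h g') = H.s v * H.z a * (h g * H.s v') * H.z a' * h g' := by group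
      _ = H.s v * (H.z a * H.s (g.1 *ᵥ v')) * (h g * H.z a') * h g' := by rw [hact]; group
      _ = (H.s v * H.s (g.1 *ᵥ v')) * (H.z a * H.z a') * (h g * h g') := by
          rw [← H.z_cen a, H.z_cen a' (h g)]; group
      _ = H.s (v + g.1 *ᵥ v') * (H.z (dt v (g.1 *ᵥ v')) * (H.z a * H.z a')) * h (g * g') := by
          rw [H.s_mul, map_mul]; group
      _ = H.s (v + g.1 *ᵥ v') * H.z (a + a' + dt v (g.1 *ᵥ v')) * h (g * g') := by
          rw [← H.z_add, ← H.z_add, add_comm (dt v (g.1 *ᵥ v'))]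

end Heis

end Cfsg.Agent.H21.G648
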