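import Cfsg.Agent.H21.RFAb
import Cfsg.Agent.Fus.Join
import Cfsg.Agent.Fus.PPow6
import Cfsg.Agent.Fus.ExtZ
set_option autoImplicit false

/-!
# Simple fusion systems of rank two (helper21)
-/

namespace Cfsg.Agent.H21.RF

open Cfsg Cfsg.FusionSystem Cfsg.Agent.Fus Cfsg.Agent.H20

variable {Ω : Type*} [Group Ω] {S : Subgroup Ω} {F : FusionSystem S} [Finite S]

theorem no_normal_of_simple (hS : IsPGroup 2 S) (hF : F.IsSimple 2) (hr2 : PRankAtLeast 2 2 S) {Q : Subgroup Ω}
    (hQ : F.IsNormal Q) : Q = ⊥ := by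
  haveI : Fact (Nat.Prime 2) := ⟨Nat.prime_two⟩
  by_contra hQ1
  have htriv := triv_of_simple_normal hS hF hQ hQ1
  obtain ⟨A, hA, hA2, hc⟩ := hr2
  have hA1 : A ≠ ⊥ := by
    rintro rfl
    rw [Subgroup.card_bot] at hc
    norm_num at hc
  obtain ⟨z, hzA, hz1⟩ := A.bot_or_exists_ne_one.resolve_left hA1
  have hzz := hA2 z hzA
  have hR : F.IsNormal (Subgroup.zpowers (z : Ω)) := by
    have hRS : Subgroup.zpowers (z : Ω) ≤ S := by
      rw [Subgroup.zpowers_le]; exact z.2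
    exact isNormal_iff_isMap.2 ⟨hRS, fun P f hf =>
      ⟨id, isMap_id (sup_le hf.le hRS), fun x hx => (htriv P f hf x hx).symm, img_id⟩⟩
  rcases hF.2.2 _ _ (inner_isNormalIn hS hF.1 hR) with h | ⟨h, -⟩
  · rw [Subgroup.zpowers_eq_bot] at h
    exact hz1 (Subtype.ext h)
  · have h1 : Nat.card S = orderOf (z : Ω) := by
      rw [← Nat.card_zpowers]
      exact congrArg (fun R : Subgroup Ω => Nat.card R) h.symm
    have h2 : orderOf (z : Ω) ∣ 2 := orderOf_dvd_of_pow_eq_one (congrArg Subtype.val hzz)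
    have h3 := Nat.le_of_dvd (by norm_num) h2
    have h4 := Subgroup.card_le_card_group A
    rw [h1] at h4
    norm_num at hc
    omega

theorem center_bot_of_simple (hS : IsPGroup 2 S) (hF : F.IsSimple 2) (hr2 : PRankAtLeast 2 2 S) : F.center = ⊥ :=
  no_normal_of_simple hS hF hr2 (Join.isNormal_of_isCentral (Join.isCentral_center F))

theorem not_normal_self_of_simple (hS : IsPGroup 2 S) (hF : F.IsSimple 2) (hr2 : PRankAtLeast 2 2 S) :
    ¬ F.IsNormal S := fun h => hF.2.1 (no_normal_of_simple hS hF hr2 h)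

theorem focal_of_simple (hS : IsPGroup 2 S) (hF : F.IsSimple 2) (hr2 : PRankAtLeast 2 2 S) :
    F.focalSubgroup = S := by
  haveI : Fact (Nat.Prime 2) := ⟨Nat.prime_two⟩
  apply le_antisymm
  · exact focal_le fun P f hf x hx => S.mul_mem (S.inv_mem (hf.le hx)) (hf.mem hx)
  obtain ⟨E, hE, hEF, hcop⟩ := exists_ppower (p := 2) (Nat.card S) (F := F) rfl hS hF.1 (hyper_le_S (p := 2)) le_rfl
  have hn := isNormalIn_of_ppower hS hF.1 hyper_le_S (fun s hs x hx => hyper_conj_mem hs hx) le_rfl hE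
    (hasPPowerIndexIn_iff.2 ⟨hEF, le_rfl, hcop⟩)
  rcases hF.2.2 _ _ hn with h | ⟨h, -⟩
  · exfalso
    apply not_normal_self_of_simple hS hF hr2
    refine isNormal_self_of_no_essential hS hF.1 fun P hP => ?_
    obtain ⟨β, hβ, hβ1, hβo⟩ := act_of_essential hS hP
    apply hβ1
    refine ofAut_injective fun x hx => ?_
    have h1 := mem_hyper_of_coprime (p := 2) hP.1.1 hβ (Nat.coprime_two_right.2 hβo) hx
    rw [h, Subgroup.mem_bot, inv_mul_eq_one] at h1
    rw [← h1, ofAut_one hx]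
  · exact h.ge.trans hyper_le_focal

end Cfsg.Agent.H21.RF
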